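import Cfsg.Agent.Elu.SlForm

/-! Maps permuting a direct decomposition: `DecOn N R f a t U` (`f` permutes `t` spaces of
dimension `a` spanning `U`), constructions `DecOn.one/add/map/cyc`, the analysis `DecOn.cases`,
`DecOn.le_mul`, the translation `dec_iff` and the counting lemma `dvd_of_dec`. -/

set_option autoImplicit false
set_option linter.unusedSectionVars false

namespace Cfsg.Agent.Elu

open Module Polynomial Cfsg.Agent.Classical Cfsg.Agent.Geom Cfsg.Agent.Geom.Formed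

universe u

theorem factorial_dvd {α : Type*} {t : ℕ} (S : (Fin t → α) → Prop)
    (hS : ∀ D (π : Equiv.Perm (Fin t)), S D → S (D ∘ π)) (hi : ∀ D, S D → Function.Injective D) :
    t.factorial ∣ Nat.card {D // S D} := by
  letI : MulAction (Equiv.Perm (Fin t)) {D // S D} :=
    { smul := fun π D => ⟨D.1 ∘ π.symm, hS _ _ D.2⟩
      one_smul := fun _ => rfl
      mul_smul := fun _ _ _ => rfl }
  rw [Nat.card_congr (MulAction.selfEquivOrbitsQuotientProd (G := Equiv.Perm (Fin t)) fun D => ?_),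
    Nat.card_prod, Nat.card_perm, Nat.card_fin]
  · exact dvd_mul_left _ _
  · refine (Subgroup.eq_bot_iff_forall _).2 fun π h => inv_eq_one.1 (Equiv.ext fun j => ?_)
    exact hi _ D.2 (congrFun (congrArg Subtype.val h) j)

variable {F : Type*} [Field F] {V : Type u} [AddCommGroup V] [Module F V] {f : End F V}

section fam

variable {ι : Type*} [Fintype ι] {D : ι → Submodule F V}

/-- The summation map of a family of subspaces. -/
def sm (D : ι → Submodule F V) : (∀ i, D i) →ₗ[F] V := ∑ i, (D i).subtype ∘ₗ LinearMap.proj i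

theorem sm_apply (u : ∀ i, D i) : sm D u = ∑ i, (u i : V) := by simp [sm]

theorem sm_single [DecidableEq ι] (i : ι) (x : D i) : sm D (Pi.single i x) = x := by
  rw [sm_apply, Finset.sum_eq_single i (fun j _ h => by simp [h]) (by simp), Pi.single_eq_same]

theorem range_sm : LinearMap.range (sm D) = iSup D := by
  classical
  refine le_antisymm ?_ (iSup_le fun i x hx => ⟨_, sm_single i ⟨x, hx⟩⟩)
  rintro _ ⟨u, rfl⟩
  rw [sm_apply]
  exact Submodule.sum_mem _ fun i _ => le_iSup D i (u i).2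

theorem sm_inj : Function.Injective (sm D) ↔ iSupIndep D := by
  classical
  rw [iSupIndep_iff_finsetSum_eq_zero_imp_eq_zero, injective_iff_map_eq_zero]
  refine ⟨fun h s v h1 h2 i hi => ?_, fun h u hu => funext fun i => Subtype.ext
    (h Finset.univ (fun i => u i) (fun i _ => (u i).2) (sm_apply u ▸ hu) i (Finset.mem_univ i))⟩
  have := h (fun i => if h : i ∈ s then ⟨v i, h1 i h⟩ else 0) (by
    rw [sm_apply, ← h2, ← Finset.sum_subset s.subset_univ fun i _ h => by simp [h]]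
    exact Finset.sum_congr rfl fun i h => by simp [h])
  simpa [hi] using congrFun this i

/-- The projections of a direct decomposition. -/
structure Pj (D : ι → Submodule F V) (p : ι → End F V) : Prop where
  mem : ∀ i x, p i x ∈ D i
  self : ∀ i, ∀ x ∈ D i, p i x = x
  ne : ∀ i j, i ≠ j → ∀ x ∈ D j, p i x = 0
  sum : ∀ x, ∑ i, p i x = x

/-- The summation map of a decomposition as an equivalence. -/
noncomputable def smE (h : iSupIndep D) (h' : iSup D = ⊤) : (∀ i, D i) ≃ₗ[F] V :=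
  LinearEquiv.ofBijective (sm D) ⟨sm_inj.2 h, LinearMap.range_eq_top.1 (range_sm.trans h')⟩

theorem smE_symm [DecidableEq ι] (h : iSupIndep D) (h' : iSup D = ⊤) (i : ι) (x : D i) :
    (smE h h').symm x = Pi.single i x := by
  rw [LinearEquiv.symm_apply_eq]; exact (sm_single i x).symm

theorem exists_pj (h : iSupIndep D) (h' : iSup D = ⊤) : ∃ p, Pj D p := by
  classical
  refine ⟨fun i => (D i).subtype ∘ₗ LinearMap.proj i ∘ₗ (smE h h').symm.toLinearMap,
    fun i x => Subtype.prop _, fun i x hx => ?_, fun i j hij x hx => ?_, fun x => ?_⟩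
  · simpa using congrFun (smE_symm h h' i ⟨x, hx⟩) i ▸ by simp
  · simpa using congrFun (smE_symm h h' j ⟨x, hx⟩) i ▸ by simp [hij]
  · exact (sm_apply _).symm.trans ((smE h h').apply_symm_apply x)

theorem exists_glue_dec {W : Type*} [AddCommGroup W] [Module F W] {D' : ι → Submodule F W}
    (h : iSupIndep D) (h' : iSup D = ⊤) (k : iSupIndep D') (k' : iSup D' = ⊤)
    (e : ∀ i, D i ≃ₗ[F] D' i) : ∃ g : V ≃ₗ[F] W, ∀ i (x : D i), g x = e i x := by
  classical
  refine ⟨(smE h h').symm.trans ((LinearEquiv.piCongrRight e).trans (smE k k')), fun i x => ?_⟩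
  rw [LinearEquiv.trans_apply, smE_symm, ← sm_single i (e i x)]
  refine congrArg (sm D') (funext fun j => ?_)
  by_cases hj : j = i
  · subst hj; simp
  · simp [hj]

variable {p : ι → End F V} {π : Equiv.Perm ι}

theorem Pj.comm (hp : Pj D p) (hf : ∀ i, (D i).map f ≤ D (π i)) (i : ι) (x : V) :
    p (π i) (f x) = f (p i x) := by
  conv_lhs => rw [← hp.sum x, map_sum, map_sum]
  rw [Finset.sum_eq_single i (fun j _ h => hp.ne _ _ (π.injective.ne h.symm) _
    (hf j ⟨_, hp.mem j x, rfl⟩)) (by simp), hp.self _ _ (hf i ⟨_, hp.mem i x, rfl⟩)]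

omit [Fintype ι] in
theorem pow_mem_dec (hf : ∀ i, (D i).map f ≤ D (π i)) (k : ℕ) {i : ι} {x : V} (hx : x ∈ D i) :
    (f ^ k) x ∈ D ((π ^ k) i) := by
  induction k with
  | zero => exact hx
  | succ k ih => rw [pow_succ', pow_succ']; exact hf _ ⟨_, ih, rfl⟩

theorem Pj.moved (hp : Pj D p) (hf : ∀ i, (D i).map f ≤ D (π i)) {r : ℕ} [Fact r.Prime]
    (h1 : f ^ r = 1) {j : ι} (h0 : D j ≠ ⊥) (hj : π j ≠ j) :
    Set.InjOn (fun k => (π ^ k) j) (Set.Iio r) := by
  obtain ⟨x, h2, h3⟩ := Submodule.exists_mem_ne_zero_of_ne_bot h0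
  have h4 : (π ^ r) j = j := by_contra fun h => h3 (by
    have := pow_mem_dec hf r h2
    rw [h1] at this
    exact (hp.self j x h2).symm.trans (hp.ne _ _ (Ne.symm h) x this))
  have := Function.iterate_injOn_Iio_minimalPeriod (f := π) (x := j)
  rwa [Function.minimalPeriod_eq_prime h4 hj] at this

variable [FiniteDimensional F V] {a : ℕ}

theorem finrank_iSup_le (D : ι → Submodule F V) : finrank F ↥(iSup D) ≤ ∑ i, finrank F (D i) := by
  rw [← range_sm, ← Module.finrank_pi_fintype]; exact LinearMap.finrank_range_le _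

theorem indep_iff (h : iSup D = ⊤) : iSupIndep D ↔ ∑ i, finrank F (D i) = finrank F V := by
  rw [← Module.finrank_pi_fintype]
  exact ⟨fun h' => (smE h' h).finrank_eq, fun h' => sm_inj.1
    ((LinearMap.injective_iff_surjective_of_finrank_eq_finrank h').2
      (LinearMap.range_eq_top.1 (range_sm.trans h)))⟩

theorem Pj.kd_le (hp : Pj D p) (hf : ∀ i, (D i).map f ≤ D (π i)) (ha : ∀ i, finrank F (D i) = a)
    {S : Finset ι} (hS : ∀ i, ∃ j ∈ S, ∃ k : ℕ, (π ^ k) j = i) : kd f (X - C 1) ≤ S.card * a := by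
  have := LinearMap.finrank_le_finrank_of_injective (f := (LinearMap.pi fun j : S =>
    (p j).codRestrict (D j) (hp.mem j)) ∘ₗ (kerA f (X - C 1)).subtype)
    ((injective_iff_map_eq_zero _).2 fun u hu => Subtype.ext ?_)
  · exact this.trans_eq (by simp [Module.finrank_pi_fintype, ha])
  have h1 : ∀ k j, p ((π ^ k) j) u = (f ^ k) (p j u) := fun k j => by
    induction k with
    | zero => rfl
    | succ k ih =>
      rw [pow_succ', pow_succ', End.mul_apply, ← ih, ← hp.comm hf, mem_fixA.1 u.2]; rfl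
  rw [← hp.sum u]
  refine Finset.sum_eq_zero fun i _ => ?_
  obtain ⟨j, h2, k, rfl⟩ := hS i
  rw [h1, show p j u = 0 from congrArg Subtype.val (congrFun hu ⟨j, h2⟩), map_zero]

theorem Pj.le_rank (hp : Pj D p) (hf : ∀ i, (D i).map f ≤ D (π i)) (ha : ∀ i, finrank F (D i) = a)
    {r : ℕ} {S : Finset ι} (hS : ∀ j ∈ S, ∀ j' ∈ S, ∀ k : ℕ, (π ^ k) j' = j → j' = j)
    (hN : ∀ j ∈ S, ∀ u ∈ D j, p j ((∑ k ∈ Finset.range r, f ^ k) u) = 0 → u = 0) :
    S.card * a ≤ finrank F (LinearMap.range (∑ k ∈ Finset.range r, f ^ k)) := by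
  have := LinearMap.finrank_le_finrank_of_injective
    (f := (∑ k ∈ Finset.range r, f ^ k).rangeRestrict ∘ₗ sm fun j : S => D j)
    ((injective_iff_map_eq_zero _).2 fun u hu => funext fun j => Subtype.ext (hN _ j.2 _ (u j).2 ?_))
  · simpa [Module.finrank_pi_fintype, ha] using this
  have h1 := congrArg (p j) (congrArg Subtype.val hu)
  rw [LinearMap.comp_apply, LinearMap.codRestrict_apply, sm_apply, map_sum, map_sum,
    Finset.sum_eq_single j (fun j' _ h => ?_) (by simp)] at h1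
  · simpa using h1
  · rw [LinearMap.sum_apply, map_sum]
    exact Finset.sum_eq_zero fun k _ => hp.ne _ _
      (fun h2 => h (Subtype.ext (hS _ j.2 _ j'.2 k h2.symm))) _ (pow_mem_dec hf k (u j').2)

theorem Pj.norm_moved (hp : Pj D p) (hf : ∀ i, (D i).map f ≤ D (π i)) {r : ℕ} [hr : Fact r.Prime]
    (h1 : f ^ r = 1) {j : ι} (hj : π j ≠ j) (u : V) (hu : u ∈ D j)
    (h : p j ((∑ k ∈ Finset.range r, f ^ k) u) = 0) : u = 0 := by
  by_contra h0
  rw [LinearMap.sum_apply, map_sum, Finset.sum_eq_single 0 (fun k h2 h3 => hp.ne j _ (fun h4 =>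
    h3 (hp.moved hf h1 (fun h5 => h0 (by simpa [h5] using hu)) hj (Finset.mem_range.1 h2)
      hr.out.pos h4.symm)) _ (pow_mem_dec hf k hu)) (by simp [hr.out.pos])] at h
  exact h0 ((hp.self j u hu).symm.trans h)

end fam

theorem rank_norm_le [FiniteDimensional F V] {r : ℕ} (h1 : f ^ r = 1) :
    finrank F (LinearMap.range (∑ k ∈ Finset.range r, f ^ k)) ≤ kd f (X - C 1) := by
  refine Submodule.finrank_mono ?_
  rintro _ ⟨v, rfl⟩
  refine mem_fixA.2 (sub_eq_zero.1 ?_)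
  simpa [h1] using congrArg (· v) (mul_geom_sum f r)

/-- `f` permutes `t` subspaces of dimension `a` satisfying `N`, pairwise related by `R`, with
sum `U`. -/
def DecOn (N : Submodule F V → Prop) (R : V → V → Prop) (f : End F V) (a t : ℕ)
    (U : Submodule F V) : Prop :=
  ∃ (ι : Type) (_ : Fintype ι) (D : ι → Submodule F V) (π : Equiv.Perm ι), Fintype.card ι = t ∧
    iSup D = U ∧ (∀ i, finrank F (D i) = a ∧ N (D i) ∧ (D i).map f ≤ D (π i)) ∧
    ∀ i j, i ≠ j → ∀ u ∈ D i, ∀ v ∈ D j, R u v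

variable {N : Submodule F V → Prop} {R : V → V → Prop} {a t : ℕ} {U : Submodule F V}

theorem DecOn.zero : DecOn N R f a 0 ⊥ :=
  ⟨Empty, inferInstance, Empty.elim, 1, rfl, iSup_of_empty _, (·.elim), (·.elim)⟩

theorem DecOn.one (h1 : finrank F U = a) (h2 : N U) (h3 : Inv f U) : DecOn N R f a 1 U :=
  ⟨Unit, inferInstance, fun _ => U, 1, rfl, iSup_const, fun _ => ⟨h1, h2, inv_iff_map.2 h3⟩,
    fun _ _ h => absurd rfl h⟩

theorem DecOn.add {t' : ℕ} {W : Submodule F V} (h : DecOn N R f a t U) (h' : DecOn N R f a t' W)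
    (hR : ∀ u ∈ U, ∀ w ∈ W, R u w ∧ R w u) : DecOn N R f a (t + t') (U ⊔ W) := by
  obtain ⟨ι, _, D, π, rfl, rfl, h1, h2⟩ := h
  obtain ⟨ι', _, D', π', rfl, rfl, h3, h4⟩ := h'
  refine ⟨ι ⊕ ι', inferInstance, Sum.elim D D', π.sumCongr π', Fintype.card_sum, iSup_sum,
    fun i => by cases i <;> [exact h1 _; exact h3 _], ?_⟩
  rintro (i | i) (j | j) h u hu v hv
  · exact h2 i j (fun h' => h (h' ▸ rfl)) u hu v hv
  · exact (hR u (le_iSup D i hu) v (le_iSup D' j hv)).1
  · exact (hR v (le_iSup D j hv) u (le_iSup D' i hu)).2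
  · exact h4 i j (fun h' => h (h' ▸ rfl)) u hu v hv

theorem DecOn.map {W : Type*} [AddCommGroup W] [Module F W] {N' : Submodule F W → Prop}
    {R' : W → W → Prop} {g : End F W} (h : DecOn N R f a t U) (e : V →ₗ[F] W)
    (he : Function.Injective e) (hc : ∀ v, e (f v) = g (e v)) (hN : ∀ X, N X → N' (X.map e))
    (hR : ∀ u v, R u v → R' (e u) (e v)) : DecOn N' R' g a t (U.map e) := by
  obtain ⟨ι, _, D, π, rfl, rfl, h1, h2⟩ := h
  refine ⟨ι, _, fun i => (D i).map e, π, rfl, (Submodule.map_iSup _ _).symm, fun i =>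
    ⟨(Submodule.equivMapOfInjective e he _).finrank_eq.symm.trans (h1 i).1, hN _ (h1 i).2.1, ?_⟩, ?_⟩
  · rintro _ ⟨_, ⟨x, hx, rfl⟩, rfl⟩
    exact ⟨_, (h1 i).2.2 ⟨x, hx, rfl⟩, hc x⟩
  · rintro i j h _ ⟨u, hu, rfl⟩ _ ⟨v, hv, rfl⟩
    exact hR _ _ (h2 i j h u hu v hv)

theorem DecOn.smul (w : F) (f : End F V) (hw : w ≠ 0) (h : DecOn N R (w • f) a t U) :
    DecOn N R f a t U := by
  obtain ⟨ι, _, D, π, h0, h1, h2, h3⟩ := h
  exact ⟨ι, _, D, π, h0, h1, fun i => by simpa [Submodule.map_smul _ _ _ hw] using h2 i, h3⟩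

theorem DecOn.swap {W : Submodule F V} (h1 : finrank F U = a) (h2 : finrank F W = a) (h3 : N U)
    (h4 : N W) (h5 : U.map f ≤ W) (h6 : W.map f ≤ U) (hR : ∀ u ∈ U, ∀ w ∈ W, R u w ∧ R w u) :
    DecOn N R f a 2 (U ⊔ W) := by
  refine ⟨Bool, inferInstance, fun b => cond b U W, Equiv.boolNot, rfl, iSup_bool_eq,
    fun i => by cases i <;> [exact ⟨h2, h4, h6⟩; exact ⟨h1, h3, h5⟩], ?_⟩
  rintro (_ | _) (_ | _) h u hu v hv
  exacts [absurd rfl h, (hR v hv u hu).2, (hR u hu v hv).1, absurd rfl h]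

theorem DecOn.cyc {r : ℕ} [NeZero r] {c : F} (h1 : f ^ r = c • 1) (hf : Function.Injective f)
    (ha : finrank F U = a) (hU : ∀ W, U ≤ W → Inv f W → W = ⊤) :
    DecOn (fun _ => True) (fun _ _ => True) f a r ⊤ := by
  have h2 : ∀ k : ZMod r, (U.map (f ^ k.val)).map f ≤ U.map (f ^ (k + 1).val) := by
    rintro k _ ⟨_, ⟨x, hx, rfl⟩, rfl⟩
    refine ⟨c ^ ((k.val + 1) / r) • x, U.smul_mem _ hx, ?_⟩
    rw [← End.mul_apply f, ← pow_succ', ← Nat.mod_add_div (k.val + 1) r, pow_add, pow_mul, h1,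
      Nat.mod_add_div, ZMod.val_add, ZMod.val_one_eq_one_mod, Nat.add_mod_mod]
    simp [_root_.smul_pow]
  refine ⟨ZMod r, inferInstance, fun k => U.map (f ^ k.val), Equiv.addRight 1, ZMod.card r,
    hU _ (le_iSup_of_le 0 (by simp [End.one_eq_id])) (inv_iff_map.1 ?_), fun k =>
    ⟨(Submodule.equivMapOfInjective _ (End.iterate_injective hf _) _).finrank_eq.symm.trans ha,
      trivial, h2 k⟩, fun _ _ _ _ _ _ _ => trivial⟩
  rw [Submodule.map_iSup]
  exact iSup_le fun k => le_iSup_of_le _ (h2 k)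

variable [FiniteDimensional F V] [Finite F]

theorem rk_res (hU : Inv f U) : rk hU.res = finrank F (U.map (1 - f)) := by
  rw [rk, ← Submodule.finrank_map_subtype_eq, ← LinearMap.range_comp, ← LinearMap.range_domRestrict]
  rfl

theorem rk_of_gen (hU : ∀ W, U ≤ W → Inv f W → W = ⊤) : finrank F V ≤ rk f + finrank F U := by
  rw [← finrank_top, ← hU (LinearMap.range (1 - f) ⊔ U) le_sup_right fun v hv => ?_]
  · exact Submodule.finrank_add_le_finrank_add_finrank _ _
  · simpa using Submodule.sub_mem _ hv (Submodule.mem_sup_left ⟨v, rfl⟩)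

theorem DecOn.cases (h : DecOn N R f a t ⊤) (hV : finrank F V = a * t) {r : ℕ} [hr : Fact r.Prime]
    (h1 : f ^ r = 1) :
    (a ≤ finrank F (LinearMap.range (∑ k ∈ Finset.range r, f ^ k)) ∧ (r - 1) * a ≤ rk f) ∨
    ∃ (ι : Type) (_ : Fintype ι) (D : ι → Submodule F V), Fintype.card ι = t ∧ iSup D = ⊤ ∧
      iSupIndep D ∧ ∀ i, finrank F (D i) = a ∧ N (D i) ∧ Inv f (D i) := by
  classical
  obtain ⟨ι, _, D, π, rfl, h2, h3, -⟩ := h
  have h4 := (indep_iff h2).2 (by simp [(h3 _).1, hV, mul_comm])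
  by_cases h5 : ∀ j, π j = j
  · exact Or.inr ⟨ι, _, D, rfl, h2, h4, fun i => ⟨(h3 i).1, (h3 i).2.1, inv_iff_map.1 ((h3 i).2.2.trans_eq (congrArg D (h5 i)))⟩⟩
  obtain ⟨j, hj⟩ := not_forall.1 h5
  obtain ⟨p, hp⟩ := exists_pj h4 h2
  have hf := fun i => (h3 i).2.2
  refine Or.inl ⟨by
    simpa using hp.le_rank hf (fun i => (h3 i).1) (S := {j}) (by simp +contextual)
      (by simpa using hp.norm_moved hf h1 hj), ?_⟩
  rcases a.eq_zero_or_pos with rfl | ha
  · simp
  have h6 := hp.moved hf h1 (fun h => by have := (h3 j).1; rw [h, finrank_bot] at this; omega) hj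
  let T := (Finset.Ico 1 r).image fun k => (π ^ k) j
  have h7 : T.card = r - 1 := by
    rw [Finset.card_image_of_injOn (h6.mono fun k hk => (Finset.mem_Ico.1 hk).2), Nat.card_Ico]
  have h8 := hp.kd_le hf (fun i => (h3 i).1) (S := Tᶜ) fun i => by
    by_cases hi : i ∈ T
    · obtain ⟨k, -, hk⟩ := Finset.mem_image.1 hi
      refine ⟨j, Finset.mem_compl.2 fun h => ?_, k, hk⟩
      obtain ⟨l, h7, h8⟩ := Finset.mem_image.1 h
      rw [Finset.mem_Ico] at h7
      exact absurd (h6 h7.2 hr.out.pos h8) (by omega)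
    · exact ⟨i, Finset.mem_compl.2 hi, 0, rfl⟩
  have h9 := rk_add_kd (f := f)
  rw [hV, ← T.card_add_card_compl, h7] at h9
  nlinarith

theorem DecOn.rk_le (h : DecOn N R f a t ⊤) (hV : finrank F V = a * t) {r : ℕ} [Fact r.Prime]
    (h1 : f ^ r = 1) {m : ℕ} (hm : ∀ U (hU : Inv f U), finrank F U = a → N U → rk hU.res ≤ m) :
    (a ≤ kd f (X - C 1) ∧ (r - 1) * a ≤ rk f) ∨ rk f ≤ t * m := by
  refine (h.cases hV h1).imp (fun h => ⟨h.1.trans (rank_norm_le h1), h.2⟩) ?_
  rintro ⟨ι, _, D, rfl, h2, -, h3⟩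
  rw [rk, LinearMap.range_eq_map, ← h2, Submodule.map_iSup]
  refine (finrank_iSup_le _).trans ((Finset.sum_le_card_nsmul _ _ m fun i _ => ?_).trans_eq rfl)
  exact (rk_res _).symm.trans_le (hm _ (h3 i).2.2 (h3 i).1 (h3 i).2.1)

theorem DecOn.le_mul (h : DecOn N R f a t ⊤) (hV : finrank F V = a * t) {r : ℕ} [hr : Fact r.Prime]
    (h0 : (r : F) ≠ 0) (h1 : f ^ r = 1)
    (hm : ∀ U, Inv f U → finrank F U = a → N U → ∀ u ∈ U, f u = u) :
    finrank F V ≤ r * kd f (X - C 1) := by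
  classical
  obtain ⟨ι, _, D, π, rfl, h2, h3, -⟩ := h
  obtain ⟨p, hp⟩ := exists_pj ((indep_iff h2).2 (by simp [(h3 _).1, hV, mul_comm])) h2
  have hf := fun i => (h3 i).2.2
  rcases a.eq_zero_or_pos with rfl | ha
  · simp [hV]
  let s := Equiv.Perm.SameCycle.setoid π
  let S := Finset.univ.image fun i => (Quotient.mk s i).out
  have h4 := (hp.le_rank hf (fun i => (h3 i).1) (S := S) (r := r) (fun j h4 j' h5 k h6 => ?_)
    fun j _ u hu h4 => ?_).trans (rank_norm_le h1)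
  · have h5 : Fintype.card ι ≤ r * S.card := by
      rw [← Finset.card_univ, ← Finset.card_range r, ← Finset.card_product]
      refine Finset.card_le_card_of_surjOn (fun x => (π ^ x.1) x.2) fun i _ => ?_
      have h5 : π.SameCycle _ i := Quotient.exact (Quotient.mk s i).out_eq
      obtain ⟨k, -, h6⟩ := h5.exists_pow_eq'
      have h7 : (π ^ r) (Quotient.mk s i).out = (Quotient.mk s i).out := by
        obtain ⟨x, h2, h3⟩ := Submodule.exists_mem_ne_zero_of_ne_bot (p := D (Quotient.mk s i).out)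
          fun h => by have := (h3 (Quotient.mk s i).out).1; rw [h, finrank_bot] at this; omega
        refine by_contra fun h => h3 ?_
        have := pow_mem_dec hf r h2
        rw [h1] at this
        exact (hp.self _ x h2).symm.trans (hp.ne _ _ (Ne.symm h) x this)
      refine ⟨(k % r, (Quotient.mk s i).out), by simp [S, Nat.mod_lt _ hr.out.pos], ?_⟩
      exact (Function.IsPeriodicPt.iterate_mod_apply (f := π) h7 k).trans h6
    rw [hV]
    nlinarith
  · obtain ⟨i, -, rfl⟩ := Finset.mem_image.1 h4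
    obtain ⟨i', -, rfl⟩ := Finset.mem_image.1 h5
    rw [← (Quotient.mk s i').out_eq, ← (Quotient.mk s i).out_eq, Quotient.sound (s := s) ⟨k, h6⟩]
  · by_cases hj : π j = j
    · have h5 : ∀ k, (f ^ k) u = u := fun k => (End.pow_apply f k u).trans (Function.iterate_fixed
        (hm _ (inv_iff_map.1 ((hf j).trans_eq (congrArg D hj))) (h3 j).1 (h3 j).2.1 u hu) k)
      simpa [h5, hp.self j u hu, ← Nat.cast_smul_eq_nsmul F, h0] using h4
    · exact hp.norm_moved hf h1 hj u hu h4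

theorem dec_iff {ι : Type} [Fintype ι] [DecidableEq ι] {N : Submodule F (ι → F) → Prop}
    {R : (ι → F) → (ι → F) → Prop} {f : End F (ι → F)} (hf : Function.Injective f)
    (hV : finrank F (ι → F) = a * t) (ha : 0 < a) (ht : 2 ≤ t) :
    (∃ D : Fin t → Submodule F (ι → F), (Geo.IsMDecomposition a D ∧ (∀ j, N (D j)) ∧
      ∀ j j', j ≠ j' → ∀ u ∈ D j, ∀ v ∈ D j', R u v) ∧
      ∃ π : Equiv.Perm (Fin t), ∀ j, (D j).map f = D (π j)) ↔ DecOn N R f a t ⊤ := by
  refine ⟨fun ⟨D, ⟨h1, h2, h3⟩, π, h4⟩ => ⟨_, _, D, π, Fintype.card_fin t, h1.5,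
    fun i => ⟨h1.3 i, h2 i, (h4 i).le⟩, h3⟩, fun ⟨κ, _, D, π, h0, h1, h2, h3⟩ => ?_⟩
  let e := (Fintype.equivFinOfCardEq h0).symm
  refine ⟨D ∘ e, ⟨⟨ht, ha, fun i => (h2 _).1, ((indep_iff h1).2 (by
    simp [(h2 _).1, hV, mul_comm, h0])).comp e.injective, (e.surjective.iSup_comp D).trans h1⟩,
    fun i => (h2 _).2.1, fun i j h => h3 _ _ (e.injective.ne h)⟩, e.symm.permCongr π, fun j => ?_⟩
  refine Submodule.eq_of_le_of_finrank_eq (by simpa using (h2 _).2.2) ?_
  rw [← (Submodule.equivMapOfInjective f hf _).finrank_eq]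
  exact (h2 _).1.trans (h2 _).1.symm

section mdec

variable {ι : Type} [Fintype ι] [DecidableEq ι] {D : Fin t → Submodule F (ι → F)}

theorem mdec_perm (h : Geo.IsMDecomposition a D) (π : Equiv.Perm (Fin t)) :
    Geo.IsMDecomposition a (D ∘ π) :=
  ⟨h.1, h.2, fun _ => h.3 _, h.4.comp π.injective, (π.surjective.iSup_comp D).trans h.5⟩

theorem mdec_map (h : Geo.IsMDecomposition a D) (g : (ι → F) ≃ₗ[F] (ι → F)) :
    Geo.IsMDecomposition a fun j => (D j).map g.toLinearMap :=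
  ⟨h.1, h.2, fun i => (LinearEquiv.finrank_map_eq _ _).trans (h.3 i),
    LinearMap.iSupIndep_map _ g.injective h.4, by
      rw [← Submodule.map_iSup, h.5, Submodule.map_top, LinearEquiv.range]⟩

theorem dvd_of_dec {G : Subgroup ((ι → F) ≃ₗ[F] (ι → F))}
    {S : (Fin t → Submodule F (ι → F)) → Prop} (h1 : ∀ D, S D → Geo.IsMDecomposition a D)
    (h2 : ∀ D (π : Equiv.Perm (Fin t)), S D → S (D ∘ π)) (h3 : ∃ D, S D)
    (h4 : ∀ D D', S D → S D' → ∃ e : ∀ i, D i ≃ₗ[F] D' i, ∀ g : (ι → F) ≃ₗ[F] (ι → F),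
      (∀ i (x : D i), g x = e i x) → g ∈ G)
    (h5 : ∀ D, S D → ∀ g ∈ G, S fun j => (D j).map g.toLinearMap) {r : ℕ}
    (h : r ∣ Nat.card {D // S D} / t.factorial) : r ∣ Nat.card G := by
  obtain ⟨D, hD⟩ := h3
  have h6 := orbit_dvd (fun (g : G) (D : Fin t → Submodule F (ι → F)) j => (D j).map g.1.toLinearMap)
    (fun D => funext fun j => map_one_sub _) (fun g h D => funext fun j => map_mul_sub _ _ _) D S
    (fun D' => ⟨fun hD' => ?_, fun ⟨g, hg⟩ => hg ▸ h5 D hD _ g.2⟩) (1 : Unit →* G)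
    (fun _ _ _ => rfl) fun _ => funext fun j => map_one_sub _
  · refine (h.trans (Nat.div_dvd_of_dvd (factorial_dvd S h2 fun D hD => ?_))).trans
      (dvd_of_mul_right_dvd h6)
    refine (h1 D hD).4.injective fun i h => ?_
    have := (h1 D hD).3 i
    rw [h, finrank_bot] at this
    exact (h1 D hD).2.ne this
  · obtain ⟨e, he⟩ := h4 D D' hD hD'
    obtain ⟨g, hg⟩ := exists_glue_dec (h1 D hD).4 (h1 D hD).5 (h1 D' hD').4 (h1 D' hD').5 e
    refine ⟨⟨g, he g hg⟩, funext fun j => Submodule.eq_of_le_of_finrank_eq ?_ ?_⟩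
    · rintro _ ⟨x, hx, rfl⟩
      exact (hg j ⟨x, hx⟩).symm ▸ Subtype.prop _
    · rw [LinearEquiv.finrank_map_eq, (h1 D hD).3, (h1 D' hD').3]

end mdec

end Cfsg.Agent.Elu
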