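import Cfsg.Agent.Elu.Dec

/-! Decompositions permuted by linear maps (`LD f a t`, `MD a t E`, `ld_one`, `ld_two_char`,
`ld_crit`, `ld_iff`, `dvd_glo_of_dec`). -/

set_option autoImplicit false
set_option linter.unusedSectionVars false

namespace Cfsg.Agent.Elu

open Module Polynomial Cfsg.Agent.Classical Cfsg.Agent.Geom Cfsg.Agent.Geom.Formed

universe u v

variable {F : Type v} [Field F] [Finite F] {V : Type u} [AddCommGroup V] [Module F V]
  [FiniteDimensional F V] {f : End F V} {a t : ℕ}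

/-- `f` permutes a decomposition into `t` spaces of dimension `a`. -/
abbrev LD (f : End F V) (a t : ℕ) : Prop := DecOn (fun _ => True) (fun _ _ => True) f a t ⊤

theorem LD.congr {W : Type*} [AddCommGroup W] [Module F W] [FiniteDimensional F W] {g : End F W}
    (h : LD f a t) (he : elemDiv f = elemDiv g) : LD g a t := by
  obtain ⟨e, he⟩ := exists_equiv_iff.2 he
  simpa using h.map (N' := fun _ => True) (R' := fun _ _ => True) e.toLinearMap e.injective he
    (fun _ _ => trivial) fun _ _ _ => trivial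

/-- Maps with elementary divisors `E` permute a decomposition. -/
def MD (a t : ℕ) (E : Multiset F[X]) : Prop := ∀ (V : Type u) [AddCommGroup V] [Module F V]
  [FiniteDimensional F V] (f : End F V), elemDiv f = E → LD f a t

variable {E : Multiset F[X]}

theorem MD.one (h : dsum E = a) : MD.{u} a 1 E := fun _ _ _ _ f hf =>
  DecOn.one (by rw [finrank_top, ← dsum_elemDiv f, hf, h]) trivial (Inv.top f)

theorem MD.zero : MD.{u} a 0 (0 : Multiset F[X]) := fun V _ _ _ f hf => by
  have : finrank F (⊤ : Submodule F V) = 0 := by rw [finrank_top, ← dsum_elemDiv f, hf, dsum_zero]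
  rw [LD, Submodule.finrank_eq_zero.1 this]
  exact DecOn.zero

theorem MD.add {t' : ℕ} {E' : Multiset F[X]} (h : MD.{u} a t E) (h' : MD.{u} a t' E') :
    MD.{u} a (t + t') (E + E') := fun _ _ _ _ f hf => by
  obtain ⟨U, W, hU, hW, h1, h2, h3⟩ := exists_compl_of_add hf
  have := ((h _ _ h2).map (N' := fun _ => True) (R' := fun _ _ => True) (g := f) U.subtype
    U.injective_subtype (fun _ => rfl) (fun _ _ => trivial) fun _ _ _ => trivial).add
    ((h' _ _ h3).map W.subtype W.injective_subtype (fun _ => rfl) (fun _ _ => trivial)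
      fun _ _ _ => trivial) fun _ _ _ _ => ⟨trivial, trivial⟩
  rwa [Submodule.map_subtype_top, Submodule.map_subtype_top, h1.sup_eq_top] at this

theorem MD.nsmul (h : MD.{u} a t E) (k : ℕ) : MD.{u} a (k * t) (k • E) := by
  induction k with
  | zero => simpa using MD.zero
  | succ k ih => rw [Nat.succ_mul, succ_nsmul]; exact ih.add h

theorem md_blocks {w : F[X]} (hw : w.natDegree = 1) {c : ℕ} (t : ℕ) : ∀ {k : ℕ} {D : Multiset F[X]},
    (∀ g ∈ D, g.natDegree = c) → k + c * D.card = a * t → D.card ≤ t * (a / c) →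
      MD.{u} a t (Multiset.replicate k w + D) := by
  induction t with
  | zero =>
    intro k D _ h1 h2
    obtain rfl : D = 0 := Multiset.card_eq_zero.1 (by omega)
    obtain rfl : k = 0 := by omega
    exact MD.zero
  | succ t ih =>
    intro k D h0 h1 h2
    obtain ⟨D₁, h3, h4⟩ := exists_le_card D (min_le_left _ (a / c))
    obtain ⟨D₂, rfl⟩ := Multiset.le_iff_exists_add.1 h3
    have h5 := Nat.mul_div_le a c
    have h6 := Nat.mul_le_mul_left t h5
    have h7 := Nat.mul_le_mul_left c h2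
    rw [Multiset.card_add] at h1 h2 h4 h7
    have h8 : c * D₁.card ≤ a := (Nat.mul_le_mul_left c (by omega)).trans h5
    have h9 : D₂.card = 0 ∨ D₁.card = a / c := by omega
    obtain ⟨l, rfl⟩ : ∃ l, k = a - c * D₁.card + l := Nat.exists_eq_add_of_le (by
      rw [tsub_le_iff_right]; rcases h9 with h | h <;> rw [h] at h1 h7 <;> nlinarith)
    rw [Multiset.replicate_add, add_add_add_comm, add_comm t]
    refine (MD.one ?_).add (ih (fun g hg => h0 g (by simp [hg])) (by zify [h8] at h1 ⊢; linarith) ?_)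
    · rw [dsum_add, dsum_replicate, dsum_const fun g hg => h0 g (by simp [hg]), hw]; omega
    · rcases h9 with h | h <;> rw [h] at h2 <;> nlinarith

theorem md_free {r : ℕ} [NeZero r] {c : F} (hc : c ≠ 0)
    (H : ∀ {W : Type v} [AddCommGroup W] [Module F W] [FiniteDimensional F W] (g : End F W),
      g ^ r = c • 1 → finrank F W = r * a → kd g (X - C 1) ≤ a → elemDiv g = E) : MD.{u} a r E := by
  have hm := monic_X_pow_sub_C c (NeZero.ne r)
  let A := AdjoinRoot (X ^ r - C c : F[X])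
  let b := AdjoinRoot.powerBasis' hm
  have := b.finite
  have h1 : finrank F A = r := b.finrank.trans natDegree_X_pow_sub_C
  have : Nontrivial A := finrank_pos_iff.1 (h1 ▸ NeZero.pos r)
  let φ : A →ₐ[F] End F (Fin a → A) := Algebra.lsmul F F _
  let g := φ (AdjoinRoot.root _)
  have h2 : g ^ r = c • 1 := by
    rw [← aeval_X_pow_sub_C, aeval_algHom_apply, AdjoinRoot.aeval_eq, AdjoinRoot.mk_self, map_zero]
  let U := LinearMap.range ((Algebra.linearMap F A).compLeft (Fin a))
  have h3 : finrank F U = a := by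
    rw [LinearMap.finrank_range_of_inj ((algebraMap F A).injective.comp_left), finrank_fin_fun]
  have h4 : ∀ W, U ≤ W → Inv g W → W = ⊤ := fun W h h' => eq_top_iff.2 fun w _ => by
    rw [← Finset.univ_sum_single w]
    refine W.sum_mem fun i _ => ?_
    obtain ⟨p, hp⟩ := AdjoinRoot.mk_surjective (w i)
    convert h'.aeval p _ (h ⟨Pi.single i 1, rfl⟩) using 1
    rw [aeval_algHom_apply, AdjoinRoot.aeval_eq, hp]
    ext j
    by_cases hj : j = i <;> simp [φ, hj]
  have h5 : finrank F (Fin a → A) = r * a := by simp [finrank_pi_fintype, h1, mul_comm]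
  have h6 := rk_of_gen h4
  have h7 := rk_add_kd (f := g)
  refine fun _ _ _ _ f hf => LD.congr (DecOn.cyc h2 (Function.Injective.of_comp (f := ⇑(g ^ (r - 1))) ?_) h3 h4)
    ((H g h2 h5 (by omega)).trans hf.symm)
  rw [← End.coe_mul, ← pow_succ, Nat.sub_add_cancel (NeZero.pos r), h2]
  exact smul_right_injective _ hc

theorem md_exc {r k : ℕ} [hr : Fact r.Prime] {c : F} (hc : ¬ ∃ w, w ^ r = c) (h : k * r = a * t) :
    MD.{u} a t (Multiset.replicate k (X ^ r - C c)) := by
  have h0 : c ≠ 0 := fun h => hc ⟨0, by simp [h, hr.out.ne_zero]⟩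
  rcases (Nat.Prime.dvd_mul hr.out).1 (Dvd.intro_left k h) with ⟨l, rfl⟩ | ⟨l, rfl⟩
  · obtain rfl : k = t * l := Nat.eq_of_mul_eq_mul_right hr.out.pos (by linarith)
    simpa [Multiset.nsmul_replicate] using (MD.one (a := r * l) (E := Multiset.replicate l
      (X ^ r - C c)) (by rw [dsum_replicate, natDegree_X_pow_sub_C, mul_comm])).nsmul t
  · obtain rfl : k = l * a := Nat.eq_of_mul_eq_mul_right hr.out.pos (by linarith)
    rw [← Multiset.nsmul_replicate, mul_comm r]
    refine (md_free h0 fun g h1 h2 _ => ?_).nsmul l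
    obtain ⟨k, h3, h4⟩ := ((cases_pow h0 h1).resolve_left fun ⟨w, hw, _⟩ => hc ⟨w, hw⟩).2
    rw [h4, Nat.eq_of_mul_eq_mul_right hr.out.pos (h3.trans (h2.trans (mul_comm _ _)))]

theorem ld_one {r : ℕ} [hr : Fact r.Prime] (h : (r : F) ≠ 0)
    (hi : orderOf (Nat.card F : ZMod r) = 1) (hV : finrank F V = a * t) :
    ∀ f : End F V, LinearMap.det f = 1 → PE r f → LD f a t := by
  refine (forall_pe_iff DecOn.smul).2 ⟨fun y _ h1 _ _ => ?_, fun f c _ h1 h2 _ => ?_⟩
  · obtain ⟨k, D, h2, h3, h4⟩ := split_of_pow h h1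
    exact md_blocks (natDegree_X_sub_C 1) t (fun g hg => (h3 g hg).natDegree h) (h4.trans hV)
      (by rw [hi] at *; simp [mul_comm t]; omega) _ y h2
  · obtain ⟨k, h3, h4⟩ := ((cases_pow (fun h => h2 ⟨0, by simp [h, hr.out.ne_zero]⟩) h1).resolve_left
      fun ⟨w, hw, _⟩ => h2 ⟨w, hw⟩).2
    exact md_exc h2 (h3.trans hV) _ f h4

theorem sq_zero_of_two [CharP F 2] (h : f ^ 2 = 1) : aeval f ((X - C 1) ^ 2 : F[X]) = 0 := by
  simpa using pow_char_iff.1 h

theorem md_two_char [CharP F 2] (t : ℕ) : ∀ {b l : ℕ}, 2 * b + l = a * t →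
    MD.{u} a t (Multiset.replicate b ((X - C 1) ^ 2 : F[X]) + Multiset.replicate l (X - C 1)) := by
  induction t using Nat.twoStepInduction with
  | zero =>
    intro b l h
    obtain ⟨rfl, rfl⟩ : b = 0 ∧ l = 0 := by omega
    exact MD.zero
  | one => exact fun h => MD.one (by
      rw [dsum_add, dsum_replicate, dsum_replicate, natDegree_pow, natDegree_X_sub_C]; omega)
  | more t ih ih' =>
    intro b l h
    by_cases hb : a ≤ b
    · obtain ⟨b, rfl⟩ := Nat.exists_eq_add_of_le hb
      rw [Multiset.replicate_add, add_assoc, add_comm t]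
      refine (md_free one_ne_zero fun g h1 h2 h3 => ?_).add (ih (by linarith))
      obtain ⟨x, y, h4, h5, h6⟩ := elemDiv_of_sq_zero (sq_zero_of_two (by simpa using h1))
      obtain ⟨rfl, rfl⟩ : x = a ∧ y = 0 := by omega
      simpa using h6
    · obtain ⟨j, b, k, l, rfl, rfl, h1⟩ : ∃ j b' k l', b = j + b' ∧ l = k + l' ∧ 2 * j + k = a :=
        ⟨min b (a / 2), b - min b (a / 2), a - 2 * min b (a / 2), l - (a - 2 * min b (a / 2)),
          by rw [mul_add] at h; omega⟩
      rw [Multiset.replicate_add, Multiset.replicate_add, add_add_add_comm,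
        show t + 2 = 1 + (t + 1) by ring]
      exact (MD.one (by
      rw [dsum_add, dsum_replicate, dsum_replicate, natDegree_pow, natDegree_X_sub_C]; omega)).add (ih' (by linarith))

theorem ld_two_char [CharP F 2] (hV : finrank F V = a * t) (h : f ^ 2 = 1) : LD f a t := by
  obtain ⟨x, y, h4, -, h6⟩ := elemDiv_of_sq_zero (sq_zero_of_two h)
  exact md_two_char t (h4.trans hV) _ f h6

theorem Cyc.eq {r : ℕ} [hr : Fact r.Prime] (h : (r : F) ≠ 0)
    (hi : orderOf (Nat.card F : ZMod r) = r - 1) {g : F[X]} (hg : Cyc r g) : g = cyclotomic r F :=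
  (eq_of_monic_of_dvd_of_natDegree_le hg.2.1 (cyclotomic.monic r F) hg.2.2 (by
    rw [hg.natDegree h, hi, natDegree_cyclotomic, Nat.totient_prime hr.out])).symm

theorem rk_dvd {r : ℕ} [hr : Fact r.Prime] (h : (r : F) ≠ 0) (h3 : 2 < r) (h1 : f ^ r = 1) :
    orderOf (Nat.card F : ZMod r) ∣ rk f := by
  rw [rk_eq (isCoprime_cyclotomic h) (aeval_split h1)]
  exact ⟨_, (pol_cyc h h3).finrank_eq (aeval_res_kerA _)⟩

theorem Inv.res_pow {U : Submodule F V} (hU : Inv f U) {r : ℕ} {c : F} (h : f ^ r = c • 1) :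
    hU.res ^ r = c • 1 :=
  (aeval_X_pow_sub_C _ _ _).1 (aeval_restrict_eq_zero hU ((aeval_X_pow_sub_C _ _ _).2 h))

theorem Inv.res_pow' {U : Submodule F V} (hU : Inv f U) {r : ℕ} (h : f ^ r = 1) : hU.res ^ r = 1 :=
  (aeval_X_pow_sub_one _ _).1 (aeval_restrict_eq_zero hU ((aeval_X_pow_sub_one _ _).2 h))

theorem le_of_dvd_le {c x a : ℕ} (h : c ∣ x) (h' : x ≤ a) : x ≤ c * (a / c) := by
  obtain ⟨j, rfl⟩ := h
  rcases c.eq_zero_or_pos with rfl | hc
  · simp
  · exact Nat.mul_le_mul_left c ((Nat.le_div_iff_mul_le hc).2 (by linarith))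

theorem mod_eq_iff {c a t : ℕ} (hc : 0 < c) : a * t % c = t * (a % c) ↔ a * t / c ≤ t * (a / c) := by
  have h1 := Nat.div_add_mod a c
  have h2 := Nat.div_add_mod (a * t) c
  have h3 := Nat.mod_lt (a * t) hc
  have h4 : a * t = c * (t * (a / c)) + t * (a % c) := by nth_rw 1 [← h1]; ring
  have h5 : t * (a / c) ≤ a * t / c := (Nat.le_div_iff_mul_le hc).2 (by rw [mul_comm _ c]; omega)
  refine ⟨fun h => (Nat.eq_of_mul_eq_mul_left hc (by omega)).le, fun h => ?_⟩
  rw [le_antisymm h h5] at h2; omega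

theorem rk_le (f : End F V) : rk f ≤ finrank F V := Submodule.finrank_le _

theorem ld_crit {r c n : ℕ} [hr : Fact r.Prime] (h : (r : F) ≠ 0) (h3 : 2 < r)
    (hc : c = orderOf (Nat.card F : ZMod r)) (hV : finrank F V = n) (hn : n = a * t) (ha : 1 ≤ a)
    (hcn : c ≤ n) : (∀ f : End F V, LinearMap.det f = 1 → PE r f → LD f a t) ↔
      (a = 1 ∧ 1 < c ∧ c = r - 1 ∧ n ≤ (n % c) * r) ∨ (c ≤ a ∧ n % c = t * (a % c)) := by
  by_cases hi : c = 1
  · exact iff_of_true (ld_one h (hc ▸ hi) (hV.trans hn)) (Or.inr (by simp [hi, ha, Nat.mod_one]))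
  have h0 : 0 < c := hc ▸ ord_pos h
  have h4 := Nat.div_add_mod n c
  have h5 := Nat.mod_lt n h0
  have h6 : 0 < n / c := Nat.div_pos hcn h0
  rw [forall_two_le (hc ▸ hi) (by omega) DecOn.smul]
  constructor
  · intro H
    have key : ∀ s, 0 < s → c * s ≤ n → ∃ y : End F V, y ^ r = 1 ∧ LD y a t ∧ rk y = c * s ∧
        kd y (X - C 1) + c * s = n ∧ ((a ≤ kd y (X - C 1) ∧ (r - 1) * a ≤ rk y) ∨
          rk y ≤ t * (c * (a / c))) := fun s h1 h2 => by
      obtain ⟨y, h7, h8, -, h9⟩ := exists_blocks (V := V) h h1 (by rwa [← hc, hV])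
      have := rk_add_kd (f := y)
      exact ⟨y, h7, H y h7 h8, by rw [← hc] at h9; omega, by rwa [← hc, hV] at h9,
        (H y h7 h8).rk_le (hV.trans hn) h7 fun U hU h _ => le_of_dvd_le
          (hc ▸ rk_dvd ‹_› h3 (hU.res_pow' h7)) (h ▸ rk_le _)⟩
    obtain ⟨y, h7, h8, h9, h10, h11⟩ := key _ h6 (by omega)
    by_cases hca : c ≤ a
    · refine Or.inr ⟨hca, hn ▸ (mod_eq_iff h0).2 (Nat.le_of_mul_le_mul_left ?_ h0)⟩
      have := h11.resolve_left (by omega)
      rwa [h9, mul_left_comm, hn] at this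
    have h12 : a / c = 0 := Nat.div_eq_of_lt (by omega)
    obtain ⟨z, -, -, h13, -, h14⟩ := key 1 one_pos (by omega)
    have h15 := (h14.resolve_right (by rw [h12]; omega)).2
    have h16 : c ≤ r - 1 := Nat.le_of_dvd (by omega) (hc ▸ ZMod.orderOf_dvd_card_sub_one
      (fun h => not_dvd_card' ‹_› ((ZMod.natCast_eq_zero_iff _ _).1 h)))
    obtain rfl : a = 1 := by nlinarith [Nat.sub_pos_of_lt hr.out.one_lt]
    have := h8.le_mul (hV.trans hn) h h7 fun U hU h _ u hu => by
      have := le_of_dvd_le (hc ▸ rk_dvd ‹_› h3 (hU.res_pow' h7)) (h ▸ rk_le _)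
      rw [h12, mul_zero, Nat.le_zero, rk_eq_zero] at this
      exact congrArg Subtype.val (LinearMap.congr_fun this ⟨u, hu⟩)
    exact Or.inl ⟨rfl, by omega, by omega, by rwa [hV, mul_comm, show kd y _ = n % c by omega] at this⟩
  · intro H y h7 _
    obtain ⟨k, D, h8, h9, h10⟩ := split_of_pow h h7
    rw [← hc, hV] at h10
    have h11 : D.card ≤ n / c := (Nat.le_div_iff_mul_le h0).2 (by linarith)
    rcases H with ⟨rfl, -, h12, h13⟩ | ⟨-, h12⟩
    · obtain ⟨r, rfl⟩ : ∃ r', r = r' + 1 := ⟨r - 1, by omega⟩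
      obtain rfl : c = r := h12
      obtain ⟨l, rfl⟩ : ∃ l, k = D.card + l := Nat.exists_eq_add_of_le (by
        have := Nat.le_of_mul_le_mul_left (show c * (n / c) ≤ c * (n % c) by linarith) h0
        have := Nat.mul_le_mul_left c h11
        omega)
      rw [Multiset.eq_replicate_card.2 fun g hg => (h9 g hg).eq h hc.symm] at h8
      have := ((md_free (a := 1) (r := c + 1) (E := {X - C 1} + {cyclotomic (c + 1) F}) one_ne_zero
        fun g h1 h2 h3 => ?_).nsmul D.card).add (md_blocks (k := l) (D := 0) (c := 1)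
          (natDegree_X_sub_C 1) l (by simp) (by simp) (by simp)) _ y (by
            rw [h8, nsmul_add, Multiset.nsmul_singleton, Multiset.nsmul_singleton,
              Multiset.card_replicate, Multiset.replicate_add, add_zero, add_right_comm])
      · rwa [show D.card * (c + 1) + l = t by linarith] at this
      obtain ⟨k', D', a1, a2, a3⟩ := split_of_pow h (by simpa using h1)
      have a4 := (elemDiv_res_cyc h a2 a1).2.1
      rw [← hc, h2] at a3
      obtain ⟨rfl, a5⟩ : k' = 1 ∧ D'.card = 1 := by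
        have : k' ≤ 1 := a4 ▸ h3
        rcases (show D'.card = 0 ∨ D'.card = 1 ∨ 2 ≤ D'.card by omega) with h | h | h
        · rw [h] at a3; omega
        · rw [h] at a3; omega
        · nlinarith
      rw [a1, Multiset.eq_replicate_card.2 fun g hg => (a2 g hg).eq h hc.symm, a5]; rfl
    · exact md_blocks (natDegree_X_sub_C 1) t (fun g hg => ((h9 g hg).natDegree h).trans hc.symm)
        (h10.trans hn) (h11.trans (hn ▸ (mod_eq_iff h0).1 (hn ▸ h12))) _ y h8

theorem dvd_glo_of_dec {n : ℕ} (hn : n = a * t) (ha : 0 < a) (ht : 2 ≤ t) {r : ℕ}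
    (h : r ∣ Nat.card {D : Fin t → Submodule F (Fin n → F) // Geo.IsMDecomposition a D} /
      t.factorial) : r ∣ glo (Nat.card F) n := by
  have hV : finrank F (Fin n → F) = a * t := by simp [hn]
  have := dvd_of_dec (G := ⊤) (fun _ h => h) (fun D π h => mdec_perm h π) ?_ (fun D D' h h' =>
    ⟨fun i => LinearEquiv.ofFinrankEq _ _ ((h.3 i).trans (h'.3 i).symm), fun _ _ => trivial⟩)
    (fun D h g _ => mdec_map h g) h
  · rwa [Subgroup.card_top, card_gl, finrank_fin_fun] at this
  · obtain ⟨D, h, -⟩ := (dec_iff (f := 1) Function.injective_id hV ha ht).2 (md_blocks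
      (natDegree_X_sub_C 1) t (D := 0) (c := 1) (k := a * t) (by simp) (by simp) (by simp) _ 1
        (by simpa [← hV] using elemDiv_smul_one (V := Fin n → F) (1 : F)))
    exact ⟨D, h.1⟩

theorem ld_iff {n : ℕ} (hn : n = a * t) (ha : 0 < a) (ht : 2 ≤ t) {f : End F (Fin n → F)}
    (hf : LinearMap.det f = 1) : (∃ D : Fin t → Submodule F (Fin n → F), Geo.IsMDecomposition a D ∧
      ∃ π : Equiv.Perm (Fin t), ∀ j, (D j).map f = D (π j)) ↔ LD f a t := by
  rw [LD, ← dec_iff ((End.isUnit_iff f).1 ((LinearMap.isUnit_iff_isUnit_det f).2 (by simp [hf]))).1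
    (by simp [hn]) ha ht]
  simp

end Cfsg.Agent.Elu
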