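import Cfsg.Agent.Elu.DecLin

/-! Orthogonal decompositions permuted by isometries (`FD Φ f a t`, `fd_two`, `fd_two_char`,
`fd_crit`) and polar pairs fixed or swapped by isometries (`PP Φ f b`, `PP.half`, `dvd_of_polar`). -/

set_option autoImplicit false
set_option linter.unusedSectionVars false

namespace Cfsg.Agent.Elu

open Module Polynomial Cfsg.Agent.Classical Cfsg.Agent.Geom Cfsg.Agent.Geom.Formed

universe u

variable {F : Type*} [Field F] [Finite F] {σ : F →+* F} {V : Type u} [AddCommGroup V] [Module F V]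
  [FiniteDimensional F V] {Φ : Formed σ V} {f : End F V} {a t : ℕ} {U : Submodule F V}

/-- `f` permutes an orthogonal decomposition into `t` non-degenerate spaces of dimension `a`. -/
abbrev FD (Φ : Formed σ V) (f : End F V) (a t : ℕ) : Prop :=
  DecOn (Nd Φ) (fun u v => Φ.B u v = 0) f a t ⊤

theorem FD.sum {t' : ℕ} (hn : Φ.Nondeg) (hU : Nd Φ U) {h1 : Inv f U} {h2 : Inv f (Φ.perp U)}
    (h3 : FD (Φ.restrict U) h1.res a t) (h4 : FD (Φ.restrict (Φ.perp U)) h2.res a t') :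
    FD Φ f a (t + t') := by
  have := (h3.map (N' := Nd Φ) (R' := fun u v => Φ.B u v = 0) (g := f) U.subtype U.injective_subtype
    (fun _ => rfl) (fun _ => nd_map_subtype.2) fun _ _ h => h).add (h4.map _ (Φ.perp U).injective_subtype
      (fun _ => rfl) (fun _ => nd_map_subtype.2) fun _ _ h => h) (by
        rw [Submodule.map_subtype_top, Submodule.map_subtype_top]
        exact fun u hu w hw => ⟨hw u hu, Φ.B_eq_zero_symm (hw u hu)⟩)
  rwa [Submodule.map_subtype_top, Submodule.map_subtype_top, (hn.isCompl_perp hU).sup_eq_top] at this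

theorem FD.conj {g : End F V} {k : V ≃ₗ[F] V} (hk : k ∈ Φ.isom) (h : ∀ v, k (f v) = g (k v))
    (hf : FD Φ f a t) : FD Φ g a t := by
  simpa using hf.map (N' := Nd Φ) (R' := fun u v => Φ.B u v = 0) k.toLinearMap k.injective h
    (fun X hX => (IsIso.restrict_map (Φ := Φ) (Ψ := Φ) hk X).nondeg hX) fun u v h => (hk.1 u v).trans h

theorem fd_zero (h : finrank F V = 0) : FD Φ f a 0 := by
  rw [FD, Submodule.finrank_eq_zero.1 ((finrank_top F V).trans h)]
  exact DecOn.zero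

theorem fd_one (hn : Φ.Nondeg) (h : finrank F V = a) : FD Φ f a 1 :=
  DecOn.one ((finrank_top F V).trans h) (nd_top hn) (Inv.top f)

theorem fd_ind {P : ℕ → ∀ (V : Type u) [AddCommGroup V] [Module F V], Formed σ V → End F V → Prop}
    (H : ∀ t (V : Type u) [AddCommGroup V] [Module F V] [FiniteDimensional F V] (Φ : Formed σ V) f,
      Φ.Nondeg → Iso Φ f → finrank F V = a * (t + 1) → P (t + 1) V Φ f → ∃ W, Inv f W ∧ Nd Φ W ∧
        finrank F W = a ∧ ∀ h : Inv f (Φ.perp W), P t _ (Φ.restrict _) h.res) (t : ℕ) :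
    ∀ (V : Type u) [AddCommGroup V] [Module F V] [FiniteDimensional F V] (Φ : Formed σ V) f,
      Φ.Nondeg → Iso Φ f → finrank F V = a * t → P t V Φ f → FD Φ f a t := by
  induction t with
  | zero => exact fun _ _ _ _ _ _ _ _ h _ => fd_zero h
  | succ t ih =>
    intro V _ _ _ Φ f hn h h1 h2
    obtain ⟨W, h3, h4, h5, h6⟩ := H t V Φ f hn h h1 h2
    have h7 := h.inv_perp hn h3
    have h8 := hn.finrank_add_finrank_perp W
    exact add_comm 1 t ▸ FD.sum hn h4 (h1 := h3) (fd_one h4 h5)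
      (ih _ _ _ (hn.restrict_perp h4) (h.res h7) (by linarith) (h6 h7))

theorem iso_of_dec {ι : Type*} {D : ι → Submodule F V} (hΦ : Spu Φ) (h : iSup D = ⊤)
    (H : ∀ i j, ∀ u ∈ D i, ∀ v ∈ D j, Φ.B (f u) (f v) = Φ.B u v) : Iso Φ f := by
  refine hΦ.iso.2 fun u v => ?_
  induction (h ▸ Submodule.mem_top : u ∈ iSup D) using Submodule.iSup_induction' with
  | zero => simp
  | add x y _ _ hx hy => simp [B_add_left, hx, hy]
  | mem i u hu =>
    induction (h ▸ Submodule.mem_top : v ∈ iSup D) using Submodule.iSup_induction' with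
    | zero => simp
    | add x y _ _ hx hy => simp [hx, hy]
    | mem j v hv => exact H i j u hu v hv

theorem Spu.exists_nd_rk (hΦ : Spu Φ) (hn : Φ.Nondeg) {b : F[X]} {e c : ℕ} (hb : Pol b e)
    (ht : Typ σ b e c) (h : Iso Φ f) (h0 : aeval f ((X - C 1) * b) = 0) {l j : ℕ}
    (hj : c * j ≤ rk f) (hl : l + rk f ≤ finrank F V) (he : σ = RingHom.id F → Even l) :
    ∃ (W : Submodule F V) (hW : Inv f W), Nd Φ W ∧ finrank F W = l + c * j ∧ c * j ≤ rk hW.res := by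
  have h5 := finrank_fix hb.cop h0
  have h6 := h.nd_fix hn hb.cop h0
  rw [rk_eq hb.cop h0] at hj hl
  obtain ⟨B, h3, h4, h8, h9⟩ := exists_nd_kerA hb ht h h6.2 hj
  obtain ⟨A, h10, h11⟩ := (hΦ.res _).exists_nd h6.1 (l := l) (by omega) he
  have h12 := Submodule.map_subtype_le _ A
  refine ⟨_, (inv_of_le_kerA h12).sup h8, (nd_map_subtype.2 h10).sup h4 (h3.trans
    ((h.kerA_le_perp hb.cop).trans (perp_anti _ h12))), by
    rw [finrank_sup_of_disjoint ((disjoint_kerA hb.cop).mono h12 h3),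
      Submodule.finrank_map_subtype_eq, h11, h9], ?_⟩
  rw [rk_res, ← h9]
  refine Submodule.finrank_mono fun v hv => ?_
  obtain ⟨u, hu⟩ := exists_aeval_eq hb.cop (h3 hv)
  exact ⟨-aeval f u v, neg_mem (Submodule.mem_sup_right (h8.aeval u v hv)), by simpa [neg_add_eq_sub] using hu⟩

section alt

variable {Φ : Formed (RingHom.id F) V}

theorem fd_two (hΦ : Spu Φ) (hn : Φ.Nondeg) (h2 : (2 : F) ≠ 0) (ha : Even a) (h : Iso Φ f)
    (hV : finrank F V = a * t) (h0 : f ^ 2 = 1 ∨ f ^ 2 = -1) : FD Φ f a t := by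
  refine fd_ind (P := fun _ _ _ _ Φ f => Spu Φ ∧ (f ^ 2 = 1 ∨ f ^ 2 = -1))
    (fun t V _ _ _ Φ f hn h hV ⟨hΦ, h0⟩ => ?_) t V Φ f hn h hV ⟨hΦ, h0⟩
  have key : ∀ W (hW : Inv f W), Spu (Φ.restrict W) ∧ (hW.res ^ 2 = 1 ∨ hW.res ^ 2 = -1) :=
    fun W hW => ⟨hΦ.res _, h0.imp hW.res_pow' fun h =>
      aeval_four.1 (aeval_restrict_eq_zero hW (aeval_four.2 h))⟩
  rcases h0 with h0 | h0
  · obtain ⟨W, h3, h4, h5⟩ := hΦ.nd_two hn h2 h h0 (m := a) (by nlinarith) fun _ => ha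
    exact ⟨W, h5, h4, h3, key _⟩
  · obtain ⟨e, h5, h6⟩ := four_typ h2
    obtain ⟨j, rfl⟩ := ha
    obtain ⟨W, h7, h8, h9⟩ := exists_nd h5 h6 j ⟨hn, h, aeval_four.2 h0⟩ (by nlinarith)
    exact ⟨W, h7, h8, by omega, key _⟩

theorem fd_crit (hΦ : Spu Φ) (hn : Φ.Nondeg) {r c n : ℕ} [hr : Fact r.Prime] (h : (r : F) ≠ 0)
    (h3 : 2 < r) (hc : c = cdim (orderOf (Nat.card F : ZMod r))) (hV : finrank F V = n)
    (hat : n = a * t) (ha : 2 ≤ a) (he : Even a) (hcn : c ≤ n) :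
    (∀ y, Iso Φ y → y ^ r = 1 → y ≠ 1 → FD Φ y a t) ↔ c ≤ a ∧ n % c = t * (a % c) := by
  have h0 : 0 < c := hc ▸ cdim_pos (ord_pos h)
  have hp := pol_cyc h h3
  have ht := hc ▸ typ_id h h3
  have hd : ∀ {V : Type u} [AddCommGroup V] [Module F V] [FiniteDimensional F V]
      {Φ : Formed (RingHom.id F) V} {y : End F V}, Φ.Nondeg → Iso Φ y → y ^ r = 1 → c ∣ rk y :=
    fun hn h1 h2 => rk_eq hp.cop (aeval_split h2) ▸ h1.typ_dvd hn h h3 ht h2
  constructor
  · intro H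
    have key : ∀ s, 0 < s → c * s ≤ n → (a + c * s ≤ n ∧ (r - 1) * a ≤ c * s) ∨
        c * s ≤ t * (c * (a / c)) := fun s h1 h2 => by
      obtain ⟨y, h7, h8, h9⟩ := exists_of_chain h h3 ht hn (hc ▸ hΦ.chain_alt hn h s (by rwa [← hc, hV]))
      rw [← rk_eq hp.cop (aeval_split h8)] at h9
      have h4 := rk_add_kd (f := y)
      have := (H y h7 h8 (by rw [Ne, ← rk_eq_zero, h9]; positivity)).rk_le (hV.trans hat) h8
        fun U hU h hU' => le_of_dvd_le (hd hU' (h7.res hU) (hU.res_pow' h8)) (h ▸ rk_le _)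
      omega
    have h4 := Nat.div_add_mod n c
    have h5 := Nat.mod_lt n h0
    by_cases hca : c ≤ a
    · refine ⟨hca, hat ▸ (mod_eq_iff h0).2 (Nat.le_of_mul_le_mul_left ?_ h0)⟩
      have := (key _ (Nat.div_pos hcn h0) (by omega)).resolve_left (by omega)
      rwa [mul_left_comm, hat] at this
    have h15 := ((key 1 one_pos (by omega)).resolve_right (by
      rw [Nat.div_eq_of_lt (not_le.1 hca)]; omega)).2
    obtain ⟨k, hk⟩ := hr.out.even_sub_one h3.ne'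
    have h16 : c ≤ r - 1 := Nat.le_of_dvd (by omega) (by
      rw [hc, hk, ← two_mul]
      exact cdim_dvd (two_mul k ▸ hk ▸ ZMod.orderOf_dvd_card_sub_one
        fun h => not_dvd_card' ‹_› ((ZMod.natCast_eq_zero_iff _ _).1 h)))
    nlinarith [Nat.sub_pos_of_lt hr.out.one_lt]
  · rintro ⟨-, H⟩ y h1 h2 -
    refine fd_ind (P := fun t _ _ _ Φ f => Spu Φ ∧ f ^ r = 1 ∧ rk f ≤ c * (t * (a / c)))
      (fun t V _ _ _ Φ f hn h hV ⟨hΦ, h1, h2⟩ => ?_) t V Φ y hn h1 (hV.trans hat) ⟨hΦ, h2,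
        (le_of_dvd_le (hd hn h1 h2) (rk_le y)).trans (Nat.mul_le_mul_left c
          (by rw [hV, hat]; exact (mod_eq_iff h0).1 (hat ▸ H)))⟩
    obtain ⟨s, hs⟩ := hd hn h h1
    have h5 := Nat.mul_div_le a c
    have h6 := Nat.mul_le_mul_left t h5
    obtain ⟨j, h8, h9⟩ : ∃ j, c * j ≤ a ∧ ((j = s ∧ s ≤ a / c) ∨ (j = a / c ∧ j ≤ s)) :=
      ⟨min s (a / c), (Nat.mul_le_mul_left c (min_le_right _ _)).trans h5, by omega⟩
    obtain ⟨W, hW, h10, h11, h12⟩ := hΦ.exists_nd_rk hn hp ht h (aeval_split h1) (l := a - c * j)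
      (j := j) (hs ▸ Nat.mul_le_mul_left c (by omega)) (by
        have : a + rk f ≤ finrank F V + c * j := by rcases h9 with ⟨rfl, -⟩ | ⟨rfl, -⟩ <;> nlinarith
        omega)
      fun _ => (Nat.even_sub h8).2 (iff_of_true he ((hc ▸ even_cdim _ : Even c).mul_right j))
    refine ⟨W, hW, h10, by omega, fun h' => ⟨hΦ.res _, h'.res_pow' h1, ?_⟩⟩
    rw [rk_add (hn.isCompl_perp h10) hW h'] at hs h2
    rcases h9 with ⟨rfl, -⟩ | ⟨rfl, -⟩ <;> nlinarith

variable [CharP F 2]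

theorem exists_swap (hΦ : Spu Φ) (hn : Φ.Nondeg) (ha : Even a) (hV : finrank F V = a * 2) :
    ∃ g, Iso Φ g ∧ g ^ 2 = 1 ∧ rk g = a ∧ Al Φ g ∧ FD Φ g a 2 := by
  obtain ⟨U, h1, h2⟩ := hΦ.exists_nd hn (l := a) (by omega) fun _ => ha
  have h3 := hn.finrank_add_finrank_perp U
  have h4 : Nd Φ (Φ.perp U) := hn.restrict_perp h1
  obtain ⟨e, he⟩ := hΦ.exists_iso h1 h4 (by omega)
  obtain ⟨g, g1, g2⟩ := exists_glue hn h1 h4 le_rfl ((Φ.perp U).subtype ∘ₗ e.toLinearMap)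
    (U.subtype ∘ₗ e.symm.toLinearMap)
  have hc := hn.isCompl_perp h1
  have b1 : ∀ (x : U) (z : Φ.perp U), Φ.B x z = 0 := fun x z => z.2 x x.2
  have b2 : ∀ (x : U) (z : Φ.perp U), Φ.B z x = 0 := fun x z => Φ.B_eq_zero_symm (b1 x z)
  have b3 : ∀ x y : U, Φ.B (e x) (e y) = Φ.B x y := he.1
  have b4 : ∀ x y, Φ.B (e.symm x) (e.symm y) = Φ.B x y := he.symm.1
  have h5 : g ^ 2 = 1 := LinearMap.ext fun v => by
    obtain ⟨x, z, rfl⟩ := exists_add_of_isCompl hc v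
    simp [sq, g1, g2]
  have h6 : U.map g ≤ Φ.perp U := by rintro _ ⟨x, hx, rfl⟩; exact g1 ⟨x, hx⟩ ▸ Subtype.prop _
  have h7 : (Φ.perp U).map g ≤ U := by rintro _ ⟨x, hx, rfl⟩; exact g2 ⟨x, hx⟩ ▸ Subtype.prop _
  have h8 := rk_of_gen (f := g) (U := U) fun W h h' => eq_top_iff.2 (hc.sup_eq_top ▸ sup_le h
    fun z hz => by simpa [g1] using h' _ (h (e.symm ⟨z, hz⟩).2))
  have h9 := (eq_of_two_char h5 h5).1
  refine ⟨g, hΦ.iso.2 fun u v => ?_, h5, by omega, fun v => ?_, by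
    rw [FD, ← hc.sup_eq_top]
    exact DecOn.swap h2 (by omega) h1 h4 h6 h7 fun u hu w hw =>
      ⟨hw u hu, Φ.B_eq_zero_symm (hw u hu)⟩⟩
  · obtain ⟨x, z, rfl⟩ := exists_add_of_isCompl hc u
    obtain ⟨x', z', rfl⟩ := exists_add_of_isCompl hc v
    simp [g1, g2, B_add_left, b1, b2, b3, b4]
  · obtain ⟨x, z, rfl⟩ := exists_add_of_isCompl hc v
    obtain ⟨z, rfl⟩ := e.surjective z
    have := hΦ.alt rfl (x + z)
    rw [B_add_left, map_add, map_add, hΦ.alt rfl, hΦ.alt rfl] at this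
    simpa [g1, g2, B_add_left, b1, b2, b3, b4] using this

theorem fd_two_char {m : ℕ} (t : ℕ) : ∀ (V : Type u) [AddCommGroup V] [Module F V]
    [FiniteDimensional F V] (Φ : Formed (RingHom.id F) V) f, Spu Φ → Φ.Nondeg → Iso Φ f →
      finrank F V = 2 * m * t → f ^ 2 = 1 → FD Φ f (2 * m) t := by
  induction t using Nat.twoStepInduction with
  | zero => exact fun _ _ _ _ _ _ _ _ _ h _ => fd_zero h
  | one => exact fun _ _ _ _ _ _ _ hn _ h _ => fd_one hn (by omega)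
  | more t ih ih' =>
    intro V _ _ _ Φ f hΦ hn h hV h1
    have key : ∀ (W : Submodule F V) (hW : Nd Φ W) (g : End F W) k s s' (p : Prop),
        Iso (Φ.restrict W) g → g ^ 2 = 1 → FD (Φ.restrict W) g (2 * m) k →
        finrank F W + 2 * (m * s) = finrank F V → (∀ g, Iso (Φ.restrict (Φ.perp W)) g → g ^ 2 = 1 →
          FD (Φ.restrict (Φ.perp W)) g (2 * m) s) → (s' = 0 → p) → (p → Even s') → s' ≤ m * s →
        rk g + s' = rk f → (Al (Φ.restrict W) g ∧ p ↔ Al Φ f) → FD Φ f (2 * m) (k + s) :=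
      fun W hW g k s s' p a1 a2 a3 a4 a5 a6 a7 a8 a9 a10 => by
        have b1 := hn.finrank_add_finrank_perp W
        have b2 := hn.restrict_perp hW
        obtain ⟨g', b3, b4, rfl, b5⟩ := (exists_two_iff b2 (m := m * s) (by omega)
          ((hΦ.res _).witt b2) (by omega) s' p).2 ⟨a6, fun h => ⟨a7 h, by omega⟩, a8⟩
        obtain ⟨y, c, d, b6, rfl, rfl⟩ := exists_iso_sum hn hW a1 b3
        obtain ⟨k, b7, b8⟩ := conj_two hn b6 h (LinearMap.ext fun v => by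
          obtain ⟨x, z, rfl⟩ := exists_add_of_isCompl (hn.isCompl_perp hW) v
          rw [map_add, map_add]
          exact congrArg₂ _ (congrArg Subtype.val (LinearMap.congr_fun a2 x))
            (congrArg Subtype.val (LinearMap.congr_fun b4 z))) h1
          ((rk_add (hn.isCompl_perp hW) c d).trans a9) (by rw [al_sum hn hW c d, b5, a10])
        exact (a3.sum hn hW (a5 _ b3 b4)).conj b7 b8
    have h2 := (exists_two_iff hn (m := m * (t + 2)) (by linarith) (hΦ.witt hn) (by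
      rw [hV, mul_assoc, Nat.mul_div_cancel_left _ two_pos]; omega) _ _).1 ⟨f, h, h1, rfl, Iff.rfl⟩
    by_cases h3 : Al Φ f ∧ 2 * m ≤ rk f
    · obtain ⟨W, h4, h5⟩ := hΦ.exists_nd hn (l := 2 * m * 2) (by nlinarith) fun _ => by simp
      obtain ⟨g, h6, h7, h8, h9, h10⟩ := exists_swap (hΦ.res W) h4 (by simp) h5
      have := hn.finrank_add_finrank_perp W
      exact add_comm 2 t ▸ key W h4 g 2 t (rk f - 2 * m) True h6 h7 h10 (by linarith) (fun g h h' =>
        ih _ _ _ (hΦ.res _) (hn.restrict_perp h4) h (by linarith) h') (fun _ => trivial)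
        (fun _ => (Nat.even_sub h3.2).2 (by simp [h2.2.1 h3.1])) (by rw [mul_add] at h2; omega)
        (by omega) (by simp [h9, h3.1])
    obtain ⟨W, h4, h5⟩ := hΦ.exists_nd hn (l := 2 * m) (by nlinarith) fun _ => by simp
    have h6 := hn.finrank_add_finrank_perp W
    obtain ⟨s, s', p, p', h7, h8, h9, h10, h11, h12⟩ : ∃ s s' p p', ((s = 0 → p) ∧
        (p → Even s ∧ s ≤ finrank F W / 2) ∧ s ≤ m) ∧ (s' = 0 → p') ∧ (p' → Even s') ∧
        s' ≤ m * (t + 1) ∧ s + s' = rk f ∧ (p ∧ p' ↔ Al Φ f) := by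
      simp only [mul_add, h5] at h2 ⊢
      by_cases ht : Al Φ f
      · refine ⟨min (rk f) (2 * (m / 2)), rk f - 2 * (m / 2), True, True, ?_⟩
        simp only [Nat.even_iff, ht, true_and, imp_true_iff, forall_const, and_true] at h2 h3 ⊢
        omega
      · refine ⟨min (rk f) m, rk f - m, False, rk f - m = 0, ?_⟩
        simp only [Nat.even_iff, ht, false_and, false_imp_iff, imp_false, true_and, and_true,
          iff_true] at h2 ⊢
        have : m ≠ 0 := by rintro rfl; omega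
        omega
    obtain ⟨g, a1, a2, rfl, a3⟩ := (exists_two_iff h4 h5 ((hΦ.res _).witt h4) (by omega) _ _).2 h7
    exact (show 1 + (t + 1) = t + 2 by ring) ▸ key W h4 g 1 (t + 1) s' p' a1 a2 (fd_one h4 h5)
      (by linarith) (fun g h h' => ih' _ _ _ (hΦ.res _) (hn.restrict_perp h4) h (by linarith) h')
      h8 h9 h10 h11 (by rwa [a3])

end alt

theorem dvd_isom_of_dec {ι : Type} [Fintype ι] [DecidableEq ι] {Φ : Formed σ (ι → F)} (hΦ : Spu Φ)
    (h1 : FD Φ 1 a t) (hV : finrank F (ι → F) = a * t) (ha : 0 < a) (ht : 2 ≤ t) {r : ℕ}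
    (h : r ∣ Nat.card {D : Fin t → Submodule F (ι → F) // Geo.IsMDecomposition a D ∧
      (∀ j, Nd Φ (D j)) ∧ ∀ j j', j ≠ j' → ∀ u ∈ D j, ∀ v ∈ D j', Φ.B u v = 0} / t.factorial) :
    r ∣ Nat.card Φ.isom := by
  refine dvd_of_dec (fun _ h => h.1) (fun D π h => ⟨mdec_perm h.1 π, fun _ => h.2.1 _,
    fun j j' h' => h.2.2 _ _ (π.injective.ne h')⟩) ?_ (fun D D' h h' => ?_) (fun D h g hg =>
      ⟨mdec_map h.1 g, fun j => (IsIso.restrict_map (Φ := Φ) (Ψ := Φ) hg _).nondeg (h.2.1 j), ?_⟩) h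
  · exact ((dec_iff Function.injective_id hV ha ht).2 h1).imp fun _ h => h.1
  · choose e he using fun i => hΦ.exists_iso (h.2.1 i) (h'.2.1 i) ((h.1.3 i).trans (h'.1.3 i).symm)
    refine ⟨e, fun g hg => iso_coe.1 (iso_of_dec hΦ h.1.5 fun i j u hu v hv => ?_)⟩
    rw [LinearEquiv.coe_coe, hg i ⟨u, hu⟩, hg j ⟨v, hv⟩]
    by_cases hij : i = j
    · subst hij; exact (he i).1 _ _
    · rw [h.2.2 i j hij u hu v hv, h'.2.2 i j hij _ (Subtype.prop _) _ (Subtype.prop _)]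
  · rintro j j' h' _ ⟨u, hu, rfl⟩ _ ⟨v, hv, rfl⟩
    exact (hg.1 u v).trans (h.2.2 j j' h' u hu v hv)

/-- `f` fixes (`b = true`) or swaps (`b = false`) the members of a polar pair. -/
def PP (Φ : Formed σ V) (f : End F V) (b : Bool) : Prop :=
  ∃ U W, U ⊔ W = ⊤ ∧ Φ.TotSing U ∧ Φ.TotSing W ∧ U.map f ≤ cond b U W ∧ W.map f ≤ cond b W U

theorem ts_map {X : Submodule F U} (h : (Φ.restrict U).TotSing X) : Φ.TotSing (X.map U.subtype) :=
  ⟨by rintro _ ⟨x, hx, rfl⟩ _ ⟨y, hy, rfl⟩; exact h.1 x hx y hy,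
    by rintro _ ⟨x, hx, rfl⟩; exact h.2 x hx⟩

theorem two_mul_le_of_ts {X : Submodule F V} (hU : Nd Φ U) (h : X ≤ U) (hX : Φ.TotSing X) :
    2 * finrank F X ≤ finrank F U := by
  have h1 := Nondeg.finrank_add_finrank_perp hU (X.comap U.subtype)
  have h2 : X.comap U.subtype ≤ (Φ.restrict U).perp (X.comap U.subtype) := fun x hx y hy => hX.1 y hy x hx
  have h3 := Submodule.finrank_mono h2
  rw [(Submodule.comapSubtypeEquivOfLe h).finrank_eq] at h1 h3
  omega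

theorem polar_isCompl (hn : Φ.Nondeg) {W : Submodule F V} (h : U ⊔ W = ⊤) (hU : Φ.TotSing U)
    (hW : Φ.TotSing W) : IsCompl U W ∧ 2 * finrank F U = finrank F V ∧ finrank F W = finrank F U := by
  have h1 := two_mul_le_of_ts (nd_top hn) le_top hU
  have h2 := two_mul_le_of_ts (nd_top hn) le_top hW
  have h3 := U.finrank_sup_add_finrank_inf_eq W
  rw [h] at h3
  rw [finrank_top] at h1 h2 h3
  exact ⟨⟨disjoint_iff.2 (Submodule.finrank_eq_zero.1 (by omega)), codisjoint_iff.2 h⟩, by omega⟩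

theorem PP.sum {b : Bool} (hn : Φ.Nondeg) (hU : Nd Φ U) {h1 : Inv f U} {h2 : Inv f (Φ.perp U)}
    (h3 : PP (Φ.restrict U) h1.res b) (h4 : PP (Φ.restrict (Φ.perp U)) h2.res b) : PP Φ f b := by
  obtain ⟨A, B, a1, a2, a3, a4, a5⟩ := h3
  obtain ⟨C, D, b1, b2, b3, b4, b5⟩ := h4
  have k : ∀ (X : Submodule F U) (Y : Submodule F (Φ.perp U)), Y.map (Φ.perp U).subtype ≤
      Φ.perp (X.map U.subtype) := fun X Y =>
    (Submodule.map_subtype_le _ Y).trans (perp_anti _ (U.map_subtype_le X))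
  have m : ∀ {Z : Submodule F V} (h : Inv f Z) (X Y : Submodule F Z), X.map h.res ≤ Y →
      (X.map Z.subtype).map f ≤ Y.map Z.subtype := by
    rintro Z h X Y h' _ ⟨_, ⟨x, hx, rfl⟩, rfl⟩
    exact ⟨_, h' ⟨x, hx, rfl⟩, rfl⟩
  refine ⟨_, _, ?_, ts_sup (ts_map a2) (ts_map b2) (k _ _), ts_sup (ts_map a3) (ts_map b3) (k _ _),
    ?_, ?_⟩
  · rw [sup_sup_sup_comm, ← Submodule.map_sup, ← Submodule.map_sup, a1, b1,
      Submodule.map_subtype_top, Submodule.map_subtype_top, (hn.isCompl_perp hU).sup_eq_top]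
  all_goals rw [Submodule.map_sup]; cases b <;> exact sup_le_sup (m _ _ _ ‹_›) (m _ _ _ ‹_›)

theorem pp_smul (hn : Φ.Nondeg) {k : ℕ} (hk : Φ.WittIndex k) (hV : finrank F V = 2 * k) {c : F}
    (h : ∀ v, f v = c • v) : PP Φ f true := by
  obtain ⟨U, W, h1, h2, h3, -⟩ := exists_polar hn hk hV
  exact ⟨U, W, h1.sup_eq_top, h2, h3, inv_iff_map.2 fun v hv => h v ▸ U.smul_mem c hv,
    inv_iff_map.2 fun v hv => h v ▸ W.smul_mem c hv⟩

theorem Spu.pp_two (hΦ : Spu Φ) (hn : Φ.Nondeg) (h2 : (2 : F) ≠ 0) (h : Iso Φ f) (h0 : f ^ 2 = 1)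
    (h1 : Even (kd f (X - C 1))) (h3 : Even (kd f (X - C (-1)))) : PP Φ f true := by
  have h4 := h.nd_fix hn (isCoprime_two h2) (aeval_two h0)
  have h5 := h.perp_fix hn (isCoprime_two h2) (aeval_two h0)
  refine PP.sum hn h4.1 (h1 := inv_ker_aeval _ _) (h2 := h5 ▸ inv_ker_aeval _ _)
    (pp_smul h4.1 ((hΦ.res _).witt h4.1) (Nat.two_mul_div_two_of_even h1).symm (c := 1)
      fun v => Subtype.ext (mem_kerA_X_sub_C.1 v.2))
    (pp_smul (hn.restrict_perp h4.1) ((hΦ.res _).witt (hn.restrict_perp h4.1))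
      (Nat.two_mul_div_two_of_even (h5 ▸ h3)).symm (c := -1)
      fun v => Subtype.ext (mem_kerA_X_sub_C.1 (h5 ▸ v.2)))

theorem pp_four (h2 : (2 : F) ≠ 0) (k : ℕ) : ∀ {V : Type u} [AddCommGroup V] [Module F V]
    [FiniteDimensional F V] {Φ : Formed (RingHom.id F) V} {f : End F V}, Spu Φ → Φ.Nondeg →
      Iso Φ f → f ^ 2 = -1 → finrank F V = 2 * k → PP Φ f false := by
  induction k with
  | zero =>
    exact fun _ _ _ _ h => have := finrank_zero_iff.1 h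
      ⟨⊥, ⊥, Subsingleton.elim _ _, totSing_bot _, totSing_bot _, by simp, by simp⟩
  | succ k ih =>
    intro V _ _ _ Φ f hΦ hn h h0 hV
    have := finrank_pos_iff.1 (show 0 < finrank F V by omega)
    obtain ⟨v, hv⟩ := exists_B_ne h hn fun h1 => by
      obtain ⟨x, hx⟩ := exists_ne (0 : V)
      have := LinearMap.congr_fun (h1.symm.trans h0) x
      exact hx (by simpa [eq_neg_iff_add_eq_zero, ← two_smul F, h2] using this)
    replace hv := hv.resolve_left (not_not.2 (hΦ.alt rfl v))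
    have hp : Φ.IsPair v ((Φ.B v (f v))⁻¹ • f v) :=
      ⟨⟨hΦ.Q _, hΦ.alt rfl _⟩, ⟨hΦ.Q _, hΦ.alt rfl _⟩, by simp [hv]⟩
    have h1 : ∀ x, f (f x) = -x := fun x => LinearMap.congr_fun (sq f ▸ h0) x
    have h6 := hp.nondeg_span
    have h8 := hp.finrank_span
    rw [Submodule.span_singleton_smul_eq (inv_ne_zero hv).isUnit] at h6 h8
    set W := (F ∙ v) ⊔ F ∙ f v with hW
    have h3 : v ∈ W := Submodule.mem_sup_left (Submodule.mem_span_singleton_self v)
    have h4 : f v ∈ W := Submodule.mem_sup_right (Submodule.mem_span_singleton_self _)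
    have h5 : Inv f W := inv_iff_map.1 (by
      simp [hW, Submodule.map_sup, Submodule.map_span, h1, ← Set.neg_singleton, h3, h4])
    have h7 := h.inv_perp hn h5
    have t : ∀ x : W, (Φ.restrict W).TotSing (F ∙ x) := fun x =>
      totSing_span _ (by simpa using hΦ.alt rfl _) (by simpa using hΦ.Q _)
    refine PP.sum hn h6 (h1 := h5) ⟨F ∙ ⟨v, h3⟩, F ∙ ⟨f v, h4⟩, Submodule.map_injective_of_injective
      W.injective_subtype ?_, t _, t _, ?_, ?_⟩ (ih (hΦ.res _) (hn.restrict_perp h6) (h.res h7)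
      (aeval_four.1 (aeval_restrict_eq_zero h7 (aeval_four.2 h0))) (by
        have := hn.finrank_add_finrank_perp W; omega))
    · simp [Submodule.map_sup, Submodule.map_span, hW]
    · rw [Submodule.map_span, Set.image_singleton]; rfl
    · rw [Submodule.map_span, Set.image_singleton, Submodule.span_singleton_le_iff_mem]
      exact Submodule.mem_span_singleton.2 ⟨-1, Subtype.ext (by simp [h1, Inv.coe_res])⟩

theorem pp_iff (hn : Φ.Nondeg) (hf : Function.Injective f) : (∃ U W, IsCompl U W ∧ Φ.TotSing U ∧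
    Φ.TotSing W ∧ ((U.map f = U ∧ W.map f = W) ∨ (U.map f = W ∧ W.map f = U))) ↔ ∃ b, PP Φ f b := by
  refine ⟨fun ⟨U, W, h1, h2, h3, h4⟩ => h4.elim (fun h => ⟨true, U, W, h1.sup_eq_top, h2, h3, h.1.le,
    h.2.le⟩) fun h => ⟨false, U, W, h1.sup_eq_top, h2, h3, h.1.le, h.2.le⟩,
    fun ⟨b, U, W, h1, h2, h3, h4, h5⟩ => ?_⟩
  obtain ⟨h6, -, h7⟩ := polar_isCompl hn h1 h2 h3
  have e := fun X : Submodule F V => (Submodule.equivMapOfInjective f hf X).finrank_eq.symm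
  refine ⟨U, W, h6, h2, h3, ?_⟩
  cases b
  · exact Or.inr ⟨Submodule.eq_of_le_of_finrank_eq h4 ((e _).trans h7.symm),
      Submodule.eq_of_le_of_finrank_eq h5 ((e _).trans h7)⟩
  · exact Or.inl ⟨Submodule.eq_of_le_of_finrank_eq h4 (e _), Submodule.eq_of_le_of_finrank_eq h5 (e _)⟩

theorem PP.smul {b : Bool} (w : F) (f : End F V) (hw : w ≠ 0) (h : PP Φ (w • f) b) : PP Φ f b := by
  simpa only [PP, Submodule.map_smul _ _ _ hw] using h

theorem PP.of_odd {b : Bool} (h : PP Φ f b) {r : ℕ} (hr : Odd r) {c : F} (hc : c ≠ 0)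
    (h1 : f ^ r = c • 1) : PP Φ f true := by
  obtain ⟨k, rfl⟩ := hr
  obtain ⟨U, W, h2, h3, h4, h5, h6⟩ := h
  cases b
  · have key : ∀ {U W : Submodule F V}, U.map f ≤ W → W.map f ≤ U → U ≤ W := fun {U W} h h' u hu => by
      have : Inv (f ^ 2) U := fun x hx => h' ⟨_, h ⟨x, hx, rfl⟩, by simp [sq]⟩
      have := h ⟨_, this.pow k u hu, rfl⟩
      rwa [← End.mul_apply, ← pow_mul, ← pow_succ', h1, LinearMap.smul_apply, W.smul_mem_iff hc] at this
    exact ⟨U, W, h2, h3, h4, h5.trans (key h6 h5), h6.trans (key h5 h6)⟩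
  · exact ⟨U, W, h2, h3, h4, h5, h6⟩

theorem PP.half (hn : Φ.Nondeg) (h : PP Φ f true) {b : F[X]} (hb : Nd Φ (kerA f b)) :
    ∃ X ≤ kerA f b, Inv f X ∧ 2 * finrank F X = kd f b := by
  obtain ⟨U, W, h1, h2, h3, h4, h5⟩ := h
  have hc := (polar_isCompl hn h1 h2 h3).1
  rw [cond_true, inv_iff_map] at h4 h5
  have h6 := two_mul_le_of_ts hb inf_le_left (h2.mono inf_le_right)
  have h7 := two_mul_le_of_ts hb inf_le_left (h3.mono inf_le_right)
  have h8 : kerA f b ≤ (kerA f b ⊓ U) ⊔ (kerA f b ⊓ W) := fun v hv => by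
    obtain ⟨x, z, rfl⟩ := exists_add_of_isCompl hc v
    rw [mem_kerA, map_add, add_eq_zero_iff_eq_neg] at hv
    have := Submodule.disjoint_def.1 hc.disjoint _ (h4.aeval b x x.2) (hv ▸ neg_mem (h5.aeval b z z.2))
    exact Submodule.add_mem_sup ⟨this, x.2⟩ ⟨neg_eq_zero.1 (hv ▸ this), z.2⟩
  have := (Submodule.finrank_mono h8).trans (Submodule.finrank_add_le_finrank_add_finrank _ _)
  exact ⟨_, inf_le_left, (inv_ker_aeval f b).inf h4, by change _ = finrank F (kerA f b); omega⟩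

theorem PP.not_pol (hn : Φ.Nondeg) {b : F[X]} {e : ℕ} (hp : Pol b e) (hb : Nd Φ (kerA f b))
    (he : kd f b = e) (h0 : 0 < e) : ¬ PP Φ f true := fun h => by
  obtain ⟨X, h1, h2, h3⟩ := h.half hn hb
  rw [hp.finrank_eq ((le_kerA_iff h2).1 h1), he] at h3
  rcases (elemDiv h2.res).card.eq_zero_or_pos with h | h <;> nlinarith

theorem PP.le_rk (hn : Φ.Nondeg) (h : Iso Φ f) (h1 : PP Φ f false) : finrank F V ≤ 2 * rk f := by
  obtain ⟨U, W, h2, h3, h4, h5, h6⟩ := h1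
  obtain ⟨-, h7, h8⟩ := polar_isCompl hn h2 h3 h4
  have h9 : U.map f = W := Submodule.eq_of_le_of_finrank_eq h5
    ((Submodule.equivMapOfInjective f (h.injective hn) U).finrank_eq.symm.trans h8.symm)
  have := rk_of_gen (f := f) (U := U) fun X a b => eq_top_iff.2 (h2 ▸ sup_le a
    (h9 ▸ (Submodule.map_mono a).trans (inv_iff_map.2 b)))
  omega

theorem PP.rk_ne_one (hn : Φ.Nondeg) (h : Iso Φ f) (h1 : PP Φ f true) : rk f ≠ 1 := fun h0 => by
  obtain ⟨U, W, h2, h3, h4, h5, h6⟩ := h1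
  rw [cond_true, inv_iff_map] at h5 h6
  have key : ∀ {U W : Submodule F V}, U ⊔ W = ⊤ → Φ.TotSing U → (a : Inv f U) → (b : Inv f W) →
      rk b.res = 0 → rk a.res = 0 := fun {U W} h2 h3 a b hb => by
    refine rk_eq_zero.2 (LinearMap.ext fun u => Subtype.ext (hn.ext fun v => ?_))
    obtain ⟨x, hx, z, hz, rfl⟩ := Submodule.mem_sup.1 (h2 ▸ Submodule.mem_top : v ∈ _)
    have : f z = z := congrArg Subtype.val (LinearMap.congr_fun (rk_eq_zero.1 hb) ⟨z, hz⟩)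
    rw [map_add, map_add, h3.1 _ (Subtype.prop _) _ hx, h3.1 _ (Subtype.prop _) _ hx, ← this]
    exact congrArg _ ((h.1 u z).trans (by rw [this]; rfl))
  rw [rk_add (polar_isCompl hn h2 h3 h4).1 h5 h6] at h0
  have := key h2 h3 h5 h6
  have := key (sup_comm U W ▸ h2) h4 h6 h5
  omega

theorem exists_levi' (hn : Φ.Nondeg) {W U' W' : Submodule F V} (hc : IsCompl U W)
    (hU : Φ.TotSing U) (hW : Φ.TotSing W) (hc' : IsCompl U' W') (hU' : Φ.TotSing U')
    (hW' : Φ.TotSing W') (A : U ≃ₗ[F] U') :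
    ∃ g : Φ.isom, (∀ u : U, g.1 u = A u) ∧ U.map g.1.toLinearMap = U' ∧ W.map g.1.toLinearMap = W' := by
  have ex : ∀ x : W, ∃ y : W', ∀ u : U, Φ.B y (A u) = Φ.B x u := fun x => by
    obtain ⟨w, hw⟩ := hn.exists_eq_B (Φ.B x ∘ₗ U.subtype ∘ₗ A.symm.toLinearMap ∘ₗ
      U'.projectionOnto W' hc')
    obtain ⟨a, y, rfl⟩ := exists_add_of_isCompl hc' w
    refine ⟨y, fun u => ?_⟩
    have := LinearMap.congr_fun hw (A u)
    rw [B_add_left, hU'.1 _ a.2 _ (A u).2, zero_add] at this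
    simpa using this
  choose h hh using ex
  have un : ∀ y y' : W', (∀ u : U, Φ.B y (A u) = Φ.B y' (A u)) → y = y' := fun y y' H =>
    Subtype.ext (hn.ext fun v => by
      obtain ⟨a, b, rfl⟩ := exists_add_of_isCompl hc' v
      obtain ⟨a, rfl⟩ := A.surjective a
      rw [map_add, map_add, H, hW'.1 _ y.2 _ b.2, hW'.1 _ y'.2 _ b.2])
  let H : W →ₗ[F] W' := ⟨⟨h, fun x y => un _ _ fun u => by simp [B_add_left, hh]⟩,
    fun c x => un _ _ fun u => by simp [B_smul_left, hh]⟩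
  let g : End F V := LinearMap.ofIsCompl hc (U'.subtype ∘ₗ A.toLinearMap) (W'.subtype ∘ₗ H)
  have g1 : ∀ u : U, g u = A u := fun u => LinearMap.ofIsCompl_apply_left hc u
  have g2 : ∀ u : W, g u = h u := fun u => LinearMap.ofIsCompl_apply_right hc u
  have g3 : ∀ (u : U) (x : W), Φ.B (A u) (h x) = Φ.B u x := fun u x => by rw [Φ.symm, hh, ← Φ.symm]
  suffices Iso Φ g by
    obtain ⟨k, hk⟩ := this.exists_isom hn
    have hA := A.finrank_eq
    have e := fun X : Submodule F V => LinearEquiv.finrank_map_eq k.1 X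
    have a := polar_isCompl hn hc.sup_eq_top hU hW
    have b := polar_isCompl hn hc'.sup_eq_top hU' hW'
    refine ⟨k, fun u => (LinearMap.congr_fun hk u).trans (g1 u), Submodule.eq_of_le_of_finrank_eq ?_
      (by rw [e]; omega), Submodule.eq_of_le_of_finrank_eq ?_ (by rw [e]; omega)⟩ <;>
      rintro _ ⟨x, hx, rfl⟩ <;> rw [hk]
    exacts [g1 ⟨x, hx⟩ ▸ Subtype.prop _, g2 ⟨x, hx⟩ ▸ Subtype.prop _]
  refine ⟨fun x y => ?_, fun x => ?_⟩
  · obtain ⟨a, b, rfl⟩ := exists_add_of_isCompl hc x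
    obtain ⟨c, d, rfl⟩ := exists_add_of_isCompl hc y
    simp only [map_add g, g1, g2, B_add_left, map_add (Φ.B _), g3, hh, hU.1 _ (Subtype.prop _) _
      (Subtype.prop _), hU'.1 _ (Subtype.prop _) _ (Subtype.prop _), hW.1 _ (Subtype.prop _) _
      (Subtype.prop _), hW'.1 _ (Subtype.prop _) _ (Subtype.prop _)]
  · obtain ⟨a, b, rfl⟩ := exists_add_of_isCompl hc x
    simp only [map_add g, g1, g2, Φ.Q_add, g3, hU.2 _ (Subtype.prop _), hU'.2 _ (Subtype.prop _),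
      hW.2 _ (Subtype.prop _), hW'.2 _ (Subtype.prop _)]

theorem glo_dvd_levi (hn : Φ.Nondeg) {W : Submodule F V} (hc : IsCompl U W) (hU : Φ.TotSing U)
    (hW : Φ.TotSing W) : glo (Nat.card F) (finrank F U) ∣ Nat.card ↥(Φ.isom ⊓ stab U ⊓ stab W) := by
  rw [← card_gl]
  refine Subgroup.card_dvd_of_surjective (G := ↥(Φ.isom ⊓ stab U ⊓ stab W))
    ⟨⟨fun g => restrictStab g.1 g.2.1.2, rfl⟩, fun _ _ => rfl⟩ fun A => ?_
  obtain ⟨g, h1, h2, h3⟩ := exists_levi' hn hc hU hW hc hU hW A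
  exact ⟨⟨g, ⟨g.2, mem_stab_iff_map.2 h2⟩, mem_stab_iff_map.2 h3⟩,
    LinearEquiv.ext fun u => Subtype.ext (h1 u)⟩

theorem dvd_of_polar (hn : Φ.Nondeg) {k : ℕ} (hk : Φ.WittIndex k) (hV : finrank F V = 2 * k)
    (h0 : 0 < k) {r : ℕ} (h : r ∣ Nat.card {P : Submodule F V × Submodule F V //
      IsCompl P.1 P.2 ∧ Φ.TotSing P.1 ∧ Φ.TotSing P.2} / 2) :
    r * glo (Nat.card F) k ∣ Nat.card Φ.isom := by
  obtain ⟨U, W, h1, h2, h3, rfl⟩ := exists_polar hn hk hV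
  have h4 := orbit_dvd (fun (g : Φ.isom) (P : Submodule F V × Submodule F V) =>
    (P.1.map g.1.toLinearMap, P.2.map g.1.toLinearMap)) (fun _ => Prod.ext (map_one_sub _) (map_one_sub _))
    (fun _ _ _ => Prod.ext (map_mul_sub _ _ _) (map_mul_sub _ _ _)) (U, W) (fun P => IsCompl P.1 P.2 ∧ Φ.TotSing P.1 ∧
      Φ.TotSing P.2) (fun P => ⟨fun ⟨a, b, c⟩ => ?_, ?_⟩)
    (Subgroup.inclusion (inf_le_left.trans inf_le_left : Φ.isom ⊓ stab U ⊓ stab W ≤ _))
    (Subgroup.inclusion_injective _) fun g =>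
      Prod.ext (mem_stab_iff_map.1 g.2.1.2) (mem_stab_iff_map.1 g.2.2)
  · refine (mul_dvd_mul (h.trans (Nat.div_dvd_of_dvd ?_)) (glo_dvd_levi hn h1 h2 h3)).trans h4
    rw [← Nat.card_congr (Equiv.subtypeEquiv (finTwoArrowEquiv _) (p := fun D => IsCompl (D 0) (D 1) ∧
      Φ.TotSing (D 0) ∧ Φ.TotSing (D 1)) fun _ => Iff.rfl)]
    refine factorial_dvd _ (fun D π h => ?_) fun D h i j hij => ?_
    · fin_cases π
      exacts [h, ⟨h.1.symm, h.2.2, h.2.1⟩]
    · have : D 0 ≠ D 1 := fun h' => by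
        have := (polar_isCompl hn h.1.sup_eq_top h.2.1 h.2.2).2.1
        rw [disjoint_self.1 (h' ▸ h.1.disjoint : Disjoint (D 0) (D 0)), finrank_bot] at this
        omega
      fin_cases i <;> fin_cases j <;> first | rfl | exact absurd hij this | exact absurd hij.symm this
  · obtain ⟨g, -, h5, h6⟩ := exists_levi' hn h1 h2 h3 a b c (LinearEquiv.ofFinrankEq _ _ (by
      have := (polar_isCompl hn a.sup_eq_top b c).2.1; omega))
    exact ⟨g, Prod.ext h5 h6⟩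
  · rintro ⟨g, rfl⟩
    exact ⟨(Submodule.orderIsoMapComap g.1).isCompl h1, h2.map g.2, h3.map g.2⟩

theorem exists_dvd_add_one {r q d v : ℕ} [hr : Fact r.Prime] (hq : 1 < q) (hrq : ¬ r ∣ q)
    (h : r * glo q d ∣ q ^ v * tq q d) : ∃ j, 0 < j ∧ j ≤ d ∧ r ∣ q ^ j + 1 := by
  have h1 : tq q d = (∏ j ∈ Finset.range d, (q ^ (j + 1) + 1)) *
      ∏ j ∈ Finset.range d, (q ^ (j + 1) - 1) := by
    rw [← Finset.prod_mul_distrib]
    exact Finset.prod_congr rfl fun j _ => by rw [← Nat.sq_sub_sq, ← pow_mul, one_pow, mul_comm]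
  rw [h1, glo, Finset.prod_mul_distrib, ← mul_assoc, ← mul_assoc] at h
  have h2 := dvd_of_mul_right_dvd (Nat.dvd_of_mul_dvd_mul_right (Finset.prod_pos fun i _ =>
    Nat.sub_pos_of_lt (Nat.one_lt_pow (by omega) hq)) h)
  obtain ⟨j, h3, h4⟩ := (hr.out.prime.dvd_finsetProd_iff _).1
    (((Nat.Prime.dvd_mul hr.out).1 h2).resolve_left fun h => hrq (hr.out.dvd_of_dvd_pow h))
  exact ⟨j + 1, j.succ_pos, Finset.mem_range.1 h3, h4⟩

end Cfsg.Agent.Elu
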