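import Cfsg.Agent.Elu.Herm
import Cfsg.Agent.Root.Ext3

/-! Extension field subgroups: semilinear maps `Sm K h` (`with_ext`, `Sm.cases`, `kd_res`,
`exists_tw`, `exists_frob_map`), transvections `exists_tv`. -/

set_option autoImplicit false

namespace Cfsg.Agent.Elu

open Module Polynomial Cfsg.Agent.Classical Cfsg.Agent.Geom Cfsg.Agent.Geom.Formed

universe u v

variable {F : Type*} [Field F] {V : Type u} [AddCommGroup V] [Module F V] {f h : End F V}

section tv

variable [Finite F] [FiniteDimensional F V]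

omit [Finite F] [FiniteDimensional F V] in
theorem pe_char {p : ℕ} [hp : Fact p.Prime] [CharP F p] (h1 : f ^ p = 1) (h2 : f ≠ 1) :
    LinearMap.det f = 1 ∧ PE p f := by
  have h3 : ∀ c : F, c ^ p = 1 → c = 1 := fun c hc =>
    frobenius_inj F p (by rw [map_one]; exact hc)
  refine ⟨h3 _ (by rw [← map_pow, h1, map_one]), ⟨1, by simpa using h1⟩, ?_⟩
  rintro c rfl
  rcases subsingleton_or_nontrivial V with _ | _
  · exact h2 (Subsingleton.elim _ _)
  · rw [_root_.smul_pow, one_pow, ← sub_eq_zero, ← one_smul F (1 : End F V), smul_smul, ← sub_smul,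
      smul_eq_zero, mul_one, sub_eq_zero] at h1
    exact h2 (by rw [h3 c (h1.resolve_right one_ne_zero), one_smul])

theorem exists_tv {p : ℕ} [hp : Fact p.Prime] [CharP F p] (hV : 2 ≤ finrank F V) :
    ∃ y : End F V, LinearMap.det y = 1 ∧ PE p y ∧ kd y (X - C 1) + 1 = finrank F V := by
  obtain ⟨y, h1, h2, h3⟩ := exists_jt (F := F) (V := V) (a := 2) (p := p) one_lt_two hp.out.two_le hV
  refine ⟨y, (pe_char h1 h2).1, (pe_char h1 h2).2, ?_⟩
  have h5 := h3.kd 1
  rw [kd, show aeval y (X - C 1 : F[X]) = (y - 1) ^ 1 by simp]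
  simp only [Multiset.map_cons, Multiset.map_replicate, Multiset.sum_cons, Multiset.sum_replicate,
    min_self, smul_eq_mul, mul_one] at h5
  omega

theorem exists_refl2 (hV : 3 ≤ finrank F V) {t : F} {r : ℕ} (ht : t ^ r = 1)
    (h1 : t ≠ 1) (hr : r ≠ 0) : ∃ y : End F V, LinearMap.det y = 1 ∧ PE r y ∧ y ^ r = 1 ∧
      kd y (X - C 1) + 2 = finrank F V ∧ (t⁻¹ ≠ t → kd y (X - C t) = 1) := by
  classical
  have h0 : t ≠ 0 := by rintro rfl; simp [hr] at ht
  obtain ⟨y, hy⟩ := exists_dg (F := F) (V := V)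
    (T := t ::ₘ t⁻¹ ::ₘ Multiset.replicate (finrank F V - 2) 1) (by simp; omega)
  have h3 : y ^ r = 1 := hy.pow_iff.2 (by simp +contextual [Multiset.mem_replicate, ht])
  refine ⟨y, by simp [hy.det, h0], ⟨⟨1, by simpa using h3⟩, hy.ne_smul (s := t) (t := 1) (by simp)
    (by simp [Multiset.mem_replicate]; omega) h1⟩, h3, ?_, fun h => ?_⟩
  · rw [hy.kd, Multiset.count_cons_of_ne h1.symm, Multiset.count_cons_of_ne (by simpa using h1),
      Multiset.count_replicate_self]
    omega
  · rw [hy.kd, Multiset.count_cons_self, Multiset.count_cons_of_ne h.symm, Multiset.count_replicate,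
      if_neg h1.symm]

end tv

variable {K : Type*} [Field K] [Algebra F K] [Module K V] [IsScalarTower F K V]

variable (K) in
/-- `h` is injective and semilinear over `K`. -/
def Sm (h : End F V) : Prop := Function.Injective h ∧ ∀ k : K, ∃ k' : K, ∀ v, h (k • v) = k' • h v

theorem with_ext {F : Type v} [Field F] [Finite F] {ι : Type} [Fintype ι] [DecidableEq ι] [Nonempty ι]
    {r : ℕ} {S : Subalgebra F (Matrix ι ι F)} (hS : Geo.IsFieldSubalgebra r S) {C : Prop}
    (h : ∀ (K : Type v) [Field K] [Finite K] [Algebra F K] [Module K (ι → F)]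
      [IsScalarTower F K (ι → F)] [FiniteDimensional K (ι → F)], finrank F K = r →
      (∀ m ∈ S, ∃ k : K, ∀ v, m.mulVec v = k • v) → (∀ k : K, ∃ m ∈ S, ∀ v, m.mulVec v = k • v) →
      InG (Geo.subalgebraNormalizer S) = Sm K → C) : C := by
  refine Root.Mx.with_field hS fun K _ _ _ _ h1 h2 h3 h4 => ?_
  have : FiniteDimensional F K := .of_finrank_pos (h1 ▸ Asch.Fld.pos hS)
  have : Finite K := Module.finite_of_finite F
  have := FiniteDimensional.right F K (ι → F)
  refine h K h1 (fun m hm => (h2 m).1 hm) h3 (inG_iff (fun g => ?_) fun _ h => h.1)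
  rw [h4, Root.Mx.mem_normG_scal, ← coe_glEquiv]
  exact (and_iff_right (glEquiv ι F g).injective).symm

theorem Sm.smul (w : F) (h : End F V) (hw : w ≠ 0) (hh : Sm K h) : Sm K (w • h) :=
  ⟨(smul_right_injective V hw).comp hh.1, fun k => (hh.2 k).imp fun k' e v => by
    simp [e, smul_comm w k']⟩

theorem sm_res {g : End K V} (hg : Function.Injective g) : Sm K (g.restrictScalars F) :=
  ⟨hg, fun k => ⟨k, g.map_smul k⟩⟩

theorem res_pow (g : End K V) (n : ℕ) :
    (g.restrictScalars F : End F V) ^ n = (g ^ n).restrictScalars F := by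
  induction n with
  | zero => rfl
  | succ n ih => rw [pow_succ, pow_succ, ih]; rfl

theorem res_pow_iff {g : End K V} {n : ℕ} {c : F} : (g.restrictScalars F : End F V) ^ n = c • 1 ↔
    g ^ n = algebraMap F K c • 1 := by
  rw [res_pow, LinearMap.ext_iff, LinearMap.ext_iff]; simp

theorem res_pow_one {g : End K V} {n : ℕ} : (g.restrictScalars F : End F V) ^ n = 1 ↔ g ^ n = 1 := by
  simpa using res_pow_iff (g := g) (n := n) (c := (1 : F))

theorem aeval_res (g : End K V) (b : F[X]) : aeval (g.restrictScalars F : End F V) b =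
    (aeval g (b.map (algebraMap F K))).restrictScalars F := by
  induction b using Polynomial.induction_on' with
  | add a b ha hb => rw [map_add, ha, hb, Polynomial.map_add, map_add]; rfl
  | monomial n c =>
    ext v; rw [Polynomial.map_monomial, aeval_monomial, aeval_monomial, res_pow]; simp

theorem kd_res (g : End K V) (b : F[X]) :
    kd (g.restrictScalars F : End F V) b = finrank F K * kd g (b.map (algebraMap F K)) := by
  rw [kd, aeval_res, kd, finrank_mul_finrank]; rfl

theorem kd_res' (g : End K V) (c : F) :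
    kd (g.restrictScalars F : End F V) (X - C c) = finrank F K * kd g (X - C (algebraMap F K c)) := by
  simp [kd_res]

theorem Sm.aut [Nontrivial V] [Finite K] (hh : Sm K h) :
    ∃ α : K ≃ₐ[F] K, ∀ k v, h (k • v) = α k • h v := by
  choose s hs using hh.2
  obtain ⟨x, hx⟩ := exists_ne (0 : V)
  have h1 : Function.Injective fun k : K => k • h x :=
    smul_left_injective K ((map_ne_zero_iff h hh.1).2 hx)
  let α : K →ₐ[F] K :=
    { toFun := s
      map_one' := h1 (by simp [← hs])
      map_mul' := fun a b => h1 (by simp only [← hs, mul_smul])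
      map_zero' := h1 (by simp [← hs])
      map_add' := fun a b => h1 (by simp only [← hs, add_smul, map_add])
      commutes' := fun c => h1 (by simp [← hs]) }
  exact ⟨AlgEquiv.ofBijective α α.bijective, hs⟩

omit [IsScalarTower F K V] in
theorem tw_pow {α : K ≃ₐ[F] K} (H : ∀ k v, h (k • v) = α k • h v) (n : ℕ) (k : K) (v : V) :
    (h ^ n) (k • v) = (α ^ n) k • (h ^ n) v := by
  induction n with
  | zero => rfl
  | succ n ih => rw [pow_succ', pow_succ', End.mul_apply, ih, H]; rfl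

theorem tw_le [FiniteDimensional F V] {α : K ≃ₐ[F] K} (H : ∀ k v, h (k • v) = α k • h v) (hα : α ≠ 1)
    {c : F} (hc : c ≠ 0) : 2 * kd h (X - C c) ≤ finrank F V := by
  obtain ⟨k, hk⟩ : ∃ k, α k ≠ k := by by_contra! h; exact hα (AlgEquiv.ext h)
  have h0 : k ≠ 0 := by rintro rfl; simp at hk
  let e := (LinearEquiv.smulOfNeZero K V k h0).restrictScalars F
  have h1 := Submodule.finrank_sup_add_finrank_inf_eq (kerA h (X - C c))
    ((kerA h (X - C c)).map e.toLinearMap)
  have h2 : kerA h (X - C c) ⊓ (kerA h (X - C c)).map e.toLinearMap = ⊥ := by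
    rw [Submodule.eq_bot_iff]
    rintro _ ⟨h3, v, h4, rfl⟩
    simp [e, sub_eq_zero, H] at h3 h4 ⊢
    rw [h4, smul_comm, smul_right_inj hc, ← sub_eq_zero, ← sub_smul, smul_eq_zero, sub_eq_zero] at h3
    exact Or.inr (h3.resolve_left hk)
  have h3 := Submodule.finrank_le (kerA h (X - C c) ⊔ (kerA h (X - C c)).map e.toLinearMap)
  rw [h2, finrank_bot, LinearEquiv.finrank_map_eq] at h1
  change 2 * finrank F (kerA h (X - C c)) ≤ _
  omega

theorem Sm.cases [Nontrivial V] [Finite K] [FiniteDimensional F V] (hk : (finrank F K).Prime)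
    (hh : Sm K h) : (∃ g : End K V, h = g.restrictScalars F) ∨
      ((∀ c ≠ 0, 2 * kd h (X - C c) ≤ finrank F V) ∧
        ∀ (r : ℕ) (c : F), h ^ r = c • 1 → finrank F K ∣ r) := by
  obtain ⟨α, H⟩ := hh.aut
  by_cases hα : α = 1
  · subst hα
    exact Or.inl ⟨⟨h.toAddHom, H⟩, rfl⟩
  refine Or.inr ⟨fun c => tw_le H hα, fun r c hr => ?_⟩
  have h1 : orderOf α = finrank F K := ((Nat.dvd_prime hk).1 (IsGalois.card_aut_eq_finrank F K ▸
    orderOf_dvd_natCard α)).resolve_left (by simpa using hα)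
  obtain ⟨x, hx⟩ := exists_ne (0 : V)
  have h2 : (h ^ r) x ≠ 0 := (map_ne_zero_iff _ (by
    rw [End.coe_pow]; exact hh.1.iterate r)).2 hx
  rw [← h1, orderOf_dvd_iff_pow_eq_one]
  refine AlgEquiv.ext fun k => smul_left_injective K h2 ?_
  change _ = k • _
  simp only [← tw_pow H]
  simp [hr, smul_comm c k]

theorem Sm.rk_ne [Finite K] [FiniteDimensional F V] (hk : (finrank F K).Prime) (hh : Sm K h)
    (hV : 2 < finrank F V) {c : F} (hc : c ≠ 0) : kd h (X - C c) + 1 ≠ finrank F V := fun e => by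
  have : Nontrivial V := (finrank_pos_iff (R := F)).1 (by omega)
  rcases hh.cases hk with ⟨g, rfl⟩ | h
  · rw [kd_res, ← finrank_mul_finrank F K V] at e
    exact hk.not_dvd_one ((Nat.dvd_add_right (dvd_mul_right _ _)).1 (e ▸ dvd_mul_right _ _))
  · have := h.1 c hc; omega

theorem tw_ext {ι : Type*} (b : Basis ι K V) {W : Type*} [AddCommGroup W] [Module K W]
    {φ ψ : V →+ W} {α : K → K} (h1 : ∀ k v, φ (k • v) = α k • φ v) (h2 : ∀ k v, ψ (k • v) = α k • ψ v)
    (h3 : ∀ i, φ (b i) = ψ (b i)) (v : V) : φ v = ψ v := by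
  have := b.mem_span v
  induction this using Submodule.span_induction with
  | mem _ h => obtain ⟨i, rfl⟩ := h; exact h3 i
  | zero => simp
  | add _ _ _ _ a c => simp [a, c]
  | smul _ _ _ a => rw [h1, h2, a]

theorem exists_tw {ι : Type*} [Finite ι] (b : Basis ι K V) (α : K ≃ₐ[F] K) :
    ∃ h : End F V, Sm K h ∧ (∀ k v, h (k • v) = α k • h v) ∧ (∀ i, h (b i) = b i) ∧
      ∀ n, α ^ n = 1 → h ^ n = 1 := by
  classical
  have := Fintype.ofFinite ι
  let h : End F V := (b.equivFun.symm.toLinearMap.restrictScalars F) ∘ₗ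
    α.toLinearMap.compLeft ι ∘ₗ (b.equivFun.toLinearMap.restrictScalars F)
  have h0 : ∀ v, h v = b.equivFun.symm (α ∘ b.equivFun v) := fun _ => rfl
  have h1 : ∀ k v, h (k • v) = α k • h v := fun k v => by
    rw [h0, h0, ← map_smul, map_smul]; congr 1; ext; simp
  have h2 : ∀ i, h (b i) = b i := fun i => by
    rw [h0, LinearEquiv.symm_apply_eq]; ext j; simp [Finsupp.single_apply, apply_ite α]
  refine ⟨h, ⟨b.equivFun.symm.injective.comp ((α.injective.comp_left).comp b.equivFun.injective),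
    fun k => ⟨_, h1 k⟩⟩, h1, h2, fun n hn => LinearMap.ext (tw_ext b (φ := (h ^ n).toAddMonoidHom)
      (ψ := AddMonoidHom.id V) (α := id) (fun k v => ?_) (fun _ _ => rfl) fun i => ?_)⟩
  · simpa [hn] using tw_pow h1 n k v
  · simpa [End.coe_pow] using Function.iterate_fixed (h2 i) n

theorem exists_aut [Finite K] (hk : (finrank F K).Prime) :
    ∃ α : K ≃ₐ[F] K, α ≠ 1 ∧ α ^ finrank F K = 1 := by
  have h1 := IsGalois.card_aut_eq_finrank F K
  have : Nontrivial (K ≃ₐ[F] K) := Finite.one_lt_card_iff_nontrivial.1 (h1 ▸ hk.one_lt)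
  obtain ⟨α, hα⟩ := exists_ne (1 : K ≃ₐ[F] K)
  exact ⟨α, hα, h1 ▸ pow_card_eq_one'⟩

theorem exists_frob_map [Finite K] [FiniteDimensional F V] [FiniteDimensional K V]
    (hk : (finrank F K).Prime) : ∃ h : End F V, Sm K h ∧ h ^ finrank F K = 1 ∧
      ∀ c ≠ 0, 2 * kd h (X - C c) ≤ finrank F V := by
  obtain ⟨α, h1, h2⟩ := exists_aut hk
  obtain ⟨h, a, b, -, c⟩ := exists_tw (finBasis K V) α
  exact ⟨h, a, c _ h2, fun c => tw_le b h1⟩

theorem exists_root [Finite F] [Finite K] (hk : (finrank F K).Prime) {c : F}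
    (hc : ¬ ∃ w, w ^ finrank F K = c) : ∃ θ : K, θ ^ finrank F K = algebraMap F K c := by
  have : Fact (Irreducible (X ^ finrank F K - C c)) :=
    ⟨(X_pow_sub_C_irreducible_iff_of_prime hk).2 (by simpa using hc)⟩
  obtain ⟨φ⟩ := FiniteField.nonempty_algHom_of_finrank_dvd (F := F)
    (K := AdjoinRoot (X ^ finrank F K - C c)) (L := K) (by
      rw [(AdjoinRoot.powerBasis this.out.ne_zero).finrank]; simp)
  exact ⟨φ (AdjoinRoot.root _), by rw [← map_pow, root_X_pow_sub_C_pow]; exact φ.commutes c⟩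

theorem cj_exc [Finite F] [Finite K] [FiniteDimensional F V] {r : ℕ} [hr : Fact r.Prime]
    (hk : finrank F K = r) {c : F} (h1 : f ^ r = c • 1) (hc : ¬ ∃ w, w ^ r = c) : Cj (Sm K) f := by
  subst hk
  obtain ⟨θ, h2⟩ := exists_root hr.out hc
  have h0 : c ≠ 0 := fun h => hc ⟨0, by simp [h, hr.out.ne_zero]⟩
  have h3 : θ ≠ 0 := by rintro rfl; rw [zero_pow hr.out.ne_zero, eq_comm] at h2; simp [h0] at h2
  refine ⟨(θ • (1 : End K V)).restrictScalars F, sm_res (smul_right_injective V h3), ?_⟩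
  obtain ⟨a, a1, a2⟩ := ((cases_pow h0 h1).resolve_left fun ⟨w, h, _⟩ => hc ⟨w, h⟩).2
  obtain ⟨b, b1, b2⟩ := ((cases_pow h0 (res_pow_iff.2 (show (θ • (1 : End K V)) ^ _ = _ by
    rw [_root_.smul_pow, one_pow, h2]))).resolve_left fun ⟨w, h, _⟩ => hc ⟨w, h⟩).2
  rw [a2, b2, Nat.eq_of_mul_eq_mul_right hr.out.pos (a1.trans b1.symm)]

end Cfsg.Agent.Elu
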