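import Cfsg.Agent.Elu.Ext

/-! Elusivity criteria for extension field subgroups of `SL` (`ext_two`, `ext_singer`, `ext_three`). -/

set_option autoImplicit false

namespace Cfsg.Agent.Elu

open Module Polynomial Cfsg.Agent.Classical Cfsg.Agent.Geom Cfsg.Agent.Geom.Formed

universe u

variable {F : Type*} [Field F] [Finite F] {V : Type u} [AddCommGroup V] [Module F V]
  [FiniteDimensional F V] {K : Type*} [Field K] [Finite K] [Algebra F K] [Module K V]
  [IsScalarTower F K V] [FiniteDimensional K V] {f y : End F V}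

theorem inj_of_pow {R M : Type*} [Ring R] [AddCommGroup M] [Module R M] {g : End R M} {r : ℕ}
    (hr : r ≠ 0) (h : g ^ r = 1) : Function.Injective g :=
  End.injective_of_iterate_injective hr (h ▸ Function.injective_id)

theorem odd_card_iff : Odd (Nat.card F) ↔ (2 : F) ≠ 0 := by
  have := Fintype.ofFinite F
  rw [Nat.card_eq_fintype_card]; exact ⟨Asch.two_ne_zero_of_odd, Asch.odd_of_two_ne_zero⟩

omit [FiniteDimensional K V] in
theorem not_cj_refl (hk : (finrank F K).Prime) (h : 2 < finrank F V)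
    (h3 : kd y (X - C 1) + 1 = finrank F V) : ¬ Cj (Sm K) y := fun ⟨_, h4, h5⟩ =>
  h4.rk_ne hk h one_ne_zero (by rwa [kd_of_eq h5])

omit [Finite F] [FiniteDimensional F V] in
theorem exists_res_inv (h3 : (2 : F) ≠ 0) {j : ℕ} (hj : j ≤ finrank K V) : ∃ g : End K V, g ^ 2 = 1 ∧
    kd (g.restrictScalars F : End F V) (X - C (-1)) = finrank F K * j := by
  classical
  obtain ⟨g, hg⟩ := exists_dg (F := K) (V := V) (T := Multiset.replicate j (-1) +
    Multiset.replicate (finrank K V - j) 1) (by simp; omega)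
  have b6 : (1 : K) ≠ -1 := fun h => h3 ((algebraMap F K).injective (by
    rw [map_ofNat, map_zero]; linear_combination h))
  refine ⟨g, hg.pow_iff.2 (by simp +contextual [Multiset.mem_replicate, or_imp]), ?_⟩
  rw [kd_res', map_neg, map_one, hg.kd]
  simp [Multiset.count_replicate, b6, b6.symm]

theorem ext_two (h1 : finrank F K = 2) (hn : 2 ≤ finrank F V) :
    (∀ f : End F V, LinearMap.det f = 1 → PE 2 f → Cj (Sm K) f) ↔ finrank F V = 2 ∨
      (Odd (Nat.card F) ∧ padicValNat 2 (Nat.card F - 1) ≤ padicValNat 2 (finrank F V)) := by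
  have hk : (finrank F K).Prime := h1 ▸ Nat.prime_two
  have hP := Cj.smul (Sm.smul (F := F) (K := K) (V := V))
  obtain ⟨φ, a1, a2, a3⟩ := exists_frob_map (V := V) hk
  rw [h1] at a2
  have a4 := a3 1 one_ne_zero
  have b4 := finrank_mul_finrank F K V
  rw [h1] at b4
  rw [odd_card_iff]
  by_cases h3 : (2 : F) = 0
  · have : CharP F 2 := CharTwo.of_one_ne_zero_of_two_eq_zero one_ne_zero h3
    simp only [h3, ne_eq, not_true, false_and, or_false]
    refine ⟨fun H => ?_, fun hV => ?_⟩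
    · by_contra h
      obtain ⟨y, b1, b2, b3⟩ := exists_tv (F := F) (V := V) (p := 2) hn
      exact not_cj_refl hk (by omega) b3 (H y b1 b2)
    · rw [forall_two_le (by rw [orderOf_char]; decide) (by omega) hP]
      refine fun y b1 b2 => ⟨φ, a1, (eq_of_two_char a2 b1).2 ?_⟩
      have := (eq_of_two_char a2 b1).1
      have := (eq_of_two_char b1 b1).1
      have := rk_add_kd (f := φ)
      have := rk_eq_zero.not.2 b2
      omega
  have hA : ∀ y : End F V, y ^ 2 = 1 → Even (kd y (X - C (-1))) → Cj (Sm K) y := by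
    rintro y b1 ⟨j, b2⟩
    have b3 := kd_le y (X - C (-1))
    obtain ⟨g, b5, b6⟩ := exists_res_inv (K := K) (V := V) h3 (j := j) (by omega)
    exact ⟨_, sm_res (inj_of_pow two_ne_zero b5), eq_of_inv h3 (res_pow_one.2 b5) b1 (by rw [b6, h1]; omega)⟩
  rcases hn.eq_or_lt with hV | hn
  · refine iff_of_true ((forall_pe_iff hP).2 ⟨fun y _ b1 _ _ => ?_, fun f c _ b1 b2 _ =>
      cj_exc h1 b1 b2⟩) (Or.inl hV.symm)
    refine (Nat.even_or_odd _).elim (hA y b1) fun h => ⟨φ, a1, eq_of_inv h3 a2 b1 ?_⟩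
    have := a3 (-1) (by simp)
    have := kd_le y (X - C (-1))
    have : kd φ (X - C 1) + kd φ (X - C (-1)) = _ := finrank_fix (isCoprime_two h3) (aeval_two a2)
    have := Nat.odd_iff.1 h
    omega
  rw [forall_refl h3 hn.le ⟨finrank K V, by omega⟩ hP hA (fun f c => cj_exc h1)
    fun y _ => not_cj_refl hk hn]
  simp [h3, hn.ne']

omit [FiniteDimensional K V] in
theorem Cj.singer (hk : (finrank F K).Prime) (hV : finrank F V = finrank F K) (h : Cj (Sm K) y) {c : F}
    (hc : c ≠ 0) : 2 * kd y (X - C c) ≤ finrank F V ∨ kd y (X - C c) = finrank F V := by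
  obtain ⟨g, h1, h2⟩ := h
  have : Nontrivial V := (finrank_pos_iff (R := F)).1 (hV ▸ hk.pos)
  rw [← kd_of_eq h2]
  rcases h1.cases hk with ⟨g, rfl⟩ | h
  · have h3 := kd_le (g.restrictScalars F : End F V) (X - C c)
    rw [kd_res, hV] at *
    rcases Nat.eq_zero_or_pos (kd g ((X - C c).map (algebraMap F K))) with h | h
    · rw [h]; simp
    · exact Or.inr (h3.antisymm (Nat.le_mul_of_pos_right _ h))
  · exact Or.inl (h.1 c hc)

theorem singer_pos {r : ℕ} [hr : Fact r.Prime] (h1 : finrank F K = r) (hV : finrank F V = r)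
    (h3 : 2 < r) (h : (r : F) ≠ 0) (hi : orderOf (Nat.card F : ZMod r) = r - 1) :
    ∀ f : End F V, LinearMap.det f = 1 → PE r f → Cj (Sm K) f := by
  obtain ⟨φ, a1, a2, a3⟩ := exists_frob_map (V := V) (h1 ▸ hr.out)
  have key : ∀ y : End F V, y ^ r = 1 → y ≠ 1 → elemDiv y = {X - C 1, cyclotomic r F} := by
    intro y b1 b2
    obtain ⟨k, D, c1, c2, c3⟩ := split_of_pow h b1
    rw [hi, hV] at c3
    have c4 : D.card ≠ 0 := fun c4 => b2 (by
      rw [Multiset.card_eq_zero.1 c4, add_zero] at c1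
      exact (eq_smul_one_of_forall fun a ha => Multiset.eq_of_mem_replicate (c1 ▸ ha)).trans (one_smul _ _))
    have c5 : D.card = 1 := by
      by_contra c5
      have := Nat.mul_le_mul_left (r - 1) (show 2 ≤ D.card by omega)
      omega
    obtain ⟨g, rfl⟩ := Multiset.card_eq_one.1 c5
    rw [c1, (c2 g (by simp)).eq h hi, show k = 1 by simp at c3; omega]
    rfl
  rw [forall_two_le (by omega) (by omega) (Cj.smul Sm.smul)]
  refine fun y b1 b2 => ⟨φ, a1, (key φ (h1 ▸ a2) ?_).trans (key y b1 b2).symm⟩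
  rintro rfl
  have := a3 1 one_ne_zero
  rw [kd_eq_finrank_iff.2 (by simp)] at this
  omega

omit [FiniteDimensional K V] in
theorem singer_neg {r : ℕ} [hr : Fact r.Prime] (h1 : finrank F K = r) (hV : finrank F V = r)
    (h3 : 3 < r) (h : (r : F) ≠ 0) (H : ∀ f : End F V, LinearMap.det f = 1 → PE r f → Cj (Sm K) f) :
    orderOf (Nat.card F : ZMod r) = r - 1 := by
  have h5 : r ≠ 4 := by rintro rfl; exact absurd hr.out (by decide)
  by_cases hi : orderOf (Nat.card F : ZMod r) = 1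
  · obtain ⟨χ, b1, b2⟩ := exists_chi hi
    obtain ⟨y, c1, c2, -, c3, -⟩ := exists_refl2 (F := F) (V := V) (by omega) ((b2 _).2 ⟨1, rfl⟩)
      (fun h => one_ne_zero (b1 (h.trans χ.map_zero_eq_one.symm))) hr.out.ne_zero
    have := (H y c1 c2).singer (h1 ▸ hr.out) (hV.trans h1.symm) one_ne_zero
    omega
  rw [forall_two_le hi (by omega) (Cj.smul Sm.smul)] at H
  have h2 := ord_pos h
  obtain ⟨t, ht⟩ := ZMod.orderOf_dvd_card_sub_one (a := (Nat.card F : ZMod r)) (by
    rw [Ne, ZMod.natCast_eq_zero_iff]; exact not_dvd_card' h)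
  by_contra h4
  have h6 := Nat.mul_le_mul_left (orderOf (Nat.card F : ZMod r)) (show 2 ≤ t by
    rcases t with _ | _ | t <;> omega)
  obtain ⟨y, c1, c2, -, c3⟩ := exists_blocks (V := V) h one_pos (by omega)
  have := (H y c1 c2).singer (h1 ▸ hr.out) (hV.trans h1.symm) one_ne_zero
  omega

theorem eq_three : ∀ a b c : ZMod 3, ((∀ t, ({a, b, c} : Multiset (ZMod 3)).count t ≤ 1) ∨
    (a + b + c = 0 ∧ ¬ (a = b ∧ b = c))) → ({a, b, c} : Multiset (ZMod 3)) = {0, 1, 2} := by
  decide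

theorem exists_dg_chi {r : ℕ} [hr : Fact r.Prime] (h : (r : F) ≠ 0)
    (hi : orderOf (Nat.card F : ZMod r) = 1) {χ : AddChar (ZMod r) F} (hχ : ∀ t, t ^ r = 1 ↔ ∃ a, χ a = t)
    (hy : y ^ r = 1) : ∃ A : Multiset (ZMod r), Dg y (A.map χ) := by
  obtain ⟨T, hT⟩ := dg_of_pow h hi hy
  choose! s hs using fun t => (hχ t).1
  exact ⟨T.map s, by
    rwa [Multiset.map_map, Multiset.map_congr (f := χ ∘ s) rfl fun t ht =>
      hs t (hT.pow_iff.1 hy t ht), Multiset.map_id']⟩

theorem ext_three (h1 : finrank F K = 3) (hV : finrank F V = 3) (h : (3 : F) ≠ 0)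
    (hi : orderOf (Nat.card F : ZMod 3) = 1) :
    (∀ f : End F V, LinearMap.det f = 1 → PE 3 f → Cj (Sm K) f) ↔
      padicValNat 3 (Nat.card F - 1) ≤ 1 := by
  have hP := Cj.smul (Sm.smul (F := F) (K := K) (V := V))
  have hk : (finrank F K).Prime := h1 ▸ Nat.prime_three
  obtain ⟨χ, b1, b2⟩ := exists_chi hi
  refine ⟨fun H => ?_, fun H => (forall_pe_iff hP).2 ⟨fun y w c1 c2 c3 => ?_,
    fun f c _ c1 c2 _ => cj_exc h1 c1 c2⟩⟩
  · by_contra h2
    obtain ⟨y, -, c1, c2⟩ := exists_diag b1 b2 hP H (A := {0, 0, 1}) (by simp [hV]) (a := 0) (b := 1)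
      (by simp) (by simp) (by decide) (Or.inr (by rw [hV]; simpa using h2))
    have := c1.singer hk (hV.trans h1.symm) (c := χ 0) (by simp)
    rw [c2, hV] at this
    exact absurd this (by decide)
  obtain ⟨φ, a1, a2, a3⟩ := exists_frob_map (V := V) hk
  obtain ⟨A, hA⟩ := exists_dg_chi (y := y) h hi b2 c1
  obtain ⟨B, hB⟩ := exists_dg_chi (y := φ) h hi b2 (by rwa [h1] at a2)
  obtain ⟨a, b, c, rfl⟩ := Multiset.card_eq_three.1 (by simpa [hV] using hA.card)
  obtain ⟨a', b', c', rfl⟩ := Multiset.card_eq_three.1 (by simpa [hV] using hB.card)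
  have d1 := root_eq_one (r := 3) (by omega) (by rw [hV]; simpa using H)
    (by rw [← map_pow, c1, map_one]) c3
  rw [hA.det, chi_sum] at d1
  rw [eq_three a b c (Or.inr ⟨by simpa [add_assoc] using b1 (d1.trans χ.map_zero_eq_one.symm), by
    rintro ⟨rfl, rfl⟩
    exact c2 (χ a) (eq_smul_one_of_forall fun g hg => by rw [hA] at hg; simpa using hg)⟩)] at hA
  rw [eq_three a' b' c' (Or.inl fun t => by
    have := a3 (χ t) fun h => by simpa [h] using (b2 _).2 ⟨t, rfl⟩
    rw [hB.kd_chi b1 b2] at this; omega)] at hB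
  exact ⟨φ, a1, hB.trans hA.symm⟩

end Cfsg.Agent.Elu
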