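import Cfsg.Agent.Elu.ExtSl
import Cfsg.Agent.Classical.FieldRed

/-! Extension field subgroups of symplectic groups: trace forms `Tf`, conjugacy in `Sp` (`Spu.cg`),
and the elusivity criteria `ext_sp`, `ext_gu`. -/

set_option autoImplicit false

namespace Cfsg.Agent.Elu

open Module Polynomial Cfsg.Agent.Classical Cfsg.Agent.Geom Cfsg.Agent.Geom.Formed

universe u

theorem tq_tq {r q k m u v : ℕ} [hr : Fact r.Prime] (hq : 1 < q) (hrq : ¬ r ∣ q) (hk : 0 < k)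
    (h : r * (u * tq (q ^ k) m) ∣ q ^ v * tq q (k * m)) :
    ∃ j, 0 < j ∧ j ≤ k * m ∧ ¬ k ∣ j ∧ cdim (orderOf (q : ZMod r)) ∣ 2 * j := by
  have h0 : ∏ j ∈ (Finset.range m).image (fun j => k * (j + 1) - 1), (q ^ (2 * (j + 1)) - 1) =
      tq (q ^ k) m := by
    rw [Finset.prod_image fun a _ b _ h => by
      simp only [mul_add_one] at h; exact Nat.eq_of_mul_eq_mul_left hk (by omega)]
    exact Finset.prod_congr rfl fun j _ => by
      rw [Nat.sub_add_cancel (Nat.mul_pos hk j.succ_pos), ← pow_mul, mul_left_comm]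
  rw [← h0] at h
  obtain ⟨j, h1, h2, h3⟩ := exists_dvd_sdiff hr.out _ (fun j => Nat.sub_pos_of_lt
    (Nat.one_lt_pow (by omega) hq)) (fun h' => hrq (hr.out.dvd_of_dvd_pow h')) h
  rw [Finset.mem_range] at h1
  refine ⟨j + 1, j.succ_pos, h1, ?_, cdim_dvd (orderOf_dvd_of_dvd (by omega) h3)⟩
  rintro ⟨_ | t, ht⟩
  · omega
  · exact h2 (Finset.mem_image.2 ⟨t, Finset.mem_range.2 (Nat.lt_of_mul_lt_mul_left (a := k)
      (by rw [mul_add_one] at ht; omega)), by omega⟩)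

theorem gu_tq {r q n u v : ℕ} [hr : Fact r.Prime] (hq : 1 < q) (hrq : ¬ r ∣ q)
    (h : r * (u * ∏ i ∈ Finset.range n, (if Even i then q ^ (i + 1) + 1 else q ^ (i + 1) - 1)) ∣
      q ^ v * tq q n) : ∃ j, 0 < j ∧ j ≤ n ∧ (-q : ZMod r) ^ j = -1 := by
  rcases n with _ | n
  · exact absurd (hr.out.dvd_of_dvd_pow ((dvd_mul_right _ _).trans (by simpa [tq] using h))) hrq
  obtain ⟨j, h1, h2⟩ := exists_dvd_cancel (u := u) hr.out (s := Finset.range (n + 1))
    (b := fun i => q ^ v * if Even i then q ^ (i + 1) - 1 else q ^ (i + 1) + 1)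
    (fun j _ => gu_pos hq j) (by
      refine h.trans (((Nat.mul_dvd_mul_right (dvd_pow_self _ n.succ_ne_zero) _).trans (dvd_of_eq ?_)))
      rw [show (q ^ v) ^ n.succ = ∏ _j ∈ Finset.range (n + 1), q ^ v by simp, tq,
        ← Finset.prod_mul_distrib]
      refine Finset.prod_congr rfl fun j _ => ?_
      rw [mul_comm 2, pow_mul q (j + 1), ← one_pow 2, Nat.sq_sub_sq]
      split_ifs <;> ring_nf)
  refine ⟨j + 1, by omega, Finset.mem_range.1 h1, ?_⟩
  replace h2 := (hr.out.dvd_mul.1 h2).resolve_left fun h => hrq (hr.out.dvd_of_dvd_pow h)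
  split_ifs at h2 with h3
  · rw [h3.add_one.neg_pow, neg_inj, ← orderOf_dvd_iff_pow_eq_one]
    exact orderOf_dvd_of_dvd (by omega) h2
  · rw [(Nat.not_even_iff_odd.1 h3).add_one.neg_pow]
    exact dvd_pow_add_one_iff.1 h2

theorem cdim_le {r q : ℕ} [hr : Fact r.Prime] (h3 : 2 < r) (hq : ¬ r ∣ q) :
    cdim (orderOf (q : ZMod r)) ≤ r - 1 := by
  obtain ⟨t, ht⟩ := (hr.out.odd_of_ne_two h3.ne')
  refine Nat.le_of_dvd (by omega) (show r - 1 = 2 * t by omega ▸ cdim_dvd (show r - 1 = 2 * t by omega ▸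
    ZMod.orderOf_dvd_card_sub_one (by rwa [Ne, ZMod.natCast_eq_zero_iff])))

variable {F : Type*} [Field F] [Finite F] {V : Type u} [AddCommGroup V] [Module F V]
  [FiniteDimensional F V] {Φ : Formed (RingHom.id F) V} {f g h : End F V} {S : End F V → Prop}

theorem Spu.cg (hΦ : Spu Φ) (hn : Φ.Nondeg) (hf : Iso Φ f) (hh : Iso Φ h) {n : ℕ} (h0 : (n : F) ≠ 0)
    (h1 : h ^ n = 1) (he : elemDiv h = elemDiv f) (hS : S h) : Cg (Iso Φ) S f := by
  obtain ⟨x, rfl⟩ := hh.exists_isom hn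
  obtain ⟨y, rfl⟩ := hf.exists_isom hn
  obtain ⟨e, he⟩ := exists_equiv_iff.2 he
  obtain ⟨k, h2, h3⟩ := exists_alt_intertwine (B := Φ.B) (hA := hΦ.alt rfl) (B' := Φ.B)
    (hA' := hΦ.alt rfl) hn hn x.2.1 y.2.1 h0 (coe_pow_eq_one.1 h1) e he
  exact ⟨k.toLinearMap, _, hΦ.iso.2 h3, hS, LinearMap.ext h2⟩

theorem Cg.exists {σ : F →+* F} {Φ : Formed σ V} (hn : Φ.Nondeg) (hf : Iso Φ f) (H : Cg (Iso Φ) S f) :
    ∃ h, Iso Φ h ∧ S h ∧ elemDiv h = elemDiv f := by
  obtain ⟨k, h, h1, h2, h3⟩ := H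
  obtain ⟨k, rfl⟩ := h1.exists_isom hn
  have h4 : ∀ v, k.1 (h v) = f (k.1 v) := fun v => congr($h3 v)
  exact ⟨h, ⟨fun x y => by rw [← k.2.1, h4, h4, hf.1, k.2.1], fun x => by rw [← k.2.2, h4, hf.2, k.2.2]⟩,
    h2, elemDiv_congr k.1 h4⟩

omit [Finite F] [FiniteDimensional F V] in
theorem Cg.smul {G : End F V → Prop} (hS : ∀ (w : F) h, w ≠ 0 → S h → S (w • h)) (w : F) (f : End F V)
    (hw : w ≠ 0) : Cg G S (w • f) → Cg G S f := by
  rintro ⟨k, g, h1, h2, h3⟩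
  exact ⟨k, w⁻¹ • g, h1, hS _ _ (inv_ne_zero hw) h2, by
    rw [mul_smul_comm, h3, smul_mul_assoc, smul_smul, inv_mul_cancel₀ hw, one_smul]⟩

theorem Spu.eq_of_four (hΦ : Spu Φ) (hn : Φ.Nondeg) (h2 : (2 : F) ≠ 0) (hf : Iso Φ f) (hg : Iso Φ g)
    (h3 : f ^ 2 = -1) (h4 : g ^ 2 = -1) : elemDiv f = elemDiv g := by
  by_cases hw : ∃ w : F, w ^ 2 = -1
  · obtain ⟨w, hw⟩ := hw
    have h5 : w ≠ -w := fun h => by
      have : w = 0 := (mul_eq_zero.1 (show 2 * w = 0 by linear_combination h)).resolve_left h2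
      simp [this] at hw
    have key : ∀ f : End F V, Iso Φ f → f ^ 2 = -1 → elemDiv f = Multiset.replicate (finrank F V / 2)
        (X - C w) + Multiset.replicate (finrank F V / 2) (X - C (-w)) := fun f a b => by
      have a1 := (type_two hΦ hn h2 a (w := w) (by rwa [sq] at hw) (by simp [hw, b])).2.2.1
      obtain ⟨a2, a3⟩ := elemDiv_of_two_factors (f := f) h5 (by
        rw [show (X - C w) * (X - C (-w)) = X ^ 2 - C (w ^ 2) by simp; ring, aeval_X_pow_sub_C]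
        simp [hw, b])
      rw [a3]; congr 2 <;> omega
    rw [key f hf h3, key g hg h4]
  · exact eq_of_sq hw (by simp [h3]) (by simp [h4])

theorem Spu.cg_four (hΦ : Spu Φ) (hn : Φ.Nondeg) (h2 : (2 : F) ≠ 0) (hf : Iso Φ f) (hh : Iso Φ h)
    (h3 : f ^ 2 = -1) (h4 : h ^ 2 = -1) (hS : S h) : Cg (Iso Φ) S f :=
  hΦ.cg hn hf hh (n := 2 * 2) (by rw [Nat.cast_mul]; exact mul_ne_zero h2 h2) (by rw [pow_mul, h4]; simp)
    (hΦ.eq_of_four hn h2 hh hf h4 h3) hS

theorem Spu.exists_tv (hΦ : Spu Φ) (hn : Φ.Nondeg) (hV : 2 ≤ finrank F V) {p : ℕ} [hp : Fact p.Prime]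
    [CharP F p] : ∃ y, Iso Φ y ∧ PE p y ∧ kd y (X - C 1) + 1 = finrank F V := by
  obtain ⟨y, h1, h2, h3⟩ : ∃ y, Iso Φ y ∧ y ^ p = 1 ∧ rk y = 1 := by
    by_cases h : p = 2
    · subst h
      obtain ⟨m, hm⟩ := (hΦ.even rfl hn).two_dvd
      exact ((exists_two_iff hn hm (hΦ.witt hn) (by omega) 1 False).2 ⟨by simp, by simp, by omega⟩).imp
        fun y h => ⟨h.1, h.2.1, h.2.2.1⟩
    · exact hΦ.exists_trans hn (fun _ => cast_two_ne h) hV
  exact ⟨y, h1, (pe_char h2 (by rw [Ne, ← rk_eq_zero]; omega)).2, by have := rk_add_kd (f := y); omega⟩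

theorem Spu.even_kd (hΦ : Spu Φ) (hn : Φ.Nondeg) (h2 : (2 : F) ≠ 0) (hf : Iso Φ f) (h1 : f ^ 2 = 1) :
    Even (kd f (X - C (-1))) :=
  (hΦ.res _).even rfl (hf.nd_fix hn (isCoprime_two h2) (aeval_two h1)).2

theorem Spu.exists_block (hΦ : Spu Φ) (hn : Φ.Nondeg) {r : ℕ} [hr : Fact r.Prime] (h : (r : F) ≠ 0)
    (h3 : 2 < r) (hc : cdim (orderOf (Nat.card F : ZMod r)) ≤ finrank F V) :
    ∃ y, Iso Φ y ∧ PE r y ∧ y ^ r = 1 ∧ kd y (cyclotomic r F) = cdim (orderOf (Nat.card F : ZMod r)) ∧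
      kd y (X - C 1) + cdim (orderOf (Nat.card F : ZMod r)) = finrank F V := by
  obtain ⟨y, h1, h2, h4⟩ := exists_of_chain h h3 (typ_id h h3) hn (hΦ.chain_alt hn h 1 (by omega))
  rw [mul_one] at h4
  have h5 := finrank_fix (pol_cyc h h3).cop (aeval_split h2)
  have h6 := cdim_pos (ord_pos h)
  rw [h4] at h5
  refine ⟨y, h1, ⟨⟨1, by simpa using h2⟩, ?_⟩, h2, h4, h5⟩
  rintro c rfl
  have : Nontrivial V := (finrank_pos_iff (R := F)).1 (by omega)
  have h7 := h1.norm_eq hn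
  rw [_root_.smul_pow, one_pow, ← sub_eq_zero, ← one_smul F (1 : End F V), smul_smul, ← sub_smul,
    smul_eq_zero, mul_one, sub_eq_zero] at h2
  have h8 := pow_gcd_eq_one.2 ⟨h2.resolve_right one_ne_zero, (sq c).trans h7⟩
  rw [(Nat.coprime_two_right.2 (hr.out.odd_of_ne_two h3.ne')).gcd_eq_one, pow_one] at h8
  have h9 : finrank F (kerA (c • 1 : End F V) (X - C 1)) = _ := kd_eq_finrank_iff.2 (by simp [h8])
  omega

variable {K : Type*} [Field K] [Finite K] [Algebra F K] [Module K V] [IsScalarTower F K V]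
  [FiniteDimensional K V] {τ : K →+* K} {Ψ : Formed τ V} {L : K →ₗ[F] F}

/-- `Φ` is the trace form of `Ψ`. -/
structure Tf (Φ : Formed (RingHom.id F) V) (Ψ : Formed τ V) (L : K →ₗ[F] F) : Prop where
  s : Spu Φ
  n : Φ.Nondeg
  s' : Spu Ψ
  n' : Ψ.Nondeg
  B : ∀ x y, Φ.B x y = L (Ψ.B x y)
  ne : L ≠ 0

omit [Finite F] [FiniteDimensional F V] [Finite K] [FiniteDimensional K V] in
theorem Tf.iso (T : Tf Φ Ψ L) {g : End K V} : Iso Φ (g.restrictScalars F) ↔ Iso Ψ g := by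
  rw [T.s.iso, T.s'.iso]
  refine ⟨fun H u v => sub_eq_zero.1 (Root.Mx.eq_zero_of_dual T.ne fun k => ?_), fun H u v => by
    rw [T.B, T.B]; exact congrArg L (H u v)⟩
  have := H u (k • v)
  simp only [T.B, LinearMap.restrictScalars_apply, map_smul, smul_eq_mul] at this
  rw [mul_sub, map_sub, this, sub_self]

omit [Finite F] [FiniteDimensional F V] [Finite K] [FiniteDimensional K V] in
theorem Tf.dvd (T : Tf Φ Ψ L) {r : ℕ} (hΩ : ∀ H : Subgroup (V ≃ₗ[F] V),
    (∀ k ∈ H, Sm K k.toLinearMap ∧ k ∈ Φ.isom) → r * Nat.card H ∣ Nat.card Φ.isom) :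
    r * Nat.card Ψ.isom ∣ Nat.card Φ.isom := by
  have h1 : ∀ g ∈ Ψ.isom, g.restrictScalars F ∈ Φ.isom := fun g hg => T.iso.2 hg
  rw [Nat.card_congr (MonoidHom.ofInjective (f := Φ.isom.subtype.comp (resHom Ψ Φ h1))
    (Subtype.val_injective.comp (resHom_injective Ψ Φ h1))).toEquiv]
  exact hΩ _ (by rintro _ ⟨g, rfl⟩; exact ⟨sm_res g.1.injective, h1 _ g.2⟩)

omit [Finite F] [FiniteDimensional F V] [Finite K] [FiniteDimensional K V] [IsScalarTower F K V] in
theorem tw_B {ι : Type*} (b : Basis ι K V) {α : K ≃ₐ[F] K} (H : ∀ k v, h (k • v) = α k • h v)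
    (h1 : ∀ i, h (b i) = b i) (h2 : ∀ k, τ (α k) = α (τ k))
    (h3 : ∀ i j, α (Ψ.B (b i) (b j)) = Ψ.B (b i) (b j)) (u v : V) : Ψ.B (h u) (h v) = α (Ψ.B u v) := by
  have h4 := b.mem_span u
  induction h4 using Submodule.span_induction with
  | mem _ hu =>
    obtain ⟨i, rfl⟩ := hu
    have h5 := b.mem_span v
    induction h5 using Submodule.span_induction with
    | mem _ hv => obtain ⟨j, rfl⟩ := hv; rw [h1, h1, h3]
    | zero => simp
    | add _ _ _ _ a c => simp [a, c]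
    | smul _ _ _ a => simp [H, a]
  | zero => simp
  | add _ _ _ _ a c => simp [a, c]
  | smul _ _ _ a => simp [H, a, h2]

omit [FiniteDimensional K V] in
theorem Tf.not_char (T : Tf Φ Ψ L) (hk : (finrank F K).Prime) (hV : 2 < finrank F V) {p : ℕ}
    [Fact p.Prime] [CharP F p] : ¬ ∀ f, Iso Φ f → PE p f → Cg (Iso Φ) (Sm K) f := fun H => by
  obtain ⟨y, h1, h2, h3⟩ := T.s.exists_tv T.n hV.le (p := p)
  obtain ⟨h, -, h4, h5⟩ := (H y h1 h2).exists T.n h1
  exact h4.rk_ne hk hV one_ne_zero (by rwa [kd_of_eq h5])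

omit [Finite F] [Finite K] in
theorem cast_ne_ext {r : ℕ} (h : (r : F) ≠ 0) : (r : K) ≠ 0 := by
  rwa [← map_natCast (algebraMap F K), _root_.map_ne_zero]

omit [Finite F] in
theorem card_ext : Nat.card K = Nat.card F ^ finrank F K := natCard_eq_pow_finrank

theorem ext_sp {Ψ : Formed (RingHom.id K) V} (T : Tf Φ Ψ L) (hL : ∀ (α : K ≃ₐ[F] K) k, L (α k) = L k)
    (hk : (finrank F K).Prime) (hV : 2 < finrank F V) {r : ℕ} [hr : Fact r.Prime]
    (hΩ : ∀ H : Subgroup (V ≃ₗ[F] V), (∀ k ∈ H, Sm K k.toLinearMap ∧ k ∈ Φ.isom) →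
      r * Nat.card H ∣ Nat.card Φ.isom) :
    (∀ f, Iso Φ f → PE r f → Cg (Iso Φ) (Sm K) f) ↔
      r = 2 ∧ finrank F V = 4 ∧ finrank F K = 2 ∧ Odd (Nat.card F) := by
  have : Nontrivial V := (finrank_pos_iff (R := F)).1 (by omega)
  obtain ⟨m, hm⟩ := (T.s'.even rfl T.n').two_dvd
  have h1 := finrank_mul_finrank F K V
  have hm0 : 0 < m := by rcases m with _ | m; simp [hm] at h1; all_goals omega
  have h2 := hk.two_le
  have h4 : finrank F V = 2 * (finrank F K * m) := by rw [← h1, hm]; ring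
  have h5 := Nat.le_mul_of_pos_right (finrank F K) hm0
  rw [odd_card_iff]
  by_cases h : (r : F) = 0
  · have := (CharP.charP_iff_prime_eq_zero hr.out).2 h
    exact iff_of_false (T.not_char hk hV) (by rintro ⟨rfl, -, -, h6⟩; exact h6 h)
  rcases hr.out.eq_two_or_odd' with rfl | ho
  · replace h : (2 : F) ≠ 0 := h
    have h' : (2 : K) ≠ 0 := cast_ne_ext (r := 2) h
    rw [forall_two_id T.n h fun _ h => h]
    refine ⟨fun H => ?_, fun ⟨_, a1, a2, _⟩ => ⟨fun f b1 b2 b3 b4 => ?_, fun f b1 b2 => ?_⟩⟩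
    · obtain ⟨U, a1, a2⟩ := T.s.exists_nd T.n hV.le fun _ => even_two
      obtain ⟨y, a3, a4, a5⟩ := exists_neg_on T.n h a1
      have a6 : kd y (X - C 1) + kd y (X - C (-1)) = _ := finrank_fix (isCoprime_two h) (aeval_two a4)
      obtain ⟨g, b1, b2, b3⟩ := (H.1 y a3 a4 (by
        rintro rfl; have : kd (1 : End F V) (X - C 1) = _ := kd_eq_finrank_iff.2 (by simp); omega) (by
        rintro rfl; have : kd (-1 : End F V) (X - C (-1)) = _ := kd_eq_finrank_iff.2 (by simp)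
        omega)).exists T.n a3
      rcases b2.cases hk with ⟨g, rfl⟩ | b4
      · obtain ⟨t, ht⟩ := (T.s'.even_kd T.n' h' (T.iso.1 b1)
          (res_pow_one.1 (pow_of_eq' b3.symm a4))).two_dvd
        rw [← kd_of_eq b3, kd_res', map_neg, map_one, ht, a2, mul_left_comm] at a5
        exact absurd ⟨t, by omega⟩ hk.not_dvd_one
      · have := b4.1 1 one_ne_zero
        rw [kd_of_eq b3] at this
        exact ⟨rfl, by omega, by omega, h⟩
    · obtain ⟨U, c1, c2⟩ := (T.s'.witt T.n').1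
      obtain ⟨e, e', c3, -⟩ := T.n'.exists_isHyp_of_totSing c1 c2
      have c4 := c3.span_eq_top (by simp; omega)
      let b := Basis.mk c3.linearIndependent c4.ge
      obtain ⟨α, d1, d2⟩ := exists_aut hk
      obtain ⟨φ, d3, d4, d5, d6⟩ := exists_tw b α
      have d7 := d6 2 (a2 ▸ d2)
      have d8 : Iso Φ φ := T.s.iso.2 fun u v => by
        rw [T.B, T.B, tw_B b d4 d5 (fun _ => rfl) ?_, hL]
        rintro (i | i) (j | j) <;>
          simp [b, c3.ee, c3.ff, c3.ef, c3.fe, apply_ite α, (T.s'.resolve_right (·.1 rfl)).2.1]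
      refine T.s.cg T.n b1 d8 (n := 2) h d7 (eq_of_inv h d7 b2 ?_) d3
      have := tw_le d4 d1 one_ne_zero
      have := tw_le d4 d1 (neg_ne_zero.2 one_ne_zero)
      have : kd φ (X - C 1) + kd φ (X - C (-1)) = _ := finrank_fix (isCoprime_two h) (aeval_two d7)
      have : kd f (X - C 1) + kd f (X - C (-1)) = _ := finrank_fix (isCoprime_two h) (aeval_two b2)
      have := Nat.even_iff.1 (T.s.even_kd T.n h b1 b2)
      have := (kd_eq_finrank_iff (f := f) (p := X - C 1)).not.2 (by simpa [sub_eq_zero] using b3)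
      have := (kd_eq_finrank_iff (f := f) (p := X - C (-1))).not.2 (by
        simpa [add_eq_zero_iff_eq_neg] using b4)
      omega
    · obtain ⟨w, hw⟩ : ∃ w : K, w ^ 2 = -1 := by
        by_cases hw : ∃ w : F, w ^ finrank F K = -1
        · exact hw.elim fun w hw => ⟨algebraMap F K w, by rw [← map_pow, ← a2, hw]; simp⟩
        · simpa [a2] using exists_root hk hw
      obtain ⟨g, c1, c2⟩ := exists_type_two T.s' T.n' ⟨m, by omega⟩ (w := w) (by rwa [sq] at hw)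
      exact T.s.cg_four T.n h b1 (T.iso.2 c1) b2 (by rw [res_pow, c2, hw]; ext; simp)
        (sm_res (c1.injective T.n'))
  have h3 : 2 < r := hr.out.two_le.lt_of_ne (by rintro rfl; exact absurd ho (by decide))
  refine iff_of_false (fun H => ?_) (by omega)
  have h6 := T.dvd hΩ
  rw [T.s.card_alt T.n h4, T.s'.card_alt T.n' hm, card_ext (F := F)] at h6
  obtain ⟨j, a1, a2, a3, a4⟩ := tq_tq Finite.one_lt_card (not_dvd_card' h) hk.pos h6
  obtain ⟨y, b1, b2, b3, b4, b5⟩ := T.s.exists_block T.n h h3 ((Nat.le_of_dvd (by omega) a4).trans (by omega))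
  obtain ⟨g, c1, c2, c3⟩ := (H y b1 b2).exists T.n b1
  have c4 := pow_of_eq' c3.symm b3
  rcases c2.cases hk with ⟨g, rfl⟩ | c5
  · obtain ⟨t, ht⟩ := (even_cdim _).two_dvd.trans ((T.iso.1 c1).typ_dvd T.n' (cast_ne_ext h) h3
      (typ_id (cast_ne_ext h) h3) (res_pow_one.1 c4))
    rw [← b4, ← kd_of_eq c3, kd_res, map_cyclotomic, ht, mul_left_comm] at a4
    exact a3 ((dvd_mul_right _ _).trans (Nat.dvd_of_mul_dvd_mul_left two_pos a4))
  · have := c5.1 1 one_ne_zero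
    have := (Nat.prime_dvd_prime_iff_eq hk hr.out).1 (c5.2 r 1 (by simpa using c4))
    have := cdim_le h3 (not_dvd_card' h)
    have := kd_of_eq c3 (X - C 1)
    omega

theorem ext_gu [Fintype K] {hK : Fintype.card K = Nat.card F ^ 2} {Ψ : Formed (frobq hK) V}
    (T : Tf Φ Ψ L) (hk : finrank F K = 2) (h2 : (2 : F) ≠ 0) (hV : 2 < finrank F V) {r : ℕ}
    [hr : Fact r.Prime] (hΩ : ∀ H : Subgroup (V ≃ₗ[F] V), (∀ k ∈ H, Sm K k.toLinearMap ∧ k ∈ Φ.isom) →
      r * Nat.card H ∣ Nat.card Φ.isom) :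
    (∀ f, Iso Φ f → PE r f → Cg (Iso Φ) (Sm K) f) ↔ r = 2 := by
  have : Nontrivial V := (finrank_pos_iff (R := F)).1 (by omega)
  have h1 := finrank_mul_finrank F K V
  have hk' : (finrank F K).Prime := hk ▸ Nat.prime_two
  have hσ := frobq_ne_id hK
  rw [hk] at h1
  rcases hr.out.eq_two_or_odd' with rfl | ho
  · have h' : (2 : K) ≠ 0 := cast_ne_ext (r := 2) h2
    refine iff_of_true ((forall_two_id T.n h2 fun _ h => h).2 ⟨fun f b1 b2 _ _ => ?_, fun f b1 b2 => ?_⟩) rfl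
    · obtain ⟨j, hj⟩ := (T.s.even_kd T.n h2 b1 b2).two_dvd
      have := kd_le f (X - C (-1))
      obtain ⟨U, a1, a2⟩ := T.s'.exists_nd T.n' (l := j) (by omega) fun h => absurd h hσ
      obtain ⟨g, a3, a4, a5⟩ := exists_neg_on T.n' h' a1
      exact T.s.cg T.n b1 (T.iso.2 a3) (n := 2) h2 (res_pow_one.2 a4) (eq_of_inv h2 (res_pow_one.2 a4) b2
        (by rw [kd_res', map_neg, map_one, a5, a2, hk, hj])) (sm_res (a3.injective T.n'))
    obtain ⟨b, hb⟩ := T.n'.exists_orthonormal hσ T.s'.eps rfl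
    let α : K ≃ₐ[F] K := AlgEquiv.ofBijective ⟨frobq hK, fun c => by
      change _ ^ _ = _; rw [← map_pow, Asch.pow_natCard]⟩
      (Function.Involutive.bijective (frobq_frobq hK))
    obtain ⟨φ, d3, d4, d5, d6⟩ := exists_tw b α
    have d7 := d6 2 (AlgEquiv.ext (frobq_frobq hK))
    obtain ⟨l, hl⟩ := exists_norm_eq hσ (frobq_frobq hK) (a := -1) (by rw [map_neg, map_one])
    have d8 : ∀ x, L (frobq hK x) = -L x := fun x => by
      have := (T.s.resolve_right (·.1 rfl)).2.1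
      have h3 := Φ.symm (b ⟨0, by omega⟩) (x • b ⟨0, by omega⟩)
      simpa [T.B, hb, this] using h3
    have l0 : l ≠ 0 := by rintro rfl; simp at hl
    refine T.s.cg_four T.n h2 b1 (h := l • φ) (T.s.iso.2 fun u v => ?_) b2 (LinearMap.ext fun v => ?_)
      ⟨(smul_right_injective V l0).comp d3.1, fun k => ⟨α k, fun v => by simp [d4, smul_comm l]⟩⟩
    · have := tw_B (Ψ := Ψ) b d4 d5 (fun _ => rfl) (fun i j => by simp [hb, apply_ite α]) u v
      rw [T.B, T.B]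
      simp only [LinearMap.smul_apply, map_smulₛₗ, smul_eq_mul, this, RingHom.id_apply]
      rw [← mul_assoc, mul_comm l, hl, neg_one_mul, map_neg]
      exact neg_eq_iff_eq_neg.2 (d8 _)
    · have : φ (φ v) = v := by rw [← End.mul_apply, ← sq, d7]; rfl
      simp only [sq, End.mul_apply, LinearMap.smul_apply, d4, this, smul_smul]
      rw [mul_comm, show α l * l = -1 from hl]; simp
  have h3 : 2 < r := hr.out.two_le.lt_of_ne (by rintro rfl; exact absurd ho (by decide))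
  refine iff_of_false (fun H => ?_) h3.ne'
  by_cases h : (r : F) = 0
  · have := (CharP.charP_iff_prime_eq_zero hr.out).2 h
    exact T.not_char hk' hV H
  have h6 := T.dvd hΩ
  rw [T.s.card_alt T.n h1.symm, card_isom_herm hK T.n' T.s'.eps rfl] at h6
  obtain ⟨j, a1, a2, a3⟩ := gu_tq Finite.one_lt_card (not_dvd_card' h) h6
  have a4 := cdim_dvd (orderOf_dvd_of_pow_eq_one (show (Nat.card F : ZMod r) ^ (2 * j) = 1 by
    rw [← (even_two_mul j).neg_pow, mul_comm, pow_mul, a3]; simp))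
  obtain ⟨y, b1, b2, b3, b4, -⟩ := T.s.exists_block T.n h h3 ((Nat.le_of_dvd (by omega) a4).trans (by omega))
  obtain ⟨g, c1, c2, c3⟩ := (H y b1 b2).exists T.n b1
  have c4 := pow_of_eq' c3.symm b3
  rcases c2.cases hk' with ⟨g, rfl⟩ | c5
  · have c5 := (neg_pow_iff h3 rfl (ord_pos h) _).2 ((T.iso.1 c1).typ_dvd T.n' (cast_ne_ext h) h3
      (typ_herm hK (cast_ne_ext h) h3 rfl) (res_pow_one.1 c4))
    rw [← kd_of_eq c3, kd_res, map_cyclotomic, hk] at b4
    have c6 : (-1 : ZMod r) ≠ 1 := fun h => by simpa using (neg_one_pow_inj h3 (a := 1) (b := 0)).1 (by simpa)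
    rcases Nat.even_or_odd (kd g (cyclotomic r K)) with c7 | c7
    · have c8 := orderOf_dvd_of_pow_eq_one (c5.trans c7.neg_one_pow)
      have := ord_pos h
      rcases Nat.even_or_odd (orderOf (Nat.card F : ZMod r)) with c9 | c9
      · rw [cdim_even c9] at b4
        have := Nat.le_of_dvd (by omega) c8; omega
      · rw [cdim_odd c9] at b4
        exact Nat.not_even_iff_odd.2 c9 (by rwa [← Nat.eq_of_mul_eq_mul_left two_pos b4])
    · refine c6 ?_
      rw [← c7.neg_one_pow, ← a3, ← pow_mul, mul_comm, pow_mul, neg_pow, c5, ← mul_pow]; simp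
  · exact Nat.not_even_iff_odd.2 ho (even_iff_two_dvd.2 (hk ▸ c5.2 r 1 (by simpa using c4)))

end Cfsg.Agent.Elu
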