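import Cfsg.Agent.Elu.Uni

/-! Elements of prime order of unitary groups: `typ_herm`, `herm_ts`, `herm_nd`, the reductions
`su_cop`, `su_refl`, `su_exc_odd`, `su_exc_two`, the bad elements `exists_bad_diag`. -/

set_option autoImplicit false
set_option linter.unusedSectionVars false

namespace Cfsg.Agent.Elu

open Module Polynomial Cfsg.Agent.Classical Cfsg.Agent.Geom Cfsg.Agent.Geom.Formed

universe u

variable {F : Type*} [Field F] [Finite F] {V : Type u} [AddCommGroup V] [Module F V]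
  [FiniteDimensional F V] {f : End F V}

section herm

variable [Fintype F] {q : ℕ} (hF : Fintype.card F = q ^ 2) {Φ : Formed (frobq hF) V}
include hF

theorem norm_iff {z : F} : frobq hF z * z = 1 ↔ z ^ (q + 1) = 1 := by rw [pow_succ]; rfl

theorem exists_frobq : ∃ p a, p.Prime ∧ CharP F p ∧ q = p ^ a ∧
    ∀ k c, frobq hF c = c ^ p ^ (a * (2 * k + 1)) := by
  obtain ⟨p, n, h1, h2, h3, -⟩ := exists_frob F
  rw [Nat.card_eq_fintype_card, hF] at h3
  obtain ⟨a, -, rfl⟩ := (Nat.dvd_prime_pow h1).1 (h3 ▸ dvd_pow_self q two_ne_zero)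
  exact ⟨p, a, h1, h2, rfl, fun k c => by
    rw [pow_mul, pow_succ, pow_mul, pow_mul, ← hF, FiniteField.pow_card_pow]; rfl⟩

theorem card_herm : Nat.card F = q ^ 2 := Nat.card_eq_fintype_card.trans hF

theorem not_dvd_q {r : ℕ} [Fact r.Prime] (h : (r : F) ≠ 0) : ¬ r ∣ q := fun h' =>
  not_dvd_card' h (card_herm hF ▸ h'.pow two_ne_zero)

theorem dvd_q {p : ℕ} [hp : Fact p.Prime] [CharP F p] : p ∣ q := hp.out.dvd_of_dvd_pow (n := 2) (by
  rw [← hF, ← CharP.cast_eq_zero_iff F]; simp)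

theorem ord_herm {r i : ℕ} (hi : i = orderOf (q : ZMod r)) :
    orderOf (Nat.card F : ZMod r) = if Even i then i / 2 else i := by
  rw [card_herm hF, Nat.cast_pow, orderOf_pow' _ two_ne_zero, ← hi]
  split_ifs with h
  · rw [Nat.gcd_eq_right h.two_dvd]
  · rw [Nat.coprime_two_right.2 (Nat.not_even_iff_odd.1 h), Nat.div_one]

theorem typ_herm {r i : ℕ} [hr : Fact r.Prime] (h : (r : F) ≠ 0) (h3 : 2 < r)
    (hi : i = orderOf (q : ZMod r)) :
    Typ (frobq hF) (cyclotomic r F) (orderOf (Nat.card F : ZMod r)) (udim i) := by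
  obtain ⟨p, a, h1, h2, h4, h5⟩ := exists_frobq hF
  have := Fact.mk h1
  have h0 : 0 < i := hi ▸ orderOf_pos_of_not_dvd (not_dvd_q hF h)
  rw [ord_herm hF hi]
  refine (udim_eq i).imp (fun ⟨h6, h7⟩ => ⟨sd_cyc (h5 (i / 4)) ?_, h7⟩)
    fun ⟨h6, h7⟩ => ⟨nsd_cyc (j := a) (by simpa using h5 0) (frobq_frobq hF) h fun k hk => ?_, h7⟩
  · rw [pow_mul, ← h4, show 2 * (i / 4) + 1 = i / 2 by omega, hi]
    exact dvd_half h3 (hi ▸ h0) (hi ▸ Nat.even_iff.2 (by omega))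
  · rw [← h4, card_herm hF, ← pow_mul] at hk
    obtain ⟨j, h8, h9⟩ : ∃ j, Odd j ∧ r ∣ q ^ j + 1 := by
      rcases k with _ | k
      · exact ⟨1, odd_one, by simpa [add_comm] using hk⟩
      · exact ⟨2 * k + 1, by simp, ((Nat.Prime.dvd_mul hr.out).1 (show r ∣ q * _ by
          convert hk using 1; ring)).resolve_left (not_dvd_q hF h)⟩
    obtain ⟨h10, h11⟩ := (pow_eq_neg_one_iff h3.ne' _ _).1 (dvd_pow_add_one_iff.1 h9)
    rw [← hi] at h10 h11
    rcases i.even_or_odd' with ⟨l, rfl | rfl⟩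
    · have := Nat.odd_iff.1 (h8.of_dvd_nat (Nat.dvd_of_mul_dvd_mul_left two_pos h11)); omega
    · exact h10 (Nat.Coprime.dvd_of_dvd_mul_left (by simp) h11)

theorem udim_pos {r i : ℕ} [hr : Fact r.Prime] (h : (r : F) ≠ 0) (h3 : 2 < r)
    (hi : i = orderOf (q : ZMod r)) : 0 < udim i := by
  have := ord_pos h
  rcases typ_herm hF h h3 hi with h | h <;> omega

variable {hF}

omit [FiniteDimensional F V] in
theorem spu_herm (hε : Φ.ε = 1) : Spu Φ := Or.inr ⟨frobq_ne_id hF, hε⟩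

omit [FiniteDimensional F V] in
theorem Spu.eps (h : Spu Φ) : Φ.ε = 1 := (h.resolve_left fun h => frobq_ne_id hF h.1).2

theorem chain_herm (hΦ : Spu Φ) (hn : Φ.Nondeg) {r i : ℕ} [Fact r.Prime] (h : (r : F) ≠ 0)
    (h3 : 2 < r) (hi : i = orderOf (q : ZMod r)) (s : ℕ) (hs : udim i * s ≤ finrank F V) :
    Chain (frobq hF) r (udim i) s Φ := by
  refine Spu.chain (fun h => absurd h (frobq_ne_id hF)) (fun {W} _ _ _ _ h1 h2 h4 => ?_) s hΦ hn hs
  have h0 := udim_pos hF h h3 hi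
  rw [card_isom_herm hF h2 h1.eps h4]
  refine Dvd.dvd.mul_left (((gu_dvd_iff (j := udim i - 1)
    (by have := two_le_of_card_eq_sq hF; omega)).2 ?_).trans
    (Finset.dvd_prod_of_mem (fun j => if Even j then q ^ (j + 1) + 1 else q ^ (j + 1) - 1)
      (Finset.mem_range.2 (by omega)))) _
  rw [neg_pow_iff h3 hi (hi ▸ orderOf_pos_of_not_dvd (not_dvd_q hF h)), Nat.sub_add_cancel h0]

theorem nsing_herm (n : ℕ) : ∀ {V : Type u} [AddCommGroup V] [Module F V] [FiniteDimensional F V]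
    {Φ : Formed (frobq hF) V}, Spu Φ → Φ.Nondeg → finrank F V = n →
      (q * Φ.nsing : ℤ) = q + (q ^ n - (-1) ^ n) * (q ^ n + (-1) ^ n * q) := by
  induction n using Nat.twoStepInduction with
  | zero => exact fun _ hn h => by rw [nsing_herm_of_le_one hF hn (by omega)]; simp
  | one => exact fun _ hn h => by rw [nsing_herm_of_le_one hF hn (by omega)]; simp
  | more n ih _ =>
    intro V _ _ _ Φ hΦ hn h
    obtain ⟨e, h1, h2⟩ := hΦ.exists_sing hn (by omega)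
    obtain ⟨f, hp⟩ := hn.exists_isPair h1 h2
    have h3 := ih (hΦ.res _) (hp.nondeg_pairPerp hn) (by have := hp.finrank_pairPerp hn; omega)
    have h4 : ((-1 : ℤ) ^ n) ^ 2 = 1 := by rw [← pow_mul, mul_comm, pow_mul]; simp
    rw [nsing_herm_step hF hn hΦ.eps h hp]
    have := two_le_of_card_eq_sq hF
    push_cast [Nat.cast_pred (show 0 < q ^ 2 by positivity)]
    linear_combination q ^ 2 * h3 + (q - q ^ 3) * h4

theorem herm_ts (hΦ : Spu Φ) (hn : Φ.Nondeg) {r i b c n m : ℕ} [hr : Fact r.Prime] (h : (r : F) ≠ 0)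
    (h3 : 2 < r) (hi : i = orderOf (q : ZMod r)) (hb : b = if Even i then i / 2 else i)
    (hc : c = udim i) (hV : finrank F V = n) (hm : 2 * m ≤ n)
    (hΩ : r ∣ Nat.card {X : Submodule F V // finrank F X = m ∧ Φ.TotSing X}) :
    (∀ y, Iso Φ y → y ^ r = 1 → y ≠ 1 →
      ∃ U : Submodule F V, finrank F U = m ∧ Φ.TotSing U ∧ Inv y U) ↔
      b ≤ m ∧ 2 * (m % b) ≤ n % c ∧ (i % 4 ≠ 2 ∨ (r - 1) / b + 2 * (m / b) ≤ n / b) := by
  obtain ⟨j, h1, W, h2, h4, h5, h6⟩ := exists_dvd_nsing hr.out m hn (hΦ.witt hn) (by omega) hΩ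
  have h0 : 0 < i := hi ▸ orderOf_pos_of_not_dvd (not_dvd_q hF h)
  obtain ⟨k, h7, h8, h9⟩ : ∃ k, n - 2 * m < k ∧ k ≤ n ∧ c ∣ k := by
    have a1 := h5.two_mul_le h2
    obtain ⟨N, hN⟩ : ∃ N, finrank F W = N + 1 := ⟨finrank F W - 1, by omega⟩
    have a2 := congrArg (Int.cast : ℤ → ZMod r) (nsing_herm _ (hΦ.res W) h2 hN)
    have a3 : ((Φ.restrict W).nsing : ZMod r) = 1 := by
      have : Finite W := Module.finite_of_finite F
      rw [← card_sing_ne_zero] at h6 ⊢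
      simpa [ZMod.natCast_eq_zero_iff] using h6
    push_cast at a2
    rw [a3, mul_one, left_eq_add, mul_eq_zero, sub_eq_zero, neg_pow_iff h3 hi h0] at a2
    refine a2.elim (fun h => ⟨_, by omega, by omega, hc ▸ h⟩) fun a => ⟨N, by omega, by omega, ?_⟩
    rw [hc, ← neg_pow_iff h3 hi h0]
    refine mul_left_cancel₀ (fun h' => not_dvd_q hF h ((ZMod.natCast_eq_zero_iff q r).1 h')) ?_
    linear_combination a
  have h7' := ord_herm hF hi
  have h10 := ord_pos h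
  have h11 : 1 ≤ (r - 1) / b := (Nat.le_div_iff_mul_le (by omega)).2 (by
    obtain ⟨D, -, -, h8⟩ := exists_cyc_nodup h
    rw [one_mul, hb, ← h7']; exact Nat.le_of_dvd (by omega) ⟨_, h8.symm⟩)
  rw [hΦ.forall_ts hn h h3 rfl (typ_herm hF h h3 hi) (chain_herm hΦ hn h h3 hi), hV, h7', ← hb, ← hc]
  rw [h7', ← hb] at h10
  rcases udim_eq i with ⟨a1, a2⟩ | ⟨a1, a2⟩ <;> rw [← hc, ← hb] at a2 <;> subst a2
  · simp only [if_true, a1, ne_eq, not_true, false_or]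
    exact arith_sd h11 (div_lt_div_of_dvd h10 h9 h7 h8)
  · simp only [if_neg (show 2 * b ≠ b by omega), a1, ne_eq, not_false_iff, true_or, and_true]
    obtain ⟨t, rfl⟩ := dvd_of_mul_right_dvd h9
    exact arith_nsd hm (div_lt_div_of_dvd h10 (Nat.dvd_of_mul_dvd_mul_left two_pos h9)
      (by omega) (by omega))

theorem herm_nd (hΦ : Spu Φ) (hn : Φ.Nondeg) {r i c n m : ℕ} [hr : Fact r.Prime] (h : (r : F) ≠ 0)
    (h3 : 2 < r) (hi : i = orderOf (q : ZMod r)) (hc : c = udim i) (hV : finrank F V = n)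
    (hm : m ≤ n) (hΩ : r ∣ Nat.card {X : Submodule F V // finrank F X = m ∧ Nd Φ X}) :
    (∀ y, Iso Φ y → y ^ r = 1 → y ≠ 1 → ∃ W : Submodule F V, finrank F W = m ∧ Nd Φ W ∧ Inv y W) ↔
      c ≤ m ∧ m % c ≤ n % c := by
  have hσ := frobq_ne_id hF
  obtain ⟨W₀, h1, h2⟩ := hΦ.exists_nd hn (hV ▸ hm) fun h => absurd h hσ
  have h4 := hΦ.dvd_of_nd hn h1 (h2 ▸ hΩ)
  have h5 := hn.finrank_add_finrank_perp W₀
  have hq := two_le_of_card_eq_sq hF
  rw [card_isom_herm hF (hn.restrict_perp h1) hΦ.eps (n := n - m) (by omega),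
    card_isom_herm hF hn hΦ.eps hV] at h4
  obtain ⟨j, h8, h9, h10⟩ := exists_dvd_sdiff hr.out _ (gu_pos hq)
    (fun h' => not_dvd_q hF h (hr.out.dvd_of_dvd_pow h')) h4
  rw [gu_dvd_iff (by omega), neg_pow_iff h3 hi (hi ▸ orderOf_pos_of_not_dvd (not_dvd_q hF h))] at h10
  rw [Finset.mem_range] at h8 h9
  have h11 := udim_pos hF h h3 hi
  rw [hΦ.forall_nd hn h h3 (typ_herm hF h h3 hi) h11 (chain_herm hΦ hn h h3 hi)
    fun h => absurd h hσ, hV, ← hc]
  exact arith_sub hm (div_lt_div_of_dvd (hc ▸ h11) (hc ▸ h10) (by omega) (by omega))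

theorem su_cop (hΦ : Spu Φ) (hn : Φ.Nondeg) (hV : 0 < finrank F V) {r : ℕ} [hr : Fact r.Prime]
    (h : ¬ r ∣ q + 1) {P : End F V → Prop} (hP : ∀ (w : F) f, w ≠ 0 → P (w • f) → P f) :
    (∀ f, Iso Φ f ∧ LinearMap.det f = 1 → PE r f → P f) ↔
      ∀ y, Iso Φ y → y ^ r = 1 → y ≠ 1 → P y := by
  have hc := hr.out.coprime_iff_not_dvd.2 h
  refine forall_scale_cop hn hV (fun _ h => h.1) (fun y h1 h2 => ⟨h1, ?_⟩) (fun z => (norm_iff hF).1)
    hc hP
  simpa [hc.gcd_eq_one] using pow_gcd_eq_one.2 ⟨show LinearMap.det y ^ r = 1 by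
    rw [← map_pow, h2, map_one], (norm_iff hF).1 (h1.det_norm (frobq_ne_id hF) hΦ.eps hn)⟩

theorem mu_not_pow_iff {r k : ℕ} [hr : Fact r.Prime] (h : r ∣ q + 1) (hk : k ≠ 0) :
    (∃ u : F, frobq hF u * u = 1 ∧ u ^ k = 1 ∧ ¬ ∃ w, frobq hF w * w = 1 ∧ w ^ r = u) ↔
      padicValNat r (q + 1) ≤ padicValNat r k := by
  have := Fact.mk hF
  have h1 := card_rootsOfUnity_succ (F := F) (q := q)
  rw [← h1, ← exists_not_pow_iff (by rwa [h1]) hk]
  simp only [norm_iff]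
  refine ⟨fun ⟨u, h2, h3, h4⟩ => ⟨rootsOfUnity.mkOfPowEq u h2, by ext; simpa using h3,
    fun ⟨w, hw⟩ => h4 ⟨w.1, (mem_rootsOfUnity' _ _).1 w.2, by simpa using congrArg (·.1.1) hw⟩⟩,
    fun ⟨u, h3, h4⟩ => ⟨u.1, (mem_rootsOfUnity' _ _).1 u.2, by simpa using congrArg (·.1.1) h3,
      fun ⟨w, h5, h6⟩ => h4 ⟨rootsOfUnity.mkOfPowEq w h5, by ext; simpa using h6⟩⟩⟩

theorem odd_q (h2 : (2 : F) ≠ 0) : Odd q := Nat.odd_iff.2 (by
  have := not_dvd_q hF (r := 2) (by simpa using h2); omega)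

theorem mu_root_iff (h2 : (2 : F) ≠ 0) {n : ℕ} (hn : n ≠ 0) :
    (∃ w : F, frobq hF w * w = 1 ∧ w ^ n = -1) ↔ padicValNat 2 n < padicValNat 2 (q + 1) := by
  have := Fact.mk hF
  have h1 := card_rootsOfUnity_succ (F := F) (q := q)
  have h3 := exists_pow_eq_iff n (rootsOfUnity.mkOfPowEq (-1 : F) (odd_q (hF := hF) h2).add_one.neg_one_pow)
  rw [h1, Subtype.ext_iff, Units.ext_iff] at h3
  rw [← dvd_div_gcd_iff q.succ_ne_zero hn, ← even_iff_two_dvd, ← neg_one_pow_eq_one_iff_even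
    (R := F) fun h => h2 (by linear_combination -h)]
  refine Iff.trans ?_ (h3.trans (by simp))
  simp only [norm_iff]
  exact ⟨fun ⟨w, h4, h5⟩ => ⟨rootsOfUnity.mkOfPowEq w h4, by ext; simpa using h5⟩,
    fun ⟨w, hw⟩ => ⟨w.1, (mem_rootsOfUnity' _ _).1 w.2, by simpa using congrArg (·.1.1) hw⟩⟩

theorem su_refl (hΦ : Spu Φ) (hn : Φ.Nondeg) (h2 : (2 : F) ≠ 0) (hV : 2 ≤ finrank F V)
    (he : Even (finrank F V)) {P : End F V → Prop}
    (hA : ∀ y, Iso Φ y → y ^ 2 = 1 → Even (kd y (X - C 1)) → Even (kd y (X - C (-1))) → P y)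
    (hC : ∀ y, Iso Φ y → y ^ 2 = 1 → kd y (X - C 1) + 1 = finrank F V → kd y (X - C (-1)) = 1 → ¬ P y) :
    (∀ y (w : F), Iso Φ y → y ^ 2 = 1 → (∀ c : F, y ≠ c • 1) → frobq hF w * w = 1 →
      w ^ finrank F V * LinearMap.det y = 1 → P y) ↔
      padicValNat 2 (q + 1) ≤ padicValNat 2 (finrank F V) := by
  classical
  have h1 : (-1 : F) ≠ 1 := fun h => h2 (by linear_combination -h)
  rw [← not_lt, ← mu_root_iff (hF := hF) h2 (by omega)]
  constructor
  · rintro H ⟨w, h3, hw⟩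
    obtain ⟨y, h4, hy⟩ := real_dg (frobq_ne_id hF) (-1 ::ₘ Multiset.replicate (finrank F V - 1) 1) hΦ
      hn (by simp; omega) (by simp +contextual [Multiset.mem_replicate, -frobq_apply])
    have h5 : y ^ 2 = 1 := hy.pow_iff.2 (by simp +contextual [Multiset.mem_replicate])
    refine hC y h4 h5 (by rw [hy.kd]; simp [h1.symm]; omega) (by
      rw [hy.kd]; simp [Multiset.count_replicate, h1.symm]) (H y w h4 h5 (hy.ne_smul
        (Multiset.mem_cons_self _ _) (by simp [Multiset.mem_replicate]; omega) h1) h3 ?_)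
    simp [hy.det, hw]
  · intro H y w h3 h4 _ h5 h6
    obtain ⟨h8, h9⟩ := elemDiv_of_two_factors h1.symm (aeval_two h4)
    have h7 : Dg y (Multiset.replicate (kd y (X - C 1)) 1 +
      Multiset.replicate (kd y (X - C (-1))) (-1)) := by simpa [Dg] using h9
    have h10 : Even (kd y (X - C (-1))) := Nat.not_odd_iff_even.1 fun h => H ⟨w, h5, by
      rw [h7.det, Multiset.prod_add, Multiset.prod_replicate, Multiset.prod_replicate,
        h.neg_one_pow] at h6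
      linear_combination -h6⟩
    exact hA y h3 h4 ((Nat.even_add.1 (h8 ▸ he)).2 h10) h10

theorem su_exc_odd (hΦ : Spu Φ) (hn : Φ.Nondeg) (hV : 0 < finrank F V) {r : ℕ} [hr : Fact r.Prime]
    (h3 : 2 < r) (h : r ∣ q + 1) {P : End F V → Prop} {R : Prop}
    (hB : ∀ f b, Ff Φ f b → b.natDegree = r → Pol b r → SD (frobq hF) b → (P f ↔ R)) :
    (∀ f (c : F), Iso Φ f → 0 < finrank F V → f ^ r = c • 1 → frobq hF c * c = 1 →
      (¬ ∃ w, frobq hF w * w = 1 ∧ w ^ r = c) → LinearMap.det f = 1 → P f) ↔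
      R ∨ padicValNat r (finrank F V) ≤ padicValNat r (q + 1) := by
  have ho := hr.out.odd_of_ne_two h3.ne'
  have hq := two_le_of_card_eq_sq hF
  have k1 : ∀ c : F, frobq hF c * c = 1 → (¬ ∃ w, frobq hF w * w = 1 ∧ w ^ r = c) →
      ¬ ∃ w, w ^ r = c := by
    rintro _ h1 h2 ⟨w, rfl⟩
    refine h2 ⟨w, ?_, rfl⟩
    rw [norm_iff] at h1 ⊢
    have h4 : (w ^ (q + 1)) ^ (q - 1) = 1 := by
      rw [← pow_mul, ← Nat.sq_sub_sq, one_pow, ← hF]
      exact FiniteField.pow_card_sub_one_eq_one _ (by rintro rfl; simp [hr.out.ne_zero] at h1)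
    have h5 : r.Coprime (q - 1) := hr.out.coprime_iff_not_dvd.2 fun h' => by
      have := Nat.le_of_dvd two_pos (show q + 1 - (q - 1) = 2 by omega ▸ Nat.dvd_sub h h'); omega
    simpa [h5.gcd_eq_one] using pow_gcd_eq_one.2 ⟨(pow_right_comm w _ _).trans h1, h4⟩
  have k2 : ∀ (f : End F V) (c : F), Iso Φ f → f ^ r = c • 1 → frobq hF c * c = 1 →
      (¬ ∃ w, w ^ r = c) → (P f ↔ R) ∧ r ∣ finrank F V ∧ LinearMap.det f = c ^ (finrank F V / r) :=
    fun f c h1 h2 h4 h5 => by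
      have h6 := X_pow_sub_C_irreducible_of_prime hr.out (not_exists.1 h5)
      obtain ⟨k, h7, h8⟩ := ((cases_pow (right_ne_zero_of_mul_eq_one h4) h2).resolve_left
        fun ⟨w, hw, _⟩ => h5 ⟨w, hw⟩).2
      have h9 : ∀ g : F[X], Irreducible g → g ∣ X ^ r - C c → g.natDegree = r := fun g a b => by
        rw [natDegree_eq_of_degree_eq (degree_eq_degree_of_associated (a.associated_of_dvd h6 b)),
          natDegree_X_pow_sub_C]
      refine ⟨hB f _ ⟨hn, h1, (aeval_X_pow_sub_C _ _ _).2 h2⟩ natDegree_X_pow_sub_C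
        ⟨h6.squarefree, fun g a _ b => h9 g a b, fun g a b c => ?_⟩ ?_, Dvd.intro_left k h7, ?_⟩
      · have := natDegree_le_of_dvd c (X_pow_sub_C_ne_zero two_pos 1)
        rw [h9 g a b, ← C_1, natDegree_X_pow_sub_C] at this; omega
      · obtain ⟨p, a, b1, b2, b3, b4⟩ := exists_frobq hF
        obtain ⟨t, ht⟩ := mul_dvd_pow_add_one ho h
        refine ⟨p, _, b1, b2, b4 (r / 2), ?_⟩
        rw [Nat.two_mul_div_two_add_one_of_odd ho, pow_mul, ← b3, ht, mul_assoc, pow_mul, ← C_1,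
          show (1 : F) = c ^ ((q + 1) * t) by rw [pow_mul, (norm_iff hF).1 h4, one_pow], C_pow]
        exact sub_dvd_pow_sub_pow _ _ _
      · rw [det_of_exc hr.out.ne_zero h8, ho.add_one.neg_one_pow, one_mul, ← h7,
          Nat.mul_div_cancel _ hr.out.pos]
  constructor
  · intro H
    by_contra! hc
    have h1 := dvd_of_one_le_padicValNat (Nat.one_le_of_lt hc.2)
    obtain ⟨u, h4, h5, h6⟩ := (mu_not_pow_iff (hF := hF) h (Nat.div_pos (Nat.le_of_dvd hV h1)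
      hr.out.pos).ne').2 ((val_div_iff h1 hV.ne').2 hc.2.not_ge)
    obtain ⟨f, h7, h8⟩ := exists_iso_exc (frobq_ne_id hF) hΦ.eps hn (k1 u h4 h6) h4
      (Nat.div_mul_cancel h1) hV
    have := k2 f u h7 h8 h4 (k1 u h4 h6)
    exact hc.1 (this.1.1 (H f u h7 hV h8 h4 h6 (this.2.2.trans h5)))
  · intro H f c h1 _ h2 h4 h5 h6
    obtain ⟨h7, h8, h9⟩ := k2 f c h1 h2 h4 (k1 c h4 h5)
    refine h7.2 (H.resolve_right ((val_div_iff h8 hV.ne').1 ((mu_not_pow_iff (hF := hF) h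
      (Nat.div_pos (Nat.le_of_dvd hV h8) hr.out.pos).ne').1 ⟨c, h4, h9 ▸ h6, h5⟩)))

theorem exists_sq_neg (h2 : (2 : F) ≠ 0) {c : F} (h : frobq hF c * c = 1)
    (h' : ¬ ∃ w, frobq hF w * w = 1 ∧ w ^ 2 = c) : ∃ w, frobq hF w * w = -1 ∧ w ^ 2 = c := by
  obtain ⟨k, hk⟩ := odd_q (hF := hF) h2
  obtain ⟨w, hw⟩ := (FiniteField.isSquare_iff (fun h => h2 (by simpa [h] using ringChar.Nat.cast_ringChar (R := F)))
    (right_ne_zero_of_mul_eq_one h)).2 (by
      rw [hF, show q ^ 2 / 2 = (q + 1) * k by rw [hk]; ring_nf; omega, pow_mul, (norm_iff hF).1 h, one_pow])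
  refine ⟨w, (mul_self_eq_one_iff.1 ?_).resolve_left fun h => h' ⟨w, h, by rw [hw, sq]⟩, by rw [hw, sq]⟩
  rw [← h, hw, map_mul]; ring

theorem su_exc_two (hΦ : Spu Φ) (hn : Φ.Nondeg) (hV : 0 < finrank F V) (h2 : (2 : F) ≠ 0)
    {P : End F V → Prop} {R : Prop}
    (hB : ∀ f w, Iso Φ f → f ^ 2 = w ^ 2 • 1 → frobq hF w * w = -1 → (P f ↔ R)) :
    (∀ f (c : F), Iso Φ f → 0 < finrank F V → f ^ 2 = c • 1 → frobq hF c * c = 1 →
      (¬ ∃ w, frobq hF w * w = 1 ∧ w ^ 2 = c) → LinearMap.det f = 1 → P f) ↔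
      R ∨ Odd (finrank F V) ∨
        (padicValNat 2 (finrank F V) ≤ padicValNat 2 (q + 1) ∧ q % 4 = 3) := by
  have ho := odd_q (hF := hF) h2
  have key : Even (finrank F V) → ((∃ c : F, frobq hF c * c = 1 ∧ (-c) ^ (finrank F V / 2) = 1 ∧
      ¬ ∃ w, frobq hF w * w = 1 ∧ w ^ 2 = c) ↔
      ¬ (padicValNat 2 (finrank F V) ≤ padicValNat 2 (q + 1) ∧ q % 4 = 3)) := fun he => by
    have h1 := mu_root_iff (hF := hF) h2 two_ne_zero
    rw [padicValNat_self, Nat.lt_iff_add_one_le, ← padicValNat_dvd_iff_le q.succ_ne_zero] at h1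
    by_cases h4 : q % 4 = 3
    · obtain ⟨s, a, b⟩ := h1.2 (by omega)
      rw [and_iff_left h4, ← val_div_iff he.two_dvd hV.ne', ← mu_not_pow_iff (hF := hF)
        ho.add_one.two_dvd (by have := Nat.even_iff.1 he; omega)]
      have t : ∀ c : F, (∃ w, frobq hF w * w = 1 ∧ w ^ 2 = c) → ∃ w, frobq hF w * w = 1 ∧ w ^ 2 = -c :=
        fun c ⟨w, h, h'⟩ => ⟨s * w, by rw [map_mul, mul_mul_mul_comm, a, h, one_mul],
          by rw [mul_pow, b, h', neg_one_mul]⟩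
      exact ⟨fun ⟨c, h, h', h''⟩ => ⟨-c, by simpa [-frobq_apply] using h, h', fun x => h'' (neg_neg c ▸ t _ x)⟩,
        fun ⟨c, h, h', h''⟩ => ⟨-c, by simpa [-frobq_apply] using h, by simpa using h',
          fun x => h'' (neg_neg c ▸ t _ x)⟩⟩
    · exact iff_of_true ⟨-1, by simp [-frobq_apply], by simp, fun h => by
        have := h1.1 h; have := Nat.odd_iff.1 ho; omega⟩ fun h => h4 h.2
  constructor
  · intro H
    by_contra hc
    rw [not_or, not_or, Nat.not_odd_iff_even] at hc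
    obtain ⟨c, h3, h4, h5⟩ := (key hc.2.1).2 hc.2.2
    obtain ⟨w, h6, rfl⟩ := exists_sq_neg h2 h3 h5
    obtain ⟨f, h7, h8⟩ := exists_type_two hΦ hn hc.2.1 h6
    exact hc.1 ((hB f w h7 h8 h6).1 (H f _ h7 hV h8 h3 h5 ((type_two hΦ hn h2 h7 h6 h8).2.2.2.trans h4)))
  · intro H f c h1 _ h3 h4 h5 h6
    obtain ⟨w, h7, rfl⟩ := exists_sq_neg h2 h4 h5
    obtain ⟨-, -, h8, h9⟩ := type_two hΦ hn h2 h1 h7 h3
    have he : Even (finrank F V) := h8 ▸ even_two_mul _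
    exact (hB f w h1 h3 h7).2 (H.resolve_right (not_or.2 ⟨Nat.not_odd_iff_even.2 he,
      (key he).1 ⟨_, h4, h9 ▸ h6, h5⟩⟩))

omit hF in
theorem dvd_succ_iff {r : ℕ} [hr : Fact r.Prime] (h3 : 2 < r) :
    r ∣ q + 1 ↔ orderOf (q : ZMod r) = 2 := by
  refine ⟨fun h => ?_, fun h => by simpa [h] using dvd_half (q := q) h3 (by omega) (by simp [h])⟩
  rw [show (q : ZMod r) = -1 by simpa using dvd_pow_add_one_iff (k := 1).1 (by simpa using h),
    orderOf_neg_one, if_neg (by rw [ZMod.ringChar_zmod_n]; omega)]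

theorem not_char_dvd {p : ℕ} [hp : Fact p.Prime] [CharP F p] : ¬ p ∣ q + 1 := fun h =>
  hp.out.not_dvd_one ((Nat.dvd_add_right (dvd_q hF)).1 h)

theorem exists_bad_diag (hΦ : Spu Φ) (hn : Φ.Nondeg) {r k : ℕ} [hr : Fact r.Prime] (h3 : 2 < r)
    (h : r ∣ q + 1) (hk : 0 < k) (hkr : 2 * k < r) (hV : 2 * k ≤ finrank F V) :
    ∃ y, (Iso Φ y ∧ LinearMap.det y = 1) ∧ PE r y ∧ y ^ r = 1 ∧
      ∀ U, Φ.TotSing U → Inv y U → finrank F U ≤ finrank F V / 2 - k := by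
  classical
  have hq := two_le_of_card_eq_sq hF
  have h0 : (r : F) ≠ 0 := fun h0 => by
    have := (CharP.charP_iff_prime_eq_zero hr.out).2 h0
    exact not_char_dvd (hF := hF) h
  have h1 := (dvd_succ_iff h3).1 h
  have hi : _ = 1 := ord_herm hF h1.symm
  have ht := (typ_herm hF h0 h3 h1.symm).resolve_right fun h => by rw [hi] at h; simp [udim] at h
  obtain ⟨χ, h4, h5⟩ := exists_chi hi
  obtain ⟨A, a1, a2, a3, a4⟩ := exists_symm_finset k hkr
  have h6 : ∀ a, χ a ^ r = 1 := fun a => (h5 _).2 ⟨a, rfl⟩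
  obtain ⟨y, h7, h8⟩ := real_dg (frobq_ne_id hF) (Multiset.replicate (finrank F V - 2 * k) 1 +
    A.val.map χ) hΦ hn (by simp [a1]; omega) (by
      obtain ⟨t, ht⟩ := h
      simp +contextual [Multiset.mem_replicate, norm_iff, or_imp, ht, pow_mul, h6, -frobq_apply])
  have h9 : y ^ r = 1 := h8.pow_iff.2 (by simp +contextual [Multiset.mem_replicate, or_imp, h6])
  obtain ⟨a, ha⟩ := Finset.card_pos.1 (show 0 < A.card by omega)
  refine ⟨y, ⟨h7, by rw [h8.det, Multiset.prod_add, chi_sum, a3]; simp⟩, ⟨⟨1, by simpa using h9⟩, h8.ne_smul (s := χ a)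
    (t := χ (-a)) (by simp; exact Or.inr ⟨a, ha, rfl⟩) (by simp; exact Or.inr ⟨_, a4 a ha, rfl⟩)
    (h4.ne (ZMod.ne_neg_self (hr.out.odd_of_ne_two h3.ne') fun h => a2 (h ▸ ha)))⟩, h9,
    fun U b1 b2 => ?_⟩
  rw [Dg, Multiset.map_add, Multiset.map_replicate] at h8
  obtain ⟨-, b3, b4⟩ := elemDiv_res_cyc h0 (fun g hg => (mem_of_pow_eq_one h0 h9
    (h8 ▸ Multiset.mem_add.2 (Or.inr hg))).resolve_left (by
      rintro rfl
      simp only [Multiset.mem_map, sub_right_inj, C_inj, exists_exists_and_eq_and] at hg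
      obtain ⟨a, h, h'⟩ := hg
      exact a2 (h4 (h'.trans χ.map_zero_eq_one.symm) ▸ h))) h8
  have hp := pol_cyc h0 h3
  have b5 := h7.nd_fix hn hp.cop (aeval_split h9)
  obtain ⟨l, c1, B, c2, c3, c4⟩ := (ts_split h7 hp.cop (aeval_split h9) ((hΦ.res _).witt b5.1)).1
    ⟨U, rfl, b1, b2⟩
  obtain ⟨j, c5, c6⟩ := ht.1.worst hp (h7.ff hn hp.cop (aeval_split h9)) (a := 0) (g := 0)
    ((A.nodup.map h4).map fun _ _ h => by simpa using h) (b4.trans (zero_add _).symm) c2 c3.le_perp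
  obtain rfl : j = 0 := by omega
  omega

theorem su_forall_iff {n r : ℕ} (P : End F (Fin n → F) → Prop) :
    (∀ x : Matrix.SpecialLinearGroup (Fin n) F, x ∈ SU n F q → (∃ c : F, (x ^ r).1 = c • 1) →
      (∀ c : F, x.1 ≠ c • 1) → P (Matrix.toLin' x.1)) ↔
    ∀ f, Iso (hermFormed hF n) f ∧ LinearMap.det f = 1 → PE r f → P f := by
  have key : ∀ x : Matrix.SpecialLinearGroup (Fin n) F, x ∈ SU n F q ↔
      Iso (hermFormed hF n) (Matrix.toLin' x.1) := fun x => by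
    rw [(spu_herm rfl).iso]; exact forall_comm
  simp only [key, and_imp]
  have := sl_forall_iff (r := r) fun f => Iso (hermFormed hF n) f → P f
  exact ⟨fun h f a b c => this.1 (fun x c d e => h x e c d) f b c a,
    fun h x a b c => this.2 (fun f b c a => h f a b c) x b c a⟩

theorem herm_ts_iff {n : ℕ} (W : Submodule F (Fin n → F)) :
    (∀ u ∈ W, ∀ v ∈ W, hermForm n F q u v = 0) ↔ (hermFormed hF n).TotSing W := by
  rw [(spu_herm rfl).ts]; exact ⟨fun h u a v b => h v b u a, fun h u a v b => h v b u a⟩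

theorem herm_nd_iff {n : ℕ} (W : Submodule F (Fin n → F)) :
    (∀ u ∈ W, u ≠ 0 → ∃ v ∈ W, hermForm n F q u v ≠ 0) ↔ Nd (hermFormed hF n) W := by
  rw [nd_iff']
  exact forall₃_congr fun u _ _ => exists_congr fun v => and_congr_right fun _ => not_congr
    ⟨(hermFormed hF n).B_eq_zero_symm, (hermFormed hF n).B_eq_zero_symm⟩

theorem inG_su {n : ℕ} : InG (GU n F q ⊓ Geo.specialLinear (Fin n) F) =
    fun f => Iso (hermFormed hF n) f ∧ LinearMap.det f = 1 :=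
  inG_iff (fun g => and_congr (by rw [(spu_herm rfl).iso]; exact forall_comm)
    (by rw [LinearMap.det_toLin']; exact Units.ext_iff)) fun _ h => h.1.injective (hermFormed_nondeg hF n)

theorem exists_det_polar (hn : Φ.Nondeg) {U W : Submodule F V} (hc : IsCompl U W) (hU : Φ.TotSing U)
    (hW : Φ.TotSing W) (h0 : U ≠ ⊥) {z : F} (hz : frobq hF z * z = 1) :
    ∃ g ∈ Φ.isom ⊓ stab U ⊓ stab W, LinearMap.det (g : End F V) = z := by
  have := Fact.mk hF
  obtain ⟨e, he, he0⟩ := Submodule.exists_mem_ne_zero_of_ne_bot h0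
  obtain ⟨w, hw, h1⟩ : ∃ w ∈ W, Φ.B e w ≠ 0 := by
    by_contra! h
    refine he0 (hn e fun v => ?_)
    obtain ⟨a, b, rfl⟩ := exists_add_of_isCompl hc v
    rw [map_add, hU.1 e he a a.2, h b b.2, add_zero]
  have h2 := W.smul_mem (Φ.B e w)⁻¹ hw
  have hp : Φ.IsPair e ((Φ.B e w)⁻¹ • w) := ⟨hU.sing he, hW.sing h2, by simp [h1]⟩
  obtain ⟨a, ha⟩ : ∃ a : F, a + z * a ^ q ≠ 0 := by
    by_contra! hc
    obtain ⟨a, ha⟩ := exists_pow_q_ne (F := F) (q := q)
    have h1 := hc 1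
    rw [one_pow] at h1
    exact ha (by linear_combination a ^ q * h1 - hc a)
  refine ⟨(hp.torus (Units.mk0 _ ha)).1, ⟨⟨(hp.torus _).2, hp.torus_mem_stab _ he
    fun u hu => hU.1 e he u hu⟩, mem_stab_of_le fun v hv => ?_⟩, ?_⟩
  · rw [hp.torus_apply, hW.1 _ h2 v hv, mul_zero, zero_smul, add_zero]
    exact W.add_mem hv (W.smul_mem _ h2)
  · rw [hp.det_torus, mul_inv_eq_iff_eq_mul₀ ((_root_.map_ne_zero _).2 (Units.ne_zero _))]
    change a + z * a ^ q = z * (a + z * a ^ q) ^ q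
    rw [add_pow_q, mul_pow, pow_q_q]
    have hz' : z ^ q * z = 1 := hz
    linear_combination (-a) * hz'

omit hF in
theorem gu_glo {r m v : ℕ} [hr : Fact r.Prime] (hq : 1 < q) (hrq : ¬ r ∣ q)
    (h : r * glo (q ^ 2) m ∣ q ^ v * ∏ j ∈ Finset.range (2 * m),
      (if Even j then q ^ (j + 1) + 1 else q ^ (j + 1) - 1)) : ∃ j, Odd j ∧ j ≤ 2 * m ∧ r ∣ q ^ j + 1 := by
  have h0 : ∏ j ∈ (Finset.range m).image (2 * · + 1), (if Even j then q ^ (j + 1) + 1 else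
      q ^ (j + 1) - 1) = ∏ j ∈ Finset.range m, ((q ^ 2) ^ (j + 1) - 1) := by
    rw [Finset.prod_image fun _ _ _ _ h => by simpa using h]
    exact Finset.prod_congr rfl fun j _ => by rw [if_neg (by simp), ← pow_mul]; rfl
  rw [glo, Finset.prod_mul_distrib, ← h0] at h
  obtain ⟨j, h1, h2, h3⟩ := exists_dvd_sdiff hr.out _ (gu_pos hq)
    (fun h' => hrq (hr.out.dvd_of_dvd_pow h')) h
  rw [Finset.mem_range] at h1
  have h4 : Even j := Nat.not_odd_iff_even.1 fun ⟨k, hk⟩ =>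
    h2 (Finset.mem_image.2 ⟨k, Finset.mem_range.2 (by omega), hk.symm⟩)
  exact ⟨j + 1, h4.add_one, h1, by rwa [if_pos h4] at h3⟩

end herm

theorem dvd_of_relIndex_inf {G K : Type*} [Group G] [Finite G] [Group K] {H L N : Subgroup G}
    [N.Normal] {r : ℕ} (h : r ∣ H.relIndex (L ⊓ N)) (φ : K →* G) (hφ : Function.Injective φ)
    (hK : ∀ k, φ k ∈ H ∧ φ k ∈ L) : r * Nat.card K ∣ Nat.card L := by
  rw [← Subgroup.relIndex_subgroupOf (inf_le_left : L ⊓ N ≤ L), Subgroup.inf_subgroupOf_left] at h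
  exact dvd_of_relIndex h (φ.codRestrict L fun k => (hK k).2)
    (fun _ _ h => hφ (congrArg Subtype.val h)) fun k => (hK k).1

theorem Spu.exists_trans {σ : F →+* F} {Φ : Formed σ V} (hΦ : Spu Φ) (hn : Φ.Nondeg)
    (h2 : σ = RingHom.id F → (2 : F) ≠ 0) (hV : 2 ≤ finrank F V) {p : ℕ} [hp : Fact p.Prime]
    [CharP F p] : ∃ y, Iso Φ y ∧ y ^ p = 1 ∧ rk y = 1 := by
  obtain ⟨y, h3, h4⟩ := Spu.real_unip h2 _ hΦ hn rfl (μ := 2 ::ₘ Multiset.replicate (finrank F V - 2) 1)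
    (by simp; omega) (by simp +contextual [Multiset.mem_replicate]) fun a ha => by
      have h5 := (hΦ.par (h2 ha.1) a).1 ha
      have h6 := (Nat.even_sub hV).2 (iff_of_true (hΦ.even ha.1 hn) even_two)
      rw [Multiset.count_cons_of_ne (by rintro rfl; exact absurd h5.2 (by decide)), Multiset.count_replicate]
      split_ifs <;> simp [h6]
  refine ⟨y, h3, h4.pow_char (by simp +contextual [Multiset.mem_replicate, hp.out.two_le,
    hp.out.one_le]), ?_⟩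
  have h5 := h4.kd 1
  have h6 := rk_add_kd (f := y)
  rw [kd, show aeval y (X - C 1 : F[X]) = (y - 1) ^ 1 by simp] at h6
  simp only [Multiset.map_cons, Multiset.map_replicate, Multiset.sum_cons, Multiset.sum_replicate] at h5
  simp only [min_self, smul_eq_mul, mul_one] at h5
  omega

end Cfsg.Agent.Elu
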