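import Cfsg.Agent.Elu.AH

/-! Lev's theorem, part 1: avoidance lemmas over a field with at least four elements (`Four`),
the set `Dep g` of vectors killed by a polynomial of degree ≤ 2, and the choice of a good vector
(`exists_cubic`, `exists_quad`). -/

set_option autoImplicit false

namespace Cfsg.Agent.Elu.Lev

open Module Cfsg.Agent.Elu.AH

/-- at least four elements -/
def Four (K : Type*) : Prop := ∀ a b c : K, ∃ s, s ≠ a ∧ s ≠ b ∧ s ≠ c

theorem four_of_card {K : Type*} (hK : 4 ≤ Cardinal.mk K) : Four K := by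
  classical
  intro a b c
  by_contra h
  push Not at h
  have h1 : (Set.univ : Set K) ⊆ (({a, b, c} : Finset K) : Set K) := by
    intro s _
    by_cases ha : s = a
    · simp [ha]
    by_cases hb : s = b
    · simp [hb]
    simp [h s ha hb]
  have h2 := Cardinal.mk_le_mk_of_subset h1
  rw [Cardinal.mk_univ, Finset.coe_sort_coe, Cardinal.mk_coe_finset] at h2
  have h3 : (({a, b, c} : Finset K).card : Cardinal) ≤ (3 : ℕ) := by
    exact_mod_cast Finset.card_le_three
  have : (4 : ℕ) ≤ 3 := by exact_mod_cast hK.trans (h2.trans h3)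
  omega

variable {K V : Type*} [Field K] [AddCommGroup V] [Module K V]

theorem avoid_step (hK : Four K) {f1 f2 f3 f4 : Dual K V} {v : V} (h1 : f1 v ≠ 0) (h2 : f2 v ≠ 0)
    (h3 : f3 v ≠ 0) (h4 : f4 ≠ 0) : ∃ u, f1 u ≠ 0 ∧ f2 u ≠ 0 ∧ f3 u ≠ 0 ∧ f4 u ≠ 0 := by
  by_cases hv : f4 v = 0
  · obtain ⟨w, hw⟩ := DFunLike.ne_iff.1 h4
    obtain ⟨s, s1, s2, s3⟩ := hK (-f1 w / f1 v) (-f2 w / f2 v) (-f3 w / f3 v)
    refine ⟨w + s • v, ?_, ?_, ?_, ?_⟩
    · intro e; apply s1; simp at e; field_simp; linear_combination e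
    · intro e; apply s2; simp at e; field_simp; linear_combination e
    · intro e; apply s3; simp at e; field_simp; linear_combination e
    · simpa [hv] using hw
  · exact ⟨v, h1, h2, h3, hv⟩

theorem avoid_dual (hK : Four K) {f1 f2 f3 f4 : Dual K V} (h1 : f1 ≠ 0) (h2 : f2 ≠ 0)
    (h3 : f3 ≠ 0) (h4 : f4 ≠ 0) : ∃ u, f1 u ≠ 0 ∧ f2 u ≠ 0 ∧ f3 u ≠ 0 ∧ f4 u ≠ 0 := by
  obtain ⟨v, hv⟩ := DFunLike.ne_iff.1 h1
  obtain ⟨v, a1, -, -, a2⟩ := avoid_step hK hv hv hv h2
  obtain ⟨v, a1, a2, -, a3⟩ := avoid_step hK a1 a2 a2 h3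
  exact avoid_step hK a1 a2 a3 h4

theorem avoid_sub (hK : Four K) {U1 U2 U3 U4 : Submodule K V} (h1 : U1 ≠ ⊤) (h2 : U2 ≠ ⊤)
    (h3 : U3 ≠ ⊤) (h4 : U4 ≠ ⊤) : ∃ u, u ∉ U1 ∧ u ∉ U2 ∧ u ∉ U3 ∧ u ∉ U4 := by
  have key : ∀ U : Submodule K V, U ≠ ⊤ → ∃ f : Dual K V, f ≠ 0 ∧ ∀ w ∈ U, f w = 0 := by
    intro U hU
    obtain ⟨y, -, hy⟩ := SetLike.exists_of_lt (lt_top_iff_ne_top.2 hU)
    obtain ⟨f, hf, hW⟩ := exists_dual hy
    exact ⟨f, by rintro rfl; simp at hf, hW⟩
  obtain ⟨f1, a1, b1⟩ := key _ h1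
  obtain ⟨f2, a2, b2⟩ := key _ h2
  obtain ⟨f3, a3, b3⟩ := key _ h3
  obtain ⟨f4, a4, b4⟩ := key _ h4
  obtain ⟨u, c1, c2, c3, c4⟩ := avoid_dual hK a1 a2 a3 a4
  exact ⟨u, fun h => c1 (b1 _ h), fun h => c2 (b2 _ h), fun h => c3 (b3 _ h), fun h => c4 (b4 _ h)⟩

/-- a functional vanishing on `W`, equal to `1` on `a` and non-zero on `b, c, d` -/
theorem avoid_fun (hK : Four K) {W : Submodule K V} {a b c d : V} (ha : a ∉ W) (hb : b ∉ W)
    (hc : c ∉ W) (hd : d ∉ W) :
    ∃ φ : Dual K V, (∀ w ∈ W, φ w = 0) ∧ φ a = 1 ∧ φ b ≠ 0 ∧ φ c ≠ 0 ∧ φ d ≠ 0 := by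
  let ev : V → Dual K W.dualAnnihilator := fun v => (Dual.eval K V v) ∘ₗ W.dualAnnihilator.subtype
  have key : ∀ v, v ∉ W → ev v ≠ 0 := by
    intro v hv h
    obtain ⟨f, hf, hW⟩ := exists_dual hv
    have := LinearMap.congr_fun h ⟨f, (Submodule.mem_dualAnnihilator f).2 hW⟩
    simp [ev, hf] at this
  obtain ⟨⟨f, hf⟩, c1, c2, c3, c4⟩ := avoid_dual (V := W.dualAnnihilator) hK (key a ha) (key b hb) (key c hc) (key d hd)
  have c1 : f a ≠ 0 := c1
  have c2 : f b ≠ 0 := c2
  have c3 : f c ≠ 0 := c3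
  have c4 : f d ≠ 0 := c4
  refine ⟨(f a)⁻¹ • f, fun w hw => ?_, by simp [c1], by simp [c1, c2], by simp [c1, c3],
    by simp [c1, c4]⟩
  simp [(Submodule.mem_dualAnnihilator f).1 hf w hw]

/-- `e, g e, g² e` are dependent -/
def Dep (g : End K V) (e : V) : Prop :=
  ∃ a b c : K, ¬ (a = 0 ∧ b = 0 ∧ c = 0) ∧ a • e + b • g e + c • g (g e) = 0

theorem Dep.apply {g : End K V} {e : V} (h : Dep g e) : Dep g (g e) := by
  obtain ⟨a, b, c, h1, h2⟩ := h
  refine ⟨a, b, c, h1, ?_⟩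
  simpa using congrArg g h2

theorem Dep.of_apply {g : End K V} (hg : Function.Injective g) {e : V} (h : Dep g (g e)) :
    Dep g e := by
  obtain ⟨a, b, c, h1, h2⟩ := h
  refine ⟨a, b, c, h1, hg ?_⟩
  rw [map_zero, ← h2]; simp

theorem Dep.sub {g : End K V} {e : V} (h : Dep g e) (s : K) : Dep g (e - s • g e) := by
  obtain ⟨a, b, c, h1, h2⟩ := h
  refine ⟨a, b, c, h1, ?_⟩
  have h3 := congrArg g h2
  simp only [map_add, map_smul, map_zero, map_sub] at h3 ⊢
  linear_combination (norm := module) h2 - s • h3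

/-- the determinant form -/
def cub (g : End K V) (p q r : Dual K V) (e : V) : K :=
  p e * (q (g e) * r (g (g e)) - r (g e) * q (g (g e))) -
    q e * (p (g e) * r (g (g e)) - r (g e) * p (g (g e))) +
    r e * (p (g e) * q (g (g e)) - q (g e) * p (g (g e)))

theorem cub_eq_zero {g : End K V} (p q r : Dual K V) {e : V} (h : Dep g e) : cub g p q r e = 0 := by
  obtain ⟨a, b, c, h1, h2⟩ := h
  have e1 := congrArg p h2
  have e2 := congrArg q h2
  have e3 := congrArg r h2
  simp only [map_add, map_smul, map_zero, smul_eq_mul] at e1 e2 e3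
  by_contra hne
  apply h1
  unfold cub at hne
  refine ⟨?_, ?_, ?_⟩
  · apply mul_left_cancel₀ hne
    linear_combination (q (g e) * r (g (g e)) - r (g e) * q (g (g e))) * e1 -
      (p (g e) * r (g (g e)) - r (g e) * p (g (g e))) * e2 +
      (p (g e) * q (g (g e)) - q (g e) * p (g (g e))) * e3
  · apply mul_left_cancel₀ hne
    linear_combination -(q e * r (g (g e)) - r e * q (g (g e))) * e1 +
      (p e * r (g (g e)) - r e * p (g (g e))) * e2 -
      (p e * q (g (g e)) - q e * p (g (g e))) * e3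
  · apply mul_left_cancel₀ hne
    linear_combination (q e * r (g e) - r e * q (g e)) * e1 -
      (p e * r (g e) - r e * p (g e)) * e2 + (p e * q (g e) - q e * p (g e)) * e3

theorem exists_cub {g : End K V} {e : V} (h : ¬ Dep g e) :
    ∃ p q r : Dual K V, cub g p q r e ≠ 0 := by
  have h1 : e ∉ Submodule.span K ({g e, g (g e)} : Set V) := by
    intro hm
    obtain ⟨s, t, hst⟩ := Submodule.mem_span_pair.1 hm
    refine h ⟨-1, s, t, by simp, ?_⟩
    rw [add_assoc, hst]; simp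
  have h2 : g e ∉ Submodule.span K ({e, g (g e)} : Set V) := by
    intro hm
    obtain ⟨s, t, hst⟩ := Submodule.mem_span_pair.1 hm
    refine h ⟨s, -1, t, by simp, ?_⟩
    linear_combination (norm := module) hst
  have h3 : g (g e) ∉ Submodule.span K ({e, g e} : Set V) := by
    intro hm
    obtain ⟨s, t, hst⟩ := Submodule.mem_span_pair.1 hm
    refine h ⟨s, t, -1, by simp, ?_⟩
    rw [hst]; simp
  obtain ⟨p, p1, p2⟩ := exists_dual h1
  obtain ⟨q, q1, q2⟩ := exists_dual h2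
  obtain ⟨r, r1, r2⟩ := exists_dual h3
  refine ⟨p, q, r, ?_⟩
  unfold cub
  rw [p1, q1, r1, p2 (g e) (Submodule.subset_span (by simp)),
    p2 (g (g e)) (Submodule.subset_span (by simp)), q2 e (Submodule.subset_span (by simp)),
    q2 (g (g e)) (Submodule.subset_span (by simp)), r2 e (Submodule.subset_span (by simp)),
    r2 (g e) (Submodule.subset_span (by simp))]
  simp

theorem three_ne (hK : Four K) : ∃ a b c : K, a ≠ 0 ∧ b ≠ 0 ∧ c ≠ 0 ∧ a ≠ b ∧ a ≠ c ∧ b ≠ c := by
  obtain ⟨b, b0, b1, -⟩ := hK 0 1 1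
  obtain ⟨c, c0, c1, c2⟩ := hK 0 1 b
  exact ⟨1, b, c, one_ne_zero, b0, c0, b1.symm, c1.symm, c2.symm⟩

theorem line_lemma (hK : Four K) {g : End K V} {e v : V} (he : ¬ Dep g e) (hv : Dep g v) :
    ∃ s : K, s ≠ 0 ∧ ¬ Dep g (e + s • v) := by
  obtain ⟨p, q, r, hne⟩ := exists_cub he
  have h0 := cub_eq_zero p q r hv
  by_contra hn
  push Not at hn
  obtain ⟨a, b, c, ha, hb, hc, hab, hac, hbc⟩ := three_ne hK
  have key : ∃ c1 c2 : K, ∀ s : K, cub g p q r (e + s • v) =
      cub g p q r e + c1 * s + c2 * s ^ 2 + cub g p q r v * s ^ 3 := by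
    let f : K → K := fun s => cub g p q r (e + s • v)
    refine ⟨p v * (q (g e) * r (g (g e)) - r (g e) * q (g (g e))) -
      q v * (p (g e) * r (g (g e)) - r (g e) * p (g (g e))) +
      r v * (p (g e) * q (g (g e)) - q (g e) * p (g (g e))) +
      (p e * (q (g v) * r (g (g e)) - r (g v) * q (g (g e))) -
      q e * (p (g v) * r (g (g e)) - r (g v) * p (g (g e))) +
      r e * (p (g v) * q (g (g e)) - q (g v) * p (g (g e)))) +
      (p e * (q (g e) * r (g (g v)) - r (g e) * q (g (g v))) -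
      q e * (p (g e) * r (g (g v)) - r (g e) * p (g (g v))) +
      r e * (p (g e) * q (g (g v)) - q (g e) * p (g (g v)))),
      p e * (q (g v) * r (g (g v)) - r (g v) * q (g (g v))) -
      q e * (p (g v) * r (g (g v)) - r (g v) * p (g (g v))) +
      r e * (p (g v) * q (g (g v)) - q (g v) * p (g (g v))) +
      (p v * (q (g e) * r (g (g v)) - r (g e) * q (g (g v))) -
      q v * (p (g e) * r (g (g v)) - r (g e) * p (g (g v))) +
      r v * (p (g e) * q (g (g v)) - q (g e) * p (g (g v)))) +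
      (p v * (q (g v) * r (g (g e)) - r (g v) * q (g (g e))) -
      q v * (p (g v) * r (g (g e)) - r (g v) * p (g (g e))) +
      r v * (p (g v) * q (g (g e)) - q (g v) * p (g (g e)))), fun s => ?_⟩
    simp only [cub, map_add, map_smul, smul_eq_mul]
    ring
  obtain ⟨c1, c2, hk⟩ := key
  have e1 := cub_eq_zero p q r (hn a ha)
  have e2 := cub_eq_zero p q r (hn b hb)
  have e3 := cub_eq_zero p q r (hn c hc)
  rw [hk, h0] at e1 e2 e3
  apply hne
  have hd : (a - b) * (a - c) * (b - c) ≠ 0 :=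
    mul_ne_zero (mul_ne_zero (sub_ne_zero.2 hab) (sub_ne_zero.2 hac)) (sub_ne_zero.2 hbc)
  apply mul_left_cancel₀ hd
  linear_combination (b * c * (b - c)) * e1 - (a * c * (a - c)) * e2 + (a * b * (a - b)) * e3

/-- a good vector when `g` is not quadratic -/
theorem exists_cubic (hK : Four K) {g : End K V} (hg : Function.Bijective g) {e0 : V}
    (h0 : ¬ Dep g e0) {x : V} (hx : x ≠ 0) {y : Dual K V} (hy : y ≠ 0) :
    ∃ e, ¬ Dep g e ∧ y e ≠ 0 ∧ x ∉ Submodule.span K ({g e - e} : Set V) := by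
  let S : Submodule K V := (Submodule.span K ({x} : Set V)).comap (g - 1)
  suffices ∃ e, ¬ Dep g e ∧ y e ≠ 0 ∧ e ∉ S by
    obtain ⟨e, h1, h2, h3⟩ := this
    refine ⟨e, h1, h2, fun h => h3 ?_⟩
    obtain ⟨c, hc⟩ := Submodule.mem_span_singleton.1 h
    have hc0 : c ≠ 0 := by rintro rfl; exact hx (by simpa using hc.symm)
    refine Submodule.mem_span_singleton.2 ⟨c⁻¹, ?_⟩
    rw [← hc, smul_smul, inv_mul_cancel₀ hc0, one_smul]; rfl
  by_contra hn
  push Not at hn
  obtain ⟨e1, he1, hy1⟩ : ∃ e1, ¬ Dep g e1 ∧ y e1 ≠ 0 := by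
    by_cases hy0 : y e0 = 0
    · obtain ⟨v, hv⟩ := DFunLike.ne_iff.1 hy
      by_cases hd : Dep g v
      · obtain ⟨s, hs, hs'⟩ := line_lemma hK h0 hd
        exact ⟨_, hs', by simpa [hy0, hs] using hv⟩
      · exact ⟨v, hd, hv⟩
    · exact ⟨e0, h0, hy0⟩
  have hS1 := hn e1 he1 hy1
  have hnot : ∀ e, ¬ Dep g e → e ∈ S → g e ∉ S := by
    intro e he h1 h2
    obtain ⟨s, hs⟩ := Submodule.mem_span_singleton.1 h1
    obtain ⟨t, ht⟩ := Submodule.mem_span_singleton.1 h2
    have hs : s • x = g e - e := hs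
    have ht : t • x = g (g e) - g e := ht
    refine he ⟨-t, t + s, -s, fun h => ?_, ?_⟩
    · have hs0 : s = 0 := neg_eq_zero.1 h.2.2
      rw [hs0, zero_smul] at hs
      refine he ⟨-1, 1, 0, by simp, ?_⟩
      linear_combination (norm := module) -hs
    · linear_combination (norm := module) s • ht - t • hs
  have h2 : ∀ v, Dep g v → y v = 0 → v ∈ S := by
    intro v hv hyv
    obtain ⟨s, hs, hs'⟩ := line_lemma hK he1 hv
    have := S.sub_mem (hn _ hs' (by simpa [hyv] using hy1)) hS1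
    rw [add_sub_cancel_left] at this
    exact (S.smul_mem_iff hs).1 this
  obtain ⟨e, rfl⟩ := hg.2 e1
  have he : ¬ Dep g e := fun h => he1 h.apply
  have heS : e ∉ S := fun h => hnot e he h hS1
  have hgS : g (g e) ∉ S := hnot _ he1 hS1
  have hye : y e = 0 := by by_contra h; exact heS (hn e he h)
  have hyg : y (g (g e)) = 0 := by
    by_contra h; exact hgS (hn _ (fun h' => he1 (h'.of_apply hg.1)) h)
  have h3 : ∀ s : K, s ≠ 0 → e - (s * s) • g (g e) ∈ S := by
    intro s hs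
    have hd : Dep g (e + s • g e) := by
      by_contra h
      have := S.sub_mem (hn _ h (by simp [hye, hs, hy1])) (S.smul_mem s hS1)
      rw [add_sub_cancel_right] at this
      exact heS this
    have h4 := hd.sub s
    have e4 : e + s • g e - s • g (e + s • g e) = e - (s * s) • g (g e) := by
      simp only [map_add, map_smul]; module
    rw [e4] at h4
    exact h2 _ h4 (by simp [hye, hyg])
  have h5 : ∀ s t : K, s ≠ 0 → t ≠ 0 → s * s = t * t := by
    intro s t hs ht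
    by_contra hne
    have := S.sub_mem (h3 s hs) (h3 t ht)
    have e5 : e - (s * s) • g (g e) - (e - (t * t) • g (g e)) = (t * t - s * s) • g (g e) := by
      module
    rw [e5] at this
    exact hgS ((S.smul_mem_iff (sub_ne_zero.2 (Ne.symm hne))).1 this)
  obtain ⟨a, b, c, ha, hb, hc, hab, hac, hbc⟩ := three_ne hK
  rcases mul_self_eq_mul_self_iff.1 (h5 a b ha hb) with h | h
  · exact hab h
  rcases mul_self_eq_mul_self_iff.1 (h5 a c ha hc) with h' | h'
  · exact hac h'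
  exact hbc (neg_inj.1 (h.symm.trans h'))

open Polynomial in
/-- locally quadratic implies quadratic -/
theorem quad_of_dep [FiniteDimensional K V] {g : End K V} (hns : ∀ c : K, g ≠ c • 1)
    (h : ∀ e, Dep g e) : ∃ α β : K, ∀ v, g (g v) = α • g v + β • v := by
  obtain ⟨x, hx⟩ := Module.exists_ker_toSpanSingleton_eq_annihilator (R := K[X]) (M := AEval' g)
  obtain ⟨x, rfl⟩ := (AEval'.of g).surjective x
  obtain ⟨a, b, c, h1, h2⟩ := h x
  have ev : ∀ v, (C a + C b * X + C c * (X * X) : K[X]) • AEval'.of g v =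
      AEval'.of g (a • v + b • g v + c • g (g v)) := by
    intro v
    simp only [add_smul, mul_smul, AEval'.X_smul_of, AEval.C_smul, map_add, map_smul]
  have h3 : (C a + C b * X + C c * (X * X) : K[X]) ∈ annihilator K[X] (AEval' g) := by
    rw [← hx, LinearMap.mem_ker, LinearMap.toSpanSingleton_apply, ev, h2, map_zero]
  have h4 : ∀ v, a • v + b • g v + c • g (g v) = 0 := by
    intro v
    have := mem_annihilator.1 h3 (AEval'.of g v)
    rw [ev] at this
    exact (AEval'.of g).map_eq_zero_iff.1 this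
  by_cases hc : c = 0
  · exfalso
    by_cases hb : b = 0
    · have ha : a ≠ 0 := fun ha => h1 ⟨ha, hb, hc⟩
      apply hns 0
      ext v
      have := h4 (g v)
      simpa [hb, hc, ha] using this
    · apply hns (-a / b)
      ext v
      have := h4 v
      rw [hc, zero_smul, add_zero] at this
      have e : g v = b⁻¹ • (b • g v) := by rw [smul_smul, inv_mul_cancel₀ hb, one_smul]
      rw [e, eq_neg_of_add_eq_zero_right this]
      simp only [LinearMap.smul_apply, End.one_apply]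
      match_scalars
      field_simp
  · refine ⟨-b / c, -a / c, fun v => ?_⟩
    have e : g (g v) = c⁻¹ • (c • g (g v)) := by rw [smul_smul, inv_mul_cancel₀ hc, one_smul]
    rw [e, eq_neg_of_add_eq_zero_right (h4 v)]
    match_scalars <;> field_simp

/-- a good vector when `g` is quadratic -/
theorem exists_quad (hK : Four K) {g : End K V} (hns : ∀ c : K, g ≠ c • 1)
    (hr : ∀ w : V, ¬ LinearMap.range (g - 1) ≤ Submodule.span K {w}) {α β : K}
    (hq : ∀ v, g (g v) = α • g v + β • v) {x : V} (hx : x ≠ 0) {y : Dual K V} (hy : y ≠ 0) :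
    ∃ e, (∀ c : K, g e ≠ c • e) ∧ y e ≠ 0 ∧ x ∉ Submodule.span K ({g e - e} : Set V) := by
  let S : Submodule K V := (Submodule.span K ({x} : Set V)).comap (g - 1)
  have hS : S ≠ ⊤ := by
    intro h
    apply hr x
    rintro _ ⟨v, rfl⟩
    have : v ∈ S := h ▸ Submodule.mem_top
    exact this
  have hk : ∀ c : K, LinearMap.ker (g - c • (1 : End K V)) ≠ ⊤ := fun c h =>
    hns c (sub_eq_zero.1 (LinearMap.ker_eq_top.1 h))
  obtain ⟨l, hl⟩ : ∃ l : K, ∀ c : K, c * c = α * c + β → c = l ∨ c = α - l := by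
    by_cases h : ∃ l : K, l * l = α * l + β
    · obtain ⟨l, hl⟩ := h
      refine ⟨l, fun c hc => ?_⟩
      have : (c - l) * (c - (α - l)) = 0 := by linear_combination hc - hl
      rcases mul_eq_zero.1 this with h | h
      · exact Or.inl (sub_eq_zero.1 h)
      · exact Or.inr (sub_eq_zero.1 h)
    · exact ⟨0, fun c hc => absurd ⟨c, hc⟩ h⟩
  obtain ⟨e, h1, h2, h3, h4⟩ := avoid_sub hK (hk l) (hk (α - l)) hS
    (fun h => hy (LinearMap.ker_eq_top.1 h) : LinearMap.ker y ≠ ⊤)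
  refine ⟨e, fun c hc => ?_, h4, fun h => h3 ?_⟩
  · have he0 : e ≠ 0 := by rintro rfl; exact h1 (Submodule.zero_mem _)
    have h5 := hq e
    rw [hc, map_smul, hc, smul_smul, smul_smul, ← add_smul] at h5
    rcases hl c (smul_left_injective K he0 h5) with rfl | rfl
    · exact h1 (sub_eq_zero.2 hc)
    · exact h2 (sub_eq_zero.2 hc)
  · obtain ⟨c, hc⟩ := Submodule.mem_span_singleton.1 h
    have hc0 : c ≠ 0 := by rintro rfl; exact hx (by simpa using hc.symm)
    refine Submodule.mem_span_singleton.2 ⟨c⁻¹, ?_⟩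
    rw [← hc, smul_smul, inv_mul_cancel₀ hc0, one_smul]; rfl

end Cfsg.Agent.Elu.Lev
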