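import Cfsg.Agent.Elu.Lev1

/-! Lev's theorem, part 2: the Sourour step (`exists_step`), the Schur complement `sc` and its
determinant, the extensions `extL`, `extU` of nilpotent maps from a hyperplane. -/

set_option autoImplicit false

namespace Cfsg.Agent.Elu.Lev

open Module Cfsg.Agent.Elu.AH

variable {K V : Type*} [Field K] [AddCommGroup V] [Module K V]

/-- the Schur complement, as a map of the whole space -/
def sc (g : End K V) (φ : Dual K V) (e : V) : End K V := g - (φ ∘ₗ g).smulRight (g e)

theorem sc_apply (g : End K V) (φ : Dual K V) (e v : V) : sc g φ e v = g v - φ (g v) • g e := rfl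

theorem exists_step (hK : Four K) [FiniteDimensional K V] {g : End K V}
    (hg : Function.Bijective g) (hns : ∀ c : K, g ≠ c • 1)
    (hr : ∀ w : V, ¬ LinearMap.range (g - 1) ≤ Submodule.span K {w}) {x : V} (hx : x ≠ 0)
    {y : Dual K V} (hy : y ≠ 0) :
    ∃ (e : V) (φ : Dual K V), φ e = 1 ∧ φ (g e) = 1 ∧ φ x ≠ 0 ∧ y e ≠ 0 ∧ g e ≠ e ∧
      (∃ v, φ v = 0 ∧ φ (g v) ≠ 0) ∧ (finrank K V ≤ 2 ∨
        ((∀ c : K, ∃ v, φ v = 0 ∧ sc g φ e v ≠ c • v) ∧
          ∃ v, φ v = 0 ∧ sc g φ e (sc g φ e v - v) - (sc g φ e v - v) ≠ 0)) := by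
  by_cases hd : ∀ e, Dep g e
  · obtain ⟨α, β, hq⟩ := quad_of_dep hns hd
    obtain ⟨e, he, hye, hxe⟩ := exists_quad hK hns hr hq hx hy
    obtain ⟨_, ⟨u, rfl⟩, hu⟩ := SetLike.not_le_iff_exists.1 (hr (g e - e))
    have hee : e ∉ Submodule.span K ({g e - e} : Set V) := by
      intro h
      obtain ⟨c, hc⟩ := Submodule.mem_span_singleton.1 h
      by_cases hc0 : c = 0
      · rw [hc0, zero_smul] at hc
        exact he 0 (by rw [← hc]; simp)
      · apply he (c⁻¹ + 1)
        have : g e = c⁻¹ • (c • (g e - e)) + e := by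
          rw [smul_smul, inv_mul_cancel₀ hc0, one_smul, sub_add_cancel]
        rw [this, hc]; module
    obtain ⟨φ, hW, h1, h2, h3, -⟩ := avoid_fun hK hee hxe hu hu
    have h4 : φ (g e) = 1 := by
      have := hW _ (Submodule.mem_span_singleton_self _)
      rw [map_sub, h1] at this
      exact sub_eq_zero.1 this
    have hne : g e ≠ e := by simpa using he 1
    obtain ⟨v0, hv0, hv1⟩ : ∃ v, φ v = 0 ∧ φ (g v) ≠ 0 := by
      refine ⟨u - φ u • e, by simp [h1], ?_⟩
      simpa [h4] using h3
    refine ⟨e, φ, h1, h4, h2, hye, hne, ⟨v0, hv0, hv1⟩, ?_⟩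
    by_cases hn : finrank K V ≤ 2
    · exact Or.inl hn
    right
    obtain ⟨w, hw, hw0⟩ : ∃ w ∈ LinearMap.ker (φ.prod (φ ∘ₗ g)), w ≠ 0 :=
      Submodule.exists_mem_ne_zero_of_ne_bot
        (LinearMap.ker_ne_bot_of_finrank_lt (by simp; omega))
    have hw1 : φ w = 0 := congrArg Prod.fst (LinearMap.mem_ker.1 hw)
    have hw2 : φ (g w) = 0 := congrArg Prod.snd (LinearMap.mem_ker.1 hw)
    constructor
    · intro c
      by_contra hc
      push Not at hc
      have a1 := hc w hw1
      rw [sc_apply, hw2, zero_smul, sub_zero] at a1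
      have a2 := hq w
      rw [a1, map_smul, a1, smul_smul, smul_smul, ← add_smul] at a2
      have a3 := smul_left_injective K hw0 a2
      have a4 := hc v0 hv0
      rw [sc_apply] at a4
      have a5 := congrArg g a4
      simp only [map_sub, map_smul] at a5
      apply he (α - c)
      apply hg.1
      apply smul_right_injective V hv1
      simp only [map_smul]
      linear_combination (norm := skip) -a5 + (α - c) • a4 + hq v0 - a3 • v0
      module
    · by_contra hc
      push Not at hc
      have b1 : sc g φ e (g e - e) = -β • (g e - e) := by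
        rw [sc_apply, map_sub, hq e]
        simp only [map_add, map_sub, map_smul, h1, h4, smul_eq_mul]
        module
      have b2 := hc (g e - e) (by simp [h1, h4])
      rw [map_sub, b1, map_smul, b1] at b2
      have b3 : ((β + 1) * (β + 1)) • (g e - e) = 0 := by rw [← b2]; module
      have b4 : β = -1 := by
        have := (smul_eq_zero.1 b3).resolve_right (sub_ne_zero.2 hne)
        exact eq_neg_of_add_eq_zero_left (mul_self_eq_zero.1 this)
      have b5 := hc w hw1
      have hw3 : φ (g (g w)) = 0 := by rw [hq]; simp [hw1, hw2]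
      simp only [sc_apply, map_sub, hw2, hw3, zero_smul, sub_zero, sub_self] at b5
      have b6 : (α - 2) • g w = 0 := by
        rw [← b5, hq, b4]; module
      have b7 : α = 2 := by
        refine sub_eq_zero.1 ((smul_eq_zero.1 b6).resolve_right fun h => hw0 (hg.1 ?_))
        rw [h, map_zero]
      have b8 := hc v0 hv0
      rw [sc_apply g φ e (sc g φ e v0 - v0)] at b8
      set k := φ (g (sc g φ e v0 - v0))
      rw [sc_apply] at b8
      simp only [map_sub, map_smul, hq, b4, b7] at b8
      have b9 : φ (g v0) • (g e - e) + k • g e = 0 := by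
        linear_combination (norm := module) -b8
      have b10 := congrArg φ b9
      simp only [map_add, map_smul, map_sub, h1, h4, sub_self, smul_eq_mul, mul_zero, mul_one,
        zero_add, map_zero] at b10
      rw [b10, zero_smul, add_zero] at b9
      exact (smul_ne_zero hv1 (sub_ne_zero.2 hne)) b9
  · push Not at hd
    obtain ⟨e0, h0⟩ := hd
    obtain ⟨e, he, hye, hxe⟩ := exists_cubic hK hg h0 hx hy
    set n1 := g e - e with hn1
    set n2 := g n1 - n1 with hn2
    set n3 := g n2 - n2 with hn3
    obtain ⟨t0, ht0⟩ : ∃ t0 : K, ∀ t s : K, n3 - t • (n1 + n2) = s • g e → t = t0 := by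
      by_cases h : ∃ t s : K, n3 - t • (n1 + n2) = s • g e
      · obtain ⟨t0, s0, h⟩ := h
        refine ⟨t0, fun t s h' => ?_⟩
        by_contra hne
        refine he ⟨0, t0 - t + s - s0, t - t0, fun h => hne (sub_eq_zero.1 h.2.2), ?_⟩
        have : n1 + n2 = g (g e) - g e := by rw [hn2, hn1, map_sub]; abel
        rw [this] at h h'
        linear_combination (norm := module) h - h'
      · exact ⟨0, fun t s h' => absurd ⟨t, s, h'⟩ h⟩
    have hn2' : n2 = g (g e) - (2 : K) • g e + e := by rw [hn2, hn1, map_sub]; module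
    have key : ∀ a b : K, ¬ (a = 0 ∧ b = 0) → a • e + b • n2 ∉ Submodule.span K ({n1} : Set V) := by
      intro a b hab h
      obtain ⟨c, hc⟩ := Submodule.mem_span_singleton.1 h
      refine he ⟨a + b + c, -2 * b - c, b, fun h => hab ⟨?_, h.2.2⟩, ?_⟩
      · linear_combination h.1 + h.2.1 + h.2.2
      · rw [hn2', hn1] at hc
        linear_combination (norm := module) -hc
    obtain ⟨φ, hW, h1, h2, h3, h4⟩ := avoid_fun hK (key 1 0 (by simp)) hxe (key 0 1 (by simp))
      (key (-t0) 1 (by simp))
    simp only [one_smul, zero_smul, add_zero, zero_add] at h1 h3 h4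
    have h5 : φ n1 = 0 := hW _ (Submodule.mem_span_singleton_self _)
    have h6 : φ (g e) = 1 := by
      rw [hn1, map_sub, h1] at h5
      exact sub_eq_zero.1 h5
    have h7 : φ (g n1) = φ n2 := by rw [hn2, map_sub φ, h5, sub_zero]
    refine ⟨e, φ, h1, h6, h2, hye, fun h => he ⟨-1, 1, 0, by simp, by simp [h]⟩,
      ⟨n1, h5, h7 ▸ h3⟩, Or.inr ⟨fun c => ⟨n1, h5, fun h => ?_⟩, n1, h5, fun h => ?_⟩⟩
    · rw [sc_apply, h7] at h
      refine he ⟨c, -1 - φ n2 - c, 1, by simp, ?_⟩
      rw [hn1, map_sub] at h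
      linear_combination (norm := module) h
    · have e1 : sc g φ e n1 - n1 = n2 - φ n2 • g e := by rw [sc_apply, h7, hn2]; abel
      rw [e1, sc_apply] at h
      set k := φ (g (n2 - φ n2 • g e))
      have := ht0 (φ n2) k (by
        have e2 : n1 + n2 = g (g e) - g e := by rw [hn2, hn1, map_sub]; abel
        rw [e2, hn3]
        rw [map_sub, map_smul] at h
        linear_combination (norm := module) h)
      apply h4
      rw [map_add, map_smul, h1, this]; simp

/-- projection onto `ker φ` along `e` -/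
def pr (φ : Dual K V) (e : V) (he : φ e = 1) : V →ₗ[K] LinearMap.ker φ :=
  LinearMap.codRestrict _ (LinearMap.id - φ.smulRight e) fun v => by simp [he]

theorem pr_coe (φ : Dual K V) (e : V) (he : φ e = 1) (v : V) :
    (pr φ e he v : V) = v - φ v • e := rfl

theorem pr_add (φ : Dual K V) (e : V) (he : φ e = 1) (h : LinearMap.ker φ) (c : K) :
    pr φ e he (h + c • e) = h := by
  have : φ h = 0 := h.2
  apply Subtype.ext
  simp [pr_coe, this, he]

theorem pr_coe' (φ : Dual K V) (e : V) (he : φ e = 1) (h : LinearMap.ker φ) :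
    pr φ e he h = h := by simpa using pr_add φ e he h 0

theorem pr_self (φ : Dual K V) (e : V) (he : φ e = 1) : pr φ e he e = 0 := by
  simpa using pr_add φ e he 0 1

/-- lower extension -/
def extL (φ : Dual K V) (e : V) (he : φ e = 1) (M : End K (LinearMap.ker φ))
    (a : LinearMap.ker φ) : End K V :=
  (LinearMap.ker φ).subtype ∘ₗ (M ∘ₗ pr φ e he + φ.smulRight a)

theorem extL_apply (φ : Dual K V) (e : V) (he : φ e = 1) (M : End K (LinearMap.ker φ))
    (a : LinearMap.ker φ) (v : V) : extL φ e he M a v = (M (pr φ e he v) + φ v • a :) := rfl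

theorem extL_coe (φ : Dual K V) (e : V) (he : φ e = 1) (M : End K (LinearMap.ker φ))
    (a h : LinearMap.ker φ) : extL φ e he M a h = M h := by
  have : φ h = 0 := h.2
  rw [extL_apply, pr_coe', this, zero_smul, add_zero]

theorem extL_self (φ : Dual K V) (e : V) (he : φ e = 1) (M : End K (LinearMap.ker φ))
    (a : LinearMap.ker φ) : extL φ e he M a e = a := by
  rw [extL_apply, pr_self, he, map_zero, zero_add, one_smul]

theorem extL_pow (φ : Dual K V) (e : V) (he : φ e = 1) (M : End K (LinearMap.ker φ))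
    (a : LinearMap.ker φ) (k : ℕ) (v : V) :
    (extL φ e he M a ^ (k + 1)) v = ((M ^ k) (M (pr φ e he v) + φ v • a) :) := by
  induction k with
  | zero => rw [zero_add, pow_one, pow_zero]; rfl
  | succ k ih => rw [pow_succ', End.mul_apply, ih, extL_coe, pow_succ', End.mul_apply]

theorem extL_nil (φ : Dual K V) (e : V) (he : φ e = 1) (M : End K (LinearMap.ker φ))
    (a : LinearMap.ker φ) {k : ℕ} (hM : M ^ k = 0) : extL φ e he M a ^ (k + 1) = 0 := by
  ext v
  rw [extL_pow, hM]; rfl

theorem extL_top (φ : Dual K V) (e : V) (he : φ e = 1) (M : End K (LinearMap.ker φ))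
    (a : LinearMap.ker φ) {k : ℕ} (hM : M ^ (k + 1) = 0) (ha : (M ^ k) a ≠ 0) {v : V}
    (hv : φ v ≠ 0) : (extL φ e he M a ^ (k + 1)) v ≠ 0 := by
  rw [extL_pow, map_add, ← End.mul_apply, ← pow_succ, hM, LinearMap.zero_apply, zero_add, map_smul]
  exact fun h => smul_ne_zero hv ha (Subtype.ext h)

/-- upper extension -/
def extU (φ : Dual K V) (e : V) (he : φ e = 1) (P : End K (LinearMap.ker φ))
    (y : Dual K (LinearMap.ker φ)) : End K V :=
  (LinearMap.ker φ).subtype ∘ₗ P ∘ₗ pr φ e he + (y ∘ₗ pr φ e he).smulRight e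

theorem extU_apply (φ : Dual K V) (e : V) (he : φ e = 1) (P : End K (LinearMap.ker φ))
    (y : Dual K (LinearMap.ker φ)) (v : V) :
    extU φ e he P y v = (P (pr φ e he v) : V) + y (pr φ e he v) • e := rfl

theorem extU_pow (φ : Dual K V) (e : V) (he : φ e = 1) (P : End K (LinearMap.ker φ))
    (y : Dual K (LinearMap.ker φ)) (k : ℕ) (v : V) :
    (extU φ e he P y ^ (k + 1)) v =
      ((P ^ (k + 1)) (pr φ e he v) : V) + y ((P ^ k) (pr φ e he v)) • e := by
  induction k with
  | zero => rw [zero_add, pow_one, pow_zero, pow_one]; rfl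
  | succ k ih => rw [pow_succ', End.mul_apply, ih, extU_apply, pr_add, pow_succ' P (k + 1),
      End.mul_apply]

/-- the Schur complement on `ker φ` -/
def sc1 (g : End K V) (φ : Dual K V) (e : V) (h : φ (g e) = 1) : End K (LinearMap.ker φ) :=
  (sc g φ e).restrict fun v _ => by simp [sc_apply, h]

theorem sc1_coe (g : End K V) (φ : Dual K V) (e : V) (h : φ (g e) = 1) (v : LinearMap.ker φ) :
    (sc1 g φ e h v : V) = sc g φ e v := rfl

theorem det_extL [FiniteDimensional K V] (φ : Dual K V) (e : V) (he : φ e = 1)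
    (M : End K (LinearMap.ker φ)) (a : LinearMap.ker φ) :
    LinearMap.det (1 + extL φ e he M a) = LinearMap.det (1 + M) := by
  have hle : LinearMap.ker φ ≤ (LinearMap.ker φ).comap (1 + extL φ e he M a) := by
    intro v hv
    exact (LinearMap.ker φ).add_mem hv (M (pr φ e he v) + φ v • a).2
  rw [LinearMap.det_eq_det_mul_det _ _ hle]
  have e1 : (1 + extL φ e he M a).restrict hle = 1 + M := by
    ext v
    exact congrArg (fun t => (v : V) + t) (extL_coe φ e he M a v)
  have e2 : (LinearMap.ker φ).mapQ (LinearMap.ker φ) (1 + extL φ e he M a) hle = LinearMap.id := by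
    ext v
    simp only [LinearMap.comp_apply, Submodule.mkQ_apply, Submodule.mapQ_apply, LinearMap.id_apply]
    rw [Submodule.Quotient.eq]
    simp only [LinearMap.add_apply, End.one_apply, add_sub_cancel_left]
    exact (M (pr φ e he v) + φ v • a).2
  rw [e1, e2, LinearMap.det_id, mul_one]

theorem mul_ext (g : End K V) (φ : Dual K V) (e : V) (he : φ e = 1) (h : φ (g e) = 1)
    (M P : End K (LinearMap.ker φ)) (hMP : sc1 g φ e h = (1 + M) * (1 + P)) :
    g = (1 + extL φ e he M ⟨g e - e, by simp [he, h]⟩) *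
      (1 + extU φ e he P ((φ ∘ₗ g) ∘ₗ (LinearMap.ker φ).subtype)) := by
  ext v
  have e0 : v = (pr φ e he v : V) + φ v • e := by rw [pr_coe, sub_add_cancel]
  generalize pr φ e he v = u at e0
  generalize φ v = c at e0
  subst e0
  have e1 := congrArg Subtype.val (LinearMap.congr_fun hMP u)
  rw [sc1_coe, sc_apply] at e1
  simp only [End.mul_apply, LinearMap.add_apply, End.one_apply, map_add, Submodule.coe_add] at e1
  rw [End.mul_apply, LinearMap.add_apply (f := 1) (g := extU _ _ _ _ _), extU_apply, pr_add]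
  simp only [LinearMap.add_apply, End.one_apply, map_add, map_smul, extL_coe, extL_self,
    LinearMap.comp_apply, Submodule.subtype_apply]
  linear_combination (norm := module) e1

theorem det_sc1 [FiniteDimensional K V] (g : End K V) (φ : Dual K V) (e : V) (he : φ e = 1)
    (h : φ (g e) = 1) : LinearMap.det (sc1 g φ e h) = LinearMap.det g := by
  conv_rhs => rw [mul_ext g φ e he h (sc1 g φ e h - 1) 0 (by simp)]
  rw [map_mul, det_extL, add_sub_cancel]
  have : (1 + extU φ e he 0 ((φ ∘ₗ g) ∘ₗ (LinearMap.ker φ).subtype)) =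
      LinearMap.transvection (((φ ∘ₗ g) ∘ₗ (LinearMap.ker φ).subtype) ∘ₗ pr φ e he) e := by
    ext v
    simp [extU_apply, LinearMap.transvection.apply]
  rw [this, LinearMap.transvection.det, LinearMap.comp_apply, pr_self]
  simp

end Cfsg.Agent.Elu.Lev
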