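import Cfsg.Agent.Elu.Lev2

/-! Lev's theorem, part 3: every non-scalar map of determinant one in dimension ≥ 3 over a field
with at least four elements is a product of two regular unipotent maps (`exists_reg`); a regular
unipotent map is conjugate to the Jordan block (`conj_J`). -/

set_option autoImplicit false

namespace Cfsg.Agent.Elu.Lev

open Module Cfsg.Agent.Elu.AH

universe u

variable {K : Type*} [Field K]

theorem rank_one {V : Type*} [AddCommGroup V] [Module K V] [FiniteDimensional K V] {g : End K V}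
    (hg : LinearMap.det g = 1) {w : V} (hw : LinearMap.range (g - 1) ≤ Submodule.span K {w}) :
    ∃ ψ : Dual K V, ψ w = 0 ∧ ∀ v, g v = v + ψ v • w := by
  by_cases hw0 : w = 0
  · refine ⟨0, rfl, fun v => ?_⟩
    have := hw ⟨v, rfl⟩
    rw [hw0, Submodule.span_zero_singleton, Submodule.mem_bot] at this
    simpa [sub_eq_zero] using this
  · let ψ : Dual K V := (LinearEquiv.coord K V w hw0).toLinearMap ∘ₗ
      LinearMap.codRestrict _ (g - 1) fun v => hw ⟨v, rfl⟩
    have h1 : ∀ v, g v = v + ψ v • w := by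
      intro v
      have := LinearEquiv.coord_apply_smul K V w hw0 ⟨(g - 1) v, hw ⟨v, rfl⟩⟩
      have e : ψ v • w = g v - v := this
      rw [e, add_sub_cancel]
    refine ⟨ψ, ?_, h1⟩
    have h2 : g = LinearMap.transvection ψ w := LinearMap.ext h1
    rw [h2, LinearMap.transvection.det] at hg
    exact add_eq_left.1 hg

theorem main (hK : Four K) (n : ℕ) : ∀ (V : Type u) [AddCommGroup V] [Module K V]
    [FiniteDimensional K V], finrank K V = n + 1 → ∀ g : End K V, LinearMap.det g = 1 →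
    (n = 0 ∨ ((∀ c : K, g ≠ c • 1) ∧
      ∀ w : V, ¬ LinearMap.range (g - 1) ≤ Submodule.span K {w})) →
    ∀ x : V, x ≠ 0 → ∀ y : Dual K V, y ≠ 0 → ∃ M P : End K V, g = (1 + M) * (1 + P) ∧
      M ^ (n + 1) = 0 ∧ P ^ (n + 1) = 0 ∧ (M ^ n) x ≠ 0 ∧ ∃ v, y ((P ^ n) v) ≠ 0 := by
  induction n with
  | zero =>
    intro V _ _ _ hV g hg _ x hx y hy
    obtain ⟨c, hc, -⟩ := LinearMap.existsUnique_eq_smul_id_of_finrank_eq_one hV g
    rw [hc, LinearMap.det_smul, hV, LinearMap.det_id] at hg
    have hc1 : c = 1 := by simpa using hg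
    obtain ⟨v, hv⟩ := DFunLike.ne_iff.1 hy
    refine ⟨0, 0, ?_, by simp, by simp, by simpa using hx, v, by simpa using hv⟩
    rw [hc, hc1]; ext; simp
  | succ n ih =>
    intro V _ _ _ hV g hg hgood x hx y hy
    obtain ⟨hns, hr⟩ := hgood.resolve_left (by omega)
    have hb : Function.Bijective g :=
      (End.isUnit_iff g).1 ((LinearMap.isUnit_iff_isUnit_det g).2 (hg ▸ isUnit_one))
    obtain ⟨e, φ, h1, h2, h3, h4, h5, ⟨v0, h6, h7⟩, h8⟩ := exists_step hK hb hns hr hx hy
    have hφ : φ ≠ 0 := by rintro rfl; simp at h1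
    have hH : finrank K (LinearMap.ker φ) = n + 1 := by
      have := Module.Dual.finrank_ker_add_one_of_ne_zero hφ
      omega
    have hd : LinearMap.det (sc1 g φ e h2) = 1 := by rw [det_sc1 g φ e h1, hg]
    obtain ⟨M, P, e1, e2, e3, e4, v, e5⟩ := ih (LinearMap.ker φ) hH (sc1 g φ e h2) hd (by
        rcases h8 with h8 | ⟨h8, v1, h9, h10⟩
        · left; omega
        refine Or.inr ⟨fun c hc => ?_, fun w hw => ?_⟩
        · obtain ⟨v, hv, hv'⟩ := h8 c
          exact hv' (congrArg Subtype.val (LinearMap.congr_fun hc ⟨v, hv⟩))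
        · obtain ⟨ψ, hψ, hψ'⟩ := rank_one hd hw
          apply h10
          have a1 := congrArg Subtype.val (hψ' ⟨v1, h9⟩)
          have a2 := congrArg Subtype.val (hψ' w)
          rw [sc1_coe] at a1 a2
          simp only [Submodule.coe_add, Submodule.coe_smul, hψ, zero_smul, add_zero] at a1 a2
          rw [a1, add_sub_cancel_left, map_smul, a2, sub_self])
      ⟨g e - e, by simp [h1, h2]⟩ (fun h => h5 (sub_eq_zero.1 (congrArg Subtype.val h)))
      ((φ ∘ₗ g) ∘ₗ (LinearMap.ker φ).subtype) (fun h => h7 (LinearMap.congr_fun h ⟨v0, h6⟩))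
    refine ⟨_, _, mul_ext g φ e h1 h2 M P e1, extL_nil _ _ _ _ _ e2, ?_,
      extL_top _ _ _ _ _ e2 e4 h3, v, ?_⟩
    · ext u
      rw [extU_pow, pow_succ' P (n + 1), e3]; simp
    · rw [extU_pow, e3, pr_coe']
      simpa [h4] using e5

theorem trans_case (hK : Four K) (n : ℕ) : ∀ (V : Type u) [AddCommGroup V] [Module K V]
    [FiniteDimensional K V], finrank K V = n + 1 → ∀ (φ : Dual K V) (e w : V), φ e = 1 → φ w = 0 →
    ∃ M P : End K V, 1 + φ.smulRight w = (1 + M) * (1 + P) ∧
      M ^ (n + 1) = 0 ∧ P ^ (n + 1) = 0 ∧ (M ^ n) e ≠ 0 ∧ (P ^ n) e ≠ 0 := by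
  induction n with
  | zero =>
    intro V _ _ _ hV φ e w he hw
    have hφ : φ ≠ 0 := by rintro rfl; simp at he
    have he0 : e ≠ 0 := by rintro rfl; simp at he
    have hH : finrank K (LinearMap.ker φ) = 0 := by
      have := Module.Dual.finrank_ker_add_one_of_ne_zero hφ
      omega
    have : w = 0 := by
      have h : w ∈ LinearMap.ker φ := hw
      rwa [Submodule.finrank_eq_zero.1 hH, Submodule.mem_bot] at h
    exact ⟨0, 0, by simp [this], by simp, by simp, by simpa using he0, by simpa using he0⟩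
  | succ n ih =>
    intro V _ _ _ hV φ e w he hw
    have hφ : φ ≠ 0 := by rintro rfl; simp at he
    have hH : finrank K (LinearMap.ker φ) = n + 1 := by
      have := Module.Dual.finrank_ker_add_one_of_ne_zero hφ
      omega
    obtain ⟨e1, he1⟩ : ∃ e1 : LinearMap.ker φ, e1 ≠ 0 :=
      (Module.finrank_pos_iff_exists_ne_zero (R := K)).1 (by omega)
    obtain ⟨φ1, hφ1, -⟩ := exists_dual (F := K) (W := ⊥) (y := e1) (by simpa using he1)
    obtain ⟨M, P, a1, a2, a3, a4, a5⟩ := ih (LinearMap.ker φ) hH φ1 e1 0 hφ1 (map_zero _)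
    have a1' : (1 + M) * (1 + P) = 1 := by rw [← a1]; simp
    let w' : LinearMap.ker φ := ⟨w, hw⟩
    obtain ⟨s, hs0, hs⟩ : ∃ s : K, s ≠ 0 ∧ (M ^ n) (w' - s • (1 + M) e1) ≠ 0 := by
      obtain ⟨a, b, -, ha, hb, -, hab, -⟩ := three_ne hK
      have key : ∀ s : K, (M ^ n) (w' - s • (1 + M) e1) = (M ^ n) w' - s • (M ^ n) e1 := by
        intro s
        rw [map_sub, map_smul, LinearMap.add_apply, map_add, ← End.mul_apply (M ^ n) M, ← pow_succ,
          a2]
        simp
      by_contra hn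
      push Not at hn
      have b1 := hn a ha
      have b2 := hn b hb
      rw [key] at b1 b2
      refine smul_ne_zero (sub_ne_zero.2 hab) a4 ?_
      linear_combination (norm := module) b2 - b1
    refine ⟨extL φ e he M (w' - s • (1 + M) e1), extL φ e he P (s • e1), ?_, extL_nil _ _ _ _ _ a2,
      extL_nil _ _ _ _ _ a3, extL_top _ _ _ _ _ a2 hs (by simp [he]),
      extL_top _ _ _ _ _ a3 (by rw [map_smul]; exact smul_ne_zero hs0 a5) (by simp [he])⟩
    ext v
    have e0 : v = (pr φ e he v : V) + φ v • e := by rw [pr_coe, sub_add_cancel]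
    generalize pr φ e he v = u at e0
    generalize φ v = c at e0
    subst e0
    have b1 := congrArg Subtype.val (LinearMap.congr_fun a1' u)
    have b2 : φ u = 0 := u.2
    simp only [End.mul_apply, LinearMap.add_apply, End.one_apply, map_add, Submodule.coe_add] at b1
    simp only [End.mul_apply, LinearMap.add_apply, End.one_apply, map_add, map_smul, extL_coe,
      extL_self, LinearMap.smulRight_apply, b2, he, Submodule.coe_add, Submodule.coe_sub,
      Submodule.coe_smul, w']
    linear_combination (norm := module) -b1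

theorem exists_reg (hK : Four K) {V : Type u} [AddCommGroup V] [Module K V]
    [FiniteDimensional K V] {n : ℕ} (hV : finrank K V = n + 1) {g : End K V}
    (hg : LinearMap.det g = 1) (hns : ∀ c : K, g ≠ c • 1) :
    ∃ M P : End K V, g = (1 + M) * (1 + P) ∧
      M ^ (n + 1) = 0 ∧ P ^ (n + 1) = 0 ∧ (∃ x, (M ^ n) x ≠ 0) ∧ ∃ x, (P ^ n) x ≠ 0 := by
  by_cases hr : ∀ w : V, ¬ LinearMap.range (g - 1) ≤ Submodule.span K {w}
  · obtain ⟨x, hx⟩ : ∃ x : V, x ≠ 0 :=
      (Module.finrank_pos_iff_exists_ne_zero (R := K)).1 (by omega)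
    obtain ⟨y, hy, -⟩ := exists_dual (F := K) (W := ⊥) (y := x) (by simpa using hx)
    obtain ⟨M, P, h1, h2, h3, h4, v, h5⟩ := main hK n V hV g hg (Or.inr ⟨hns, hr⟩) x hx y
      (by rintro rfl; simp at hy)
    exact ⟨M, P, h1, h2, h3, ⟨x, h4⟩, v, fun h => h5 (by rw [h, map_zero])⟩
  · push Not at hr
    obtain ⟨w, hw⟩ := hr
    obtain ⟨ψ, h1, h2⟩ := rank_one hg hw
    have hψ : ψ ≠ 0 := by
      rintro rfl
      apply hns 1
      ext v
      simp [h2]
    obtain ⟨e, he⟩ := Module.Dual.range_eq_top_of_ne_zero hψ ▸ (Submodule.mem_top (x := (1 : K)))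
    obtain ⟨M, P, a1, a2, a3, a4, a5⟩ := trans_case hK n V hV ψ e w he h1
    refine ⟨M, P, ?_, a2, a3, ⟨e, a4⟩, e, a5⟩
    rw [← a1]
    exact LinearMap.ext h2

theorem li_pow {V : Type*} [AddCommGroup V] [Module K V] (M : End K V) (k : ℕ) :
    ∀ x : V, (M ^ k) x ≠ 0 → (M ^ (k + 1)) x = 0 →
      LinearIndependent K fun i : Fin (k + 1) => (M ^ (i : ℕ)) x := by
  induction k with
  | zero =>
    intro x hx _
    exact (linearIndependent_unique_iff (ι := Fin 1)).2 (by simpa using hx)
  | succ k ih =>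
    intro x hx hx'
    rw [linearIndependent_finSucc]
    have e : (Fin.tail fun i : Fin (k + 1 + 1) => (M ^ (i : ℕ)) x) =
        fun i : Fin (k + 1) => (M ^ (i : ℕ)) (M x) := by
      funext i
      simp [Fin.tail, pow_succ]
    rw [e]
    refine ⟨ih (M x) (by rwa [← End.mul_apply, ← pow_succ]) (by rwa [← End.mul_apply, ← pow_succ]),
      fun h => hx ?_⟩
    have : Submodule.span K (Set.range fun i : Fin (k + 1) => (M ^ (i : ℕ)) (M x)) ≤
        LinearMap.ker (M ^ (k + 1)) := by
      rw [Submodule.span_le]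
      rintro _ ⟨i, rfl⟩
      show (M ^ (k + 1)) ((M ^ (i : ℕ)) (M x)) = 0
      rw [← End.mul_apply, ← pow_add, add_comm, pow_add, End.mul_apply, ← End.mul_apply _ M,
        ← pow_succ, hx', map_zero]
    simpa using this h

theorem conj_J {n : ℕ} (J : Matrix (Fin (n + 1)) (Fin (n + 1)) K)
    (hJ : ∀ i j, J i j = if i = j then 1 else if j.val = i.val + 1 then 1 else 0)
    (M : End K (Fin (n + 1) → K)) (hM : M ^ (n + 1) = 0) {x : Fin (n + 1) → K}
    (hx : (M ^ n) x ≠ 0) : ∃ P : GL (Fin (n + 1)) K,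
      LinearMap.toMatrix' (1 + M) = P.val * J * (P⁻¹).val := by
  have hli := (li_pow M n x hx (by rw [hM]; rfl)).comp Fin.rev Fin.rev_injective
  let Q : Matrix (Fin (n + 1)) (Fin (n + 1)) K :=
    Matrix.of fun i j => (M ^ (j.rev : ℕ)) x i
  have hQ : IsUnit Q := Matrix.linearIndependent_cols_iff_isUnit.1 hli
  refine ⟨hQ.unit, ?_⟩
  rw [Units.eq_mul_inv_iff_mul_eq, IsUnit.unit_spec]
  ext i j
  have e1 : (LinearMap.toMatrix' (1 + M) * Q : Matrix _ _ K) i j =
      (M ^ (j.rev : ℕ)) x i + (M ^ ((j.rev : ℕ) + 1)) x i := by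
    have : (LinearMap.toMatrix' (1 + M) * Q : Matrix _ _ K) i j =
        (LinearMap.toMatrix' (1 + M)).mulVec ((M ^ (j.rev : ℕ)) x) i := rfl
    rw [this, LinearMap.toMatrix'_mulVec, pow_succ']
    rfl
  rw [e1, Matrix.mul_apply]
  have e2 : ∀ k, Q i k * J k j =
      (if k = j then Q i k else 0) + if j.val = k.val + 1 then Q i k else 0 := by
    intro k
    rw [hJ]
    by_cases h : k = j
    · subst h; simp
    · simp [h]
  simp only [e2, Finset.sum_add_distrib, Finset.sum_ite_eq', Finset.mem_univ, if_true]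
  congr 1
  refine Fin.cases ?_ (fun j => ?_) j
  · simp [hM]
  · rw [Finset.sum_eq_single j.castSucc]
    · simp only [Fin.val_succ, Fin.val_castSucc, if_true, Q, Matrix.of_apply, Fin.val_rev]
      have : n + 1 - (j.val + 1 + 1) + 1 = n + 1 - (j.val + 1) := by omega
      rw [this]
    · intro k _ hk
      rw [if_neg]
      intro h
      apply hk
      ext
      simpa using h.symm
    · simp

end Cfsg.Agent.Elu.Lev
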