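import Cfsg.Agent.Elu.OrthUnip
import Cfsg.Agent.Classical.SUConj

/-! Conjugating elements of `SL_n(q)` into a subgroup: `Cj S f` (similar to a member of `S`),
`special_iff`, diagonalisable maps `Dg y T`, the reductions `forall_pe_iff`, `forall_refl` (`r = 2`)
and `forall_sym` (`r ∣ q - 1` odd), similarities `Sim Φ h`. -/

set_option autoImplicit false
set_option linter.unusedSectionVars false

namespace Cfsg.Agent.Elu

open Module Polynomial Cfsg.Agent.Classical Cfsg.Agent.Geom Cfsg.Agent.Geom.Formed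

universe u

theorem dvd_of_relIndex {G K : Type*} [Group G] [Finite G] [Group K] {H N : Subgroup G} [N.Normal]
    {r : ℕ} (h : r ∣ H.relIndex N) (φ : K →* G) (hφ : Function.Injective φ) (hK : ∀ k, φ k ∈ H) :
    r * Nat.card K ∣ Nat.card G := by
  have h1 : Nat.card K = Nat.card φ.range := Nat.card_congr (MonoidHom.ofInjective hφ).toEquiv
  have h2 : Nat.card (N.subgroupOf φ.range) ∣ Nat.card (H.subgroupOf N) := by
    rw [← Subgroup.card_map_of_injective (Subgroup.subtype_injective _),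
      ← Subgroup.card_map_of_injective (K := H.subgroupOf N) (Subgroup.subtype_injective _),
      Subgroup.subgroupOf_map_subtype, Subgroup.subgroupOf_map_subtype, inf_comm H]
    exact Subgroup.card_dvd_of_le (inf_le_inf_left _ (by rintro _ ⟨k, rfl⟩; exact hK k))
  rw [h1, ← (N.subgroupOf φ.range).card_mul_index, ← N.card_mul_index,
    ← (H.subgroupOf N).card_mul_index, ← mul_assoc, mul_comm r]
  exact mul_dvd_mul (mul_dvd_mul h2 h) (Subgroup.relIndex_dvd_index_of_normal N _)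

theorem dvd_div_gcd_iff {r N n : ℕ} [hr : Fact r.Prime] (hN : N ≠ 0) (hn : n ≠ 0) :
    r ∣ N / N.gcd n ↔ padicValNat r n < padicValNat r N := by
  have hg : N.gcd n ≠ 0 := by simp [hN]
  have h0 : N / N.gcd n ≠ 0 :=
    (Nat.div_pos (Nat.gcd_le_left _ (Nat.pos_of_ne_zero hN)) (Nat.pos_of_ne_zero hg)).ne'
  rw [dvd_iff_padicValNat_ne_zero h0, padicValNat.div_of_dvd (Nat.gcd_dvd_left _ _),
    ← Nat.factorization_def _ hr.out, ← Nat.factorization_def _ hr.out,
    ← Nat.factorization_def _ hr.out, Nat.factorization_gcd hN hn, Finsupp.inf_apply]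
  omega

variable {F : Type*} [Field F] [Finite F] {V : Type u} [AddCommGroup V] [Module F V]
  [FiniteDimensional F V] {f y : End F V}

theorem exists_pow_eq_root {r n : ℕ} [hr : Fact r.Prime] (hn : n ≠ 0)
    (h : padicValNat r n < padicValNat r (Nat.card F - 1)) {z : F} (hz : z ^ r = 1) :
    ∃ w : F, w ^ n = z := by
  have h0 : z ≠ 0 := by rintro rfl; simp [hr.out.ne_zero] at hz
  obtain ⟨k, hk⟩ := (dvd_div_gcd_iff (r := r) (N := Nat.card Fˣ) Nat.card_pos.ne' hn).2
    (by rwa [Nat.card_units])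
  obtain ⟨c, hc⟩ := (exists_pow_eq_iff n (Units.mk0 z h0)).2 (by
    rw [hk, pow_mul]; ext; simp [hz])
  exact ⟨c, congrArg Units.val hc⟩

theorem root_eq_one {r n : ℕ} [hr : Fact r.Prime] (hn : n ≠ 0)
    (h : padicValNat r (Nat.card F - 1) ≤ padicValNat r n) {z w : F} (hz : z ^ r = 1)
    (hw : w ^ n * z = 1) : z = 1 := by
  have h0 : w ≠ 0 := by rintro rfl; simp [hn] at hw
  have h1 := (exists_pow_eq_iff n ((Units.mk0 w h0)⁻¹ ^ n)).1 ⟨_, rfl⟩
  have h2 : z = w⁻¹ ^ n := by rw [inv_pow]; exact eq_inv_of_mul_eq_one_right hw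
  have h3 : z ^ (Nat.card Fˣ / (Nat.card Fˣ).gcd n) = 1 := by
    rw [h2]; simpa using congrArg Units.val h1
  have h4 := (dvd_div_gcd_iff (r := r) (N := Nat.card Fˣ) Nat.card_pos.ne' hn).not.2
    (by rw [Nat.card_units]; omega)
  have := pow_gcd_eq_one.2 ⟨hz, h3⟩
  rwa [(hr.out.coprime_iff_not_dvd.2 h4).gcd_eq_one, pow_one] at this

section congr

variable {W : Type*} [AddCommGroup W] [Module F W] [FiniteDimensional F W] {g : End F W}

theorem kd_of_eq (h : elemDiv f = elemDiv g) (b : F[X]) : kd f b = kd g b := by rw [kd_eq, kd_eq, h]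

theorem pow_of_eq (h : elemDiv f = elemDiv g) {r : ℕ} {c : F} (h1 : f ^ r = c • 1) :
    g ^ r = c • 1 := by
  rw [← aeval_X_pow_sub_C, aeval_eq_zero_iff] at *; rwa [← h]

theorem pow_of_eq' (h : elemDiv f = elemDiv g) {r : ℕ} (h1 : f ^ r = 1) : g ^ r = 1 := by
  simpa using pow_of_eq h (c := 1) (by simpa using h1)

theorem det_of_eq (h : elemDiv f = elemDiv g) : LinearMap.det f = LinearMap.det g := by
  rw [LinearMap.det_eq_sign_charpoly_coeff, LinearMap.det_eq_sign_charpoly_coeff, charpoly_eq_prod,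
    charpoly_eq_prod, ← dsum_elemDiv f, ← dsum_elemDiv g, h]

theorem smul_of_eq (h : elemDiv f = elemDiv g) (w : F) : elemDiv (w • f) = elemDiv (w • g) := by
  obtain ⟨e, he⟩ := exists_equiv_iff.2 h
  exact exists_equiv_iff.1 ⟨e, fun v => by simp [he]⟩

end congr

/-- `f` is similar to a map satisfying `S`. -/
def Cj (S : End F V → Prop) (f : End F V) : Prop := ∃ h, S h ∧ elemDiv h = elemDiv f

theorem Cj.smul {S : End F V → Prop} (hS : ∀ (w : F) h, w ≠ 0 → S h → S (w • h)) (w : F) (f : End F V)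
    (hw : w ≠ 0) : Cj S (w • f) → Cj S f := by
  rintro ⟨h, h1, h2⟩
  exact ⟨_, hS w⁻¹ h (inv_ne_zero hw) h1, by rw [smul_of_eq h2, smul_smul, inv_mul_cancel₀ hw, one_smul]⟩

/-- The centraliser of `f` has all determinants. -/
def Cd (f : End F V) : Prop := ∀ c : F, ∃ z : End F V, z * f = f * z ∧ LinearMap.det z = c

theorem cd_of_mem {a : F[X]} (h : a ∈ elemDiv f) (hp : ∀ c : F, ∃ d, d ^ a.natDegree = c) : Cd f :=
  fun c => by
    obtain ⟨d, rfl⟩ := hp c
    exact exists_commute_det_pow h d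

theorem PE.pos {r : ℕ} (h : PE r f) : 0 < finrank F V := by
  rw [Module.finrank_pos_iff]
  by_contra h1
  rw [not_nontrivial_iff_subsingleton] at h1
  exact h.2 0 (Subsingleton.elim _ _)

theorem PE.cd {r : ℕ} [hr : Fact r.Prime] (h0 : (r : F) ≠ 0 ∨ r = 2) (hd : LinearMap.det f = 1)
    (h : PE r f) : Cd f := by
  obtain ⟨a, ha⟩ := exists_mem_elemDiv f h.pos
  obtain ⟨c, hc⟩ := h.1
  have h1 := aeval_eq_zero_iff.1 ((aeval_X_pow_sub_C f r c).2 hc) a ha
  have h2 := ne_zero_of_pow_eq (by simp [hd]) h.pos hc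
  by_cases h3 : (r : F) = 0
  · obtain rfl := h0.resolve_left (not_not.2 h3)
    refine cd_of_mem ha fun x => ?_
    have h4 := natDegree_le_of_dvd h1 (X_pow_sub_C_ne_zero two_pos c)
    obtain ⟨g, e, h5, h6, h7, rfl⟩ := isPP_of_mem ha
    have h8 : 0 < (g ^ e).natDegree := by
      rw [natDegree_pow]; exact Nat.mul_pos h7 h5.natDegree_pos
    rw [natDegree_X_pow_sub_C] at h4
    have : CharP F 2 := (CharP.charP_iff_prime_eq_zero Nat.prime_two).2 h3
    rcases (show (g ^ e).natDegree = 1 ∨ (g ^ e).natDegree = 2 by omega) with h9 | h9 <;> rw [h9]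
    · exact ⟨x, pow_one x⟩
    · exact surjective_frobenius F 2 x
  · exact exists_commute_det ((isPP_of_mem ha).irreducible_of_dvd (squarefree_X_pow_sub_C h3 h2) h1).1 ha

section mat

variable {ι : Type} [Fintype ι] [DecidableEq ι]

/-- `h` is the map of a member of `H`. -/
def InG (H : Subgroup (GL ι F)) (h : End F (ι → F)) : Prop := ∃ g ∈ H, Matrix.toLin' g.1 = h

theorem cj_of_conj {H : Subgroup (GL ι F)} {x g : GL ι F} (h : g⁻¹ * x * g ∈ H) :
    Cj (InG H) (Matrix.toLin' x.1) :=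
  ⟨_, ⟨_, h, rfl⟩, isConj_iff_elemDiv.1 (isConj_units_iff.1 (isConj_iff.2 ⟨g, by group⟩))⟩

theorem conj_of_cj {H : Subgroup (GL ι F)} {x : GL ι F} (h : Cj (InG H) (Matrix.toLin' x.1))
    (hd : Cd (Matrix.toLin' x.1)) : ∃ g ∈ Geo.specialLinear ι F, g⁻¹ * x * g ∈ H := by
  obtain ⟨_, ⟨y, h1, rfl⟩, h2⟩ := h
  obtain ⟨g, rfl⟩ := isConj_iff.1 (isConj_units_iff.2 (isConj_iff_elemDiv.2 h2))
  obtain ⟨z, h3, h4⟩ := hd g⁻¹.1.det
  obtain ⟨z, rfl⟩ := Matrix.toLin'.surjective z
  rw [LinearMap.det_toLin'] at h4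
  rw [End.mul_eq_comp, End.mul_eq_comp, ← Matrix.toLin'_mul, ← Matrix.toLin'_mul,
    Matrix.toLin'.injective.eq_iff] at h3
  let Z := Matrix.GeneralLinearGroup.mkOfDetNeZero z (h4 ▸ Matrix.GeneralLinearGroup.det_ne_zero g⁻¹)
  have h5 : Z * (g * y * g⁻¹) = g * y * g⁻¹ * Z := Units.ext h3
  refine ⟨Z * g, Units.ext ?_, ?_⟩
  · change (z * g.1).det = 1
    rw [Matrix.det_mul, h4, ← Matrix.det_mul, ← Units.val_mul, inv_mul_cancel, Units.val_one,
      Matrix.det_one]
  · rw [mul_inv_rev, mul_assoc, ← mul_assoc _ Z, ← h5]; simpa [mul_assoc] using h1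

theorem special_forall {r : ℕ} (P : End F (ι → F) → Prop) :
    (∀ x ∈ Geo.specialLinear ι F, (∃ c : F, (x ^ r).1 = c • 1) → (∀ c : F, x.1 ≠ c • 1) →
      P (Matrix.toLin' x.1)) ↔ ∀ f : End F (ι → F), LinearMap.det f = 1 → PE r f → P f := by
  constructor
  · intro H f h1 h2
    obtain ⟨A, rfl⟩ := Matrix.toLin'.surjective f
    rw [LinearMap.det_toLin'] at h1
    rw [pe_toLin'] at h2
    exact H (Matrix.GeneralLinearGroup.mkOfDetNeZero A (by simp [h1])) (Units.ext h1)
      (by rw [Units.val_pow_eq_pow_val]; exact h2.1) h2.2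
  · intro H x h0 h1 h2
    rw [Units.val_pow_eq_pow_val] at h1
    exact H _ (by rw [LinearMap.det_toLin']; exact congrArg Units.val h0) (pe_toLin'.2 ⟨h1, h2⟩)

theorem special_imp {r : ℕ} {H : Subgroup (GL ι F)}
    (h : ∀ x ∈ Geo.specialLinear ι F, (∃ c : F, (x ^ r).1 = c • 1) → (∀ c : F, x.1 ≠ c • 1) →
      ∃ g ∈ Geo.specialLinear ι F, g⁻¹ * x * g ∈ H) :
    ∀ f : End F (ι → F), LinearMap.det f = 1 → PE r f → Cj (InG H) f :=
  (special_forall _).1 fun x h1 h2 h3 => (h x h1 h2 h3).elim fun _ hg => cj_of_conj hg.2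

theorem special_iff {r : ℕ} [Fact r.Prime] (h0 : (r : F) ≠ 0 ∨ r = 2) {H : Subgroup (GL ι F)} :
    (∀ x ∈ Geo.specialLinear ι F, (∃ c : F, (x ^ r).1 = c • 1) → (∀ c : F, x.1 ≠ c • 1) →
      ∃ g ∈ Geo.specialLinear ι F, g⁻¹ * x * g ∈ H) ↔
    ∀ f : End F (ι → F), LinearMap.det f = 1 → PE r f → Cj (InG H) f := by
  refine ⟨special_imp, fun h x h1 h2 h3 => ?_⟩
  refine (special_forall (r := r) fun f => Cj (InG H) f ∧ Cd f).2
    (fun f h4 h5 => ⟨h f h4 h5, h5.cd h0 h4⟩) x h1 h2 h3 |>.elim conj_of_cj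

open Matrix.SpecialLinearGroup in
theorem sl_special {r : ℕ} {H : Subgroup (GL ι F)} :
    (∀ x : Matrix.SpecialLinearGroup ι F, (∃ c : F, (x ^ r).1 = c • 1) → (∀ c : F, x.1 ≠ c • 1) →
      ∃ P : Matrix.SpecialLinearGroup ι F, P⁻¹ * x * P ∈ H.comap (toGL : _ →* GL ι F)) ↔
    (∀ x ∈ Geo.specialLinear ι F, (∃ c : F, (x ^ r).1 = c • 1) → (∀ c : F, x.1 ≠ c • 1) →
      ∃ g ∈ Geo.specialLinear ι F, g⁻¹ * x * g ∈ H) := by
  simp only [Geo.specialLinear, ← Classical.range_toGL, MonoidHom.mem_range, forall_exists_index,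
    forall_apply_eq_imp_iff, exists_exists_eq_and, Subgroup.mem_comap, map_mul, map_inv, ← map_pow]
  rfl

theorem index_comap_toGL (H : Subgroup (GL ι F)) :
    (H.comap (Matrix.SpecialLinearGroup.toGL : Matrix.SpecialLinearGroup ι F →* _)).index =
      H.relIndex (Geo.specialLinear ι F) := by
  rw [Subgroup.index_comap, range_toGL]; rfl

theorem dvd_glo {H : Subgroup (GL ι F)} {r : ℕ} (h : r ∣ H.relIndex (Geo.specialLinear ι F))
    {K : Type*} [Group K] (φ : K →* GL ι F) (hφ : Function.Injective φ) (hK : ∀ k, φ k ∈ H) :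
    r * Nat.card K ∣ glo (Nat.card F) (Fintype.card ι) := by
  have : (Geo.specialLinear ι F).Normal := MonoidHom.normal_ker _
  have := dvd_of_relIndex h φ hφ hK
  rwa [Nat.card_congr (glEquiv ι F).toEquiv, card_gl, finrank_fintype_fun_eq_card] at this

end mat

/-- `y` is diagonalisable with eigenvalues `T`. -/
def Dg (y : End F V) (T : Multiset F) : Prop := elemDiv y = T.map fun t => X - C t

theorem Dg.card {T : Multiset F} (h : Dg y T) : T.card = finrank F V := by
  rw [← dsum_elemDiv y, h, dsum_const (e := 1), one_mul, Multiset.card_map]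
  intro a ha
  obtain ⟨t, -, rfl⟩ := Multiset.mem_map.1 ha
  exact natDegree_X_sub_C t

theorem exists_dg {T : Multiset F} (h : T.card = finrank F V) : ∃ y : End F V, Dg y T :=
  exists_elemDiv_eq (fun a ha => by
    obtain ⟨t, -, rfl⟩ := Multiset.mem_map.1 ha
    exact isPP_of_irreducible (irreducible_X_sub_C t) (monic_X_sub_C t)) (by simp [h])

theorem Dg.det {T : Multiset F} (h : Dg y T) : LinearMap.det y = T.prod := by
  rw [LinearMap.det_eq_sign_charpoly_coeff, charpoly_eq_prod, h, ← h.card, coeff_zero_eq_eval_zero,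
    eval_multiset_prod, Multiset.map_map]
  simp only [Function.comp_def, eval_sub, eval_X, eval_C, zero_sub]
  rw [Multiset.prod_map_neg, ← mul_assoc, ← mul_pow]; simp

theorem Dg.kd [DecidableEq F] {T : Multiset F} (h : Dg y T) (t : F) :
    kd y (X - C t) = T.count t := by
  rw [kd_eq, h, Multiset.map_map]
  clear h
  induction T using Multiset.induction with
  | empty => rfl
  | cons a s ih =>
    rw [Multiset.map_cons, Multiset.sum_cons, ih, Multiset.count_cons, add_comm]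
    congr 1
    split_ifs with h
    · rw [h]; exact (gdeg_of_dvd dvd_rfl).trans (natDegree_X_sub_C a)
    · exact gdeg_of_isCoprime (isCoprime_X_sub_C_of_isUnit_sub (sub_ne_zero.2 (Ne.symm h)).isUnit)

theorem Dg.pow_iff {T : Multiset F} (h : Dg y T) {r : ℕ} : y ^ r = 1 ↔ ∀ t ∈ T, t ^ r = 1 := by
  rw [← aeval_X_pow_sub_one, aeval_eq_zero_iff, h]
  simp [dvd_iff_isRoot, sub_eq_zero]

theorem Dg.ne_smul {T : Multiset F} (h : Dg y T) {s t : F} (hs : s ∈ T) (ht : t ∈ T) (hst : s ≠ t)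
    (c : F) : y ≠ c • 1 := by
  rintro rfl
  have h1 : ∀ s ∈ T, s = c := fun s hs => by
    have := Multiset.mem_map_of_mem (fun t => X - C t) hs
    rw [← h, elemDiv_smul_one] at this
    simpa using Multiset.eq_of_mem_replicate this
  exact hst ((h1 s hs).trans (h1 t ht).symm)

theorem dg_of_pow {r : ℕ} [hr : Fact r.Prime] (h : (r : F) ≠ 0)
    (hi : orderOf (Nat.card F : ZMod r) = 1) (hy : y ^ r = 1) : ∃ T, Dg y T := by
  refine ⟨(elemDiv y).map fun a => -a.coeff 0, ?_⟩
  rw [Dg, Multiset.map_map]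
  conv_lhs => rw [← Multiset.map_id (elemDiv y)]
  refine Multiset.map_congr rfl fun a ha => ?_
  have h1 : a.natDegree = 1 := by
    rcases mem_of_pow_eq_one h hy ha with rfl | h4
    · exact natDegree_X_sub_C _
    · rw [h4.natDegree h, hi]
  simpa using (IsPP.monic (isPP_of_mem ha)).eq_X_add_C h1

theorem kd_smul {w : F} (hw : w ≠ 0) (t : F) : kd (w • y) (X - C (w * t)) = kd y (X - C t) := by
  have : kerA (w • y) (X - C (w * t)) = kerA y (X - C t) := by
    ext v; simp only [mem_kerA_X_sub_C, LinearMap.smul_apply, mul_smul, smul_right_inj hw]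
  exact congrArg (fun U : Submodule F V => finrank F U) this

theorem forall_pe_iff {r : ℕ} [hr : Fact r.Prime] {P : End F V → Prop}
    (hP : ∀ (w : F) f, w ≠ 0 → P (w • f) → P f) :
    (∀ f : End F V, LinearMap.det f = 1 → PE r f → P f) ↔
      (∀ (y : End F V) (w : F), y ^ r = 1 → (∀ c : F, y ≠ c • 1) →
        w ^ finrank F V * LinearMap.det y = 1 → P y) ∧
      ∀ (f : End F V) (c : F), 0 < finrank F V → f ^ r = c • 1 → (¬ ∃ w, w ^ r = c) →
        LinearMap.det f = 1 → P f := by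
  constructor
  · refine fun H => ⟨fun y w h1 h2 h3 => ?_, fun f c h0 h1 h2 h3 => H f h3 ⟨⟨c, h1⟩, ?_⟩⟩
    · have h0 := PE.pos ⟨⟨1, by simpa using h1⟩, h2⟩
      have hw : w ≠ 0 := by rintro rfl; simp [h0.ne'] at h3
      refine hP w y hw (H _ (by rw [LinearMap.det_smul, h3]) ⟨⟨w ^ r, by rw [_root_.smul_pow, h1]⟩,
        fun c hc => h2 (w⁻¹ * c) ?_⟩)
      rw [mul_smul, ← hc, smul_smul, inv_mul_cancel₀ hw, one_smul]
    · rintro d rfl
      have := Module.finrank_pos_iff.1 h0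
      rw [_root_.smul_pow, one_pow] at h1
      exact h2 ⟨d, smul_left_injective F one_ne_zero h1⟩
  · rintro ⟨H, H'⟩ f h1 h2
    obtain ⟨c, h3⟩ := h2.1
    rcases cases_pow (ne_zero_of_pow_eq (by simp [h1]) h2.pos h3) h3 with ⟨w, -, hw, h5⟩ | ⟨h5, -⟩
    · refine hP _ _ (inv_ne_zero hw) (H _ w h5 (fun d h => h2.2 (w * d) ?_) ?_)
      · rw [mul_smul, ← h, smul_smul]; simp [hw]
      · rw [LinearMap.det_smul, h1, mul_one, ← mul_pow, mul_inv_cancel₀ hw, one_pow]
    · exact H' f c h2.pos h3 h5 h1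

/-- Involutions, when the only obstruction is a reflection. -/
theorem forall_refl (h2 : (2 : F) ≠ 0) (hn : 2 ≤ finrank F V) (he : Even (finrank F V))
    {P : End F V → Prop} (hP : ∀ (w : F) f, w ≠ 0 → P (w • f) → P f)
    (hA : ∀ y, y ^ 2 = 1 → Even (kd y (X - C (-1))) → P y)
    (hB : ∀ f (c : F), f ^ 2 = c • 1 → (¬ ∃ w, w ^ 2 = c) → P f)
    (hC : ∀ y, y ^ 2 = 1 → kd y (X - C 1) + 1 = finrank F V → ¬ P y) :
    (∀ f : End F V, LinearMap.det f = 1 → PE 2 f → P f) ↔
      padicValNat 2 (Nat.card F - 1) ≤ padicValNat 2 (finrank F V) := by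
  classical
  have h1 : (-1 : F) ≠ 1 := fun h => h2 (by linear_combination -h)
  rw [forall_pe_iff hP]
  constructor
  · rintro ⟨H, -⟩
    by_contra h
    obtain ⟨w, hw⟩ := exists_pow_eq_root (F := F) (by omega) (not_le.1 h) (z := -1) (by simp)
    obtain ⟨y, hy⟩ := exists_dg (V := V) (T := -1 ::ₘ Multiset.replicate (finrank F V - 1) (1 : F))
      (by simp; omega)
    have h3 : y ^ 2 = 1 := hy.pow_iff.2 (by simp +contextual [Multiset.mem_replicate])
    refine hC y h3 (by rw [hy.kd]; simp [h1.symm]; omega) (H y w h3 (hy.ne_smul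
      (Multiset.mem_cons_self _ _) (by simp [Multiset.mem_replicate]; omega) h1) ?_)
    simp [hy.det, hw]
  · refine fun h => ⟨fun y w h3 _ h4 => hA y h3 ?_, fun f c _ h3 h4 _ => hB f c h3 h4⟩
    have h5 := root_eq_one (by omega) h (z := LinearMap.det y) (by rw [← map_pow, h3, map_one]) h4
    obtain ⟨-, h6⟩ := elemDiv_of_two_factors h1.symm (aeval_two h3)
    have h7 : Dg y (Multiset.replicate (kd y (X - C 1)) 1 +
      Multiset.replicate (kd y (X - C (-1))) (-1)) := by simpa [Dg] using h6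
    rw [h7.det] at h5
    simpa [neg_one_pow_eq_one_iff_even h1] using h5

theorem sym_three : ∀ a b c : ZMod 3, a + b + c = 0 → ∃ s, ∀ t,
    ({a, b, c} : Multiset (ZMod 3)).count (s + t) = ({a, b, c} : Multiset (ZMod 3)).count (s - t) := by
  decide +kernel

theorem sym_five : ∀ a b c d e : ZMod 5, a + b + c + d + e = 0 → ∃ s, ∀ t,
    [a, b, c, d, e].count (s + t) = [a, b, c, d, e].count (s - t) := by
  decide +kernel

theorem sym_of_sum {r : ℕ} (hr : r = 3 ∨ r = 5) {A : Multiset (ZMod r)} (h1 : A.card = r)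
    (h2 : A.sum = 0) : ∃ s, ∀ t, A.count (s + t) = A.count (s - t) := by
  rcases hr with rfl | rfl
  · obtain ⟨a, b, c, rfl⟩ := Multiset.card_eq_three.1 h1
    exact sym_three a b c (by simpa [add_assoc] using h2)
  · induction A using Quotient.inductionOn with | _ l => ?_
    match l, h1, h2 with
    | [a, b, c, d, e], _, h2 =>
      simpa only [Multiset.quot_mk_to_coe, Multiset.coe_count] using
        sym_five a b c d e (by simpa [add_assoc] using h2)

/-- The `r`-th roots of unity, indexed by `ZMod r`. -/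
theorem exists_chi {r : ℕ} [hr : Fact r.Prime] (hi : orderOf (Nat.card F : ZMod r) = 1) :
    ∃ χ : AddChar (ZMod r) F, Function.Injective χ ∧ ∀ t, t ^ r = 1 ↔ ∃ a, χ a = t := by
  have := Fintype.ofFinite F
  have h1 := dvd_of_orderOf_eq_one Nat.card_pos hi
  obtain ⟨g, hg⟩ := exists_prime_orderOf_dvd_card' (G := Fˣ) r (by rwa [Nat.card_units])
  have h2 : IsPrimitiveRoot (g : F) r := IsPrimitiveRoot.coe_units_iff.2 (hg ▸ .orderOf g)
  refine ⟨AddChar.zmodChar r h2.pow_eq_one, fun a b h => ZMod.val_injective r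
    (h2.pow_inj (ZMod.val_lt a) (ZMod.val_lt b) h), fun t => ⟨fun h => ?_, ?_⟩⟩
  · obtain ⟨i, -, rfl⟩ := h2.eq_pow_of_pow_eq_one h
    exact ⟨i, AddChar.zmodChar_apply' _ i⟩
  · rintro ⟨a, rfl⟩
    rw [AddChar.zmodChar_apply, ← pow_mul, mul_comm, pow_mul, h2.pow_eq_one, one_pow]

theorem chi_sum {r : ℕ} (χ : AddChar (ZMod r) F) (A : Multiset (ZMod r)) :
    (A.map χ).prod = χ A.sum := by
  induction A using Multiset.induction with
  | empty => simp
  | cons a s ih => simp [ih, AddChar.map_add_eq_mul]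

section chi

variable {r : ℕ} [hr : Fact r.Prime] {χ : AddChar (ZMod r) F} (h1 : Function.Injective χ)
  (h2 : ∀ t, t ^ r = 1 ↔ ∃ a, χ a = t)
include h1 h2

theorem Dg.kd_chi {A : Multiset (ZMod r)} (h : Dg y (A.map χ)) (a : ZMod r) :
    Classical.kd y (X - C (χ a)) = A.count a := by
  classical
  rw [h.kd, Multiset.count_map_eq_count' _ _ h1]

theorem exists_diag {P : End F V → Prop} (hP : ∀ (w : F) f, w ≠ 0 → P (w • f) → P f)
    (H : ∀ f : End F V, LinearMap.det f = 1 → PE r f → P f) {A : Multiset (ZMod r)}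
    (hA : A.card = finrank F V) {a b : ZMod r} (ha : a ∈ A) (hb : b ∈ A) (hab : a ≠ b)
    (hs : A.sum = 0 ∨ padicValNat r (finrank F V) < padicValNat r (Nat.card F - 1)) :
    ∃ y, y ^ r = 1 ∧ P y ∧ ∀ a, kd y (X - C (χ a)) = A.count a := by
  obtain ⟨y, hy⟩ := exists_dg (V := V) (T := A.map χ) (by simpa using hA)
  have h3 : y ^ r = 1 := hy.pow_iff.2 fun t ht => by
    obtain ⟨a, -, rfl⟩ := Multiset.mem_map.1 ht; exact (h2 _).2 ⟨a, rfl⟩
  obtain ⟨w, hw⟩ : ∃ w : F, w ^ finrank F V * LinearMap.det y = 1 := by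
    rw [hy.det, chi_sum]
    rcases hs with hs | hs
    · exact ⟨1, by simp [hs]⟩
    · obtain ⟨w, hw⟩ := exists_pow_eq_root (hA ▸ (Multiset.card_pos_iff_exists_mem.2 ⟨a, ha⟩).ne') hs
        ((h2 _).2 ⟨-A.sum, rfl⟩)
      exact ⟨w, by rw [hw, ← AddChar.map_add_eq_mul]; simp⟩
  exact ⟨y, h3, ((forall_pe_iff hP).1 H).1 y w h3 (hy.ne_smul (Multiset.mem_map_of_mem _ ha)
    (Multiset.mem_map_of_mem _ hb) (h1.ne hab)) hw, hy.kd_chi h1 h2⟩

end chi

theorem not_sym {r : ℕ} [hr : Fact r.Prime] (h3 : 2 < r) {k j : ℕ} (hj : 0 < j) (hjk : j < k)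
    {l : ZMod r} (h : ∀ t, (Multiset.replicate k (0 : ZMod r) + Multiset.replicate j 1).count t ≤
      (Multiset.replicate k (0 : ZMod r) + Multiset.replicate j 1).count (l - t)) : False := by
  have a0 := h 0
  have a1 := h 1
  have h2 : (2 : ZMod r) ≠ 0 := fun h => by
    have := Nat.le_of_dvd two_pos ((ZMod.natCast_eq_zero_iff 2 r).1 h); omega
  simp only [Multiset.count_add, Multiset.count_replicate, sub_zero, if_true, one_ne_zero,
    zero_ne_one, if_false] at a0 a1
  obtain rfl : 0 = l := by by_contra h; rw [if_neg h] at a0; split_ifs at a0 <;> omega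
  rw [if_neg (by simp), if_neg (fun h => h2 (by linear_combination h))] at a1
  omega

theorem not_sym' {r : ℕ} [hr : Fact r.Prime] (h3 : 3 < r) {k : ℕ} (hk : 2 < k) {l : ZMod r}
    (h : ∀ t, (Multiset.replicate k (0 : ZMod r) + {1, 1, -2}).count t ≤
      (Multiset.replicate k (0 : ZMod r) + {1, 1, -2}).count (l - t)) : False := by
  have a0 := h 0
  have a1 := h 1
  have h2 : ∀ j : ℕ, 0 < j → j ≤ 3 → (j : ZMod r) ≠ 0 := fun j h1 h2 h => by
    have := Nat.le_of_dvd h1 ((ZMod.natCast_eq_zero_iff j r).1 h); omega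
  have b2 : (2 : ZMod r) ≠ 0 := h2 2 (by omega) (by omega)
  have b3 : (3 : ZMod r) ≠ 0 := h2 3 (by omega) (by omega)
  simp only [Multiset.count_add, Multiset.count_replicate, sub_zero, if_true, one_ne_zero,
    zero_ne_one, if_false, Multiset.insert_eq_cons, Multiset.count_cons, Multiset.count_singleton]
    at a0 a1
  obtain rfl : 0 = l := by
    by_contra h; rw [if_neg h] at a0
    by_cases h4 : l = -2
    · rw [if_neg (show ¬ l = 1 from fun h => b3 (by linear_combination h4 - h))] at a0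
      split_ifs at a0 <;> omega
    · rw [if_neg h4] at a0; split_ifs at a0 <;> omega
  rw [if_neg (show ¬ (0 : ZMod r) = 0 - 1 by simp),
    if_neg (show ¬ (0 : ZMod r) - 1 = 1 from fun h => b2 (by linear_combination -h)),
    if_neg (show ¬ (0 : ZMod r) - 1 = -2 from fun h => one_ne_zero (by linear_combination h))] at a1
  omega

/-- Elements of odd order `r ∣ q - 1`, when conjugacy into the subgroup is detected by a symmetry
of the eigenvalues. -/
theorem forall_sym {r : ℕ} [hr : Fact r.Prime] (h : (r : F) ≠ 0) (h3 : 2 < r)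
    (hi : orderOf (Nat.card F : ZMod r) = 1) (hn : 3 ≤ finrank F V)
    (h6 : ¬ (finrank F V = 6 ∧ r = 3)) {P : End F V → Prop}
    (hP : ∀ (w : F) f, w ≠ 0 → P (w • f) → P f)
    (hA : ∀ y, y ^ r = 1 → P y → ∃ l : F, l ^ r = 1 ∧
      ∀ s t, t ^ r = 1 → t * s = l → kd y (X - C t) ≤ kd y (X - C s))
    (hB : finrank F V = r → ∀ y, y ^ r = 1 →
      (∀ s t, t ^ r = 1 → t * s = 1 → kd y (X - C t) = kd y (X - C s)) → P y) :
    (∀ f : End F V, LinearMap.det f = 1 → PE r f → P f) ↔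
      (r = 3 ∨ r = 5) ∧ finrank F V = r ∧ padicValNat r (Nat.card F - 1) = 1 := by
  obtain ⟨χ, h1, h2⟩ := exists_chi hi
  have hv : 1 ≤ padicValNat r (Nat.card F - 1) := one_le_padicValNat_of_dvd
    (by have := Finite.one_lt_card (α := F); omega) (dvd_of_orderOf_eq_one Nat.card_pos hi)
  constructor
  · intro H
    have key : ∀ A : Multiset (ZMod r), A.card = finrank F V → 0 ∈ A → 1 ∈ A →
        (A.sum = 0 ∨ padicValNat r (finrank F V) < padicValNat r (Nat.card F - 1)) →
        ∃ l, ∀ t, A.count t ≤ A.count (l - t) := fun A a1 a2 a3 a4 => by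
      obtain ⟨y, b1, b2, b3⟩ := exists_diag h1 h2 hP H a1 a2 a3 zero_ne_one a4
      obtain ⟨l, b4, b5⟩ := hA y b1 b2
      obtain ⟨l, rfl⟩ := (h2 l).1 b4
      refine ⟨l, fun t => ?_⟩
      rw [← b3, ← b3]
      exact b5 _ _ ((h2 _).2 ⟨t, rfl⟩) (by rw [← AddChar.map_add_eq_mul, add_sub_cancel])
    have a1 : padicValNat r (Nat.card F - 1) ≤ padicValNat r (finrank F V) := by
      by_contra a1
      obtain ⟨l, hl⟩ := key (Multiset.replicate (finrank F V - 1) 0 + Multiset.replicate 1 1)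
        (by simp; omega) (by simp [Multiset.mem_replicate]; omega) (by simp) (Or.inr (not_le.1 a1))
      exact not_sym h3 one_pos (by omega) hl
    have a2 : r ∣ finrank F V := dvd_of_one_le_padicValNat (hv.trans a1)
    have a3 := Nat.le_of_dvd (by omega) a2
    have a4 : (r = 3 ∨ r = 5) ∧ finrank F V = r := by
      by_contra a4
      by_cases a5 : r = 3
      · subst a5
        obtain ⟨l, hl⟩ := key (Multiset.replicate (finrank F V - 3) 0 + Multiset.replicate 3 1)
          (by simp; omega) (by simp [Multiset.mem_replicate]; omega) (by simp) (Or.inl (by simp; rfl))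
        exact not_sym h3 three_pos (by omega) hl
      · have a6 : r ≠ 4 := by rintro rfl; exact absurd hr.out (by decide)
        obtain ⟨l, hl⟩ := key (Multiset.replicate (finrank F V - 3) 0 + {1, 1, -2})
          (by simp; omega) (by simp [Multiset.mem_replicate]; omega) (by simp)
          (Or.inl (by simp; ring))
        exact not_sym' (by omega) (by omega) hl
    refine ⟨a4.1, a4.2, le_antisymm (a1.trans ?_) hv⟩
    rw [a4.2, padicValNat_self]
  · rintro ⟨a1, a2, a3⟩
    have a4 : padicValNat r (Nat.card F - 1) ≤ padicValNat r (finrank F V) := by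
      rw [a2, padicValNat_self, a3]
    refine (forall_pe_iff hP).2 ⟨fun y w b1 _ b2 => ?_, fun f c _ b1 b2 b3 => (b2 ⟨1, ?_⟩).elim⟩
    · have b3 := root_eq_one (by omega) a4 (z := LinearMap.det y) (by rw [← map_pow, b1, map_one]) b2
      obtain ⟨T, hT⟩ := dg_of_pow h hi b1
      obtain ⟨A, rfl⟩ : ∃ A : Multiset (ZMod r), A.map χ = T :=
        (@Multiset.canLift _ _ χ (fun t => ∃ a, χ a = t) ⟨fun _ h => h⟩).prf T fun t ht => (h2 t).1 (hT.pow_iff.1 b1 t ht)
      rw [hT.det, chi_sum] at b3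
      obtain ⟨s, hs⟩ := sym_of_sum a1 (A := A) (by simpa [a2] using hT.card) (h1 (by simpa using b3))
      have b4 : χ (-s) ≠ 0 := fun h0 => by
        simpa [h0, hr.out.ne_zero] using (h2 _).2 ⟨-s, rfl⟩
      refine hP _ y b4 (hB a2 _ (by rw [_root_.smul_pow, b1, (h2 _).2 ⟨-s, rfl⟩, one_smul]) ?_)
      intro u t b5 b6
      obtain ⟨t, rfl⟩ := (h2 t).1 b5
      obtain rfl : u = χ (-t) := by rw [AddChar.map_neg_eq_inv]; exact eq_inv_of_mul_eq_one_right b6
      have b7 : ∀ t, kd (χ (-s) • y) (X - C (χ t)) = A.count (s + t) := fun t => by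
        rw [← hT.kd_chi h1 h2, ← kd_smul b4 (χ (s + t)), ← AddChar.map_add_eq_mul, neg_add_cancel_left]
      rw [b7, b7, hs, sub_eq_add_neg]
    · obtain ⟨k, b4, b5⟩ := ((cases_pow (fun h0 => b2 ⟨0, by simp [h0, hr.out.ne_zero]⟩) b1).resolve_left
        fun ⟨w, hw, _⟩ => b2 ⟨w, hw⟩).2
      obtain rfl : k = 1 := Nat.eq_of_mul_eq_mul_right hr.out.pos (by omega)
      rw [det_of_exc hr.out.ne_zero b5, (hr.out.odd_of_ne_two h3.ne').add_one.neg_one_pow] at b3
      simpa using b3.symm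

end Cfsg.Agent.Elu
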