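import Cfsg.Agent.Elu.Sl

/-! Similarities `Sim Φ l h` of formed spaces; counting lemmas comparing `|GL_n(q)|` with orders of
classical groups; bridges from the frozen forms to `Formed`. -/

set_option autoImplicit false
set_option linter.unusedSectionVars false

namespace Cfsg.Agent.Elu

open Module Polynomial Cfsg.Agent.Classical Cfsg.Agent.Geom Cfsg.Agent.Geom.Formed

universe u

theorem exists_dvd_sdiff {r u v : ℕ} (hr : r.Prime) (t : ℕ → ℕ) (ht : ∀ j, 0 < t j) {A B : Finset ℕ}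
    (hv : ¬ r ∣ v) (h : r * (u * ∏ j ∈ A, t j) ∣ v * ∏ j ∈ B, t j) : ∃ j ∈ B, j ∉ A ∧ r ∣ t j := by
  rw [← Finset.prod_inter_mul_prod_sdiff A B, ← Finset.prod_inter_mul_prod_sdiff B A,
    Finset.inter_comm B, mul_left_comm u, mul_left_comm r, mul_left_comm v] at h
  obtain ⟨j, h1, h2⟩ := (hr.prime.dvd_finsetProd_iff _).1 ((hr.dvd_mul.1 (dvd_of_mul_right_dvd
    (Nat.dvd_of_mul_dvd_mul_left (Finset.prod_pos fun j _ => ht j) h))).resolve_left hv)
  exact ⟨j, (Finset.mem_sdiff.1 h1).1, (Finset.mem_sdiff.1 h1).2, h2⟩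

theorem exists_dvd_cancel {r u : ℕ} (hr : r.Prime) {s : Finset ℕ} {a b : ℕ → ℕ}
    (ha : ∀ j ∈ s, 0 < a j) (h : r * (u * ∏ j ∈ s, a j) ∣ ∏ j ∈ s, (a j * b j)) :
    ∃ j ∈ s, r ∣ b j := by
  rw [Finset.prod_mul_distrib, ← mul_assoc, mul_comm] at h
  exact (hr.prime.dvd_finsetProd_iff _).1 (dvd_of_mul_right_dvd
    (Nat.dvd_of_mul_dvd_mul_left (Finset.prod_pos ha) h))

theorem glo_tq {r q n a u v : ℕ} [hr : Fact r.Prime] (hq : 1 < q) (hrq : ¬ r ∣ q) (hu : ¬ r ∣ u)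
    (h : r * (v * tq q a) ∣ glo q n * u) :
    ∃ j, 0 < j ∧ j ≤ n ∧ orderOf (q : ZMod r) ∣ j ∧ (Odd j ∨ 2 * a < j) := by
  have h1 : tq q a = ∏ j ∈ (Finset.range a).image (2 * · + 1), (q ^ (j + 1) - 1) := by
    rw [Finset.prod_image fun _ _ _ _ h => by simpa using h]; rfl
  rw [h1, glo, Finset.prod_mul_distrib, Finset.prod_pow_eq_pow_sum, mul_right_comm] at h
  obtain ⟨j, h2, h3, h4⟩ := exists_dvd_sdiff hr.out _
    (fun j => Nat.sub_pos_of_lt (Nat.one_lt_pow (by omega) hq))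
    (fun h => (hr.out.dvd_mul.1 h).elim (fun h => hrq (hr.out.dvd_of_dvd_pow h)) hu) h
  refine ⟨j + 1, by omega, Finset.mem_range.1 h2, orderOf_dvd_of_dvd (by omega) h4, ?_⟩
  rw [Nat.odd_iff]
  by_contra h5
  exact h3 (Finset.mem_image.2 ⟨j / 2, Finset.mem_range.2 (by omega), by omega⟩)

theorem glo_gu {r q n u : ℕ} [hr : Fact r.Prime] (hq : 1 < q) (hrq : ¬ r ∣ q)
    (h : r * (u * ∏ i ∈ Finset.range n, (if Even i then q ^ (i + 1) + 1 else q ^ (i + 1) - 1)) ∣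
      glo (q ^ 2) n) : ∃ j, 0 < j ∧ j ≤ n ∧ (-q : ZMod r) ^ j = -1 := by
  have h0 : ∀ j, 1 < q ^ (j + 1) := fun j => Nat.one_lt_pow (by omega) hq
  obtain ⟨j, h1, h2⟩ := exists_dvd_cancel (u := u) hr.out (s := Finset.range n)
    (a := fun i => if Even i then q ^ (i + 1) + 1 else q ^ (i + 1) - 1)
    (b := fun i => (q ^ 2) ^ i * if Even i then q ^ (i + 1) - 1 else q ^ (i + 1) + 1)
    (fun j _ => by have := h0 j; split_ifs <;> omega) (by
      refine h.trans (dvd_of_eq (Finset.prod_congr rfl fun j _ => ?_))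
      rw [← pow_mul q 2 (j + 1), mul_comm 2, pow_mul q (j + 1), ← one_pow 2, Nat.sq_sub_sq]
      split_ifs <;> ring_nf)
  refine ⟨j + 1, by omega, Finset.mem_range.1 h1, ?_⟩
  replace h2 := (hr.out.dvd_mul.1 h2).resolve_left fun h =>
    hrq (hr.out.dvd_of_dvd_pow (hr.out.dvd_of_dvd_pow h))
  split_ifs at h2 with h3
  · rw [h3.add_one.neg_pow, neg_inj, ← orderOf_dvd_iff_pow_eq_one]
    exact orderOf_dvd_of_dvd (by omega) h2
  · rw [(Nat.not_even_iff_odd.1 h3).add_one.neg_pow]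
    exact dvd_pow_add_one_iff.1 h2

variable {F : Type*} [Field F] {σ : F →+* F} {V : Type u} [AddCommGroup V] [Module F V]
  {Φ : Formed σ V} {f h : End F V} {l : F}

/-- `h` is a similarity with multiplier `l`. -/
def Sim (Φ : Formed σ V) (l : F) (h : End F V) : Prop :=
  (∀ x y, Φ.B (h x) (h y) = l * Φ.B x y) ∧ ∀ x, Φ.Q (h x) = l * Φ.Q x

/-- `h` is a similarity. -/
def SimE (Φ : Formed σ V) (h : End F V) : Prop := ∃ l ≠ 0, Sim Φ l h

theorem sim_one : Sim Φ 1 h ↔ Iso Φ h := by simp [Sim, Iso]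

theorem Iso.simE (hh : Iso Φ h) : SimE Φ h := ⟨1, one_ne_zero, sim_one.2 hh⟩

theorem Sim.smul (hh : Sim Φ l h) (w : F) : Sim Φ (σ w * w * l) (w • h) :=
  ⟨fun x y => by simp only [LinearMap.smul_apply, B_smul_left, B_smul_right, hh.1]; ring, fun x => by
    rw [LinearMap.smul_apply, Φ.Q_smul, hh.2]; linear_combination -(w * l) * Φ.σ_mul_Q w x⟩

theorem SimE.smul (w : F) (h : End F V) (hw : w ≠ 0) : SimE Φ h → SimE Φ (w • h) :=
  fun ⟨_, h1, h2⟩ => ⟨_, by simp [hw, h1], h2.smul w⟩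

theorem Sim.pow (hh : Sim Φ l h) (k : ℕ) : Sim Φ (l ^ k) (h ^ k) := by
  induction k with
  | zero => simp [Sim]
  | succ k ih =>
    exact ⟨fun x y => by simp only [pow_succ', End.mul_apply, hh.1, ih.1, mul_assoc],
      fun x => by simp only [pow_succ', End.mul_apply, hh.2, ih.2, mul_assoc]⟩

theorem Sim.pow_eq (hh : Sim Φ l h) (hn : Φ.Nondeg) [Nontrivial V] {k : ℕ} {c : F}
    (hk : h ^ k = c • 1) : l ^ k = σ c * c := by
  obtain ⟨x, hx⟩ := exists_ne (0 : V)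
  obtain ⟨y, hy⟩ := hn.exists_eq_one hx
  have := (hh.pow k).1 x y
  rw [hk] at this
  simpa [B_smul_left, hy, mul_comm] using this.symm

theorem SimE.injective (hh : SimE Φ h) (hn : Φ.Nondeg) : Function.Injective h := by
  obtain ⟨l, h1, h2⟩ := hh
  refine (injective_iff_map_eq_zero h).2 fun x hx => hn x fun y => ?_
  simpa [hx, h1] using h2.1 x y

variable [FiniteDimensional F V]

theorem Sim.kd_le (hh : Sim Φ l h) (hn : Φ.Nondeg) {s t : F} (ht : t ≠ 0) (hl : σ t * s = l) :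
    kd h (X - C t) ≤ kd h (X - C s) := by
  have h1 : kerA h (X - C t) ≤ Φ.perp (LinearMap.range (aeval h (X - C s))) := by
    intro u hu
    rw [mem_perp']
    rintro _ ⟨v, rfl⟩
    have := hh.1 u v
    rw [mem_kerA_X_sub_C.1 hu, B_smul_left, ← hl, mul_assoc, mul_right_inj' (by simpa using ht)] at this
    simp [this, Algebra.algebraMap_eq_smul_one]
  have h2 := Submodule.finrank_mono h1
  have h3 := hn.finrank_add_finrank_perp (LinearMap.range (aeval h (X - C s)))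
  have h4 := LinearMap.finrank_range_add_finrank_ker (aeval h (X - C s))
  change finrank F (kerA h _) ≤ finrank F (LinearMap.ker _)
  omega

theorem exists_sim_sum (hn : Φ.Nondeg) {U : Submodule F V} (hU : Nd Φ U) {f₁ : End F U}
    {f₂ : End F (Φ.perp U)} (h₁ : Sim (Φ.restrict U) l f₁) (h₂ : Sim (Φ.restrict (Φ.perp U)) l f₂) :
    ∃ f : End F V, Sim Φ l f ∧ (∀ x : U, f x = f₁ x) ∧ ∀ x : Φ.perp U, f x = f₂ x := by
  have hc := hn.isCompl_perp hU
  let f := LinearMap.ofIsCompl hc (U.subtype ∘ₗ f₁) ((Φ.perp U).subtype ∘ₗ f₂)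
  have a1 : ∀ x : U, f x = f₁ x := fun x => by simp [f]
  have a2 : ∀ x : Φ.perp U, f x = f₂ x := fun x => by simp [f]
  have a3 : ∀ (x : U) (y : Φ.perp U), Φ.B x y = 0 := fun x y => Φ.mem_perp.1 y.2 _ x.2
  have a4 : ∀ (x : U) (y : Φ.perp U), Φ.B y x = 0 := fun x y => Φ.mem_perp'.1 y.2 _ x.2
  refine ⟨f, ⟨fun x y => ?_, fun x => ?_⟩, a1, a2⟩
  · obtain ⟨a, b, rfl⟩ := (Submodule.existsUnique_add_of_isCompl hc x).imp fun _ h => h.imp fun _ h => h.1
    obtain ⟨c, d, rfl⟩ := (Submodule.existsUnique_add_of_isCompl hc y).imp fun _ h => h.imp fun _ h => h.1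
    have b1 := h₁.1 a c
    have b2 := h₂.1 b d
    simp only [comap_B, Submodule.subtype_apply] at b1 b2
    simp only [map_add, LinearMap.add_apply, a1, a2, a3, a4, b1, b2]; ring
  · obtain ⟨a, b, rfl⟩ := (Submodule.existsUnique_add_of_isCompl hc x).imp fun _ h => h.imp fun _ h => h.1
    have b1 := h₁.2 a
    have b2 := h₂.2 b
    simp only [comap_Q, Submodule.subtype_apply] at b1 b2
    simp only [map_add, Φ.Q_add, a1, a2, a3, b1, b2]; ring

theorem sim_plane {Φ : Formed (RingHom.id F) V} (hV : finrank F V = 2) {v w : V}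
    (hvw : LinearIndependent F ![v, w]) {z : F} (hQ : Φ.Q w = Φ.ε * z * Φ.Q v)
    (hB : Φ.B w w = Φ.ε * z * Φ.B v v) : ∃ h, Sim Φ (Φ.ε * z) h ∧ h ^ 2 = z • 1 := by
  let b := basisOfLinearIndependentOfCardEqFinrank hvw (by simp [hV])
  have b0 : b 0 = v := by simp [b]
  have b1 : b 1 = w := by simp [b]
  let h : End F V := b.constr F ![w, z • v]
  have h0 : h v = w := by rw [← b0]; simp [h]
  have h1 : h w = z • v := by rw [← b1]; simp [h]
  have hx : ∀ x, ∃ a c : F, x = a • v + c • w := fun x =>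
    ⟨_, _, by rw [← b0, ← b1, ← Fin.sum_univ_two fun i => b.repr x i • b i, b.sum_repr]⟩
  have h2 : Φ.B w v = Φ.ε * Φ.B v w := Φ.symm v w
  refine ⟨h, ⟨fun x y => ?_, fun x => ?_⟩, b.ext fun i => ?_⟩
  · obtain ⟨a, c, rfl⟩ := hx x
    obtain ⟨a', c', rfl⟩ := hx y
    simp only [map_add, map_smul, h0, h1, LinearMap.add_apply, LinearMap.smul_apply, smul_eq_mul,
      hB, h2]
    linear_combination (-(c * c' * z ^ 2 * Φ.B v v) - c * a' * z * Φ.B v w) * Φ.εε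
  · obtain ⟨a, c, rfl⟩ := hx x
    simp only [map_add, map_smul, h0, h1, Φ.Q_add, Φ.Q_smul, LinearMap.smul_apply, smul_eq_mul, hQ, h2]
    linear_combination (-(c * c * z ^ 2 * Φ.Q v)) * Φ.εε
  · fin_cases i <;> simp [sq, b0, b1, h0, h1]

variable [Finite F]

theorem exists_sim_sq {z : F} (hz : ¬ ∃ w, w ^ 2 = z) (h2 : (2 : F) ≠ 0) (k : ℕ) :
    ∀ {V : Type u} [AddCommGroup V] [Module F V] [FiniteDimensional F V]
      {Φ : Formed (RingHom.id F) V}, Spu Φ ∨ Orth Φ → Φ.Nondeg → finrank F V = 2 * k →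
      ∃ h, Sim Φ (Φ.ε * z) h ∧ h ^ 2 = z • 1 := by
  induction k with
  | zero =>
    intro V _ _ _ Φ _ _ hV
    have := finrank_zero_iff.1 hV
    exact ⟨0, ⟨fun x y => by simp [Subsingleton.elim x 0], fun x => by
      simp [Subsingleton.elim x 0, Q_zero]⟩, Subsingleton.elim _ _⟩
  | succ k ih =>
    intro V _ _ _ Φ hΦ hn hV
    obtain ⟨U, hU, h1⟩ : ∃ U, Nd Φ U ∧ finrank F U = 2 :=
      hΦ.elim (fun h => h.exists_nd hn (by omega) fun _ => even_two) fun h => h.exists_nd hn h2 (by omega)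
    obtain ⟨f₁, a1, a2⟩ : ∃ h, Sim (Φ.restrict U) (Φ.ε * z) h ∧ h ^ 2 = z • 1 := by
      rcases hΦ with hΦ | hΦ
      · let b := finBasisOfFinrankEq F U h1
        exact sim_plane (Φ := Φ.restrict U) h1 (v := b 0) (w := b 1) (by
          rw [show ![b 0, b 1] = b by ext1 i; fin_cases i <;> rfl]; exact b.linearIndependent) (by simp [hΦ.Q])
          (by simp [hΦ.alt rfl])
      · obtain ⟨v, hv⟩ := (hΦ.res U).exists_Q hU h1.ge 1
        obtain ⟨w, hw⟩ := (hΦ.res U).exists_Q hU h1.ge z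
        refine sim_plane (Φ := Φ.restrict U) h1 (v := v) (w := w) ?_ (by rw [hv, hw, (hΦ.res U).1]; simp)
          (by rw [(hΦ.res U).B_self, (hΦ.res U).B_self, hv, hw, (hΦ.res U).1]; ring)
        rw [LinearIndependent.pair_iff' (by rintro rfl; simp [Q_zero] at hv)]
        rintro a rfl
        exact hz ⟨a, by rw [← hw, Q_smul, hv]; ring⟩
    have := hn.finrank_add_finrank_perp U
    obtain ⟨f₂, a3, a4⟩ := ih (Φ := Φ.restrict (Φ.perp U)) hΦ (hn.restrict_perp hU) (by omega)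
    obtain ⟨f, a5, a6, a7⟩ := exists_sim_sum hn hU a1 a3
    refine ⟨f, a5, LinearMap.ext_on_codisjoint (hn.isCompl_perp hU).codisjoint (fun x hx => ?_) fun x hx => ?_⟩
    · simpa [sq, a6 ⟨x, hx⟩, a6] using congrArg Subtype.val (LinearMap.congr_fun a2 ⟨x, hx⟩)
    · simpa [sq, a7 ⟨x, hx⟩, a7] using congrArg Subtype.val (LinearMap.congr_fun a4 ⟨x, hx⟩)

theorem eq_of_sq {g : End F V} {z : F} (hz : ¬ ∃ w, w ^ 2 = z) (h1 : f ^ 2 = z • 1)
    (h2 : g ^ 2 = z • 1) : elemDiv f = elemDiv g := by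
  have h0 : z ≠ 0 := fun h0 => hz ⟨0, by simp [h0]⟩
  obtain ⟨k, a1, a2⟩ := ((cases_pow h0 h1).resolve_left fun ⟨w, hw, _⟩ => hz ⟨w, hw⟩).2
  obtain ⟨k', a3, a4⟩ := ((cases_pow h0 h2).resolve_left fun ⟨w, hw, _⟩ => hz ⟨w, hw⟩).2
  rw [a2, a4, show k = k' by omega]

theorem eq_of_inv {g : End F V} (h2 : (2 : F) ≠ 0) (h1 : f ^ 2 = 1) (h3 : g ^ 2 = 1)
    (h4 : kd f (X - C (-1)) = kd g (X - C (-1))) : elemDiv f = elemDiv g := by
  have h0 : (1 : F) ≠ -1 := fun h => h2 (by linear_combination h)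
  obtain ⟨a1, a2⟩ := elemDiv_of_two_factors h0 (aeval_two h1)
  obtain ⟨a3, a4⟩ := elemDiv_of_two_factors h0 (aeval_two h3)
  rw [a2, a4, h4, show kd f (X - C 1) = kd g (X - C 1) by omega]

theorem dg_smul_one (c : F) : Dg (c • 1 : End F V) (Multiset.replicate (finrank F V) c) := by
  simp [Dg, elemDiv_smul_one]

/-- An isometry acting as `-1` on `U` and trivially on its perpendicular. -/
theorem exists_neg_on (hn : Φ.Nondeg) (h2 : (2 : F) ≠ 0) {U : Submodule F V} (hU : Nd Φ U) :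
    ∃ h, Iso Φ h ∧ h ^ 2 = 1 ∧ kd h (X - C (-1)) = finrank F U := by
  classical
  have h0 : (1 : F) ≠ -1 := fun h => h2 (by linear_combination h)
  obtain ⟨h, h1, h3⟩ := Real.sum hn hU ⟨_, Iso.one.smul (w := -1) (by simp), dg_smul_one _⟩
    ⟨_, Iso.one.smul (w := 1) (by simp), dg_smul_one _⟩
  rw [← Multiset.map_add] at h3
  exact ⟨h, h1, (Dg.pow_iff h3).2 (by simp +contextual [Multiset.mem_replicate, or_imp]),
    by rw [Dg.kd h3]; simp [Multiset.count_replicate, h0]⟩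

theorem dg_two (hV : finrank F V = 2) {e e' : V} (he : e ≠ 0) (he' : e' ≠ 0) {c d : F} (hcd : c ≠ d)
    (h1 : f e = c • e) (h2 : f e' = d • e') : Dg f {c, d} := by
  have h3 := disjoint_kerA (f := f) (isCoprime_X_sub_C_of_isUnit_sub (sub_ne_zero.2 hcd).isUnit)
  have h4 : ∀ {e : V} {c : F}, e ≠ 0 → f e = c • e → 0 < kd f (X - C c) := fun {e c} he h =>
    Module.finrank_pos_iff_exists_ne_zero.2 ⟨⟨e, mem_kerA_X_sub_C.2 h⟩, by simpa using he⟩
  have h5 := h4 he h1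
  have h6 := h4 he' h2
  have h7 : kerA f (X - C c) ⊔ kerA f (X - C d) = ⊤ := Submodule.eq_top_of_finrank_eq
    (le_antisymm (Submodule.finrank_le _) (by rw [finrank_sup_of_disjoint h3, hV]; exact Nat.add_le_add h5 h6))
  obtain ⟨a1, a2⟩ := elemDiv_of_two_factors (f := f) hcd (LinearMap.ext_on_codisjoint
    (codisjoint_iff.2 h7) (fun x hx => by
      rw [aeval_mul_apply, aeval_comm_apply, mem_kerA.1 hx, map_zero]; rfl)
    fun x hx => by rw [aeval_mul_apply, mem_kerA.1 hx, map_zero]; rfl)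
  rw [Dg, a2, show kd f (X - C c) = 1 by omega, show kd f (X - C d) = 1 by omega]
  rfl

theorem real_sym [DecidableEq F] (k : ℕ) : ∀ {V : Type u} [AddCommGroup V] [Module F V]
    [FiniteDimensional F V] {Φ : Formed σ V} {T : Multiset F}, Φ.Nondeg → Φ.WittIndex k →
    finrank F V = 2 * k + 1 → T.card = 2 * k + 1 → (∀ t ∈ T, t ≠ 0 ∧ σ t = t ∧ (t⁻¹ = t → t = 1)) →
    (∀ t ∈ T, T.count t = T.count t⁻¹) → ∃ h, Iso Φ h ∧ Dg h T := by
  induction k with
  | zero =>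
    intro V _ _ _ Φ T _ _ hV h1 h2 h3
    obtain ⟨t, rfl⟩ := Multiset.card_eq_one.1 h1
    have := h3 t (by simp)
    obtain rfl := (h2 t (by simp)).2.2 (by by_contra h; simp [h] at this)
    exact ⟨1, Iso.one, by simpa [hV] using dg_smul_one (V := V) (1 : F)⟩
  | succ k ih =>
    intro V _ _ _ Φ T hn hk hV h1 h2 h3
    by_cases h4 : ∀ t ∈ T, t = 1
    · refine ⟨1, Iso.one, ?_⟩
      rw [Multiset.eq_replicate_card.2 h4, h1, ← hV]
      simpa using dg_smul_one (V := V) (1 : F)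
    push Not at h4
    obtain ⟨t, ht, h4⟩ := h4
    obtain ⟨a1, a2, a3⟩ := h2 t ht
    have a4 : t⁻¹ ≠ t := fun h => h4 (a3 h)
    obtain ⟨T, rfl⟩ := Multiset.exists_cons_of_mem ht
    obtain ⟨T, rfl⟩ := Multiset.exists_cons_of_mem (s := T) (a := t⁻¹) (by
      have := h3 t ht
      simp [a4] at this
      exact Multiset.count_pos.1 (by omega))
    obtain ⟨U, b1, b2, b3, b4⟩ := exists_hyp hn hk (j := 1) (by omega)
    have := hn.finrank_add_finrank_perp U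
    obtain ⟨g, b5, b6⟩ := ih (T := T) (hn.restrict_perp b1) b4 (by omega) (by simp at h1; omega)
      (fun s hs => h2 s (by simp [hs])) fun s hs => by
        have := h3 s (by simp [hs])
        simp only [Multiset.count_cons, inv_inj, inv_eq_iff_eq_inv (a := s), inv_inv] at this
        omega
    obtain ⟨M, b7, b8⟩ := b3.1
    obtain ⟨⟨e, he⟩, b9⟩ := Module.finrank_pos_iff_exists_ne_zero.1 (b8 ▸ one_pos : 0 < finrank F M)
    obtain ⟨e', hp⟩ := b1.exists_isPair (by simpa using b9) (b7.sing he)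
    have c1 := dg_two (f := (hp.torus (Units.mk0 t a1)).1) b2 hp.left_ne_zero hp.right_ne_zero
      a4.symm (hp.torus_left _) (by simpa [a2] using hp.torus_right (Units.mk0 t a1))
    obtain ⟨h, c2, c3⟩ := Real.sum hn b1 ⟨_, (hp.torus (Units.mk0 t a1)).2, c1⟩ ⟨g, b5, b6⟩
    exact ⟨h, c2, by rw [Dg, c3]; simp⟩

/-- The symmetric case of `forall_sym` for forms. -/
theorem cj_sym (hn : Φ.Nondeg) {r : ℕ} [hr : Fact r.Prime] (h0 : (r : F) ≠ 0) (h3 : 2 < r)
    (hi : orderOf (Nat.card F : ZMod r) = 1) (hσ : ∀ t, t ^ r = 1 → σ t = t)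
    (hk : Φ.WittIndex (finrank F V / 2)) (hV : finrank F V = r) (y : End F V) (hy : y ^ r = 1)
    (H : ∀ s t, t ^ r = 1 → t * s = 1 → kd y (X - C t) = kd y (X - C s)) : Cj (SimE Φ) y := by
  classical
  obtain ⟨T, hT⟩ := dg_of_pow h0 hi hy
  have h1 := hT.pow_iff.1 hy
  have h2 := Nat.odd_iff.1 (hr.out.odd_of_ne_two h3.ne')
  have h4 : ∀ t ∈ T, t ≠ 0 := fun t ht h => by simpa [h, hr.out.ne_zero] using h1 t ht
  obtain ⟨h, h5, h6⟩ := real_sym _ (T := T) hn hk (by omega) (by rw [hT.card]; omega)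
    (fun t ht => ⟨h4 t ht, hσ t (h1 t ht), fun h => by
      have := pow_gcd_eq_one.2 ⟨h1 t ht, (by rw [sq]; nth_rw 1 [← h]; simp [h4 t ht] : t ^ 2 = 1)⟩
      rwa [((Nat.coprime_primes hr.out Nat.prime_two).2 h3.ne').gcd_eq_one, pow_one] at this⟩)
    fun t ht => by rw [← hT.kd, ← hT.kd]; exact H _ _ (h1 t ht) (mul_inv_cancel₀ (h4 t ht))
  exact ⟨h, h5.simE, h6.trans hT.symm⟩

theorem sym_of_cj (hn : Φ.Nondeg) [Nontrivial V] {r : ℕ} [hr : Fact r.Prime]
    (hσ : ∀ t, t ^ r = 1 → σ t = t) (y : End F V) (hy : y ^ r = 1) (H : Cj (SimE Φ) y) :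
    ∃ l : F, l ^ r = 1 ∧ ∀ s t, t ^ r = 1 → t * s = l → kd y (X - C t) ≤ kd y (X - C s) := by
  obtain ⟨h, ⟨l, -, h1⟩, h2⟩ := H
  refine ⟨l, by simpa using h1.pow_eq hn (c := 1) (by simpa using pow_of_eq' h2.symm hy),
    fun s t h3 h4 => ?_⟩
  rw [← kd_of_eq h2, ← kd_of_eq h2]
  exact h1.kd_le hn (fun h => by simp [h, hr.out.ne_zero] at h3) (by rw [hσ t h3, h4])

theorem iso_of_cj (hn : Φ.Nondeg) [Nontrivial V] {r : ℕ} [hr : Fact r.Prime]
    (hi : orderOf (Nat.card F : ZMod r) ≠ 1) {y : End F V} (hy : y ^ r = 1) (H : Cj (SimE Φ) y) :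
    ∃ h, Iso Φ h ∧ h ^ r = 1 ∧ elemDiv h = elemDiv y := by
  obtain ⟨h, ⟨l, -, h1⟩, h2⟩ := H
  have h3 := pow_of_eq' h2.symm hy
  obtain rfl : l = 1 := (pow_bijective hi).1 (by simpa using h1.pow_eq hn (c := 1) (by simpa using h3))
  exact ⟨h, sim_one.1 h1, h3, h2⟩

/-- An element of order `r` with `s` non-trivial blocks. -/
theorem exists_blocks {r s : ℕ} [hr : Fact r.Prime] (h0 : (r : F) ≠ 0) (hs : 0 < s)
    (h : orderOf (Nat.card F : ZMod r) * s ≤ finrank F V) : ∃ y : End F V, y ^ r = 1 ∧ y ≠ 1 ∧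
      kd y (cyclotomic r F) = orderOf (Nat.card F : ZMod r) * s ∧
      kd y (X - C 1) + orderOf (Nat.card F : ZMod r) * s = finrank F V := by
  obtain ⟨g, hg⟩ := exists_cyc (F := F) hr.out.pos
  have h1 : ∀ a ∈ Multiset.replicate s g, Cyc r a := fun a ha => Multiset.eq_of_mem_replicate ha ▸ hg
  obtain ⟨y, h2, h3⟩ := exists_pow_eq_one (V := V) h0 h1
    (k := finrank F V - orderOf (Nat.card F : ZMod r) * s) (by simp; omega)
  have h4 : kd y (X - C 1) = _ := (elemDiv_res_cyc h0 h1 h3).2.1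
  have h5 : kd y (X - C 1) + kd y (cyclotomic r F) = _ :=
    finrank_fix (isCoprime_cyclotomic h0) (aeval_split h2)
  have h6 := Nat.mul_pos (ord_pos h0) hs
  refine ⟨y, h2, ?_, by omega, by omega⟩
  rintro rfl
  have := kd_eq_finrank_iff.2 (show aeval (1 : End F V) (X - C 1 : F[X]) = 0 by simp)
  omega

theorem Iso.typ_dvd (hh : Iso Φ h) (hn : Φ.Nondeg) {r c : ℕ} [Fact r.Prime] (h0 : (r : F) ≠ 0)
    (h3 : 2 < r) (ht : Typ σ (cyclotomic r F) (orderOf (Nat.card F : ZMod r)) c) (hy : h ^ r = 1) :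
    c ∣ kd h (cyclotomic r F) :=
  ht.dvd (pol_cyc h0 h3) (hh.ff hn (isCoprime_cyclotomic h0) (aeval_split hy))

theorem forall_exc {r : ℕ} [hr : Fact r.Prime] (hn : 0 < finrank F V) {P : End F V → Prop}
    (hP : ∀ (w : F) f, w ≠ 0 → P (w • f) → P f) (hA : ∀ y, y ^ r = 1 → P y)
    (hB : ∀ f (c : F), f ^ r = c • 1 → (¬ ∃ w, w ^ r = c) → ¬ P f) :
    (∀ f : End F V, LinearMap.det f = 1 → PE r f → P f) ↔ ¬ ExcL F r (finrank F V) := by
  rw [forall_pe_iff hP]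
  refine ⟨fun H ⟨c, h1, ⟨k, hk⟩, h2⟩ => ?_, fun H => ⟨fun y _ h _ _ => hA y h, fun f c _ h1 h2 h3 => ?_⟩⟩
  · obtain ⟨f, h3, h4⟩ := exists_exc (V := V) h1 (k := k) (by rw [hk, mul_comm])
    rw [hk, Nat.mul_div_cancel_left _ hr.out.pos] at h2
    exact hB f c h3 h1 (H.2 f c hn h3 h1 (by rw [det_of_exc hr.out.ne_zero h4, h2]))
  · obtain ⟨k, h4, h5⟩ := ((cases_pow (fun h0 => h2 ⟨0, by simp [h0, hr.out.ne_zero]⟩) h1).resolve_left
      fun ⟨w, hw, _⟩ => h2 ⟨w, hw⟩).2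
    exact (H ⟨c, h2, Dvd.intro_left k h4, by
      rw [← h4, Nat.mul_div_cancel _ hr.out.pos, ← det_of_exc hr.out.ne_zero h5, h3]⟩).elim

theorem val_eq_zero {r q : ℕ} [Fact r.Prime] (hq : 0 < q) (h : orderOf (q : ZMod r) ≠ 1) :
    padicValNat r (q - 1) = 0 :=
  padicValNat.eq_zero_of_not_dvd fun h1 => h (Nat.dvd_one.1 (orderOf_dvd_of_dvd (j := 1) hq
    (by simpa using h1)))

theorem rk_add_kd : rk f + kd f (X - C 1) = finrank F V := by
  rw [← LinearMap.finrank_range_add_finrank_ker (f - 1), rk, ← neg_sub f, LinearMap.range_neg, kd,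
    show aeval f (X - C 1 : F[X]) = f - 1 by simp]

theorem eq_of_two_char [CharP F 2] {g : End F V} (h1 : f ^ 2 = 1) (h2 : g ^ 2 = 1) :
    2 * rk f ≤ finrank F V ∧ (rk f = rk g → elemDiv f = elemDiv g) := by
  obtain ⟨a, b, a1, a2, a3⟩ := elemDiv_of_sq_zero (f := f) (c := 1) (by simpa using pow_char_iff.1 h1)
  obtain ⟨c, d, b1, b2, b3⟩ := elemDiv_of_sq_zero (f := g) (c := 1) (by simpa using pow_char_iff.1 h2)
  have := rk_add_kd (f := f)
  have := rk_add_kd (f := g)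
  exact ⟨by omega, fun h => by rw [a3, b3, show a = c by omega, show b = d by omega]⟩

theorem exists_jt {p a : ℕ} [Fact p.Prime] [CharP F p] (h1 : 1 < a) (h2 : a ≤ p)
    (h3 : a ≤ finrank F V) : ∃ y : End F V, y ^ p = 1 ∧ y ≠ 1 ∧
      Jt y (a ::ₘ Multiset.replicate (finrank F V - a) 1) := by
  obtain ⟨y, hy⟩ := exists_unip (F := F) (V := V) (a ::ₘ Multiset.replicate (finrank F V - a) 1)
    (by simp +contextual [Multiset.mem_replicate]; omega) (by simp; omega)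
  exact ⟨y, Jt.pow_char hy (by simp +contextual [Multiset.mem_replicate]; omega),
    Jt.ne_one hy (Multiset.mem_cons_self _ _) h1, hy⟩

section mat

variable {ι : Type} [Fintype ι] [DecidableEq ι]

theorem inG_iff {H : Subgroup (GL ι F)} {S : End F (ι → F) → Prop}
    (hH : ∀ g : GL ι F, g ∈ H ↔ S (Matrix.toLin' g.1)) (hS : ∀ h, S h → Function.Injective h) :
    InG H = S := by
  ext h
  refine ⟨fun ⟨g, h1, h2⟩ => h2 ▸ (hH g).1 h1, fun h1 => ?_⟩
  have h2 : Matrix.toLin' ((glEquiv ι F).symm (LinearEquiv.ofInjectiveEndo h (hS h h1))).1 = h := by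
    rw [← coe_glEquiv, MulEquiv.apply_symm_apply]; rfl
  exact ⟨_, (hH _).2 (h2.symm ▸ h1), h2⟩

variable {Φ : Formed σ (ι → F)}

theorem dvd_isom {H : Subgroup (GL ι F)} (hH : InG H = SimE Φ) {r : ℕ}
    (h : r ∣ H.relIndex (Geo.specialLinear ι F)) :
    r * Nat.card Φ.isom ∣ glo (Nat.card F) (Fintype.card ι) := by
  refine dvd_glo h ((glEquiv ι F).symm.toMonoidHom.comp Φ.isom.subtype)
    ((glEquiv ι F).symm.injective.comp Subtype.val_injective) fun k => ?_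
  obtain ⟨g, h1, h2⟩ : InG H k.1 := hH ▸ Iso.simE k.2
  obtain rfl : g = (glEquiv ι F).symm k.1 := by
    rw [MulEquiv.eq_symm_apply]; exact LinearEquiv.toLinearMap_injective ((coe_glEquiv g).trans h2)
  exact h1

theorem inG_sim (hΦ : Spu Φ) (hn : Φ.Nondeg) {B : (ι → F) → (ι → F) → F}
    (hB : (∀ u v, Φ.B u v = B u v) ∨ ∀ u v, Φ.B u v = B v u) :
    InG (Geo.similarityGroup B) = SimE Φ := by
  refine inG_iff (fun g => ⟨fun ⟨c, hc⟩ => ⟨c, c.ne_zero, fun u v => ?_, by simp [hΦ.Q]⟩,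
    fun ⟨c, h1, h2⟩ => ⟨Units.mk0 c h1, fun u v => ?_⟩⟩) fun h hh => hh.injective hn
  · rcases hB with hB | hB <;> simp [hB, hc]
  · rcases hB with hB | hB
    · simpa [hB] using h2.1 u v
    · simpa [hB] using h2.1 v u

theorem inG_quad {Q : QuadraticForm F (ι → F)} (hn : (ofQuad Q).Nondeg) :
    InG (Geo.quadSimilarityGroup ⇑Q) = SimE (ofQuad Q) := by
  refine inG_iff (fun g => ⟨fun ⟨c, hc⟩ => ⟨c, c.ne_zero, fun u v => ?_, by simpa using hc⟩,
    fun ⟨c, h1, h2⟩ => ⟨Units.mk0 c h1, by simpa using h2.2⟩⟩) fun h hh => hh.injective hn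
  simp [QuadraticMap.polar, ← Matrix.mulVec_add, hc]; ring

omit [Finite F] in
theorem exists_alt {B : (ι → F) → (ι → F) → F} (hB : Geo.IsSymplecticForm B) :
    ∃ Φ : Formed (RingHom.id F) (ι → F), Spu Φ ∧ Φ.Nondeg ∧ ∀ u v, Φ.B u v = B u v :=
  ⟨ofAlt (LinearMap.mk₂ F B hB.bilinear.add_left hB.bilinear.smul_left hB.bilinear.add_right
    fun c u v => hB.bilinear.smul_right c u v) hB.alternating, Or.inl ⟨rfl, rfl, rfl⟩,
    fun x hx => by_contra fun h => (hB.nondegenerate x h).2.elim fun y hy => hy (hx y), fun _ _ => rfl⟩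

omit [Finite F] in
theorem exists_quad {Q : (ι → F) → F} (hQ : Geo.IsNondegenerateQuadraticForm Q) :
    ∃ Q' : QuadraticForm F (ι → F), ⇑Q' = Q ∧ (ofQuad Q').Nondeg :=
  ⟨QuadraticMap.ofPolar Q (fun c v => by rw [hQ.smul, sq, smul_eq_mul]) hQ.polar_bilinear.add_left
    hQ.polar_bilinear.smul_left, rfl,
    fun x hx => by_contra fun h => (hQ.nondegenerate x h).2.elim fun y hy => hy (hx y)⟩

omit [Finite F] in
theorem exists_herm [Fintype F] {q : ℕ} (hF : Fintype.card F = q ^ 2) {B : (ι → F) → (ι → F) → F}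
    (hB : Geo.IsUnitaryFormPow q B) : ∃ Φ : Formed (frobq hF) (ι → F), Φ.ε = 1 ∧ Φ.Nondeg ∧
      ∀ u v, Φ.B u v = B v u :=
  ⟨ofHerm (frobq_ne_id hF) (frobq_frobq hF) (LinearMap.mk₂'ₛₗ (frobq hF) (RingHom.id F)
    (fun u v => B v u) (fun a b c => by
      rw [hB.herm c, hB.add_left, hB.herm c a, hB.herm c b]; exact map_add (frobq hF) _ _)
    (fun c u v => by rw [hB.herm v, hB.smul_left, mul_pow, ← hB.herm]; rfl)
    (fun _ _ _ => hB.add_left _ _ _) fun c u v => hB.smul_left c v u) ⟨fun u v => (hB.herm u v).symm⟩,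
    rfl, fun x hx => by_contra fun h => (hB.nondegenerate x h).1.elim fun y hy => hy (hx y),
    fun _ _ => rfl⟩

end mat

end Cfsg.Agent.Elu
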