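import Cfsg.Agent.Elu.XsTool
import Cfsg.Agent.Classical.SUGen

/-! Involutions of `SU₃(q)`, `q` odd, as non-isotropic points (`IsR`, `Rf`): the commuting involution graph. -/

set_option autoImplicit false
set_option linter.unusedSectionVars false

namespace Cfsg.Agent.Elu

open Module Polynomial Matrix Cfsg.Agent.Classical

variable {F : Type*} [Field F] [Fintype F] {q : ℕ} [hF : Fact (Fintype.card F = q ^ 2)]

local notation "h" => hermForm 3 F q

theorem herm3 (u v : Fin 3 → F) : h u v = u 0 * v 0 ^ q + u 1 * v 1 ^ q + u 2 * v 2 ^ q := by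
  simp [hermForm, Fin.sum_univ_three]

/-- A parametrisation of the involutions of `G` by the non-isotropic points, based at `t`. -/
structure Rf (q : ℕ) {G : Type*} [Group G] (ρ : G → (Fin 3 → F) → Prop) (t : G) : Prop where
  ex : ∀ v, hermForm 3 F q v v ≠ 0 → ∃ x, ρ x v
  inv : ∀ x, (x ≠ 1 ∧ x * x = 1) ↔ ∃ v, ρ x v
  ne : ∀ {x v}, ρ x v → hermForm 3 F q v v ≠ 0
  eq : ∀ {x y v w}, ρ x v → ρ y w → (x = y ↔ ∃ c : F, w = c • v)
  comm : ∀ {x y v w}, ρ x v → ρ y w → (Commute x y ↔ x = y ∨ hermForm 3 F q w v = 0)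
  base : ρ t ![1, 0, 0]

/-- `x` is the involution fixing `v`. -/
def IsR (x : SU 3 F q) (v : Fin 3 → F) : Prop :=
  h v v ≠ 0 ∧ ∀ u : Fin 3 → F, x • u = (2 * h u v / h v v) • v - u

variable {x y : SU 3 F q} {v w : Fin 3 → F}

theorem IsR.fix (H : IsR x v) : x • v = v := by
  rw [H.2, mul_div_assoc, div_self H.1, mul_one, two_smul, add_sub_cancel_right]

theorem IsR.conj (H : IsR x v) (g : SU 3 F q) : IsR (g * x * g⁻¹) (g • v) :=
  ⟨by simpa using H.1, fun u => by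
    rw [mul_smul, mul_smul, H.2, smul_sub, su_smul_smul, ← herm_su_smul g, smul_inv_smul, herm_su_smul]⟩

theorem IsR.eq_of (H : IsR x v) (H' : IsR y w) {c : F} (e : w = c • v) : x = y := su_ext fun u => by
  have a1 := H'.1
  rw [H.2, H'.2, e, smul_smul]
  simp only [e, herm_smul_left, herm_smul_right, ne_eq, mul_eq_zero, not_or] at a1 ⊢
  obtain ⟨a1, a2, a3⟩ := a1
  congr 2; field_simp

theorem IsR.of_fix (h2 : (2 : F) ≠ 0) (H : IsR x v) (e : x • w = w) : ∃ c : F, w = c • v :=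
  ⟨h w v / h v v, smul_right_injective _ h2 (by
    rw [H.2, sub_eq_iff_eq_add] at e
    simp only [smul_smul, ← mul_div_assoc, e, two_smul])⟩

theorem exists_isR (hq : Odd q) (hv : h v v ≠ 0) : ∃ x : SU 3 F q, IsR x v := by
  have a1 : (-2 / h v v) ^ q = -2 / h v v := by
    rw [div_pow, herm_conj, neg_pow_q, ← one_add_one_eq_two, add_pow_q, one_pow]
  refine ⟨⟨⟨-unitaryTransvection 3 q v (-2 / h v v), ?_⟩, fun x y => ?_⟩, hv, fun u => ?_⟩
  · rw [det_neg, det_unitaryTransvection, div_mul_cancel₀ _ hv]; norm_num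
  · change h ((-_) *ᵥ x) ((-_) *ᵥ y) = _
    rw [neg_mulVec, neg_mulVec, herm_neg_left, herm_neg_right, neg_neg, herm_unitaryTransvection, a1]
    field_simp; ring
  · change (-_) *ᵥ u = _
    rw [neg_mulVec, unitaryTransvection_mulVec]
    match_scalars <;> ring

theorem isR_inv (h2 : (2 : F) ≠ 0) : (x ≠ 1 ∧ x * x = 1) ↔ ∃ v, IsR x v := by
  refine ⟨fun ⟨h1, h3⟩ => ?_, fun ⟨v, H⟩ => ⟨?_, su_ext fun u => ?_⟩⟩
  · let f := toLin' x.1.1
    have a1 : f ^ 2 = 1 := by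
      rw [sq, End.mul_eq_comp, ← toLin'_mul]
      exact (congrArg (fun z : SU 3 F q => toLin' z.1.1) h3).trans toLin'_one
    obtain ⟨a2, a3⟩ := elemDiv_of_two_factors (fun e => h2 (by linear_combination e)) (aeval_two a1)
    have a4 := Dg.det (y := f) (T := Multiset.replicate (kd f (X - C 1)) 1 +
      Multiset.replicate (kd f (X - C (-1))) (-1)) (by rw [Dg, a3]; simp)
    have a5 := kd_lt (y := f) (c := 1) fun e => h1 (su_ext fun u => (congrArg (· u) e).trans (by simp))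
    rw [LinearMap.det_toLin', x.1.2, Multiset.prod_add, Multiset.prod_replicate, Multiset.prod_replicate, one_pow,
      one_mul, eq_comm, neg_one_pow_eq_one_iff_even (fun e => h2 (by linear_combination -e)), Nat.even_iff] at a4
    rw [finrank_fin_fun] at a2 a5
    obtain ⟨⟨v, b1⟩, b2, b3⟩ := finrank_eq_one_iff'.1 (show finrank F (kerA f (X - C 1)) = 1 by
      change kd _ _ = 1; omega)
    replace b1 : x • v = v := mem_fixA.1 b1
    have b4 : ∀ u, ∃ c : F, c • v = u + x • u ∧ c * h v v = 2 * h u v := fun u => by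
      obtain ⟨c, hc⟩ := b3 ⟨u + x • u, mem_fixA.2 (show x • (u + x • u) = _ by
        rw [smul_add, ← mul_smul, h3, one_smul, add_comm])⟩
      replace hc : c • v = u + x • u := congrArg Subtype.val hc
      exact ⟨c, hc, by rw [← herm_smul_left, hc, herm_add_left, two_mul]; nth_rw 2 [← b1]; rw [herm_su_smul]⟩
    have b5 : h v v ≠ 0 := fun e => by
      obtain ⟨u, hu⟩ := exists_herm_ne_zero (q := q) (u := v) fun e => b2 (Subtype.ext e)
      obtain ⟨c, -, hc⟩ := b4 u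
      rw [e, mul_zero, eq_comm, mul_eq_zero, herm_eq_zero_comm] at hc
      tauto
    refine ⟨v, b5, fun u => ?_⟩
    obtain ⟨c, c1, c2⟩ := b4 u
    rw [← c2, mul_div_cancel_right₀ _ b5, c1, add_sub_cancel_left]
  · rintro rfl
    have a1 : ∀ u, ∃ c : F, u = c • v := fun u => H.of_fix h2 (one_smul _ _)
    obtain ⟨a, a2⟩ := a1 ![1, 0, 0]
    obtain ⟨b, a3⟩ := a1 ![0, 1, 0]
    have := congrFun a2 0; have := congrFun a2 1; have := congrFun a3 0; have := congrFun a3 1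
    simp at *; grind
  · rw [mul_smul, H.2 u, smul_sub, su_smul_smul, H.fix, H.2 u]; simp

theorem exists_rf (hq : Odd q) {t : SU 3 F q} (ht : t ≠ 1) (ht2 : t * t = 1) :
    ∃ g : SU 3 F q, Rf q (fun x v => IsR x (g • v)) t := by
  have h2 : (2 : F) ≠ 0 := two_ne_zero_iff_odd.2 (by rw [natCard_eq_sq (q := q)]; exact hq.pow)
  have eq : ∀ {x y : SU 3 F q} {v w}, IsR x v → IsR y w → (x = y ↔ ∃ c : F, w = c • v) := fun H H' =>
    ⟨fun e => H.of_fix h2 (e ▸ H'.fix), fun ⟨c, e⟩ => H.eq_of H' e⟩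
  obtain ⟨v, H⟩ := (isR_inv h2).1 ⟨ht, ht2⟩
  obtain ⟨g, -, a, e⟩ := tRel_of_noniso (n := 3) (q := q) (u := ![1, 0, 0]) (.inl (by rintro rfl; exact absurd hq (by decide)))
    (by simp [herm3]) H.1
  refine ⟨g, fun v hv => exists_isR hq (by simpa), fun x => (isR_inv h2).trans (MulAction.surjective g).exists,
    fun H => by simpa using H.1, fun H H' => (eq H H').trans (by simp [← su_smul_smul]), fun {x y v w} H H' => ?_, ?_⟩
  · rw [← herm_su_smul g]
    generalize g • v = v at H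
    generalize g • w = w at H'
    refine ⟨fun hc => or_iff_not_imp_right.2 fun e => ?_, fun e => e.elim (fun e => e ▸ Commute.refl _) fun e =>
      su_ext fun u => ?_⟩
    · obtain ⟨c, hc⟩ := H'.of_fix h2 (w := x • w) (by rw [← mul_smul, ← hc.eq, mul_smul, H'.fix])
      rw [H.2, sub_eq_iff_eq_add, show c • w + w = (c + 1) • w by module, ← eq_inv_smul_iff₀ (div_ne_zero (mul_ne_zero h2 e) H.1),
        smul_smul] at hc
      exact (H'.eq_of H hc).symm
    · simp only [mul_smul, H.2, H'.2, herm_sub_left, herm_smul_left, e, herm_eq_zero_comm.1 e]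
      match_scalars <;> ring
  · obtain ⟨x, hx⟩ := exists_isR hq (v := g • (![1, 0, 0] : Fin 3 → F)) (by rw [herm_su_smul]; simp [herm3])
    exact H.eq_of hx e ▸ hx

namespace Rf

variable {G : Type*} [Group G] {ρ : G → (Fin 3 → F) → Prop} {t x y : G} (R : Rf q ρ t)
include R

theorem smul (H : ρ x v) {c : F} (hc : c ≠ 0) : ρ x (c • v) := by
  obtain ⟨y, hy⟩ := R.ex (c • v) (by simp [hc, R.ne H])
  exact (R.eq H hy).2 ⟨c, rfl⟩ ▸ hy

theorem card {Y : Type*} (f : Y → Fin 3 → F) (hf : ∀ y, h (f y) (f y) ≠ 0)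
    (inj : ∀ y y' (c : F), f y' = c • f y → y = y') {A : G → Prop} (hA : ∀ x, A x ↔ ∃ y, ρ x (f y)) :
    Nat.card {x // A x} = Nat.card Y := by
  choose r hr using fun y => R.ex _ (hf y)
  refine (Nat.card_congr (Equiv.ofBijective (fun y => ⟨r y, (hA _).2 ⟨y, hr y⟩⟩) ⟨fun y y' e => ?_, fun x => ?_⟩)).symm
  · obtain ⟨c, hc⟩ := (R.eq (hr y) (hr y')).1 (congrArg Subtype.val e)
    exact inj _ _ c hc
  · obtain ⟨y, hy⟩ := (hA _).1 x.2
    exact ⟨y, Subtype.ext ((R.eq (hr y) hy).2 ⟨1, by simp⟩)⟩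

theorem eq_t (H : ρ x v) : x = t ↔ v 1 = 0 ∧ v 2 = 0 := by
  rw [eq_comm, R.eq R.base H]
  exact ⟨by rintro ⟨c, rfl⟩; simp, fun ⟨a, b⟩ => ⟨v 0, by ext i; fin_cases i <;> simp [a, b]⟩⟩

theorem comm_t (H : ρ x v) : Commute t x ↔ (v 1 = 0 ∧ v 2 = 0) ∨ v 0 = 0 := by
  rw [R.comm R.base H, eq_comm, R.eq_t H, herm3]; simp [q_ne_zero F]

theorem two (H : ρ x v) (hc : ¬ Commute t x) :
    (∃ y, y ≠ 1 ∧ y * y = 1 ∧ Commute t y ∧ Commute y x) ↔ v 1 * v 1 ^ q + v 2 * v 2 ^ q ≠ 0 := by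
  refine ⟨fun ⟨y, a1, a2, a3, a4⟩ e => ?_, fun e => ?_⟩
  · obtain ⟨w, H'⟩ := (R.inv y).1 ⟨a1, a2⟩
    have b1 := ((R.comm_t H').1 a3).resolve_left fun e => hc ((R.eq_t H').2 e ▸ a4)
    have b2 := ((R.comm H' H).1 a4).resolve_left fun e => hc (e ▸ a3)
    have b3 := herm_eq_zero_comm.1 b2
    have b4 := R.ne H'
    have b5 : v 1 * w 2 - v 2 * w 1 = 0 := by
      have : (v 1 * w 2 - v 2 * w 1) * (v 1 * w 2 - v 2 * w 1) ^ q = 0 := by
        rw [herm3, b1] at b2 b3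
        rw [sub_pow_q, mul_pow, mul_pow]
        simp only [zero_pow_q, zero_mul, mul_zero, zero_add] at b2 b3
        linear_combination (w 1 * w 1 ^ q + w 2 * w 2 ^ q) * e - (w 1 * v 1 ^ q + w 2 * v 2 ^ q) * b2
      simpa [q_ne_zero F] using this
    rw [herm3, b1] at b2 b4
    simp only [zero_pow_q, zero_mul, mul_zero, zero_add] at b2 b4
    exact hc ((R.comm_t H).2 (.inl ⟨mul_right_cancel₀ b4 (by linear_combination w 1 * b2 + w 2 ^ q * b5),
      mul_right_cancel₀ b4 (by linear_combination w 2 * b2 - w 1 ^ q * b5)⟩))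
  · obtain ⟨y, H'⟩ := R.ex ![0, -v 2 ^ q, v 1 ^ q] (by
      simpa [herm3, neg_pow_q, pow_q_q, mul_comm, add_comm] using e)
    obtain ⟨a1, a2⟩ := (R.inv y).2 ⟨_, H'⟩
    exact ⟨y, a1, a2, (R.comm_t H').2 (.inr rfl), (R.comm H' H).2 (.inr (by
      simp [herm3, neg_pow_q, pow_q_q, zero_pow_q, mul_comm]))⟩

theorem card_one : Nat.card {x // x ≠ 1 ∧ x * x = 1 ∧ x ≠ t ∧ Commute t x} = q * (q - 1) := by
  have := two_le_q F (q := q)
  rw [R.card (Y := Option {c : F // ¬ c * c ^ q = -1}) (fun y => y.elim ![0, 0, 1] fun c => ![0, 1, c.1])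
    (by rintro (_ | ⟨c, hc⟩) <;> simp [herm3, zero_pow_q, add_eq_zero_iff_neg_eq, *, eq_comm (a := (-1 : F))]) ?_ fun x => ?_,
    Finite.card_option, card_ne_of_card_eq, card_norm_fiber (by simp) (by simp [neg_pow_q]), natCard_eq_sq (q := q)]
  · zify [show q + 1 ≤ q ^ 2 by nlinarith, show 1 ≤ q by omega]; ring
  · rintro (_ | c) (_ | d) a e <;> have a1 := congrFun e 1 <;> have a2 := congrFun e 2 <;>
      simp [Subtype.ext_iff] at a1 a2 ⊢ <;> grind
  rw [← and_assoc, R.inv]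
  refine ⟨fun ⟨⟨v, H⟩, a1, a2⟩ => ?_, fun ⟨y, H⟩ => ⟨⟨_, H⟩, by
    rw [ne_eq, R.eq_t H]; cases y <;> simp, (R.comm_t H).2 (.inr (by cases y <;> rfl))⟩⟩
  have a3 := ((R.comm_t H).1 a2).resolve_left (mt (R.eq_t H).2 a1)
  by_cases a4 : v 1 = 0
  · have a5 : v 2 ≠ 0 := fun e => a1 ((R.eq_t H).2 ⟨a4, e⟩)
    exact ⟨none, by convert R.smul H (inv_ne_zero a5); ext i; fin_cases i <;> simp [*]⟩
  · have a5 : (v 1)⁻¹ • v = ![0, 1, (v 1)⁻¹ * v 2] := by ext i; fin_cases i <;> simp [*]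
    have H' := a5 ▸ R.smul H (inv_ne_zero a4)
    exact ⟨some ⟨_, fun e => R.ne H' (by simp [herm3, e, -mul_eq_zero, zero_pow_q])⟩, H'⟩

theorem card_nc {P : G → Prop} {Q : F → Prop}
    (hP : ∀ x v, ρ x v → ¬ Commute t x → v 0 = 1 → (P x ↔ Q (v 1 * v 1 ^ q + v 2 * v 2 ^ q))) :
    Nat.card {x // x ≠ 1 ∧ x * x = 1 ∧ ¬ Commute t x ∧ P x} = Nat.card {u : Fin 2 → F //
      u ≠ 0 ∧ ∑ i, u i * u i ^ q ≠ -1 ∧ Q (∑ i, u i * u i ^ q)} := by
  refine R.card (fun u => ![1, u.1 0, u.1 1]) (fun u => ?_) (fun u u' c e => ?_) fun x => ?_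
  · simpa [herm3, add_assoc, add_eq_zero_iff_neg_eq, eq_comm (a := (-1 : F))] using u.2.2.1
  · have a0 := congrFun e 0; have a1 := congrFun e 1; have a2 := congrFun e 2
    simp at a0 a1 a2
    ext i; fin_cases i <;> simp [a1, a2, ← a0]
  rw [← and_assoc, R.inv]
  refine ⟨fun ⟨⟨v, H⟩, a1, a2⟩ => ?_, fun ⟨u, H⟩ => ?_⟩
  · have a4 : v 0 ≠ 0 := fun e => a1 ((R.comm_t H).2 (.inr e))
    replace H := R.smul H (inv_ne_zero a4)
    have a5 : ((v 0)⁻¹ • v) 0 = 1 := by simp [a4]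
    generalize (v 0)⁻¹ • v = w at H a5
    refine ⟨⟨![w 1, w 2], fun e => a1 ((R.comm_t H).2 (.inl ⟨congrFun e 0, congrFun e 1⟩)), fun e => R.ne H ?_,
      by simpa using (hP x w H a1 a5).1 a2⟩, by convert H; ext i; fin_cases i <;> simp [a5]⟩
    simp at e
    rw [herm3, a5, add_assoc, e]; simp
  · have a1 : ¬ Commute t x := by
      rw [R.comm_t H]
      simpa using fun a b => u.2.1 (by ext i; fin_cases i <;> simpa)
    exact ⟨⟨_, H⟩, a1, (hP x _ H a1 rfl).2 (by simpa using u.2.2.2)⟩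

theorem card_three : Nat.card {x // x ≠ 1 ∧ x * x = 1 ∧ ¬ Commute t x ∧
    ∀ y, y ≠ 1 → y * y = 1 → ¬ (Commute t y ∧ Commute y x)} = (q + 1) * (q ^ 2 - 1) := by
  classical
  rw [R.card_nc (Q := (· = 0)) fun x v H a _ => by simpa [← not_and, ← not_exists] using (R.two H a).not]
  have h1 := card_iso_nat (F := F) (q := q) (n := 2)
  rw [nrmCount, ← Nat.card_congr (Equiv.optionSubtypeNe (⟨0, by simp⟩ :
    {v : Fin 2 → F // ∑ i, v i * v i ^ q = 0})), Finite.card_option, add_left_inj] at h1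
  rw [mul_comm]
  refine Eq.trans (Nat.card_congr ?_) (h1.trans (by simp))
  exact ⟨fun u => ⟨⟨u.1, u.2.2.2⟩, fun e => u.2.1 (congrArg Subtype.val e)⟩,
    fun u => ⟨u.1.1, fun e => u.2 (Subtype.ext e), by rw [u.1.2]; simp, u.1.2⟩, fun _ => rfl, fun _ => rfl⟩

theorem card_two : Nat.card {x // x ≠ 1 ∧ x * x = 1 ∧ ¬ Commute t x ∧
    ∃ y, y ≠ 1 ∧ y * y = 1 ∧ Commute t y ∧ Commute y x} = q * (q - 2) * (q ^ 2 - 1) := by
  classical
  rw [R.card_nc (Q := (· ≠ 0)) fun x v H a _ => R.two H a]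
  have h1 := card_iso_nat (F := F) (q := q) (n := 2)
  have h2 := (nrmCount_eq_one (F := F) (q := q) (ι := Fin 2) (c := -1) (by simp) (by simp [neg_pow_q])).trans
    card_unit_nat
  have h3 : Nat.card {u : Fin 2 → F // ∑ i, u i * u i ^ q = 0 ∨ ∑ i, u i * u i ^ q = -1} =
      nrmCount F q (Fin 2) 0 + nrmCount F q (Fin 2) (-1) := by
    rw [Nat.card_congr (subtypeOrEquiv _ _ (by
      refine Pi.disjoint_iff.2 fun u => Prop.disjoint_iff.2 fun e => by simpa using e.1.symm.trans e.2)), Nat.card_sum]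
    rfl
  rw [Nat.card_congr (Equiv.subtypeEquivRight (q := fun u => ¬ (∑ i, u i * u i ^ q = 0 ∨
    ∑ i, u i * u i ^ q = -1)) fun u => ⟨by tauto, fun e => ⟨by rintro rfl; simp at e, by tauto⟩⟩),
    card_ne_of_card_eq, h3, h1, h2, Nat.card_fun, natCard_eq_sq (q := q)]
  obtain ⟨k, rfl⟩ := Nat.exists_eq_add_of_le' (two_le_q F (q := q))
  rw [show (k + 2) ^ 2 = k ^ 2 + 4 * k + 3 + 1 by ring]
  refine Nat.sub_eq_of_eq_add ?_
  simp; ring

theorem card_all [Finite G] : Nat.card {x : G // x ≠ 1 ∧ x * x = 1} = q ^ 2 * (q ^ 2 - q + 1) := by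
  classical
  have a1 := R.card_one
  have a2 := R.card_two
  have a3 := R.card_three
  obtain ⟨ht, ht2⟩ := (R.inv t).2 ⟨_, R.base⟩
  have := Fintype.ofFinite G
  simp only [Nat.card_eq_fintype_card, Fintype.card_subtype] at a1 a2 a3 ⊢
  rw [← Finset.card_filter_add_card_filter_not (fun x => Commute t x),
    ← Finset.card_filter_add_card_filter_not (fun x => x = t),
    ← Finset.card_filter_add_card_filter_not (s := Finset.filter (fun x => ¬ Commute t x) _)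
      (fun x => ∃ y, y ≠ 1 ∧ y * y = 1 ∧ Commute t y ∧ Commute y x)]
  simp only [Finset.filter_filter]
  rw [Finset.card_eq_one.2 ⟨t, by ext x; simp +contextual [ht, ht2]⟩,
    (congrArg _ (Finset.filter_congr fun x _ => by tauto)).trans a1,
    (congrArg _ (Finset.filter_congr fun x _ => by simp only [and_assoc])).trans a2,
    (congrArg _ (Finset.filter_congr fun x _ => by simp [and_assoc])).trans a3]
  obtain ⟨k, rfl⟩ := Nat.exists_eq_add_of_le' (two_le_q F (q := q))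
  rw [show (k + 2) ^ 2 - 1 = k ^ 2 + 4 * k + 3 from Nat.sub_eq_of_eq_add (by ring),
    show (k + 2) ^ 2 - (k + 2) = k ^ 2 + 3 * k + 2 from Nat.sub_eq_of_eq_add (by ring)]
  simp; ring

theorem path (h2 : (2 : F) ≠ 0) (h1 : x ≠ 1) (h3 : x * x = 1) : ∃ y z, y ≠ 1 ∧ y * y = 1 ∧ z ≠ 1 ∧ z * z = 1 ∧
    Commute t y ∧ Commute y z ∧ Commute z x := by
  obtain ⟨v, H⟩ := (R.inv x).1 ⟨h1, h3⟩
  have key : ∀ u w : Fin 3 → F, h u u ≠ 0 → h w w ≠ 0 → u 0 = 0 → h w u = 0 → h v w = 0 → ∃ y z, y ≠ 1 ∧ y * y = 1 ∧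
      z ≠ 1 ∧ z * z = 1 ∧ Commute t y ∧ Commute y z ∧ Commute z x := fun u w a b c d e => by
    obtain ⟨y, hy⟩ := R.ex u a
    obtain ⟨z, hz⟩ := R.ex w b
    exact ⟨y, z, ((R.inv y).2 ⟨_, hy⟩).1, ((R.inv y).2 ⟨_, hy⟩).2, ((R.inv z).2 ⟨_, hz⟩).1, ((R.inv z).2 ⟨_, hz⟩).2,
      (R.comm_t hy).2 (.inr c), (R.comm hy hz).2 (.inr d), (R.comm hz H).2 (.inr e)⟩
  by_cases a : v 1 * v 1 ^ q + v 0 * v 0 ^ q = 0
  · by_cases b : v 2 * v 2 ^ q + v 0 * v 0 ^ q = 0
    · have c := R.ne H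
      obtain ⟨y, c⟩ := (R.ex ![0, -v 2 ^ q, v 1 ^ q]) fun e => c (mul_left_cancel₀ h2 (by
        simp [herm3, neg_pow_q, pow_q_q] at e
        rw [herm3]; linear_combination a + b + e))
      obtain ⟨a1, a2⟩ := (R.inv t).2 ⟨_, R.base⟩
      obtain ⟨a3, a4⟩ := (R.inv y).2 ⟨_, c⟩
      exact ⟨t, y, a1, a2, a3, a4, .refl _, (R.comm_t c).2 (.inr rfl), (R.comm c H).2 (.inr (by
        simp [herm3, neg_pow_q, pow_q_q, zero_pow_q, mul_comm]))⟩
    · exact key ![0, 1, 0] ![-v 2 ^ q, 0, v 0 ^ q] (by simp [herm3]) (by simpa [herm3, neg_pow_q, pow_q_q, mul_comm])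
        rfl (by simp [herm3, zero_pow_q]) (by simp [herm3, neg_pow_q, pow_q_q, mul_comm, zero_pow_q])
  · exact key ![0, 0, 1] ![-v 1 ^ q, v 0 ^ q, 0] (by simp [herm3]) (by simpa [herm3, neg_pow_q, pow_q_q, mul_comm])
      rfl (by simp [herm3, zero_pow_q]) (by simp [herm3, neg_pow_q, pow_q_q, mul_comm, zero_pow_q])

end Rf

end Cfsg.Agent.Elu
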