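import Cfsg.Agent.Elu.ExtSp
import Cfsg.Agent.Asch.Descent
import Cfsg.Agent.Classical.SLCard

/-! Subfield subgroups of `SL_n(q)`: base change `bc φ` (`kd_bc`, `jt_bc`), the predicate `Sb K`
(`inG_sb`), the descent lemma `cj_sub`, and the elusivity criteria `sub_two`, `sub_odd`,
`sub_three`. -/

set_option autoImplicit false

namespace Cfsg.Agent.Elu

open Module Polynomial Cfsg.Agent.Classical Cfsg.Agent.Geom

variable {ι : Type} [Fintype ι] [DecidableEq ι]

section bc

variable {K F : Type*} [Field K] [Field F] (φ : K →+* F)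

theorem rank_map (M : Matrix ι ι K) : (M.map φ).rank = M.rank := by
  classical
  obtain ⟨V, U, e, h1, h2, h3⟩ := Matrix.exists_rank_normal_form M
  rw [← Matrix.rank_mul_eq_right_of_isUnit_det (V.map φ) _ ((Matrix.isUnit_iff_isUnit_det _).1
    (h1.map φ.mapMatrix)), ← Matrix.rank_mul_eq_left_of_isUnit_det (U.map φ) _
    ((Matrix.isUnit_iff_isUnit_det _).1 (h2.map φ.mapMatrix)), ← Matrix.map_mul, ← Matrix.map_mul, h3,
    ← Matrix.submatrix_map, Matrix.fromBlocks_map, Matrix.rank_submatrix, Matrix.map_one _ φ.map_zero φ.map_one,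
    Matrix.map_zero _ φ.map_zero, Matrix.map_zero _ φ.map_zero, Matrix.map_zero _ φ.map_zero,
    ← Matrix.diagonal_one, ← Matrix.diagonal_zero, Matrix.fromBlocks_diagonal, Matrix.rank_diagonal]
  simp [Fintype.card_subtype, Finset.card_filter]

/-- Base change of endomorphisms. -/
noncomputable def bc : End K (ι → K) →+* End F (ι → F) :=
  (Matrix.toLinAlgEquiv'.toRingEquiv.toRingHom.comp φ.mapMatrix).comp
    LinearMap.toMatrixAlgEquiv'.toRingEquiv.toRingHom

theorem bc_toLin' (A : Matrix ι ι K) : bc φ (Matrix.toLin' A) = Matrix.toLin' (A.map φ) := by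
  change Matrix.toLin' ((LinearMap.toMatrix' (Matrix.toLin' A)).map φ) = _
  rw [LinearMap.toMatrix'_toLin']

theorem bc_smul (c : K) (a : End K (ι → K)) : bc φ (c • a) = φ c • bc φ a := by
  obtain ⟨A, rfl⟩ := Matrix.toLin'.surjective a
  rw [← map_smul, bc_toLin', bc_toLin', ← map_smul]
  congr 1; ext; simp

theorem bc_injective : Function.Injective (bc (ι := ι) φ) := fun a b h => by
  obtain ⟨A, rfl⟩ := Matrix.toLin'.surjective a
  obtain ⟨B, rfl⟩ := Matrix.toLin'.surjective b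
  rw [bc_toLin', bc_toLin', Matrix.toLin'.injective.eq_iff] at h
  rw [Matrix.map_injective φ.injective h]

theorem aeval_bc (a : End K (ι → K)) (g : K[X]) : aeval (bc φ a) (g.map φ) = bc φ (aeval a g) := by
  induction g using Polynomial.induction_on' with
  | add p q h h' => simp [h, h']
  | monomial n c => simp [aeval_monomial, ← Algebra.smul_def, bc_smul]

theorem kd_bc (a : End K (ι → K)) (g : K[X]) : kd (bc φ a) (g.map φ) = kd a g := by
  obtain ⟨A, hA⟩ := Matrix.toLin'.surjective (aeval a g)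
  have h1 := LinearMap.finrank_range_add_finrank_ker (Matrix.toLin' A)
  have h2 := LinearMap.finrank_range_add_finrank_ker (Matrix.toLin' (A.map φ))
  have h3 : finrank F (LinearMap.range (Matrix.toLin' (A.map φ))) =
    finrank K (LinearMap.range (Matrix.toLin' A)) := rank_map φ A
  rw [kd, kd, aeval_bc, ← hA, bc_toLin']
  rw [finrank_fintype_fun_eq_card] at h1 h2
  omega

theorem det_bc (a : End K (ι → K)) : LinearMap.det (bc φ a) = φ (LinearMap.det a) := by
  obtain ⟨A, rfl⟩ := Matrix.toLin'.surjective a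
  rw [bc_toLin', LinearMap.det_toLin', LinearMap.det_toLin', RingHom.map_det]; rfl

theorem charpoly_bc (a : End K (ι → K)) : (bc φ a).charpoly = a.charpoly.map φ := by
  obtain ⟨A, rfl⟩ := Matrix.toLin'.surjective a
  rw [bc_toLin', Matrix.charpoly_toLin', Matrix.charpoly_toLin', Matrix.charpoly_map]

theorem bc_bc {L : Type*} [Field L] (ψ : F →+* L) (a : End K (ι → K)) :
    bc ψ (bc φ a) = bc (ψ.comp φ) a := by
  obtain ⟨A, rfl⟩ := Matrix.toLin'.surjective a
  simp only [bc_toLin']; rfl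

variable [Finite K] [Finite F]

theorem jt_bc {a : End K (ι → K)} {μ : Multiset ℕ} (h : Jt a μ) : Jt (bc φ a) μ := by
  have h1 : ∀ m ∈ μ, 0 < m := fun m hm => h.pos hm
  refine elemDiv_eq_of (fun g hg => ?_) fun p h2 h3 e => ?_
  · obtain ⟨m, hm, rfl⟩ := Multiset.mem_map.1 hg
    exact isPP_X_sub_C_pow _ (h1 m hm)
  by_cases h4 : p = X - C 1
  · have := kd_bc φ a ((X - C 1) ^ e)
    rw [kd_eq a, h] at this
    simpa [h4, gdeg_pow_pow, -map_one, φ.map_one] using this
  · have h5 := isCoprime_of_ne (irreducible_X_sub_C 1) (monic_X_sub_C 1) h2 h3 (Ne.symm h4)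
    have h6 : aeval (bc φ a) (((X - C 1) ^ μ.sum : K[X]).map φ) = 0 := by
      rw [aeval_bc, aeval_eq_zero_iff.2, map_zero]
      rw [h]; intro g hg
      obtain ⟨m, hm, rfl⟩ := Multiset.mem_map.1 hg
      exact pow_dvd_pow _ (Multiset.le_sum_of_mem hm)
    rw [kd_of_isCoprime h6 (by simpa using h5.pow), Multiset.map_map, eq_comm]
    exact Multiset.sum_eq_zero fun x hx => by
      obtain ⟨m, -, rfl⟩ := Multiset.mem_map.1 hx
      exact gdeg_of_isCoprime h5.pow

end bc

theorem exists_monic_fac {K : Type*} [Field K] {g : K[X]} (hg : g.Monic) :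
    ∃ D : Multiset K[X], (∀ a ∈ D, Irreducible a ∧ a.Monic) ∧ D.prod = g := by
  classical
  exact ⟨UniqueFactorizationMonoid.normalizedFactors g, fun a ha =>
    have := UniqueFactorizationMonoid.irreducible_of_normalized_factor a ha
    ⟨this, UniqueFactorizationMonoid.normalize_normalized_factor a ha ▸ monic_normalize this.ne_zero⟩,
    (UniqueFactorizationMonoid.prod_normalizedFactors_eq hg.ne_zero).trans hg.normalize_eq_self⟩

variable {F : Type*} [Field F] [Finite F]

theorem eq_of_charpoly {V : Type*} [AddCommGroup V] [Module F V] [FiniteDimensional F V]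
    {f g : End F V} {b : F[X]} (hb : Squarefree b) (h1 : aeval f b = 0) (h2 : aeval g b = 0)
    (h : f.charpoly = g.charpoly) : elemDiv f = elemDiv g := by
  classical
  have key : ∀ f : End F V, aeval f b = 0 →
      UniqueFactorizationMonoid.normalizedFactors f.charpoly = elemDiv f := fun f h => by
    have h3 := fun a ha => (isPP_of_mem ha).irreducible_of_dvd hb (aeval_eq_zero_iff.1 h a ha)
    rw [charpoly_eq_prod, UniqueFactorizationMonoid.normalizedFactors_prod_eq _ fun a ha => (h3 a ha).1,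
      Multiset.map_congr rfl fun a ha => (h3 a ha).2.normalize_eq_self, Multiset.map_id']
  rw [← key f h1, ← key g h2, h]

variable {K : Subfield F} {y h : End F (ι → F)}

variable (K) in
/-- A scalar multiple of `h` is defined over `K`. -/
def Sb (h : End F (ι → F)) : Prop :=
  Function.Injective h ∧ ∃ c : F, c ≠ 0 ∧ ∃ a : End K (ι → K), c • h = bc K.subtype a

theorem inG_sb : InG (Geo.subfieldSubgroup K (1 : GL ι F)) = Sb K := by
  refine inG_iff (fun g => Asch.mem_subfieldSubgroup.trans ⟨fun ⟨c, h0, h⟩ =>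
    ⟨(glEquiv ι F g).injective, c, h0, Matrix.toLin' (Matrix.of fun i j => ⟨_, h i j⟩), ?_⟩,
    fun ⟨_, c, h0, a, h⟩ => ⟨c, h0, fun i j => ?_⟩⟩) fun _ h => h.1
  · rw [bc_toLin', ← map_smul]; congr 1; ext; simp [Asch.cj]
  · obtain ⟨A, rfl⟩ := Matrix.toLin'.surjective a
    rw [bc_toLin', ← map_smul, Matrix.toLin'.injective.eq_iff] at h
    have : c * g.1 i j = A i j := congr($h i j)
    simp [Asch.cj, this]

omit [Finite F] in
theorem Sb.smul (w : F) (h : End F (ι → F)) (hw : w ≠ 0) : Sb K h → Sb K (w • h) :=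
  fun ⟨h1, c, h2, a, h3⟩ => ⟨(smul_right_injective _ hw).comp h1, c * w⁻¹, by simp [h2, hw], a, by
    rw [smul_smul, inv_mul_cancel_right₀ hw, h3]⟩

omit [Finite F] in
theorem sb_bc {a : End K (ι → K)} (h : Function.Injective (bc K.subtype a)) : Sb K (bc K.subtype a) :=
  ⟨h, 1, one_ne_zero, a, one_smul _ _⟩

omit [Finite F] in
theorem mem_of_bc [Nonempty ι] {a : End K (ι → K)} {c : F} (h : bc K.subtype a = c • 1) : c ∈ K := by
  obtain ⟨A, rfl⟩ := Matrix.toLin'.surjective a
  obtain ⟨i⟩ := ‹Nonempty ι›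
  rw [bc_toLin', ← Module.End.one_eq_id.symm, ← Matrix.toLin'_one, ← map_smul,
    Matrix.toLin'.injective.eq_iff] at h
  have : (A i i : F) = c := by simpa using congr($h i i)
  exact this ▸ (A i i).2

theorem cj_sub {r : ℕ} (hr : (r : F) ≠ 0) (hy : y ^ r = 1) (h : y.charpoly ∈ lifts K.subtype) :
    Cj (Sb K) y := by
  obtain ⟨g, h1, h2, h3⟩ := lifts_and_natDegree_eq_and_monic h y.charpoly_monic
  obtain ⟨D, h4, rfl⟩ := exists_monic_fac h3
  obtain ⟨a, ha⟩ := exists_elemDiv_eq (V := ι → K) (D := D)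
    (fun a ha => isPP_of_irreducible (h4 a ha).1 (h4 a ha).2) (by
      rw [← natDegree_multiset_prod_of_monic _ fun a ha => (h4 a ha).2, h2, y.charpoly_natDegree]; simp)
  have h5 := (aeval_X_pow_sub_one y r).2 hy
  have h6 : (bc K.subtype a) ^ r = 1 := by
    rw [← map_pow, (aeval_X_pow_sub_one a r).1 (aeval_eq_zero_iff.2 fun p hp => ?_), map_one]
    rw [ha] at hp
    refine (h4 p hp).1.prime.dvd_of_dvd_pow (n := (elemDiv y).card) ((Multiset.dvd_prod hp).trans
      ((map_dvd_map' K.subtype).1 ?_))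
    simpa [h1, charpoly_eq_prod] using Multiset.prod_dvd_prod_of_dvd id _ (aeval_eq_zero_iff.1 h5)
  exact ⟨_, sb_bc (inj_of_pow (by rintro rfl; simp at hr) h6), eq_of_charpoly
    (squarefree_X_pow_sub_one hr) ((aeval_X_pow_sub_one _ r).2 h6) h5 (by
      rw [charpoly_bc, charpoly_eq_prod, ha, h1])⟩

omit [Finite F] in
theorem cast_ne_sub {r : ℕ} (hr : (r : F) ≠ 0) : (r : K) ≠ 0 := fun h => hr (by simpa using congr(K.subtype $h))

theorem cj_of_ord {r : ℕ} [hr : Fact r.Prime] (h : (r : F) ≠ 0)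
    (hi : orderOf (Nat.card K : ZMod r) = orderOf (Nat.card F : ZMod r)) (hy : y ^ r = 1) :
    Cj (Sb K) y := by
  refine cj_sub h hy (charpoly_eq_prod y ▸ multiset_prod_mem _ fun g hg => ?_)
  rcases mem_of_pow_eq_one h hy hg with rfl | h1
  · exact ⟨X - C 1, by simp⟩
  obtain ⟨D, h2, h3⟩ := exists_monic_fac (cyclotomic.monic r K)
  obtain ⟨_, h4, h5⟩ := h1.1.prime.exists_mem_multiset_dvd (s := D.map (map K.subtype)) (by
    rw [← Polynomial.map_multiset_prod, h3, map_cyclotomic]; exact h1.2.2)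
  obtain ⟨a, h6, rfl⟩ := Multiset.mem_map.1 h4
  exact ⟨a, eq_of_monic_of_dvd_of_natDegree_le (q := a.map _) h1.2.1 ((h2 a h6).2.map _) h5 (by
    rw [natDegree_map, h1.natDegree h, ← hi, Cyc.natDegree (cast_ne_sub h)
      ⟨(h2 a h6).1, (h2 a h6).2, h3 ▸ Multiset.dvd_prod h6⟩])⟩

theorem cj_of_frob {r : ℕ} (hr : (r : F) ≠ 0) (hy : y ^ r = 1) {T : Multiset F} (hT : Dg y T)
    (h : T.map (· ^ Nat.card K) = T) : Cj (Sb K) y := by
  refine cj_sub hr hy ((lifts_iff_coeff_lifts _).2 fun n => ⟨⟨_, (Asch.mem_subfield_iff K _).2 ?_⟩, rfl⟩)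
  have h1 : y.charpoly.map (Asch.frob (Asch.card_eq_pow_subfield K) : F →+* F) = y.charpoly := by
    rw [charpoly_eq_prod, hT, Polynomial.map_multiset_prod, Multiset.map_map]
    conv_rhs => rw [← h, Multiset.map_map]
    exact congrArg _ (Multiset.map_congr rfl fun t _ => by simp [Asch.frob_apply])
  exact (coeff_map _ _).symm.trans congr(coeff $h1 n)

theorem kd_frob (a : End K (ι → K)) (t : F) :
    kd (bc K.subtype a) (X - C (t ^ Nat.card K)) = kd (bc K.subtype a) (X - C t) := by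
  have := kd_bc (Asch.frob (Asch.card_eq_pow_subfield K) : F →+* F) (bc K.subtype a) (X - C t)
  rw [bc_bc, show RingHom.comp _ K.subtype = K.subtype from RingHom.ext fun x =>
    (Asch.mem_subfield_iff K x.1).1 x.2] at this
  simpa [Asch.frob_apply] using this

theorem exists_jt_bc {p : ℕ} [Fact p.Prime] [CharP F p] (hy : y ^ p = 1) :
    ∃ a : End K (ι → K), elemDiv (bc K.subtype a) = elemDiv y := by
  obtain ⟨μ, h1, h2, h3⟩ := exists_jordan (pow_char_iff.1 hy)
  obtain ⟨a, ha⟩ := exists_unip (F := K) (V := ι → K) μ (fun a ha => (h1 a ha).1) (by simpa using h2)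
  exact ⟨a, (jt_bc _ ha).trans h3.symm⟩

theorem Sb.reduce [Nonempty ι] {r : ℕ} [hr : Fact r.Prime] (hi : orderOf (Nat.card K : ZMod r) ≠ 1)
    (hh : Sb K h) (h1 : h ^ r = 1) :
    ∃ l : F, l ^ r = 1 ∧ ∃ a : End K (ι → K), a ^ r = 1 ∧ bc K.subtype a = l • h := by
  obtain ⟨-, c, h2, a, h3⟩ := hh
  obtain ⟨w, hw⟩ := (pow_bijective hi).2 ⟨c ^ r, mem_of_bc (a := a ^ r) (by
    rw [map_pow, ← h3, _root_.smul_pow, h1])⟩
  replace hw : (w : F) ^ r = c ^ r := congr(($hw : F))
  have h4 : (w : F) ≠ 0 := fun e => pow_ne_zero r h2 (by rw [← hw, e, zero_pow hr.out.ne_zero])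
  have h5 : ((w : F)⁻¹ * c) ^ r = 1 := by rw [mul_pow, ← hw, ← mul_pow, inv_mul_cancel₀ h4, one_pow]
  have h6 : bc K.subtype (w⁻¹ • a) = ((w : F)⁻¹ * c) • h := by rw [bc_smul, ← h3, smul_smul]; rfl
  exact ⟨_, h5, _, bc_injective K.subtype (by
    rw [map_pow, h6, _root_.smul_pow, h5, h1, one_smul, map_one]), h6⟩

theorem isSquare_sub (hK : finrank K F = 2) (x : K) : ∃ w : F, w ^ 2 = x := by
  by_cases hx : ∃ w, w ^ finrank K F = x
  · exact hx.elim fun w hw => ⟨w, by rw [← hw, hK]; rfl⟩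
  · exact hK ▸ exists_root (hK ▸ Nat.prime_two) hx

theorem card_sl {m : ℕ} (h : Fintype.card ι = m + 1) : Nat.card (Matrix.SpecialLinearGroup ι F) =
    ∏ j ∈ Finset.range m, (Nat.card F ^ (j + 1) * (Nat.card F ^ (j + 2) - 1)) := by
  have : Nonempty ι := Fintype.card_pos_iff.1 (by omega)
  have h1 := card_units_mul_card_SL (ι := ι) (R := F)
  have := Finite.one_lt_card (α := F)
  rw [Nat.card_congr (glEquiv ι F).toEquiv, card_gl, finrank_fintype_fun_eq_card, h, glo,
    Finset.prod_range_succ', Nat.card_units, mul_comm] at h1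
  exact Nat.eq_of_mul_eq_mul_right (by omega) (h1.trans (by simp))

theorem sub_dvd {r k : ℕ} [hr : Fact r.Prime] (hk : k.Prime) (hK : finrank K F = k) (h : (r : F) ≠ 0)
    [Nonempty ι] (hΩ : r ∣ (Geo.subfieldSubgroup K (1 : GL ι F)).relIndex (Geo.specialLinear ι F)) :
    r = k ∨ ∃ j, 2 ≤ j ∧ j ≤ Fintype.card ι ∧ orderOf (Nat.card F : ZMod r) ∣ j ∧
      ¬ orderOf (Nat.card K : ZMod r) ∣ j := by
  obtain ⟨m, hm⟩ := Nat.exists_eq_succ_of_ne_zero (Fintype.card_ne_zero (α := ι))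
  have h1 := dvd_of_relIndex' hΩ ((Matrix.GeneralLinearGroup.map K.subtype).comp
    (Matrix.SpecialLinearGroup.toGL (n := ι))) (fun a b e => Subtype.ext
      (Matrix.map_injective K.subtype.injective congr(($e).1))) fun g =>
    ⟨⟨_, Subgroup.mem_sup_left ⟨g.toGL, rfl⟩, by simp⟩, Units.ext (by
      simpa using (K.subtype.map_det g.1).symm)⟩
  have h2 := Finite.one_lt_card (α := K)
  rw [show Geo.specialLinear ι F = _ from range_toGL.symm, ← Nat.card_congr (MonoidHom.ofInjective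
    Matrix.SpecialLinearGroup.toGL_injective).toEquiv, card_sl hm, card_sl hm, card_ext (F := K) (K := F), hK] at h1
  obtain ⟨j, h3, h4⟩ := exists_dvd_cancel (u := 1) hr.out (s := Finset.range m)
    (a := fun j => Nat.card K ^ (j + 1) * (Nat.card K ^ (j + 2) - 1)) (b := fun j =>
    (Nat.card K ^ (j + 1)) ^ (k - 1) * ∑ i ∈ Finset.range k, (Nat.card K ^ (j + 2)) ^ i) (fun j _ =>
      Nat.mul_pos (by positivity) (Nat.sub_pos_of_lt (Nat.one_lt_pow (by omega) h2))) (by
    rw [one_mul]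
    refine h1.trans (dvd_of_eq (Finset.prod_congr rfl fun j _ => ?_))
    rw [pow_right_comm _ k, pow_right_comm _ k, ← geom_sum_mul_of_one_le (Nat.one_le_pow _ _ (by omega)),
      ← Nat.sub_add_cancel hk.pos, pow_succ, Nat.add_sub_cancel]
    ring)
  replace h4 := (hr.out.dvd_mul.1 h4).resolve_left fun e => not_dvd_card' (cast_ne_sub h)
    (hr.out.dvd_of_dvd_pow (hr.out.dvd_of_dvd_pow e))
  by_cases h5 : orderOf (Nat.card K : ZMod r) ∣ j + 2
  · rw [← ZMod.natCast_eq_zero_iff] at h4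
    simp only [Nat.cast_sum, Nat.cast_pow, orderOf_dvd_iff_pow_eq_one.1 h5, one_pow, Finset.sum_const,
      Finset.card_range, nsmul_one, ZMod.natCast_eq_zero_iff] at h4
    exact Or.inl ((Nat.prime_dvd_prime_iff_eq hr.out hk).1 h4)
  · refine Or.inr ⟨j + 2, by omega, by have := Finset.mem_range.1 h3; omega,
      orderOf_dvd_of_dvd Nat.card_pos ?_, h5⟩
    rw [card_ext (F := K) (K := F), hK, pow_right_comm, ← geom_sum_mul_of_one_le (Nat.one_le_pow _ _ (by omega))]
    exact h4.mul_right _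

theorem sub_two [Nonempty ι] (hK : Odd (Nat.card F) → finrank K F = 2) :
    (∀ f : End F (ι → F), LinearMap.det f = 1 → PE 2 f → Cj (Sb K) f) ↔
      (Odd (Nat.card F) → padicValNat 2 (Fintype.card ι) ≤ padicValNat 2 (Nat.card F - 1)) := by
  have h0 := Fintype.card_pos (α := ι)
  have sq : ¬ Odd (Nat.card F) → ∀ c : F, ∃ w, w ^ 2 = c := fun h c => by
    simpa only [sq] using Asch.exists_sq_of_two (not_not.1 (odd_card_iff.not.1 h)) c
  have h1 : ∀ q : ℕ, Odd q → orderOf (q : ZMod 2) = 1 := fun q hq => by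
    rw [(ZMod.natCast_eq_one_iff_odd).2 hq, orderOf_one]
  rw [forall_exc (by simpa) (Cj.smul Sb.smul) (fun y hy => ?_) fun f c h2 h3 H => ?_,
    finrank_fintype_fun_eq_card]
  · by_cases h : Odd (Nat.card F)
    · rw [excL_iff (h1 _ h) h0.ne']
      have h2 : Nat.card F = _ := (card_ext (F := K)).trans (by rw [hK h])
      obtain ⟨t, ht⟩ : Odd (Nat.card K) := (Nat.odd_pow_iff two_ne_zero).1 (h2 ▸ h)
      rw [ht, show (2 * t + 1) ^ 2 = 4 * (t * t + t) + 1 by ring] at h2
      simp [h, show Nat.card F % 4 = 1 by omega]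
    · simpa [h] using fun ⟨c, h2, _⟩ => h2 (sq h c)
  · by_cases h : (2 : F) = 0
    · have := (CharP.charP_iff_prime_eq_zero Nat.prime_two).2 h
      obtain ⟨a, ha⟩ := exists_jt_bc (K := K) hy
      exact ⟨_, sb_bc (inj_of_pow two_ne_zero (pow_of_eq' ha.symm hy)), ha⟩
    · exact cj_of_ord h (by rw [h1 _ (odd_card_iff.2 h), h1 _ (odd_card_iff.2 (cast_ne_sub (r := 2) h))]) hy
  · obtain ⟨g, ⟨-, w, h4, a, h5⟩, h6⟩ := H
    obtain ⟨v, hv⟩ := isSquare_sub (hK (by_contra fun h => h3 (sq h c))) ⟨w ^ 2 * c, mem_of_bc (a := a ^ 2) (by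
      rw [map_pow, ← h5, _root_.smul_pow, pow_of_eq h6.symm h2, smul_smul])⟩
    exact h3 ⟨v / w, by rw [div_pow, hv]; field_simp⟩

theorem cube_eq {R : Type*} [Field R] (h2 : (2 : R) ≠ 0) {u v : R} {m : ℕ}
    (h : ∀ a ∈ Multiset.replicate m (0 : R) + {1, -1}, u * a + v ∈ Multiset.replicate m (0 : R) + {1, -1}) :
    u ^ 3 = u := by
  have h1 := h 1 (by simp)
  have h3 := h (-1) (by simp)
  have h4 := h 0
  simp only [Multiset.mem_add, Multiset.mem_replicate, Multiset.insert_eq_cons, Multiset.mem_cons,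
    Multiset.mem_singleton] at h1 h3 h4
  have : (4 : R) ≠ 0 := fun e => mul_ne_zero h2 h2 (by linear_combination e)
  grind

theorem sub_odd {r k : ℕ} [hr : Fact r.Prime] (hk : k.Prime) (hK : finrank K F = k) (h : (r : F) ≠ 0)
    (h3 : 2 < r) (hn : 2 ≤ Fintype.card ι) (h6 : ¬ (Fintype.card ι = 6 ∧ r = 3)) (hg : r = k →
      r ∣ Nat.card K - 1 → padicValNat r (Fintype.card ι) ≤ padicValNat r (Nat.card F - 1))
    (hΩ : r ∣ (Geo.subfieldSubgroup K (1 : GL ι F)).relIndex (Geo.specialLinear ι F)) :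
    (∀ f : End F (ι → F), LinearMap.det f = 1 → PE r f → Cj (Sb K) f) ↔ r = k ∨ (k = 2 ∧
      r = Fintype.card ι ∧ (Fintype.card ι = 3 ∨ Fintype.card ι = 5) ∧ padicValNat r (Nat.card K + 1) = 1) := by
  classical
  have : Nonempty ι := Fintype.card_pos_iff.1 (by omega)
  have hV : finrank F (ι → F) = Fintype.card ι := finrank_fintype_fun_eq_card F
  have hq : Nat.card F = Nat.card K ^ k := hK ▸ card_ext
  have h' := cast_ne_sub (K := K) h
  have h0 := ord_pos h'
  have h1 := ord_pos h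
  have h2 : ¬ k ∣ orderOf (Nat.card K : ZMod r) → orderOf (Nat.card K : ZMod r) =
      orderOf (Nat.card F : ZMod r) := fun e => by
    rw [hq, Nat.cast_pow, ((Nat.Prime.coprime_iff_not_dvd hk).2 e).symm.orderOf_pow]
  by_cases h4 : r = k
  · subst h4
    have h5 := h2 fun e => by
      have := Nat.le_of_dvd (by omega) (e.trans (ZMod.orderOf_dvd_card_sub_one
        (by rw [Ne, ZMod.natCast_eq_zero_iff]; exact not_dvd_card' h')))
      omega
    refine iff_of_true (fun f a1 a2 => ?_) (Or.inl rfl)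
    obtain ⟨w, a3, a4⟩ := (forall_exc (P := fun f => ∃ w : F, w ≠ 0 ∧ (w • f) ^ r = 1) (by omega)
      (fun w f hw ⟨v, b1, b2⟩ => ⟨v * w, mul_ne_zero b1 hw, by rwa [mul_smul]⟩)
      (fun y hy => ⟨1, one_ne_zero, by simpa using hy⟩) fun f c b1 b2 ⟨w, b3, b4⟩ => b2 ⟨w⁻¹, by
        rw [_root_.smul_pow, b1, smul_smul, ← one_smul F (1 : End F (ι → F)), smul_smul, mul_one,
          (smul_left_injective F one_ne_zero).eq_iff] at b4
        rw [inv_pow]; exact inv_eq_of_mul_eq_one_right b4⟩).2 (by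
      by_cases hi : orderOf (Nat.card F : ZMod r) = 1
      · exact (excL_iff hi (by omega)).2 ⟨hV ▸ hg rfl (dvd_of_orderOf_eq_one Nat.card_pos (h5 ▸ hi)),
          by omega⟩
      · exact fun ⟨c, b, _⟩ => b ((pow_bijective hi).2 c)) f a1 a2
    exact Cj.smul Sb.smul w f a3 (cj_of_ord h h5 a4)
  obtain ⟨j, a1, a2, a3, a4⟩ := (sub_dvd hk hK h hΩ).resolve_left h4
  have h5 : orderOf (Nat.card K : ZMod r) = k * orderOf (Nat.card F : ZMod r) := by
    have e : k ∣ orderOf (Nat.card K : ZMod r) := by_contra fun e => a4 (h2 e ▸ a3)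
    rw [hq, Nat.cast_pow, orderOf_pow_of_dvd hk.ne_zero e, Nat.mul_div_cancel' e]
  have h7 := hk.two_le
  have h8 : orderOf (Nat.card K : ZMod r) ≠ 1 := by rw [h5]; nlinarith
  rw [or_iff_right h4]
  by_cases hi : orderOf (Nat.card F : ZMod r) ≠ 1
  · refine iff_of_false (fun H => ?_) fun ⟨b1, _, _, b2⟩ => hi ?_
    · obtain ⟨y, b1, b2, -, b3⟩ := exists_blocks (V := ι → F) h one_pos (by
        have := Nat.le_of_dvd (by omega) a3; omega)
      obtain ⟨g, b4, b5⟩ := (forall_two_le hi (by omega) (Cj.smul Sb.smul)).1 H y b1 b2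
      obtain ⟨l, c1, a, c2, c3⟩ := b4.reduce h8 (pow_of_eq' b5.symm b1)
      obtain rfl : l = 1 := (pow_bijective hi).1 (by simpa using c1)
      have c4 := kd_bc K.subtype a (X - C 1)
      have c5 := rk_add_kd (f := a)
      have c6 := rk_dvd h' h3 c2
      rw [c3, one_smul, Polynomial.map_sub, map_X, map_C, map_one, kd_of_eq b5] at c4
      rw [finrank_fintype_fun_eq_card] at c5
      rw [h5, show rk a = orderOf (Nat.card F : ZMod r) by omega] at c6
      have := Nat.le_of_dvd h1 c6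
      nlinarith
    · have := dvd_pow_add_one_iff.1 (show r ∣ Nat.card K ^ 1 + 1 by
        rw [pow_one]; exact dvd_of_one_le_padicValNat b2.ge)
      rw [hq, b1, Nat.cast_pow, ← one_mul 2, pow_mul, this]; simp
  replace hi := not_not.1 hi
  rw [hi, mul_one] at h5
  have key : ∀ y : End F (ι → F), y ^ r = 1 → Cj (Sb K) y → ∃ l : F, l ^ r = 1 ∧
      ∀ t, kd y (X - C t) = kd y (X - C (l⁻¹ * (l * t) ^ Nat.card K)) := fun y b1 ⟨g, b4, b5⟩ => by
    obtain ⟨l, c1, a, c2, c3⟩ := b4.reduce h8 (pow_of_eq' b5.symm b1)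
    have l0 : l ≠ 0 := by rintro rfl; simp [hr.out.ne_zero] at c1
    exact ⟨l, c1, fun t => by rw [← kd_of_eq b5, ← kd_of_eq b5, ← kd_smul l0, ← kd_smul l0 (l⁻¹ * _),
      mul_inv_cancel_left₀ l0, ← c3, kd_frob]⟩
  by_cases h9 : k = 2
  · subst h9
    have b1 : r ∣ Nat.card K + 1 := by simpa [h5] using dvd_half h3 h0 (h5 ▸ even_two)
    have b2 : ∀ t : F, t ^ r = 1 → t ^ Nat.card K = t⁻¹ := fun t ht => by
      obtain ⟨m, hm⟩ := b1
      exact eq_inv_of_mul_eq_one_left (by rw [← pow_succ, hm, pow_mul, ht, one_pow])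
    have b3 : j ≠ 2 := by rintro rfl; exact a4 h5.dvd
    rw [forall_sym (V := ι → F) h h3 hi (by omega) (hV ▸ h6) (Cj.smul Sb.smul) (fun y c1 c2 => ?_) fun _ y c1 c2 => ?_,
      hV, hq, show Nat.card K ^ 2 - 1 = _ from Nat.sq_sub_sq _ 1, padicValNat.mul (Nat.succ_ne_zero _) (by
        have := Finite.one_lt_card (α := K); omega), val_eq_zero Nat.card_pos h8]
    · simp only [true_and, add_zero]
      exact ⟨fun ⟨c1, c2, c3⟩ => ⟨c2.symm, c2 ▸ c1, c3⟩, fun ⟨c1, c2, c3⟩ => ⟨c1 ▸ c2, c1.symm, c3⟩⟩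
    · obtain ⟨l, c3, c4⟩ := key y c1 c2
      refine ⟨l⁻¹ ^ 2, by rw [pow_right_comm, inv_pow, c3]; simp, fun s t c5 c6 => (c4 t).trans_le ?_⟩
      have t0 : t ≠ 0 := by rintro rfl; simp [hr.out.ne_zero] at c5
      rw [b2 _ (by rw [mul_pow, c3, c5, one_mul]), show s = l⁻¹ * (l * t)⁻¹ from
        mul_left_cancel₀ t0 (by rw [c6]; field_simp)]
    · obtain ⟨T, hT⟩ := dg_of_pow h hi c1
      have c3 := hT.pow_iff.1 c1
      refine cj_of_frob h c1 hT ((Multiset.map_congr rfl fun t ht => b2 t (c3 t ht)).trans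
        (Multiset.ext' fun s => ?_))
      rw [← inv_inv s, Multiset.count_map_eq_count' _ _ inv_injective, inv_inv]
      by_cases hs : s ^ r = 1
      · rw [← hT.kd, ← hT.kd, c2 _ s hs (mul_inv_cancel₀ (by rintro rfl; simp [hr.out.ne_zero] at hs))]
      · rw [Multiset.count_eq_zero.2 fun e => hs (c3 _ e), Multiset.count_eq_zero.2 fun e => hs (by
          simpa using c3 _ e)]
  refine iff_of_false (fun H => ?_) fun e => h9 e.1
  obtain ⟨χ, b1, b2⟩ := exists_chi hi
  have b3 : (2 : ZMod r) ≠ 0 := fun e => by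
    have := Nat.le_of_dvd two_pos ((ZMod.natCast_eq_zero_iff 2 r).1 e); omega
  obtain ⟨y, c1, c2, c3⟩ := exists_diag b1 b2 (Cj.smul Sb.smul) H (A := Multiset.replicate
    (Fintype.card ι - 2) 0 + {1, -1}) (by simp; omega) (a := 1) (b := -1) (by simp) (by simp)
    (fun e => b3 (by linear_combination e)) (Or.inl (by simp))
  obtain ⟨l, c4, c5⟩ := key y c1 c2
  obtain ⟨l, rfl⟩ := (b2 l).1 c4
  have c6 := cube_eq b3 (u := Nat.card K) (v := (Nat.card K - 1) * l) fun a ha => by
    have := c5 (χ a)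
    rw [← AddChar.map_add_eq_mul, ← AddChar.map_nsmul_eq_pow, ← AddChar.map_neg_eq_inv,
      ← AddChar.map_add_eq_mul, c3, c3] at this
    convert Multiset.count_pos.1 (this ▸ Multiset.count_pos.2 ha) using 1
    simp; ring
  have := Nat.le_of_dvd two_pos (h5 ▸ orderOf_dvd_of_pow_eq_one (mul_left_cancel₀
    (by rw [Ne, ZMod.natCast_eq_zero_iff]; exact not_dvd_card' h') (by rw [← pow_succ', c6, mul_one])))
  omega

omit [Finite F] in
theorem isSquare_det {V : Type*} [AddCommGroup V] [Module F V] [FiniteDimensional F V] {N c : End F V}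
    (h : LinearMap.range N = LinearMap.ker N) (hc : c * N = N * c) : ∃ d, LinearMap.det c = d ^ 2 := by
  have h1 : ∀ v, c (N v) = N (c v) := fun v => congr($hc v)
  have h2 : LinearMap.ker N ≤ (LinearMap.ker N).comap c := fun v hv => by
    rw [Submodule.mem_comap, LinearMap.mem_ker, ← h1, LinearMap.mem_ker.1 hv, map_zero]
  refine ⟨_, (c.det_eq_det_mul_det _ h2).trans ((congrArg (· * _) ?_).trans (sq _).symm)⟩
  let e := N.quotKerEquivRange.trans (LinearEquiv.ofEq _ _ h)
  rw [← LinearMap.det_conj (Submodule.mapQ _ _ c h2) e]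
  refine congrArg _ (LinearMap.ext fun v => ?_)
  obtain ⟨x, rfl⟩ := e.surjective v
  obtain ⟨u, rfl⟩ := Submodule.Quotient.mk_surjective _ x
  simp only [LinearMap.comp_apply, LinearEquiv.coe_coe, LinearEquiv.symm_apply_apply]
  exact Subtype.ext (h1 u)

theorem inG_sl : InG (Geo.specialLinear ι F) = fun f => LinearMap.det f = 1 :=
  inG_iff (fun g => by rw [LinearMap.det_toLin']; exact Units.ext_iff) fun f h =>
    ((End.isUnit_iff f).1 (LinearMap.isUnit_iff_isUnit_det f |>.2 (h ▸ isUnit_one))).1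

omit [DecidableEq ι] in
theorem exists_det [Nonempty ι] (d : F) (hd : d ≠ 0) :
    ∃ t : (ι → F) ≃ₗ[F] (ι → F), LinearMap.det t.toLinearMap = d := by
  obtain ⟨a, ha⟩ := exists_mem_elemDiv (1 : End F (ι → F)) finrank_pos
  obtain ⟨t, -, ht⟩ := exists_commute_det_pow ha d
  rw [elemDiv_one] at ha
  rw [Multiset.eq_of_mem_replicate ha, natDegree_X_sub_C, pow_one] at ht
  exact ⟨LinearMap.equivOfDetNeZero t (ht ▸ hd), ht⟩

theorem sub_three [CharP F 3] (hk : (finrank K F).Prime) (hn : 2 ≤ Fintype.card ι) :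
    (∀ f : End F (ι → F), LinearMap.det f = 1 → PE 3 f → Cg (LinearMap.det · = 1) (Sb K) f) ↔
      Odd (Fintype.card ι) ∨ (Even (Fintype.card ι) ∧ 2 < finrank K F) := by
  have : Nonempty ι := Fintype.card_pos_iff.1 (by omega)
  have hV : finrank F (ι → F) = Fintype.card ι := finrank_fintype_fun_eq_card F
  have := Fact.mk Nat.prime_three
  have h1 := hk.two_le
  have cube : ∀ c : F, ∃ w, w ^ 3 = c := surjective_frobenius F 3
  constructor
  · intro H
    by_contra! h2
    obtain ⟨m, hm⟩ := Nat.not_odd_iff_even.1 h2.1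
    have hK : finrank K F = 2 := by have := h2.2 ⟨m, hm⟩; omega
    obtain ⟨J, hJ⟩ := exists_unip (F := K) (V := ι → K) (Multiset.replicate m 2)
      (by simp +contextual [Multiset.mem_replicate]) (by simp; omega)
    have h3 := jt_bc K.subtype hJ
    obtain ⟨δ, h4⟩ := FiniteField.exists_nonsquare (F := F) (by rw [ringChar.eq F 3]; decide)
    obtain ⟨D, h5⟩ := exists_det (ι := ι) δ (by rintro rfl; exact h4 IsSquare.zero)
    have h6 : elemDiv (bc K.subtype J) = elemDiv (D.symm.conj (bc K.subtype J)) :=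
      elemDiv_congr D.symm fun v => by simp
    have h7 : bc K.subtype J ^ 3 = 1 := h3.pow_char (by simp +contextual [Multiset.mem_replicate])
    have h8 := pow_of_eq' h6 h7
    obtain ⟨a1, a2⟩ := pe_char h8 (Jt.ne_one (h6.symm.trans h3) (a := 2)
      (by simp [Multiset.mem_replicate]; omega) one_lt_two)
    obtain ⟨k, g, a3, a4, a5⟩ := H _ a1 a2
    have a6 : elemDiv g = elemDiv (D.symm.conj (bc K.subtype J)) := elemDiv_congr (LinearMap.equivOfDetNeZero k (a3 ▸ one_ne_zero)) fun v => congr($a5 v)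
    obtain ⟨l, b1, a, b2, b3⟩ := a4.reduce (by rw [orderOf_char]; decide) (pow_of_eq' a6.symm h8)
    obtain rfl : l = 1 := frobenius_inj F 3 (by simpa [frobenius_def] using b1)
    rw [one_smul] at b3
    obtain ⟨μ, -, -, b4⟩ := exists_jordan (pow_char_iff.1 b2)
    obtain rfl := (jt_bc K.subtype b4).unique (b3 ▸ a6.trans (h6.symm.trans h3))
    obtain ⟨e, b5⟩ := exists_equiv_iff.2 (hJ.trans b4.symm)
    have b6 : bc K.subtype e.toLinearMap * bc K.subtype J = g * bc K.subtype e.toLinearMap := by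
      rw [← b3, ← map_mul, ← map_mul]; exact congrArg _ (LinearMap.ext b5)
    have b7 : (bc K.subtype J - 1) ^ 2 = 0 := unip_pow h3 (by simp +contextual [Multiset.mem_replicate])
    obtain ⟨d, hd⟩ := isSquare_det (N := bc K.subtype J - 1)
      (c := D.toLinearMap * k * bc K.subtype e.toLinearMap) (Submodule.eq_of_le_of_finrank_eq
        (LinearMap.range_le_ker_iff.2 (by rw [← End.mul_eq_comp, ← sq, b7])) (by
          have c1 := h3.rank b7
          have c2 := h3.kd 1
          rw [pow_one] at c1 c2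
          simp [c1, c2])) (by
      rw [mul_sub, sub_mul, mul_assoc, b6, ← mul_assoc, mul_assoc _ k, a5]
      simp only [← mul_assoc, mul_one, one_mul]
      congr 3; ext; simp)
    obtain ⟨w, hw⟩ := isSquare_sub hK (LinearMap.det e.toLinearMap)
    rw [map_mul, map_mul, h5, a3, det_bc, mul_one] at hd
    have w0 : w ≠ 0 := by
      rintro rfl
      exact e.isUnit_det'.ne_zero (Subtype.ext (by simpa using hw.symm))
    exact h4 ⟨d / w, by field_simp; rw [hw]; exact hd⟩
  intro H f a1 a2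
  obtain ⟨c, hc⟩ := a2.1
  obtain ⟨w, -, a3, a4⟩ := (cases_pow (ne_zero_of_pow_eq (by simp [a1]) a2.pos hc) hc).resolve_right
    fun e => e.1 (cube c)
  refine Cg.smul Sb.smul _ f (inv_ne_zero a3) ?_
  generalize w⁻¹ • f = y at a4
  obtain ⟨a, ha⟩ := exists_jt_bc (K := K) a4
  obtain ⟨e, he⟩ := exists_equiv_iff.2 ha
  obtain ⟨μ, b1, b2, b3⟩ := exists_jordan (pow_char_iff.1 a4)
  have b4 := e.isUnit_det'.ne_zero
  obtain ⟨z, d, b5, b6⟩ : ∃ z : End F (ι → F), ∃ d : K, z * y = y * z ∧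
      LinearMap.det z * LinearMap.det e.toLinearMap * d = 1 := by
    have key : ∀ s ∈ μ, ∀ w : F, ∃ z, z * y = y * z ∧ LinearMap.det z = w ^ s := fun s hs w => by
      have := exists_commute_det_pow (p := (X - C 1) ^ s) (b3 ▸ Multiset.mem_map_of_mem _ hs) w
      rwa [natDegree_pow, natDegree_X_sub_C, mul_one] at this
    by_cases b5 : ∀ s ∈ μ, s = 2
    · obtain ⟨s, hs⟩ := Multiset.exists_mem_of_ne_zero (show μ ≠ 0 by rintro rfl; simp at b2; omega)
      have b6 : Even (Fintype.card ι) := hV ▸ b2 ▸ even_iff_two_dvd.2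
        (Multiset.dvd_sum fun s hs => (b5 s hs).symm.dvd)
      obtain ⟨t, ht⟩ : Odd ((Nat.card F - 1) / (Nat.card K - 1)) := by
        rw [card_ext (F := K) (K := F), ← Nat.geomSum_eq Finite.one_lt_card, ← ZMod.natCast_eq_one_iff_odd]
        simpa [ZMod.natCast_eq_one_iff_odd.2 (odd_card_iff.2 (cast_two_ne (F := K) (p := 3) (by decide))),
          ZMod.natCast_eq_one_iff_odd] using hk.odd_of_ne_two
            (H.resolve_left (Nat.not_odd_iff_even.2 b6)).2.ne'
      obtain ⟨z, b7, b8⟩ := key s hs (LinearMap.det e.toLinearMap ^ t)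
      refine ⟨z, (Algebra.norm K (LinearMap.det e.toLinearMap))⁻¹, b7, ?_⟩
      rw [b8, b5 s hs, ← pow_mul, ← pow_succ, mul_comm t, ← ht, ← FiniteField.algebraMap_norm_eq_pow]
      exact congrArg K.subtype (mul_inv_cancel₀ (Algebra.norm_ne_zero_iff.2 b4))
    · push Not at b5
      obtain ⟨s, hs, b5⟩ := b5
      obtain ⟨w, hw⟩ : ∃ w, w ^ s = (LinearMap.det e.toLinearMap)⁻¹ := by
        rcases (by have := b1 s hs; omega : s = 1 ∨ s = 3) with rfl | rfl
        exacts [⟨_, pow_one _⟩, cube _]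
      obtain ⟨z, b7, b8⟩ := key s hs w
      exact ⟨z, 1, b7, by simp [b8, hw, b4]⟩
  obtain ⟨t, ht⟩ := exists_det (ι := ι) d (by rintro rfl; simp at b6)
  have b7 : t.toLinearMap * t.symm.conj a = a * t.toLinearMap := by ext; simp
  refine ⟨z * e.toLinearMap * bc K.subtype t.toLinearMap, _, by
    simp only [map_mul, det_bc, ht]; exact b6,
    sb_bc (a := t.symm.conj a) (inj_of_pow three_ne_zero (by
      rw [← map_pow, conj_pow _ (bc_injective K.subtype ((map_pow _ _ _).trans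
        ((pow_of_eq' ha.symm a4).trans (map_one _).symm))) t.symm.conj_id]; exact map_one _)), ?_⟩
  rw [mul_assoc, ← map_mul, b7, map_mul, ← mul_assoc, mul_assoc z, show e.toLinearMap * _ = _ * e.toLinearMap
    from LinearMap.ext he, ← mul_assoc, b5]
  simp only [mul_assoc]

end Cfsg.Agent.Elu
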