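import Cfsg.Agent.Elu.DecSp

/-! Conjugation inside a matrix group (`Cg`, `grp_iff`) and elements of prime order of unitary
groups: `udim`, `su_forall`, `real_dg`, `exists_iso_exc`, `type_two`. -/

set_option autoImplicit false
set_option linter.unusedSectionVars false

namespace Cfsg.Agent.Elu

open Module Polynomial Cfsg.Agent.Classical Cfsg.Agent.Geom Cfsg.Agent.Geom.Formed

universe u

section grp

variable {F : Type*} [Field F] [Finite F] {ι : Type} [Fintype ι] [DecidableEq ι]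

theorem inG_toLin' {H : Subgroup (GL ι F)} {x : GL ι F} : InG H (Matrix.toLin' x.1) ↔ x ∈ H :=
  ⟨fun ⟨_, h, h'⟩ => Units.ext (Matrix.toLin'.injective h') ▸ h, fun h => ⟨x, h, rfl⟩⟩

/-- `f` is conjugate by a map satisfying `G` to a map satisfying `S`. -/
def Cg {V : Type*} [AddCommGroup V] [Module F V] (G S : End F V → Prop) (f : End F V) : Prop :=
  ∃ k h, G k ∧ S h ∧ k * h = f * k

theorem grp_iff {G H : Subgroup (GL ι F)} {r : ℕ} :
    (∀ x ∈ G, (∃ c : F, (x ^ r).1 = c • 1) → (∀ c : F, x.1 ≠ c • 1) → ∃ g ∈ G, g⁻¹ * x * g ∈ H) ↔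
    ∀ f, InG G f → PE r f → Cg (InG G) (InG H) f := by
  have key : ∀ x : GL ι F, (∃ g ∈ G, g⁻¹ * x * g ∈ H) ↔ Cg (InG G) (InG H) (Matrix.toLin' x.1) :=
    fun x => ⟨fun ⟨g, h, h'⟩ => ⟨_, _, ⟨g, h, rfl⟩, ⟨_, h', rfl⟩, by
      rw [End.mul_eq_comp, End.mul_eq_comp, ← Matrix.toLin'_mul, ← Matrix.toLin'_mul,
        ← Units.val_mul, ← Units.val_mul]; simp [← mul_assoc]⟩, by
      rintro ⟨_, _, ⟨g, h, rfl⟩, ⟨y, h', rfl⟩, h1⟩
      rw [End.mul_eq_comp, End.mul_eq_comp, ← Matrix.toLin'_mul, ← Matrix.toLin'_mul,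
        Matrix.toLin'.injective.eq_iff, ← Units.val_mul, ← Units.val_mul, Units.val_inj] at h1
      exact ⟨g, h, by rwa [mul_assoc, ← h1, inv_mul_cancel_left]⟩⟩
  simp only [key, Units.val_pow_eq_pow_val]
  exact ⟨fun h _ ⟨x, h1, h2⟩ h3 => h2 ▸ h x h1 (pe_toLin'.1 (h2 ▸ h3)).1 (pe_toLin'.1 (h2 ▸ h3)).2,
    fun h x h1 h2 h3 => h _ ⟨x, h1, rfl⟩ (pe_toLin'.2 ⟨h2, h3⟩)⟩

theorem inG_sp (d : ℕ) : InG (spGL d F) = Iso (sympFormed d F) :=
  inG_iff (fun _ => by
    simp only [(spu_symp d F).iso, sympFormed_B, Matrix.toLin'_apply]; rfl) fun _ h => h.injective (sympFormed_nondeg d F)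

theorem dvd_of_relIndex' {G K : Type*} [Group G] [Group K] {H N : Subgroup G} {r : ℕ}
    (h : r ∣ H.relIndex N) (φ : K →* G) (hφ : Function.Injective φ) (hK : ∀ k, φ k ∈ H ∧ φ k ∈ N) :
    r * Nat.card K ∣ Nat.card N := by
  rw [← (H.subgroupOf N).card_mul_index, mul_comm r]
  exact mul_dvd_mul (Subgroup.card_dvd_of_injective ((φ.codRestrict N fun k => (hK k).2).codRestrict
    (H.subgroupOf N) fun k => (hK k).1) fun _ _ h => hφ (congrArg (·.1.1) h)) h

theorem card_inG {σ : F →+* F} {Φ : Formed σ (ι → F)} {G : Subgroup (GL ι F)} (h : InG G = Iso Φ) :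
    Nat.card G = Nat.card Φ.isom :=
  Nat.card_congr (mulEquivOfMemIff (glEquiv ι F) _ _ fun g => by
    rw [← inG_toLin', h, ← iso_coe, coe_glEquiv]).toEquiv

theorem dvd_isom' {σ τ : F →+* F} {Φ : Formed σ (ι → F)} {G H : Subgroup (GL ι F)}
    (hG : InG G = Iso Φ) {r : ℕ} (h : r ∣ H.relIndex G) {K : Subgroup ((ι → F) ≃ₗ[F] (ι → F))}
    (hK : ∀ k ∈ K, InG H k.toLinearMap ∧ k ∈ Φ.isom) : r * Nat.card K ∣ Nat.card Φ.isom := by
  rw [← card_inG hG]
  refine dvd_of_relIndex' h ((glEquiv ι F).symm.toMonoidHom.comp K.subtype)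
    ((glEquiv ι F).symm.injective.comp Subtype.val_injective) fun k => ?_
  have : Matrix.toLin' ((glEquiv ι F).symm k.1).1 = k.1.toLinearMap := by
    rw [← coe_glEquiv, MulEquiv.apply_symm_apply]
  simp only [← inG_toLin', hG]
  exact ⟨this ▸ (hK _ k.2).1, this ▸ iso_coe.2 (hK _ k.2).2⟩

end grp

/-- Dimension of the non-degenerate blocks in the unitary case. -/
def udim (i : ℕ) : ℕ := if i % 4 = 0 then i else if i % 4 = 2 then i / 2 else 2 * i

theorem neg_pow_iff {r q : ℕ} [Fact r.Prime] (h3 : 2 < r) {i : ℕ} (hi : i = orderOf (q : ZMod r))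
    (h0 : 0 < i) (k : ℕ) : (q : ZMod r) ^ k = (-1) ^ k ↔ udim i ∣ k := by
  rw [pow_half_iff h3 hi h0, udim]
  clear hi
  rcases i.even_or_odd' with ⟨j, rfl | rfl⟩
  · rw [cdim_even (by simp), eta_even (by simp), Nat.mul_dvd_mul_iff_left two_pos, one_mul,
      Nat.mul_div_mul_left _ _ two_pos]
    rcases j.even_or_odd' with ⟨l, rfl | rfl⟩
    · rw [if_pos (by omega)]
      refine ⟨?_, ?_⟩
      · rintro ⟨⟨t, rfl⟩, h⟩
        rw [Nat.mul_div_cancel_left _ (by omega), mul_assoc] at h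
        exact mul_comm 2 (2 * l) ▸ Nat.mul_dvd_mul_left _ (by omega)
      · rintro ⟨t, rfl⟩
        rw [mul_comm 2 (2 * l), mul_assoc (2 * l), Nat.mul_div_cancel_left _ (by omega), mul_assoc]
        exact ⟨mul_assoc 2 l _ ▸ dvd_mul_right _ _, by omega⟩
    · rw [if_neg (by omega), if_pos (by omega), Nat.mul_div_cancel_left _ two_pos, and_iff_left_iff_imp]
      rintro ⟨t, rfl⟩
      rw [Nat.mul_div_cancel_left _ (by omega), add_mul, mul_assoc]; omega
  · rw [cdim_odd (by simp), eta_odd (by simp), Nat.mul_dvd_mul_iff_left two_pos, if_neg (by omega),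
      if_neg (by omega), zero_mul, Nat.zero_mod, ← Nat.dvd_iff_mod_eq_zero, and_comm]
    exact ⟨fun h => Nat.Coprime.mul_dvd_of_dvd_of_dvd (by simp) h.1 h.2,
      fun h => ⟨dvd_of_mul_right_dvd h, dvd_of_mul_left_dvd h⟩⟩

theorem udim_eq (i : ℕ) : (i % 4 = 2 ∧ udim i = if Even i then i / 2 else i) ∨
    (i % 4 ≠ 2 ∧ udim i = 2 * if Even i then i / 2 else i) := by
  simp only [udim, Nat.even_iff]; split_ifs <;> omega

theorem gu_dvd_iff {r q j : ℕ} (hq : 0 < q) :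
    r ∣ (if Even j then q ^ (j + 1) + 1 else q ^ (j + 1) - 1) ↔
      (q : ZMod r) ^ (j + 1) = (-1) ^ (j + 1) := by
  split_ifs with h
  · rw [dvd_pow_add_one_iff, h.add_one.neg_one_pow]
  · rw [(Nat.not_even_iff_odd.1 h).add_one.neg_one_pow, ← ZMod.natCast_eq_zero_iff,
      Nat.cast_pred (by positivity), sub_eq_zero, Nat.cast_pow]

theorem gu_pos {q : ℕ} (hq : 1 < q) (j : ℕ) :
    0 < (if Even j then q ^ (j + 1) + 1 else q ^ (j + 1) - 1) := by
  have := Nat.one_lt_pow (n := j + 1) j.succ_ne_zero hq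
  split_ifs <;> omega

theorem mul_dvd_pow_add_one {r q : ℕ} (hr : Odd r) (h : r ∣ q + 1) : r * (q + 1) ∣ q ^ r + 1 := by
  have h1 := mul_dvd_mul_right (dvd_geom_sum₂_self (n := r) (x := (q : ℤ)) (y := -1)
    (by simpa using Int.natCast_dvd_natCast.2 h)) ((q : ℤ) - -1)
  rw [geom_sum₂_mul, hr.neg_one_pow] at h1
  exact Int.natCast_dvd_natCast.1 (by simpa using h1)

theorem exists_symm_finset {r : ℕ} [hr : Fact r.Prime] (k : ℕ) (hk : 2 * k < r) :
    ∃ A : Finset (ZMod r), A.card = 2 * k ∧ 0 ∉ A ∧ A.val.sum = 0 ∧ ∀ a ∈ A, -a ∈ A := by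
  induction k with
  | zero => exact ⟨∅, by simp⟩
  | succ k ih =>
    obtain ⟨A, h1, h2, h3, h4⟩ := ih (by omega)
    obtain ⟨a, -, ha⟩ := Finset.exists_mem_notMem_of_card_lt_card (s := insert 0 A)
      (t := Finset.univ) (by rw [Finset.card_insert_of_notMem h2, Finset.card_univ, ZMod.card]; omega)
    rw [Finset.mem_insert, not_or] at ha
    have h5 : -a ∉ A := fun h => ha.2 (neg_neg a ▸ h4 _ h)
    have h6 : a ∉ insert (-a) A := by
      simp [ha.2, ZMod.ne_neg_self (hr.out.odd_of_ne_two (by omega)) ha.1]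
    refine ⟨insert a (insert (-a) A), by
      rw [Finset.card_insert_of_notMem h6, Finset.card_insert_of_notMem h5]; omega,
      by simp [h2, ha.1, Ne.symm ha.1], by
        rw [Finset.insert_val_of_notMem h6, Finset.insert_val_of_notMem h5]; simp [h3], ?_⟩
    simp +contextual [h4]

variable {F : Type*} [Field F] [Finite F] {V : Type u} [AddCommGroup V] [Module F V]
  [FiniteDimensional F V] {f : End F V}

section gen

variable {σ : F →+* F} {Φ : Formed σ V}

theorem Iso.det_norm (hσ : σ ≠ RingHom.id F) (hε : Φ.ε = 1) (hn : Φ.Nondeg) (h : Iso Φ f) :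
    σ (LinearMap.det f) * LinearMap.det f = 1 := by
  obtain ⟨b, hb⟩ := hn.exists_orthonormal hσ hε rfl
  have : ((LinearMap.toMatrix b b f).map σ).transpose * LinearMap.toMatrix b b f = 1 := by
    ext i j
    rw [Matrix.one_apply, ← hb, ← h.1, ← b.sum_repr (f (b i)), ← b.sum_repr (f (b j))]
    simp only [map_sum, LinearMap.sum_apply, B_smul_left, map_smul, hb]
    simp [Matrix.mul_apply, LinearMap.toMatrix_apply, mul_comm]
  rw [← LinearMap.det_toMatrix b, RingHom.map_det, ← Matrix.det_transpose, ← Matrix.det_mul]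
  exact (congrArg _ this).trans Matrix.det_one

theorem su_forall (hn : Φ.Nondeg) {r : ℕ} [hr : Fact r.Prime] {P : End F V → Prop}
    (hP : ∀ (w : F) f, w ≠ 0 → P (w • f) → P f) :
    (∀ f, Iso Φ f ∧ LinearMap.det f = 1 → PE r f → P f) ↔
      (∀ y (w : F), Iso Φ y → y ^ r = 1 → (∀ c : F, y ≠ c • 1) → σ w * w = 1 →
        w ^ finrank F V * LinearMap.det y = 1 → P y) ∧
      ∀ f (c : F), Iso Φ f → 0 < finrank F V → f ^ r = c • 1 → σ c * c = 1 →
        (¬ ∃ w, σ w * w = 1 ∧ w ^ r = c) → LinearMap.det f = 1 → P f := by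
  constructor
  · refine fun H => ⟨fun y w h0 h1 h2 h4 h3 => ?_,
      fun f c h h0 h1 _ h2 h3 => H f ⟨h, h3⟩ ⟨⟨c, h1⟩, ?_⟩⟩
    · have hw := right_ne_zero_of_mul_eq_one h4
      refine hP w y hw (H _ ⟨h0.smul h4, by rw [LinearMap.det_smul, h3]⟩
        ⟨⟨w ^ r, by rw [_root_.smul_pow, h1]⟩, fun c hc => h2 (w⁻¹ * c) ?_⟩)
      rw [mul_smul, ← hc, smul_smul, inv_mul_cancel₀ hw, one_smul]
    · rintro d rfl
      have := Module.finrank_pos_iff.1 h0
      rw [_root_.smul_pow, one_pow] at h1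
      exact h2 ⟨d, h.norm_eq hn, smul_left_injective F one_ne_zero h1⟩
  · rintro ⟨H, H'⟩ f ⟨h0, h1⟩ h2
    obtain ⟨c, h3⟩ := h2.1
    have := Module.finrank_pos_iff.1 h2.pos
    by_cases h5 : ∃ w, σ w * w = 1 ∧ w ^ r = c
    · obtain ⟨w, h4, rfl⟩ := h5
      have hw := right_ne_zero_of_mul_eq_one h4
      refine hP _ _ (inv_ne_zero hw) (H _ w (h0.smul (by rw [map_inv₀, ← mul_inv, h4, inv_one]))
        ?_ (fun d h => h2.2 (w * d) ?_) h4 ?_)
      · rw [_root_.smul_pow, h3, smul_smul, inv_pow, inv_mul_cancel₀ (pow_ne_zero _ hw), one_smul]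
      · rw [mul_smul, ← h, smul_smul]; simp [hw]
      · rw [LinearMap.det_smul, h1, mul_one, ← mul_pow, mul_inv_cancel₀ hw, one_pow]
    · exact H' f c h0 h2.pos h3 (Iso.norm_eq hn (h3 ▸ h0.pow r)) h5 h1

theorem real_dg (hσ : σ ≠ RingHom.id F) (T : Multiset F) : ∀ {V : Type u} [AddCommGroup V]
    [Module F V] [FiniteDimensional F V] {Φ : Formed σ V}, Spu Φ → Φ.Nondeg →
      T.card = finrank F V → (∀ t ∈ T, σ t * t = 1) → ∃ y, Iso Φ y ∧ Dg y T := by
  induction T using Multiset.induction with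
  | empty => exact fun {V} _ _ _ _ _ _ h _ => ⟨_, Iso.one.smul (w := 1) (by simp), by
      simpa only [← h, Multiset.card_zero, Multiset.replicate_zero] using dg_smul_one (V := V) (1 : F)⟩
  | cons t T ih =>
    intro V _ _ _ Φ hΦ hn h h1
    rw [Multiset.card_cons] at h
    obtain ⟨U, h2, h3⟩ := hΦ.exists_nd hn (l := 1) (by omega) fun h => absurd h hσ
    have h4 := hn.finrank_add_finrank_perp U
    have h5 := dg_smul_one (V := U) t
    rw [h3] at h5
    simpa [Real, Dg] using Real.sum hn h2 ⟨_, Iso.one.smul (h1 t (by simp)), h5⟩ (ih (hΦ.res _)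
      (hn.restrict_perp h2) (by omega) fun s hs => h1 s (by simp [hs]))

theorem exists_iso_exc (hσ : σ ≠ RingHom.id F) (hε : Φ.ε = 1) (hn : Φ.Nondeg) {r k : ℕ}
    [hr : Fact r.Prime] {c : F} (hc : ¬ ∃ w, w ^ r = c) (h1 : σ c * c = 1)
    (hk : k * r = finrank F V) (h0 : 0 < finrank F V) : ∃ f, Iso Φ f ∧ f ^ r = c • 1 := by
  obtain ⟨g, h2, h3⟩ := exists_exc hc hk
  have hc0 := right_ne_zero_of_mul_eq_one h1
  let x := LinearEquiv.ofInjectiveEndo g (Function.Injective.of_comp (f := ⇑(g ^ (r - 1))) (by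
    rw [← End.coe_mul, ← pow_succ, Nat.sub_add_cancel hr.out.pos, h2]
    exact smul_right_injective _ hc0))
  have h4 : adj hn (x.symm : End F V) ^ r = c • 1 := by
    have : (x.symm : End F V) ^ r = c⁻¹ • 1 := by
      have h5 : (x.symm : End F V) * g = 1 := LinearMap.ext x.symm_apply_apply
      have h6 := (Commute.mul_pow (h5.trans (mul_eq_one_comm.1 h5).symm) r).symm
      rw [h5, h2, one_pow, mul_smul_comm, mul_one] at h6
      rw [← h6, smul_smul, inv_mul_cancel₀ hc0, one_smul]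
    rw [← adj_pow, this, adj_smul, adj_one, map_inv₀, eq_inv_of_mul_eq_one_left h1, inv_inv]
  obtain ⟨l, h5, h6⟩ := ((cases_pow hc0 h4).resolve_left fun ⟨w, hw, _⟩ => hc ⟨w, hw⟩).2
  obtain rfl := Nat.eq_of_mul_eq_mul_right hr.out.pos (h5.trans hk.symm)
  obtain ⟨y, e, he⟩ := (exists_herm_iff hσ hn hε (x := x)).2 (exists_equiv_iff.2 (h3.trans h6.symm))
  exact ⟨y.1, iso_coe.2 y.2, pow_of_eq (exists_equiv_iff.1 ⟨e, he⟩) h2⟩

theorem type_two (hΦ : Spu Φ) (hn : Φ.Nondeg) (h2 : (2 : F) ≠ 0) (h : Iso Φ f) {w : F}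
    (hw : σ w * w = -1) (h0 : f ^ 2 = w ^ 2 • 1) : Φ.TotSing (kerA f (X - C w)) ∧ PP Φ f true ∧
      2 * kd f (X - C w) = finrank F V ∧ LinearMap.det f = (-w ^ 2) ^ (finrank F V / 2) := by
  have h1 : w ≠ -w := fun h => by
    have : w = 0 := (mul_eq_zero.1 (show 2 * w = 0 by linear_combination h)).resolve_left h2
    simp [this] at hw
  have h3 : aeval f ((X - C w) * (X - C (-w))) = 0 := by
    rw [← (aeval_X_pow_sub_C f 2 _).2 h0]; congr 1; simp; ring
  have key : ∀ t, σ t * t = -1 → Φ.TotSing (kerA f (X - C t)) := fun t ht => hΦ.ts.2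
    fun u hu v hv => (mul_eq_zero.1 (show 2 * Φ.B u v = 0 by
      have := h.1 u v
      rw [mem_kerA_X_sub_C.1 hu, mem_kerA_X_sub_C.1 hv, B_smul_left, map_smul, smul_eq_mul] at this
      linear_combination Φ.B u v * ht - this)).resolve_left h2
  have h4 := key w hw
  have h5 := key (-w) (by simpa using hw)
  have h6 := (isCompl_kerA (isCoprime_X_sub_C_of_isUnit_sub (sub_ne_zero.2 h1).isUnit) h3).sup_eq_top
  obtain ⟨-, h7, h8⟩ := polar_isCompl hn h6 h4 h5
  refine ⟨h4, ⟨_, _, h6, h4, h5, inv_iff_map.2 (inv_ker_aeval _ _),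
    inv_iff_map.2 (inv_ker_aeval _ _)⟩, h7, ?_⟩
  have h9 : Dg f (Multiset.replicate (kd f (X - C w)) w +
      Multiset.replicate (kd f (X - C (-w))) (-w)) := by
    simpa [Dg] using (elemDiv_of_two_factors h1 h3).2
  rw [h9.det, Multiset.prod_add, Multiset.prod_replicate, Multiset.prod_replicate, ← h7,
    Nat.mul_div_cancel_left _ two_pos, show kd f (X - C (-w)) = _ from h8, kd, ← mul_pow, mul_neg, sq]

theorem exists_type_two (hΦ : Spu Φ) (hn : Φ.Nondeg) (he : Even (finrank F V)) {w : F}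
    (hw : σ w * w = -1) : ∃ f, Iso Φ f ∧ f ^ 2 = w ^ 2 • 1 := by
  obtain ⟨U, W, h1, h2, h3, -⟩ := exists_polar hn (hΦ.witt hn) (Nat.two_mul_div_two_of_even he).symm
  let g : End F V := LinearMap.ofIsCompl h1 (w • U.subtype) (-w • W.subtype)
  have g1 : ∀ u : U, g u = w • u := fun u => LinearMap.ofIsCompl_apply_left h1 u
  have g2 : ∀ u : W, g u = -w • u := fun u => LinearMap.ofIsCompl_apply_right h1 u
  refine ⟨g, hΦ.iso.2 fun x y => ?_, LinearMap.ext fun x => ?_⟩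
  · obtain ⟨a, b, rfl⟩ := exists_add_of_isCompl h1 x
    obtain ⟨c, d, rfl⟩ := exists_add_of_isCompl h1 y
    simp only [map_add g, g1, g2, B_add_left, map_add (Φ.B _), B_smul_left, map_smul, smul_eq_mul,
      h2.1 _ a.2 _ c.2, h3.1 _ b.2 _ d.2, map_neg]
    linear_combination (-Φ.B a d - Φ.B b c) * hw
  · obtain ⟨a, b, rfl⟩ := exists_add_of_isCompl h1 x
    simp [sq, g1, g2, smul_smul]

theorem nsd_two (h2 : (2 : F) ≠ 0) {w : F} (hw : σ w * w = -1) :
    Pol (X ^ 2 - C (w ^ 2)) 1 ∧ NSD σ (X ^ 2 - C (w ^ 2)) := by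
  have h0 : w ≠ 0 := by rintro rfl; simp at hw
  have h1 : (-1 : F) ≠ 1 := fun h => h2 (by linear_combination -h)
  have key : ∀ g : F[X], Irreducible g → g ∣ X ^ 2 - C (w ^ 2) →
      ∃ t, σ t * t = -1 ∧ Associated g (X - C t) := fun g hg h => by
    rw [show (X ^ 2 - C (w ^ 2) : F[X]) = (X - C w) * (X - C (-w)) by simp; ring] at h
    rcases hg.prime.dvd_or_dvd h with h | h
    exacts [⟨_, hw, hg.associated_of_dvd (irreducible_X_sub_C _) h⟩,
      ⟨_, by simpa using hw, hg.associated_of_dvd (irreducible_X_sub_C _) h⟩]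
  refine ⟨⟨squarefree_X_pow_sub_C (by simpa using h2) (pow_ne_zero 2 h0), fun g a _ c => ?_,
    fun g a b c => ?_⟩, 2 * (Nat.card F - 1) - 1, ?_, fun g a b c => ?_⟩
  · obtain ⟨t, -, ht⟩ := key g a c
    rw [natDegree_eq_of_degree_eq (degree_eq_degree_of_associated ht), natDegree_X_sub_C]
  · obtain ⟨t, h3, ht⟩ := key g a b
    have := dvd_iff_isRoot.1 (ht.symm.dvd.trans c)
    rcases mul_self_eq_one_iff.1 (show t * t = 1 by simpa [sub_eq_zero, sq] using this) with rfl | rfl <;> exact h1 (by simpa using h3.symm)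
  all_goals
    have := Fintype.ofFinite F
    have h4 : 2 * (Nat.card F - 1) - 1 + 1 = 2 * (Fintype.card F - 1) := by
      have := Fintype.one_lt_card (α := F); rw [Nat.card_eq_fintype_card]; omega
  · rw [h4, pow_mul, ← C_1, ← FiniteField.pow_card_sub_one_eq_one _ (pow_ne_zero 2 h0), C_pow (n := _ - 1)]
    exact sub_dvd_pow_sub_pow _ _ _
  · obtain ⟨t, h3, ht⟩ := key g a c
    obtain rfl := eq_of_monic_of_associated b (monic_X_sub_C t) ht
    have h5 : t ≠ 0 := by rintro rfl; simp at h3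
    rw [a.coprime_iff_not_dvd, dvd_iff_isRoot]
    intro h
    have h6 : t ^ (2 * (Nat.card F - 1) - 1) = σ t := by simpa [sub_eq_zero] using h
    rw [← h6, ← pow_succ, h4, mul_comm, pow_mul, FiniteField.pow_card_sub_one_eq_one _ h5] at h3
    exact h1 (by simpa using h3.symm)

end gen

end Cfsg.Agent.Elu
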