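import Mathlib

/-! Weights of an abelian normal subgroup `P` on a module in characteristic 2: projections `pr`, supports `supp`, and `core`:
if a `q`-group `Q` (`q` odd) has `⁅P, Q⁆ = P`, the fixed space of a 2-group `T` has dimension at least 2, and at least 3 when it is
`Q`-invariant; `fix_bound` is the version over `ZMod 2`. -/

set_option autoImplicit false
set_option linter.unusedSectionVars false

namespace Cfsg.Agent.Elu.Wt
open Subgroup MulAction TensorProduct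
open scoped commutatorElement IsMulCommutative

variable {S : Type*} [Group S] [Finite S] {K : Type*} [Field K] [Finite K] {W : Type*} [AddCommGroup W] [Module K W] [Finite W]

/-- Linear characters of `P`. -/
def Ch (P : Subgroup S) (K : Type*) [Field K] : Type _ := P →* Kˣ

/-- The underlying homomorphism. -/
def Ch.hom {P : Subgroup S} (χ : Ch P K) : P →* Kˣ := χ

instance instFiniteCh (P : Subgroup S) : Finite (Ch P K) := Finite.of_injective (fun χ : Ch P K => (χ.hom : P → Kˣ))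
  fun _ _ h => MonoidHom.ext (congrFun h)

instance instMulActionCh (P : Subgroup S) [P.Normal] : MulAction S (Ch P K) where
  smul s χ := χ.hom.comp (MulAut.conjNormal s⁻¹).toMonoidHom
  one_smul χ := MonoidHom.ext fun g => congrArg χ.hom (Subtype.ext (by simp))
  mul_smul s t χ := MonoidHom.ext fun g => congrArg χ.hom (Subtype.ext (by simp [mul_assoc]))

variable {P : Subgroup S}

theorem smul_hom [P.Normal] (s : S) (χ : Ch P K) (g : P) : (s • χ).hom g = χ.hom (MulAut.conjNormal s⁻¹ g) := rfl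

/-- The (unnormalised) projection onto a weight space. -/
noncomputable def pr (σ : Representation K S W) (χ : Ch P K) : W →ₗ[K] W :=
  letI := Fintype.ofFinite P
  ∑ g : P, (χ.hom g⁻¹ : K) • σ g

variable {σ : Representation K S W}

theorem pr_apply [Fintype P] (χ : Ch P K) (w : W) : pr σ χ w = ∑ g : P, (χ.hom g⁻¹ : K) • σ g w := by
  rw [pr, LinearMap.sum_apply]
  convert rfl
  rfl

theorem pr_smul [P.Normal] (s : S) (χ : Ch P K) (w : W) : pr σ (s • χ) (σ s w) = σ s (pr σ χ w) := by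
  have := Fintype.ofFinite P
  rw [pr_apply, pr_apply, map_sum, ← Equiv.sum_comp (MulAut.conjNormal s : MulAut P).toEquiv]
  refine Finset.sum_congr rfl fun g _ => ?_
  rw [map_smul, smul_hom]
  congr 1
  · congr 2; ext; simp [mul_assoc]
  · rw [← Module.End.mul_apply, ← Module.End.mul_apply, ← map_mul, ← map_mul]; simp

theorem eig_pr (χ : Ch P K) (h : P) (w : W) : σ h (pr σ χ w) = (χ.hom h : K) • pr σ χ w := by
  have := Fintype.ofFinite P
  rw [pr_apply, map_sum, Finset.smul_sum, ← Equiv.sum_comp (Equiv.mulLeft h) fun g => (χ.hom h : K) • (χ.hom g⁻¹ : K) • σ g w]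
  refine Finset.sum_congr rfl fun g _ => ?_
  rw [map_smul, smul_smul, ← Module.End.mul_apply, ← map_mul]
  simp [mul_left_comm (χ.hom h : K)]

theorem pr_pr_ne {χ ψ : Ch P K} (h : ψ ≠ χ) (w : W) : pr σ ψ (pr σ χ w) = 0 := by
  have := Fintype.ofFinite P
  rw [pr_apply]
  simp only [eig_pr, smul_smul, ← Finset.sum_smul]
  have := sum_hom_units_eq_zero ((Units.coeHom K).comp (ψ.hom⁻¹ * χ.hom)) fun e => h (MonoidHom.ext fun g => by
    have := DFunLike.congr_fun e g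
    simp only [MonoidHom.comp_apply, MonoidHom.mul_apply, MonoidHom.inv_apply, Units.coeHom_apply, MonoidHom.one_apply,
      Units.val_eq_one, inv_mul_eq_one] at this
    exact this)
  simp only [MonoidHom.comp_apply, MonoidHom.mul_apply, MonoidHom.inv_apply, Units.coeHom_apply, Units.val_mul] at this
  simp only [map_inv]
  rw [this, zero_smul]

theorem pr_pr (χ : Ch P K) (w : W) : pr σ χ (pr σ χ w) = (Nat.card P : K) • pr σ χ w := by
  have := Fintype.ofFinite P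
  rw [pr_apply]
  simp [eig_pr, smul_smul, ← Finset.sum_smul, Nat.cast_smul_eq_nsmul]

theorem eq_zero_of_pr [IsMulCommutative P] [HasEnoughRootsOfUnity K (Monoid.exponent P)] (hP : (Nat.card P : K) ≠ 0) {w : W}
    (h : ∀ χ : Ch P K, pr σ χ w = 0) : w = 0 := by
  classical
  have := Fintype.ofFinite P
  have := Fintype.ofFinite (P →* Kˣ)
  have e : ∑ χ : P →* Kˣ, ∑ g : P, (χ g⁻¹ : K) • σ g w = 0 := Finset.sum_eq_zero fun χ _ => (pr_apply (P := P) χ w).symm.trans (h χ)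
  rw [Finset.sum_comm, Finset.sum_eq_single (1 : P) (fun g _ hg => by
    obtain ⟨φ, hφ⟩ := CommGroup.exists_apply_ne_one_of_hasEnoughRootsOfUnity P K (inv_ne_one.2 hg)
    have := sum_hom_units_eq_zero ((Units.coeHom K).comp (MonoidHom.eval (M := P) (N := Kˣ) g⁻¹)) fun e =>
      hφ (Units.val_eq_one.1 (DFunLike.congr_fun e φ))
    rw [← Finset.sum_smul]
    exact smul_eq_zero_of_left this _) (by simp)] at e
  simp only [inv_one, map_one, Units.val_one, OneMemClass.coe_one, Module.End.one_apply, one_smul, Finset.sum_const,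
    Finset.card_univ] at e
  rw [← Nat.card_eq_fintype_card, CommGroup.card_monoidHom_of_hasEnoughRootsOfUnity, ← Nat.cast_smul_eq_nsmul K] at e
  exact (smul_eq_zero.1 e).resolve_left hP

/-- The weights occurring in a vector. -/
def supp (σ : Representation K S W) (P : Subgroup S) (w : W) : Set (Ch P K) := {χ | pr σ χ w ≠ 0}

theorem smul_mem_supp [P.Normal] {s : S} {χ : Ch P K} {w : W} : s • χ ∈ supp σ P (σ s w) ↔ χ ∈ supp σ P w := by
  refine not_congr ?_
  rw [pr_smul]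
  refine ⟨fun h => ?_, fun h => by rw [h, map_zero]⟩
  have := congrArg (σ s⁻¹) h
  rwa [← Module.End.mul_apply, ← map_mul, inv_mul_cancel, map_one, map_zero] at this

theorem exists_vec [CharP K 2] [P.Normal] [IsMulCommutative P] [HasEnoughRootsOfUnity K (Monoid.exponent P)]
    (hP : (Nat.card P : K) ≠ 0) {T : Subgroup S} (hT : IsPGroup 2 T) {χ : Ch P K} {w : W} (h : χ ∈ supp σ P w) :
    ∃ v : W, (∀ s ∈ T, σ s v = v) ∧ supp σ P v = orbit T χ := by
  let U : Submodule K W := ⨅ ψ ∉ orbit T χ, LinearMap.ker (pr σ ψ)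
  have hU : ∀ v, v ∈ U ↔ supp σ P v ⊆ orbit T χ := fun v => by
    simp only [U, Submodule.mem_iInf, LinearMap.mem_ker]
    exact forall_congr' fun ψ => not_imp_comm
  letI : MulAction T U :=
    { smul := fun s v => ⟨σ s v, (hU _).2 fun ψ hψ => by
        rw [← smul_inv_smul (s : S) ψ, smul_mem_supp] at hψ
        have := mem_orbit_of_mem_orbit s ((hU _).1 v.2 hψ)
        rwa [Subgroup.smul_def, smul_inv_smul] at this⟩
      one_smul := fun v => Subtype.ext (by show σ 1 v = v; simp)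
      mul_smul := fun s t v => Subtype.ext (by show σ (s * t) v = σ s (σ t v); rw [map_mul]; rfl) }
  have u1 : pr σ χ w ∈ U := (hU _).2 fun ψ hψ => by
    by_contra e
    exact hψ (pr_pr_ne (by rintro rfl; exact e (mem_orbit_self _)) w)
  have hd : 2 ∣ Nat.card U := by
    have : addOrderOf (⟨_, u1⟩ : U) = 2 := addOrderOf_eq_prime (Subtype.ext (by
      show 2 • pr σ χ w = 0
      rw [← Nat.cast_smul_eq_nsmul K, CharP.cast_eq_zero, zero_smul])) fun e => h (congrArg Subtype.val e)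
    exact this ▸ addOrderOf_dvd_natCard _
  obtain ⟨b, hb, h1⟩ := hT.exists_fixed_point_of_prime_dvd_card_of_fixed_point U hd
    (a := 0) (fun s => Subtype.ext (map_zero (σ s)))
  have hb' : ∀ s ∈ T, σ s b = b := fun s hs => congrArg Subtype.val (hb ⟨s, hs⟩)
  refine ⟨b, hb', ((hU _).1 b.2).antisymm fun ψ hψ => ?_⟩
  obtain ⟨φ, hφ⟩ : ∃ φ, φ ∈ supp σ P b := by
    by_contra! e
    exact h1 (Subtype.ext (eq_zero_of_pr (σ := σ) hP fun φ => not_not.1 (e φ)).symm)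
  obtain ⟨t, rfl⟩ : ψ ∈ orbit T φ := by rwa [orbit_eq_iff.2 ((hU _).1 b.2 hφ)]
  rw [← hb' t t.2]; exact smul_mem_supp.2 hφ

theorem card_le {ι : Type*} [Fintype ι] (v : ι → W) (χ : ι → Ch P K) (h : ∀ i j, χ i ∈ supp σ P (v j) ↔ i = j)
    (C : Submodule K W) (hC : ∀ i, v i ∈ C) : Nat.card K ^ Fintype.card ι ≤ Nat.card C := by
  classical
  rw [← Nat.card_eq_fintype_card, ← Nat.card_fun]
  have key : ∀ (a : ι → K) i, pr σ (χ i) (∑ j, a j • v j) = a i • pr σ (χ i) (v i) := fun a i => by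
    rw [map_sum, Finset.sum_eq_single i (fun j _ hj => by rw [map_smul, not_not.1 (mt (h i j).1 hj.symm), smul_zero]) (by simp),
      map_smul]
  refine Nat.card_le_card_of_injective (fun a => ⟨∑ j, a j • v j, C.sum_mem fun j _ => C.smul_mem _ (hC j)⟩) fun a b e => ?_
  funext i
  have := congrArg (fun x : C => pr σ (χ i) x) e
  simp only [key] at this
  exact smul_left_injective K ((h i i).2 rfl) this

theorem dvd_card {X : Type*} [MulAction S X] [Finite X] {q : ℕ} [Fact q.Prime] {Q : Subgroup S} (hQ : IsPGroup q Q) (A : Set X)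
    (hA : ∀ x ∈ Q, ∀ a ∈ A, x • a ∈ A) (hf : ∀ a ∈ A, ∃ x ∈ Q, x • a ≠ a) : q ∣ A.ncard := by
  let B : SubMulAction Q X := ⟨A, fun x _ ha => hA x x.2 _ ha⟩
  have := hQ.card_modEq_card_fixedPoints B
  have e : IsEmpty (fixedPoints Q B) := ⟨fun a => by
    obtain ⟨x, hx, h⟩ := hf a.1.1 a.1.2
    exact h (congrArg Subtype.val (a.2 ⟨x, hx⟩))⟩
  rw [Nat.card_of_isEmpty (α := fixedPoints Q B)] at this
  exact (Nat.modEq_zero_iff_dvd.1 this)

theorem core [CharP K 2] [Nontrivial W] [P.Normal] [IsMulCommutative P] [HasEnoughRootsOfUnity K (Monoid.exponent P)]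
    (hP : (Nat.card P : K) ≠ 0) {T Q : Subgroup S} (hT : IsPGroup 2 T) {q : ℕ} [Fact q.Prime] (q2 : q ≠ 2) (hQ : IsPGroup q Q)
    (hc : ⁅P, Q⁆ = P) (h0 : ∀ w, (∀ x ∈ P, σ x w = w) → w = 0) (C : Submodule K W) (hC : ∀ w, w ∈ C ↔ ∀ s ∈ T, σ s w = w) :
    Nat.card K ^ 2 ≤ Nat.card C ∧ ((∀ x ∈ Q, ∀ w ∈ C, σ x w ∈ C) → Nat.card K ^ 3 ≤ Nat.card C) := by
  let L : Set (Ch P K) := {χ | ∃ w, χ ∈ supp σ P w}
  have hL : ∀ s : S, ∀ χ ∈ L, s • χ ∈ L := fun s χ ⟨w, hw⟩ => ⟨_, smul_mem_supp.2 hw⟩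
  have nf : ∀ χ ∈ L, ∃ x ∈ Q, x • χ ≠ χ := fun χ ⟨w, hw⟩ => by
    by_contra! e
    have : P ≤ χ.hom.ker.map P.subtype := hc.ge.trans (commutator_le.2 fun g hg x hx => ⟨⟨g, hg⟩ * (MulAut.conjNormal x ⟨g, hg⟩)⁻¹, by
      have := congrArg (fun ψ : Ch P K => ψ.hom ⟨g, hg⟩) (e x⁻¹ (inv_mem hx))
      simp only [smul_hom, inv_inv] at this
      rw [SetLike.mem_coe, MonoidHom.mem_ker, map_mul, map_inv, this, mul_inv_cancel], by simp [commutatorElement_def, mul_assoc]⟩)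
    refine hw (h0 _ fun x hx => ?_)
    obtain ⟨y, hy, rfl⟩ := this hx
    rw [coe_subtype, eig_pr, MonoidHom.mem_ker.1 hy, Units.val_one, one_smul]
  have np : ∀ (A : Set (Ch P K)) k, A ⊆ L → A.ncard = 2 ^ k → ¬ ∀ x ∈ Q, ∀ a ∈ A, x • a ∈ A := fun A k hA e h =>
    q2 ((Nat.prime_dvd_prime_iff_eq Fact.out Nat.prime_two).1 ((Fact.out : q.Prime).dvd_of_dvd_pow
      (e ▸ dvd_card hQ A h fun a ha => nf a (hA ha))))
  have oL : ∀ χ ∈ L, orbit T χ ⊆ L := by rintro χ h _ ⟨t, rfl⟩; exact hL t χ h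
  have oc : ∀ χ : Ch P K, ∃ k, (orbit T χ).ncard = 2 ^ k := fun χ => hT.card_orbit χ
  have ev : ∀ χ ∈ L, ∃ v ∈ C, supp σ P v = orbit T χ := fun χ ⟨w, hw⟩ => by
    obtain ⟨v, h1, h2⟩ := exists_vec hP hT hw
    exact ⟨v, (hC v).2 h1, h2⟩
  obtain ⟨χ₁, h₁⟩ : ∃ χ, χ ∈ L := by
    obtain ⟨w, hw⟩ := exists_ne (0 : W)
    by_contra! e
    exact hw (eq_zero_of_pr (σ := σ) hP fun φ => not_not.1 fun h => e φ ⟨w, h⟩)
  obtain ⟨k₁, c₁⟩ := oc χ₁
  obtain ⟨χ₂, h₂, n₂⟩ : ∃ χ ∈ L, χ ∉ orbit T χ₁ := by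
    by_contra! e
    exact np _ _ (oL _ h₁) c₁ fun x _ a ha => e _ (hL x a (oL _ h₁ ha))
  obtain ⟨k₂, c₂⟩ := oc χ₂
  obtain ⟨v₁, a₁, s₁⟩ := ev _ h₁
  obtain ⟨v₂, a₂, s₂⟩ := ev _ h₂
  have n₁ : χ₁ ∉ orbit T χ₂ := fun h => n₂ (mem_orbit_symm.1 h)
  refine ⟨card_le (σ := σ) ![v₁, v₂] ![χ₁, χ₂] (fun i j => by
    fin_cases i <;> fin_cases j <;> simp [s₁, s₂, n₁, n₂]) C fun i => by fin_cases i <;> assumption, fun hQC => ?_⟩
  by_cases e : ∃ χ ∈ L, χ ∉ orbit T χ₁ ∧ χ ∉ orbit T χ₂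
  · obtain ⟨χ₃, h₃, m₁, m₂⟩ := e
    obtain ⟨v₃, a₃, s₃⟩ := ev _ h₃
    have m₃ : χ₁ ∉ orbit T χ₃ := fun h => m₁ (mem_orbit_symm.1 h)
    have m₄ : χ₂ ∉ orbit T χ₃ := fun h => m₂ (mem_orbit_symm.1 h)
    exact card_le (σ := σ) ![v₁, v₂, v₃] ![χ₁, χ₂, χ₃] (fun i j => by
      fin_cases i <;> fin_cases j <;> simp [s₁, s₂, s₃, n₁, n₂, m₁, m₂, m₃, m₄]) C fun i => by fin_cases i <;> assumption
  push Not at e
  exfalso
  -- an orbit of maximal size is `Q`-invariant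
  have main : ∀ (φ ψ : Ch P K) (v : W), φ ∈ L → v ∈ C → supp σ P v = orbit T φ → (∀ χ ∈ L, χ ∉ orbit T φ → χ ∈ orbit T ψ) →
      (orbit T φ).ncard < (orbit T ψ).ncard → False := fun φ ψ v hφ hv sv e lt => by
    obtain ⟨k, c⟩ := oc φ
    refine np _ _ (oL _ hφ) c fun x hx a ha => ?_
    by_contra n
    have h1 : orbit T ψ ⊆ supp σ P (σ x v) := by
      rw [← orbit_eq_iff.2 (e _ (hL x a (oL _ hφ ha)) n)]
      rintro _ ⟨t, rfl⟩
      rw [← (hC _).1 (hQC x hx v hv) t t.2]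
      exact smul_mem_supp.2 (smul_mem_supp.2 (sv ▸ ha))
    refine lt.not_ge (Set.ncard_le_ncard_of_injOn (fun χ => x⁻¹ • χ) (fun χ hχ => ?_) (MulAction.injective _).injOn)
    rw [← sv, ← smul_mem_supp (s := x), smul_inv_smul]; exact h1 hχ
  rcases lt_trichotomy (orbit T χ₁).ncard (orbit T χ₂).ncard with h | h | h
  · exact main _ _ _ h₁ a₁ s₁ e h
  · refine np L (k₁ + 1) le_rfl ?_ fun x _ => hL x
    rw [show L = orbit T χ₁ ∪ orbit T χ₂ from Set.Subset.antisymm (fun χ hχ => or_iff_not_imp_left.2 (e χ hχ))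
      (Set.union_subset (oL _ h₁) (oL _ h₂)), Set.ncard_union_eq (Set.disjoint_left.2 fun χ x y =>
        n₂ (by rw [← orbit_eq_iff.2 x]; exact mem_orbit_symm.1 y)), ← h, c₁, pow_succ, mul_two]
  · exact main _ _ _ h₂ a₂ s₂ (fun χ hχ n => by_contra fun m => n (e χ hχ m)) h

theorem exists_field {N : ℕ} (hN : Odd N) : ∃ m, m ≠ 0 ∧ HasEnoughRootsOfUnity (GaloisField 2 m) N := by
  have m0 : N.totient ≠ 0 := (Nat.totient_pos.2 hN.pos).ne'
  refine ⟨_, m0, ?_, inferInstance⟩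
  obtain ⟨g, hg⟩ := IsCyclic.exists_ofOrder_eq_natCard (α := (GaloisField 2 N.totient)ˣ)
  have hd : N ∣ orderOf g := by
    rw [hg, Nat.card_units, GaloisField.card _ _ m0]
    exact (Nat.modEq_iff_dvd' (Nat.one_le_pow _ _ two_pos)).1 (Nat.ModEq.pow_totient (Nat.coprime_two_left.2 hN)).symm
  have := IsPrimitiveRoot.orderOf ((g ^ (orderOf g / N) : (GaloisField 2 N.totient)ˣ) : GaloisField 2 N.totient)
  rw [orderOf_units, orderOf_pow_orderOf_div (orderOf_pos g).ne' hd] at this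
  exact ⟨_, this⟩

theorem fix_bound {E : Type*} [AddCommGroup E] [Module (ZMod 2) E] [Finite E] [Nontrivial E] (ρ : Representation (ZMod 2) S E)
    [P.Normal] [IsMulCommutative P] (hP : Odd (Nat.card P)) {T Q : Subgroup S} (hT : IsPGroup 2 T) {q : ℕ} [Fact q.Prime]
    (q2 : q ≠ 2) (hQ : IsPGroup q Q) (hc : ⁅P, Q⁆ = P) (h0 : ∀ w, (∀ x ∈ P, ρ x w = w) → w = 0) :
    4 ≤ Nat.card {v : E // ∀ s ∈ T, ρ s v = v} ∧ ((∀ x ∈ Q, ∀ v, (∀ s ∈ T, ρ s v = v) → ∀ s ∈ T, ρ s (ρ x v) = ρ x v) →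
      8 ≤ Nat.card {v : E // ∀ s ∈ T, ρ s v = v}) := by
  classical
  obtain ⟨m, m0, hm⟩ := exists_field (hP.of_dvd_nat (Group.exponent_dvd_nat_card (G := P)))
  let K := GaloisField 2 m
  let b : Module.Basis (Fin m) (ZMod 2) K := Module.finBasisOfFinrankEq _ _ (GaloisField.finrank 2 m0)
  let e := equivFinsuppOfBasisLeft (N := E) b
  let σ : Representation K S (K ⊗[ZMod 2] E) := (Module.End.baseChangeHom (ZMod 2) K E).toMonoidHom.comp ρ
  have he : ∀ s x i, e (σ s x) i = ρ s (e x i) := fun s x i => by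
    induction x with
    | zero => simp
    | tmul a v =>
      show e (a ⊗ₜ ρ s v) i = _
      simp only [e, equivFinsuppOfBasisLeft_apply_tmul_apply, map_smul]
    | add x y hx hy => simp only [map_add, Finsupp.add_apply, hx, hy]
  have fx : ∀ s x, σ s x = x ↔ ∀ i, ρ s (e x i) = e x i := fun s x => by
    rw [← e.injective.eq_iff, Finsupp.ext_iff]; simp only [he]
  have : Finite (K ⊗[ZMod 2] E) := Finite.of_equiv _ (e.toEquiv.trans Finsupp.equivFunOnFinite).symm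
  have : Nontrivial (K ⊗[ZMod 2] E) := by
    have : Nonempty (Fin m) := ⟨⟨0, Nat.pos_of_ne_zero m0⟩⟩
    exact e.toEquiv.nontrivial
  let C : Submodule K (K ⊗[ZMod 2] E) := ⨅ s ∈ T, LinearMap.eqLocus (σ s) LinearMap.id
  have hC : ∀ w, w ∈ C ↔ ∀ s ∈ T, σ s w = w := fun w => by simp [C, LinearMap.mem_eqLocus]
  have cC : Nat.card C ≤ Nat.card {v : E // ∀ s ∈ T, ρ s v = v} ^ m := by
    conv_rhs => rw [← Nat.card_fin m, ← Nat.card_fun]
    refine Nat.card_le_card_of_injective (fun w i => ⟨e w i, fun s hs => (fx _ _).1 ((hC _).1 w.2 s hs) i⟩) fun a b h =>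
      Subtype.ext (e.injective (Finsupp.ext fun i => congrArg Subtype.val (congrFun h i)))
  obtain ⟨h1, h2⟩ := core (σ := σ) (P := P) (by
    rw [Ne, CharP.cast_eq_zero_iff K 2]; exact hP.not_two_dvd_nat) hT q2 hQ hc (fun w hw => e.injective (Finsupp.ext fun i => by
      rw [map_zero]; exact h0 _ fun x hx => (fx _ _).1 (hw x hx) i)) C hC
  rw [GaloisField.card _ _ m0, ← pow_mul, mul_comm, pow_mul] at h1 h2
  refine ⟨(pow_le_pow_iff_left₀ (Nat.zero_le _) (Nat.zero_le _) m0).1 (h1.trans cC), fun h =>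
    (pow_le_pow_iff_left₀ (Nat.zero_le _) (Nat.zero_le _) m0).1 ((h2 fun x hx w hw => (hC _).2 fun s hs => (fx _ _).2 fun i => ?_).trans cC)⟩
  rw [he]
  exact h x hx _ (fun t ht => (fx _ _).1 ((hC _).1 hw t ht) i) s hs

end Cfsg.Agent.Elu.Wt
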