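import Cfsg.Agent.Elu.Sub
import Cfsg.Agent.Elu.Herm

/-! Normalisers of symplectic-type `2`-groups, negative half: `Nm R h`, the structure `Xs R`,
fixed point counts (`fix_count`), the trace formula (`Xs.trace_formula`), large eigenspaces
(`Xs.big`) and the possible orders of odd order normalising elements (`Xs.cases`). -/

set_option autoImplicit false
set_option linter.unusedSectionVars false

namespace Cfsg.Agent.Elu

open Module Polynomial Cfsg.Agent.Classical Cfsg.Agent.Geom Cfsg.Agent.Geom.Formed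

universe u

theorem fix_count {G : Type*} [Group G] {K : Subgroup G} [Finite K] {h : G}
    (hh : ∀ x ∈ K, h * x * h⁻¹ ∈ K) {r : ℕ} [Fact r.Prime] (hr : ∀ x ∈ K, h ^ r * x = x * h ^ r) :
    Nat.card K ≡ Nat.card (K ⊓ Subgroup.centralizer {h} : Subgroup G) [MOD r] := by
  classical
  have := Fintype.ofFinite K
  let f : Function.End K := fun x => ⟨h * x * h⁻¹, hh x x.2⟩
  have h1 : ∀ (n : ℕ) (x : K), ((f ^ n) x : G) = h ^ n * x * (h ^ n)⁻¹ := fun n => by
    induction n with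
    | zero => intro x; simp; rfl
    | succ n ih =>
      intro x
      rw [pow_succ', pow_succ']
      show h * ((f ^ n) x : G) * h⁻¹ = _
      rw [ih]; group
  have h2 := Equiv.Perm.card_fixedPoints_modEq (f := f) (p := r) (n := 1)
    (funext fun x => Subtype.ext (by rw [pow_one, h1, hr x x.2]; simp; rfl))
  rw [Nat.card_eq_fintype_card]
  refine h2.trans (Eq.subst (motive := fun n => _ ≡ n [MOD r]) ?_ rfl)
  rw [← Nat.card_eq_fintype_card]
  exact Nat.card_congr ⟨fun x => ⟨x.1.1, x.1.2, Subgroup.mem_centralizer_singleton_iff.2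
      (mul_inv_eq_iff_eq_mul.1 (congrArg Subtype.val x.2)).symm⟩,
    fun x => ⟨⟨x.1, x.2.1⟩, Subtype.ext (mul_inv_eq_iff_eq_mul.2
      (Subgroup.mem_centralizer_singleton_iff.1 x.2.2).symm)⟩, fun _ => rfl, fun _ => rfl⟩

variable {F : Type*} [Field F] {V : Type u} [AddCommGroup V] [Module F V]
  {R : Subgroup (End F V)ˣ} {x y h : (End F V)ˣ}

/-- `f` normalises `R`. -/
def Nm (R : Subgroup (End F V)ˣ) (f : End F V) : Prop :=
  ∃ g : (End F V)ˣ, (∀ x ∈ R, g * x * g⁻¹ ∈ R) ∧ g.1 = f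

theorem Nm.mul {f g : End F V} (hf : Nm R f) (hg : Nm R g) : Nm R (f * g) := by
  obtain ⟨a, h1, rfl⟩ := hf
  obtain ⟨b, h2, rfl⟩ := hg
  exact ⟨a * b, fun x hx => by simpa [mul_assoc] using h1 _ (h2 x hx), rfl⟩

theorem nm_of_mem (hx : x ∈ R) : Nm R x.1 :=
  ⟨x, fun y hy => mul_mem (mul_mem hx hy) (inv_mem hx), rfl⟩

theorem Nm.pow {f : End F V} (hf : Nm R f) (n : ℕ) : Nm R (f ^ n) := by
  induction n with
  | zero => exact nm_of_mem (one_mem R)
  | succ n ih => rw [pow_succ]; exact ih.mul hf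

theorem Nm.smul (w : F) (f : End F V) (hw : w ≠ 0) (hf : Nm R f) : Nm R (w • f) := by
  obtain ⟨a, h1, rfl⟩ := hf
  refine ⟨Units.mk0 w hw • a, fun x hx => ?_, rfl⟩
  convert h1 x hx using 1
  rw [mul_inv_eq_iff_eq_mul]
  exact Units.ext (by simp [Units.smul_def, mul_assoc])

/-- An absolutely irreducible group with squares `± 1`. -/
structure Xs (R : Subgroup (End F V)ˣ) : Prop where
  two : (2 : F) ≠ 0
  nt : Nontrivial V
  sq : ∀ x ∈ R, x.1 * x.1 = 1 ∨ x.1 * x.1 = -1
  schur : ∀ m : End F V, (∀ x ∈ R, m * x.1 = x.1 * m) → ∃ c : F, m = c • 1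

theorem neg_ne_self (h2 : (2 : F) ≠ 0) [Nontrivial V] (x : (End F V)ˣ) : -x.1 ≠ x.1 := fun h => by
  have : (2 : F) • x.1 = 0 := by rw [two_smul]; nth_rw 1 [← h]; simp
  exact x.ne_zero ((smul_eq_zero.1 this).resolve_left h2)

namespace Xs

variable (H : Xs R)
include H

theorem comm (hx : x ∈ R) (hy : y ∈ R) : x * y = y * x ∨ x * y = -(y * x) := by
  have h1 : ∀ x ∈ R, x⁻¹ = x ∨ x⁻¹ = -x := fun x hx => (H.sq x hx).imp
    (fun h => inv_eq_of_mul_eq_one_right (Units.ext h))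
    fun h => inv_eq_of_mul_eq_one_right (Units.ext (by simp [h]))
  have h2 := h1 _ (mul_mem hx hy)
  rw [mul_inv_rev] at h2
  rcases h1 x hx with a | a <;> rcases h1 y hy with b | b <;> rw [a, b] at h2 <;>
    rcases h2 with c | c <;> (try simp only [neg_mul, mul_neg, neg_neg, neg_eq_iff_eq_neg] at c) <;>
    simp [c]

theorem exists_anti (hx : x ∈ R) (h : ∀ c : F, x.1 ≠ c • 1) : ∃ y ∈ R, y * x = -(x * y) := by
  by_contra! hc
  obtain ⟨c, hc⟩ := H.schur x.1 fun y hy =>
    congrArg Units.val ((H.comm hy hx).resolve_right (hc y hy)).symm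
  exact h c hc

theorem not_both (h1 : x * y = y * x) (h2 : x * y = -(y * x)) : False := by
  have := H.nt
  exact neg_ne_self H.two (y * x) (congrArg Units.val (h2.symm.trans h1))

theorem relIndex (hx : x ∈ R) (h : ∀ c : F, x.1 ≠ c • 1) :
    (Subgroup.centralizer {x}).relIndex R = 2 := by
  obtain ⟨y, hy, h1⟩ := H.exists_anti hx h
  simp only [Subgroup.relIndex_eq_two_iff_exists_notMem_and, Subgroup.mem_centralizer_singleton_iff]
  refine ⟨y, hy, fun h2 => H.not_both h2 h1, fun b hb => ((H.comm hb hx).symm).imp_left fun h2 => ?_⟩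
  rw [mul_assoc, h1, mul_neg, ← mul_assoc, h2, neg_mul, neg_neg, mul_assoc]

theorem card_cent (hx : x ∈ R) (h : ∀ c : F, x.1 ≠ c • 1) :
    Nat.card R = 2 * Nat.card (R ⊓ Subgroup.centralizer {x} : Subgroup _) := by
  rw [← H.relIndex hx h, ← Subgroup.inf_relIndex_left, mul_comm, ← Subgroup.relIndex_bot_left,
    ← Subgroup.relIndex_bot_left, Subgroup.relIndex_mul_relIndex _ _ _ bot_le inf_le_left]

/-- An odd order normalising element fixing `x` up to sign fixes `x`. -/
theorem fix_of_neg {r : ℕ} (hr : Odd r) (h1 : h ^ r = 1) (h2 : h * x = -(x * h)) : False := by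
  have h3 : ∀ n : ℕ, h ^ n * x = (-1) ^ n * (x * h ^ n) := fun n => by
    induction n with
    | zero => simp
    | succ n ih => rw [pow_succ, mul_assoc, h2, mul_neg, ← mul_assoc, ih]; simp [pow_succ, mul_assoc]
  have := h3 r
  rw [h1, hr.neg_one_pow] at this
  exact H.not_both (x := 1) (y := x) (by simp) (by simpa using this)

theorem conj_sq (hx : x ∈ R) (h : (End F V)ˣ) : (h * x * h⁻¹) * (h * x * h⁻¹) = x * x := by
  have : (h * x * h⁻¹) * (h * x * h⁻¹) = h * (x * x) * h⁻¹ := by group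
  rw [this]
  rcases H.sq x hx with a | a
  · rw [show x * x = 1 from Units.ext a]; simp
  · rw [show x * x = -1 from Units.ext a]; simp

theorem comm_of_smul {r : ℕ} (hr : Odd r) (h1 : h ^ r = 1) (hx : x ∈ R) {c : F}
    (h2 : (h * x * h⁻¹ * x⁻¹).1 = c • 1) : h * x = x * h := by
  have := H.nt
  have h3 : (h * x * h⁻¹).1 = c • x.1 := by
    rw [← inv_mul_cancel_right (h * x * h⁻¹) x, Units.val_mul, h2, smul_mul_assoc, one_mul]
  have h4 := congrArg Units.val (H.conj_sq hx h)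
  rw [Units.val_mul, h3, smul_mul_smul_comm, ← Units.val_mul] at h4
  have h5 : c * c = 1 := smul_left_injective F (x * x).ne_zero (h4.trans (one_smul _ _).symm)
  rcases mul_self_eq_one_iff.1 h5 with rfl | rfl
  · exact mul_inv_eq_iff_eq_mul.1 (Units.ext (h3.trans (one_smul _ _)))
  · exact (H.fix_of_neg hr h1 (x := x) (by
      rw [← neg_mul, ← mul_inv_eq_iff_eq_mul]; exact Units.ext (by rw [h3]; simp))).elim

variable [FiniteDimensional F V]

theorem trace_anti {a : End F V} (h1 : y.1 * a = -(a * y.1)) : LinearMap.trace F V a = 0 := by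
  have h2 : a = -(y⁻¹.1 * a * y.1) := by rw [mul_assoc, ← mul_neg, ← h1]; simp
  have h3 := congrArg (LinearMap.trace F V) h2
  rw [map_neg, LinearMap.trace_mul_comm, ← mul_assoc, Units.mul_inv, one_mul] at h3
  exact (mul_eq_zero.1 (show 2 * LinearMap.trace F V a = 0 by linear_combination h3)).resolve_left H.two

theorem trace_zero (hx : x ∈ R) (h : ∀ c : F, x.1 ≠ c • 1) : LinearMap.trace F V x.1 = 0 := by
  obtain ⟨y, -, h1⟩ := H.exists_anti hx h
  exact H.trace_anti (y := y) (congrArg Units.val h1)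

theorem trace_formula [Finite R] (hh : ∀ x ∈ R, h * x * h⁻¹ ∈ R) {r : ℕ} (hr : Odd r)
    (h1 : h ^ r = 1) : (Nat.card R : F) * LinearMap.trace F V h.1 * LinearMap.trace F V h⁻¹.1 =
      finrank F V ^ 2 * Nat.card (R ⊓ Subgroup.centralizer {h} : Subgroup _) := by
  classical
  have := Fintype.ofFinite R
  obtain ⟨c, hc⟩ := H.schur (∑ x : R, (x.1 * h⁻¹ * x.1⁻¹).1) fun y hy => by
    rw [Finset.sum_mul, Finset.mul_sum, ← Equiv.sum_comp (Equiv.mulLeft (⟨y, hy⟩ : R))]
    exact Finset.sum_congr rfl fun x _ => by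
      rw [← Units.val_mul, ← Units.val_mul]; congr 1; simp [mul_assoc]
  have h2 := congrArg (LinearMap.trace F V) hc
  have h3 := congrArg (fun m => LinearMap.trace F V (h.1 * m)) hc
  simp only [Finset.mul_sum, map_sum, mul_smul_comm, map_smul, mul_one, smul_eq_mul,
    LinearMap.trace_one] at h2 h3
  rw [Finset.sum_congr rfl (g := fun _ => LinearMap.trace F V h⁻¹.1) fun x _ => by
    rw [Units.val_mul, LinearMap.trace_mul_comm, Units.val_mul, ← mul_assoc, Units.inv_mul, one_mul],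
    Finset.sum_const, Finset.card_univ, nsmul_eq_mul] at h2
  rw [Finset.sum_congr rfl (g := fun x => if x.1 * h = h * x.1 then (finrank F V : F) else 0)
    fun x _ => ?_, ← Finset.sum_filter, Finset.sum_const, nsmul_eq_mul] at h3
  · rw [Nat.card_eq_fintype_card, show Nat.card (R ⊓ Subgroup.centralizer {h} : Subgroup _) =
      (Finset.univ.filter fun x : R => x.1 * h = h * x.1).card from ?_]
    · linear_combination LinearMap.trace F V h.1 * h2 - finrank F V * h3
    rw [← Fintype.card_subtype, ← Nat.card_eq_fintype_card]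
    exact Nat.card_congr ⟨fun x => ⟨⟨x.1, x.2.1⟩, Subgroup.mem_centralizer_singleton_iff.1 x.2.2⟩,
      fun x => ⟨x.1.1, x.1.2, Subgroup.mem_centralizer_singleton_iff.2 x.2⟩, fun _ => rfl, fun _ => rfl⟩
  rw [← Units.val_mul, show h * (x.1 * h⁻¹ * x.1⁻¹) = h * x.1 * h⁻¹ * x.1⁻¹ by group]
  split_ifs with h4
  · rw [← h4]; simp
  · exact H.trace_zero (mul_mem (hh _ x.2) (inv_mem x.2)) fun c h5 =>
      h4 (H.comm_of_smul hr h1 x.2 h5).symm

omit [FiniteDimensional F V] in
theorem comm_mul {a b : (End F V)ˣ} (ha : a ∈ R) (hb : b ∈ R) (hx : x ∈ R) :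
    Commute (a * b) x ↔ (Commute a x ↔ Commute b x) := by
  have h1 : ∀ {a : (End F V)ˣ}, a * x = -(x * a) → ¬ Commute a x := fun h h' => H.not_both h' h
  rcases H.comm ha hx with c | c <;> rcases H.comm hb hx with d | d
  · exact iff_of_true (Commute.mul_left c d) (iff_of_true c d)
  · exact iff_of_false (h1 (by rw [mul_assoc, d, mul_neg, ← mul_assoc, c, mul_assoc]))
      fun h => h1 d (h.1 c)
  · exact iff_of_false (h1 (by rw [mul_assoc, d, ← mul_assoc, c, neg_mul, mul_assoc]))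
      fun h => h1 c (h.2 d)
  · exact iff_of_true (show _ = _ by rw [mul_assoc, d, mul_neg, ← mul_assoc, c, neg_mul, neg_neg,
      mul_assoc]) (iff_of_false (h1 c) (h1 d))

omit H [FiniteDimensional F V] in
theorem pow_mem (hh : ∀ x ∈ R, h * x * h⁻¹ ∈ R) (n : ℕ) : ∀ x ∈ R, h ^ n * x * (h ^ n)⁻¹ ∈ R := by
  induction n with
  | zero => simp
  | succ n ih => intro x hx; simpa [pow_succ, mul_assoc] using ih _ (hh x hx)

theorem big (hh : ∀ x ∈ R, h * x * h⁻¹ ∈ R) {r : ℕ} (hr : Odd r) (h1 : h ^ r = 1) {c : F}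
    (hc : finrank F V < 2 * kd h.1 (X - C c)) : ∃ c : F, h.1 = c • 1 := by
  have inj : ∀ g : (End F V)ˣ, Function.Injective g.1 := fun g => ((End.isUnit_iff _).1 g.isUnit).1
  have h2 : ∀ x ∈ R, Commute (h * x * h⁻¹) x := fun x hx => by
    refine (H.comm (hh x hx) hx).resolve_right fun h2 => ?_
    obtain ⟨v, ⟨a, u, b, rfl⟩, d⟩ : ∃ v ∈ kerA h.1 (X - C c) ⊓ (kerA h.1 (X - C c)).map x.1, v ≠ 0 := by
      rw [← Submodule.ne_bot_iff]
      intro h3
      have h4 := Submodule.finrank_sup_add_finrank_inf_eq (kerA h.1 (X - C c))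
        ((kerA h.1 (X - C c)).map x.1)
      have h5 := Submodule.finrank_le (kerA h.1 (X - C c) ⊔ (kerA h.1 (X - C c)).map x.1)
      rw [h3, finrank_bot, ← (Submodule.equivMapOfInjective _ (inj x) _).finrank_eq] at h4
      change _ < 2 * finrank F (kerA h.1 (X - C c)) at hc
      omega
    rw [SetLike.mem_coe, mem_kerA_X_sub_C] at a b
    have h0 : c ≠ 0 := by rintro rfl; exact d (inj h (by simpa using a))
    have h3 : (h * x * h⁻¹).1 u = x.1 u := smul_right_injective V h0 (by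
      simp only [← map_smul, ← b, ← a, ← End.mul_apply, ← Units.val_mul, inv_mul_cancel_right])
    have h4 := congrArg (fun g : (End F V)ˣ => g.1 u) h2
    have h5 := congrArg (fun g : (End F V)ˣ => g.1 u) (H.conj_sq hx h)
    generalize h * x * h⁻¹ = x' at h3 h4 h5
    simp only [Units.val_mul, Units.val_neg, End.mul_apply, LinearMap.neg_apply, h3] at h4 h5
    refine d (inj x ((smul_eq_zero.1 ?_).resolve_left H.two |>.trans (map_zero _).symm))
    rw [two_smul]; nth_rw 1 [← h5, h4]; simp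
  have h3 : ∀ x ∈ R, h ^ 2 * x = x * h ^ 2 := fun x hx => by
    obtain ⟨c, hc⟩ := H.schur (h ^ 2 * x * (h ^ 2)⁻¹ * x⁻¹).1 fun w hw => by
      obtain ⟨y, hy, rfl⟩ : ∃ y ∈ R, h * y * h⁻¹ = w := ⟨_, pow_mem hh (r - 1) w hw, by
        rw [show h ^ (r - 1) = h⁻¹ from eq_inv_of_mul_eq_one_left (by
          rw [← pow_succ, Nat.sub_add_cancel hr.pos, h1])]; group⟩
      have a1 := h2 _ (mul_mem hx hy)
      rw [show h * (x * y) * h⁻¹ = (h * x * h⁻¹) * (h * y * h⁻¹) by group,
        H.comm_mul (hh x hx) hw (mul_mem hx hy), Commute.symm_iff, Commute.symm_iff (b := x * y),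
        H.comm_mul hx hy (hh x hx), H.comm_mul hx hy hw] at a1
      have a2 : Commute (h ^ 2 * x * (h ^ 2)⁻¹) (h * y * h⁻¹) ↔ Commute y (h * x * h⁻¹) := by
        rw [Commute.symm_iff (a := y), ← commute_map_iff (x := h * x * h⁻¹) (MulAut.conj h).injective]
        exact iff_of_eq (by congr 1 <;> simp [pow_two, mul_assoc])
      refine congrArg Units.val ((H.comm_mul (pow_mem hh 2 x hx) (inv_mem hx) hw).2 ?_).eq
      rw [a2, Commute.inv_left_iff]
      have := (h2 x hx).symm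
      have := (h2 y hy).symm
      tauto
    exact H.comm_of_smul hr (by rw [← pow_mul, mul_comm, pow_mul, h1, one_pow]) hx hc
  obtain ⟨k, rfl⟩ := hr
  refine H.schur _ fun x hx => congrArg Units.val (?_ : Commute h x).eq
  rw [show h = (h ^ 2) ^ (k + 1) by rw [← pow_mul, mul_add, mul_one, pow_succ, h1, one_mul]]
  exact Commute.pow_left (h3 x hx) _

omit [FiniteDimensional F V]

theorem mem_center_iff (hx : x ∈ R) :
    x ∈ R ⊓ Subgroup.centralizer (R : Set (End F V)ˣ) ↔ ∃ c : F, x.1 = c • 1 :=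
  ⟨fun h => H.schur _ fun y hy => congrArg Units.val (h.2 y hy).symm,
    fun ⟨c, h⟩ => ⟨hx, fun y _ => Units.ext (by simp [h])⟩⟩

theorem center_le (h : (End F V)ˣ) :
    R ⊓ Subgroup.centralizer (R : Set (End F V)ˣ) ≤ R ⊓ Subgroup.centralizer {h} := fun x hx => by
  obtain ⟨c, hc⟩ := (H.mem_center_iff hx.1).1 hx
  exact ⟨hx.1, Subgroup.mem_centralizer_singleton_iff.2 (Units.ext (by simp [hc]))⟩

theorem card_ne [Finite R] (hn : ∀ c : F, h.1 ≠ c • 1) :
    Nat.card (R ⊓ Subgroup.centralizer {h} : Subgroup _) ≠ Nat.card R := fun h1 => by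
  have h2 := Subgroup.eq_of_le_of_card_ge inf_le_left h1.ge
  obtain ⟨c, hc⟩ := H.schur h.1 fun x hx => congrArg Units.val
    (Subgroup.mem_centralizer_singleton_iff.1 (h2.ge hx).2).symm
  exact hn c hc

theorem cases [Finite R] (hh : ∀ x ∈ R, h * x * h⁻¹ ∈ R) {r : ℕ} [hr : Fact r.Prime] (h2 : r ≠ 2)
    (h1 : h ^ r = 1) (hn : ∀ c : F, h.1 ≠ c • 1) {z : ℕ} (hz : z = 2 ∨ z = 4)
    (hZ : Nat.card (R ⊓ Subgroup.centralizer (R : Set (End F V)ˣ) : Subgroup _) = z)
    (hR : Nat.card R = 16 * z) :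
    (Nat.card (R ⊓ Subgroup.centralizer {h} : Subgroup _) = z ∧ (r = 3 ∨ r = 5)) ∨
      (Nat.card (R ⊓ Subgroup.centralizer {h} : Subgroup _) = 4 * z ∧ r = 3) := by
  have fin : ∀ K : Subgroup (End F V)ˣ, Finite (R ⊓ K : Subgroup _) := fun K =>
    Finite.of_injective _ (Subgroup.inclusion_injective inf_le_left)
  have a1 := fix_count hh (r := r) (by simp [h1])
  obtain ⟨m, hm⟩ := hZ ▸ Subgroup.card_dvd_of_le (H.center_le h)
  have a2 := Subgroup.card_dvd_of_le (inf_le_left : R ⊓ Subgroup.centralizer {h} ≤ R)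
  have a3 := H.card_ne hn
  have a4 : r.Coprime z := by
    have := (Nat.coprime_primes hr.out Nat.prime_two).2 h2
    rcases hz with rfl | rfl
    exacts [this, this.pow_right 2]
  have a5 : m ≠ 2 := by
    rintro rfl
    obtain ⟨a, b1, b2⟩ := SetLike.exists_of_lt (lt_of_le_of_ne (H.center_le h) fun h => by
      rw [← h, hZ] at hm; omega)
    have b3 := H.card_cent b1.1 fun c hc => b2 ((H.mem_center_iff b1.1).2 ⟨c, hc⟩)
    have b4 := Subgroup.mem_centralizer_singleton_iff.1 b1.2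
    have b5 := fix_count (K := R ⊓ Subgroup.centralizer {a}) (h := h) (r := r) (fun x hx => ⟨hh x hx.1,
      Subgroup.mem_centralizer_singleton_iff.2 (by
        have := Subgroup.mem_centralizer_singleton_iff.1 hx.2
        rw [mul_assoc, ← (show Commute a h from b4).inv_right.eq, ← mul_assoc, mul_assoc h, this,
          ← mul_assoc, ← b4]; group)⟩) (by simp [h1])
    have b6 : R ⊓ Subgroup.centralizer (R : Set (End F V)ˣ) <
        R ⊓ Subgroup.centralizer {a} ⊓ Subgroup.centralizer {h} :=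
      lt_of_le_of_ne (le_inf (H.center_le a) ((H.center_le h).trans inf_le_right)) fun h' =>
        b2 (h'.ge ⟨⟨b1.1, Subgroup.mem_centralizer_singleton_iff.2 rfl⟩, b1.2⟩)
    obtain ⟨k, hk⟩ := hZ ▸ Subgroup.card_dvd_of_le b6.le
    have b7 := Subgroup.card_dvd_of_le (inf_le_inf_right (Subgroup.centralizer {h})
      (inf_le_left : R ⊓ Subgroup.centralizer {a} ≤ R))
    have b8 : k ≠ 1 := by
      rintro rfl
      rw [inf_assoc] at b6 hk
      exact b6.ne (Subgroup.eq_of_le_of_card_ge b6.le (by omega))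
    rw [hk, hm, Nat.mul_dvd_mul_iff_left (by omega), Nat.dvd_prime Nat.prime_two] at b7
    rw [hk, b7.resolve_left b8, ← hm, show Nat.card (R ⊓ Subgroup.centralizer {a} : Subgroup _) =
      8 * z by omega] at b5
    have b9 := (Nat.modEq_iff_dvd' (by omega)).1 (b5.trans a1.symm)
    rw [hR, show 16 * z - 8 * z = z * 2 ^ 3 by omega] at b9
    exact h2 ((Nat.prime_dvd_prime_iff_eq hr.out Nat.prime_two).1
      (hr.out.dvd_of_dvd_pow (a4.dvd_of_dvd_mul_left b9)))
  rw [hm, hR, mul_comm 16] at a1 a2 a3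
  rw [Nat.mul_dvd_mul_iff_left (by omega)] at a2
  have a6 := Nat.le_of_dvd (by norm_num) a2
  have a7 := a4.dvd_of_dvd_mul_left (Nat.mul_sub z 16 m ▸
    (Nat.modEq_iff_dvd' (Nat.mul_le_mul_left z a6)).1 a1.symm)
  have a8 := Nat.le_of_dvd (by rcases a6.lt_or_eq with h | rfl <;> omega) a7
  have a9 := hr.out.eq_two_or_odd.resolve_left h2
  have a10 := hr.out.one_lt
  have a11 : r ≠ 15 := by rintro rfl; exact absurd hr.out (by decide)
  rw [hm]
  clear hm hZ hR a1 a4
  have : r ≤ 16 := by omega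
  interval_cases m <;> interval_cases r <;> omega

/-- Commuting involutions are dependent modulo scalars. -/
def Mi (R : Subgroup (End F V)ˣ) : Prop := ∀ x ∈ R, ∀ y ∈ R, x * x = 1 → y * y = 1 →
  x * y = y * x → (∃ c : F, x.1 = c • 1) ∨ (∃ c : F, y.1 = c • 1) ∨ ∃ c : F, (x * y).1 = c • 1

theorem three_minus [Finite R] (hm : Mi R) (hh : ∀ x ∈ R, h * x * h⁻¹ ∈ R) (h1 : h ^ 3 = 1)
    (hZ : Nat.card (R ⊓ Subgroup.centralizer (R : Set (End F V)ˣ) : Subgroup _) = 2)
    (hx : x ∈ R) (h2 : x * x = 1) (h3 : ∀ c : F, x.1 ≠ c • 1) :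
    Nat.card (R ⊓ Subgroup.centralizer {h} : Subgroup _) ≠ 2 := fun hC => by
  have fin : Finite (R ⊓ Subgroup.centralizer {h} : Subgroup _) :=
    Finite.of_injective _ (Subgroup.inclusion_injective inf_le_left)
  have a1 := Subgroup.eq_of_le_of_card_ge (H.center_le h) (by omega)
  have a2 : ∀ y ∈ R, ∀ c : F, (h * y * h⁻¹ * y⁻¹).1 = c • 1 → y ∈ R ⊓ Subgroup.centralizer
      (R : Set (End F V)ˣ) := fun y hy c hc => a1.ge ⟨hy, Subgroup.mem_centralizer_singleton_iff.2
        (H.comm_of_smul (by decide) h1 hy hc).symm⟩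
  have a3 := hh x hx
  have a4 := hh _ a3
  have a5 : h * (h * (h * x * h⁻¹) * h⁻¹) * h⁻¹ = h ^ 3 * x * (h ^ 3)⁻¹ := by
    simp only [pow_succ, pow_zero, one_mul, mul_inv_rev, mul_assoc]
  have a6 := (H.conj_sq hx h).trans h2
  have a7 := (H.conj_sq a3 h).trans a6
  have a8 : ∀ y, h * (x * ((h * x * h⁻¹) * y)) * h⁻¹ = (h * x * h⁻¹) * (h * (h * x * h⁻¹) * h⁻¹) *
    (h * y * h⁻¹) := fun y => by group
  specialize a8 (h * (h * x * h⁻¹) * h⁻¹)
  rw [a5, h1, one_mul, inv_one, mul_one] at a8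
  have a9 := a2 x hx
  have a10 : x = h⁻¹ * (h * x * h⁻¹) * h := by group
  generalize h * x * h⁻¹ = x' at *
  generalize h * x' * h⁻¹ = x'' at *
  have b1 : x * (x' * x'') ∈ R ⊓ Subgroup.centralizer (R : Set (End F V)ˣ) := by
    rcases H.comm (mul_mem a3 a4) hx with b | b
    · exact a2 _ (mul_mem hx (mul_mem a3 a4)) 1 (by rw [a8, b, mul_inv_cancel]; simp)
    · exact a2 _ (mul_mem hx (mul_mem a3 a4)) (-1) (by rw [a8, b, neg_mul, mul_inv_cancel]; simp)
  have b2 := congrArg Subtype.val (hZ ▸ pow_card_eq_one' (x := (⟨_, b1⟩ : (R ⊓ _ : Subgroup _))))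
  have b3 := b1.2 _ a4
  have b4 : x * x' = x * (x' * x'') * x'' := by rw [mul_assoc, mul_assoc, a7, mul_one]
  have b5 : x * x' * (x * x') = 1 := by
    rw [b4, mul_assoc, ← mul_assoc x'', b3, mul_assoc _ x'', a7, mul_one, ← pow_two]; exact b2
  have b6 : x * x' = x' * x := by
    rw [eq_inv_of_mul_eq_one_left b5, mul_inv_rev, ← eq_inv_of_mul_eq_one_left h2,
      ← eq_inv_of_mul_eq_one_left a6]
  rcases hm x hx x' a3 h2 a6 b6 with ⟨c, hc⟩ | ⟨c, hc⟩ | ⟨c, hc⟩
  · exact h3 c hc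
  · exact h3 c (by rw [a10]; simp [hc])
  · obtain ⟨d, hd⟩ := (H.mem_center_iff hx).1 (a9 c (by rw [← eq_inv_of_mul_eq_one_left h2, ← b6, hc]))
    exact h3 d hd

end Xs

end Cfsg.Agent.Elu
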