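import Cfsg.Agent.Elu.Xs

/-! Normalisers of symplectic-type `2`-groups, positive half: `Nu R l f` (normalising similarities),
Clifford systems `Gam a b c d` inside `R` (`Xs.exists_gam_four`, `Xs.exists_gam_minus`) and normalising
elements of order `2, 3, 5` (`Xs.omega`, `Xs.five`, `Xs.cz`, `Xs.three`). -/

set_option autoImplicit false
set_option linter.unusedSectionVars false

namespace Cfsg.Agent.Elu

open Module Polynomial Cfsg.Agent.Classical Cfsg.Agent.Geom Cfsg.Agent.Geom.Formed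

universe u

section ring

variable {A : Type*} [Ring A] {a b c d : A}

/-- Four anticommuting involutions. -/
structure Gam (a b c d : A) : Prop where
  aa : a * a = 1
  bb : b * b = 1
  cc : c * c = 1
  dd : d * d = 1
  ba : b * a = -(a * b)
  ca : c * a = -(a * c)
  da : d * a = -(a * d)
  cb : c * b = -(b * c)
  db : d * b = -(b * d)
  dc : d * c = -(c * d)

theorem sq_r (h : a * a = b) : a * a = b ∧ ∀ x, a * (a * x) = b * x :=
  ⟨h, fun x => by rw [← mul_assoc, h]⟩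

theorem an_r (h : b * a = -(a * b)) : b * a = -(a * b) ∧ ∀ x, b * (a * x) = -(a * (b * x)) :=
  ⟨h, fun x => by rw [← mul_assoc, h, neg_mul, mul_assoc]⟩

theorem cm_r (h : b * a = a * b) : b * a = a * b ∧ ∀ x, b * (a * x) = a * (b * x) :=
  ⟨h, fun x => by rw [← mul_assoc, h, mul_assoc]⟩

theorem ring_r (F A : Type*) [Field F] [Ring A] [Algebra F A] :
    (∀ a b c : A, a * (b + c) = a * b + a * c) ∧ (∀ a b c : A, (a + b) * c = a * c + b * c) ∧
    (∀ a b c : A, a * (b - c) = a * b - a * c) ∧ (∀ a b c : A, (a - b) * c = a * c - b * c) ∧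
    (∀ a b c : A, a * b * c = a * (b * c)) ∧ (∀ a b : A, a * -b = -(a * b)) ∧
    (∀ a b : A, -a * b = -(a * b)) ∧ (∀ a : A, - -a = a) ∧ (∀ a : A, a * 1 = a) ∧
    (∀ a : A, 1 * a = a) ∧ (∀ (c : F) (a b : A), (c • a) * b = c • (a * b)) ∧
    (∀ (c : F) (a b : A), a * (c • b) = c • (a * b)) ∧ (∀ a : A, a * 0 = 0) ∧ ∀ a : A, 0 * a = 0 :=
  ⟨mul_add, add_mul, mul_sub, sub_mul, mul_assoc, mul_neg, neg_mul, neg_neg, mul_one, one_mul,
    smul_mul_assoc, mul_smul_comm, mul_zero, zero_mul⟩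

theorem Gam.r (h : Gam a b c d) :
    ((a * a = 1 ∧ ∀ x, a * (a * x) = 1 * x) ∧ (b * b = 1 ∧ ∀ x, b * (b * x) = 1 * x) ∧
      (c * c = 1 ∧ ∀ x, c * (c * x) = 1 * x) ∧ (d * d = 1 ∧ ∀ x, d * (d * x) = 1 * x)) ∧
    (b * a = -(a * b) ∧ ∀ x, b * (a * x) = -(a * (b * x))) ∧
    (c * a = -(a * c) ∧ ∀ x, c * (a * x) = -(a * (c * x))) ∧
    (d * a = -(a * d) ∧ ∀ x, d * (a * x) = -(a * (d * x))) ∧
    (c * b = -(b * c) ∧ ∀ x, c * (b * x) = -(b * (c * x))) ∧
    (d * b = -(b * d) ∧ ∀ x, d * (b * x) = -(b * (d * x))) ∧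
    (d * c = -(c * d) ∧ ∀ x, d * (c * x) = -(c * (d * x))) :=
  ⟨⟨sq_r h.aa, sq_r h.bb, sq_r h.cc, sq_r h.dd⟩, an_r h.ba, an_r h.ca, an_r h.da, an_r h.cb, an_r h.db,
    an_r h.dc⟩

theorem gam_of (aa : a * a = 1) (bb : b * b = 1) (cc : c * c = -1) (dd : d * d = -1)
    (ba : b * a = -(a * b)) (dc : d * c = -(c * d)) (ca : c * a = a * c) (cb : c * b = b * c)
    (da : d * a = a * d) (db : d * b = b * d) : Gam a b (a * b * c) (a * b * d) := by
  constructor <;> simp only [mul_assoc, mul_neg, neg_mul, neg_neg, one_mul, mul_one, sq_r aa, sq_r bb,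
    sq_r cc, sq_r dd, an_r ba, an_r dc, cm_r ca, cm_r cb, cm_r da, cm_r db]

theorem Gam.five {F : Type*} [Field F] [Algebra F A] (h : Gam a b c d) {H : A}
    (hH : H = (1 + a * b) * (1 + b * c) * (1 + c * d) * (1 + a * b * c)) :
    H ^ 5 = (-1024 : F) • 1 ∧ H * a = -(b * H) := by
  have h1 : H = 1 - a + b + a * b - c + a * c + b * c + a * b * c + d + a * d + b * d - a * b * d +
      c * d + a * c * d - b * c * d + a * b * c * d := by
    simp only [hH, ring_r F A, h.r]; abel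
  have h2 : H * H = (4 : F) • (-1 - a + b - a * b - c + a * c - b * c - a * b * c + d + a * d + b * d -
      a * b * d - c * d + a * c * d + b * c * d + a * b * c * d) := by
    simp only [h1, ring_r F A, h.r]; module
  have h3 : H * H * (H * H) = (64 : F) • (-1 + a - b + a * b + c + a * c + b * c + a * b * c - d + a * d +
      b * d - a * b * d + c * d + a * c * d - b * c * d - a * b * c * d) := by
    simp only [h2, ring_r F A, h.r]; module
  refine ⟨?_, by simp only [h1, ring_r F A, h.r]; abel⟩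
  rw [show H ^ 5 = H * H * (H * H) * H by simp only [pow_succ, pow_zero, one_mul, mul_assoc], h3]
  simp only [h1, ring_r F A, h.r]; module

end ring

variable {F : Type*} [Field F] {V : Type u} [AddCommGroup V] [Module F V]
  {R : Subgroup (End F V)ˣ} {x y : (End F V)ˣ} {f g : End F V} {l m : F}

theorem Sim.mul {σ : F →+* F} {Φ : Formed σ V} (hf : Sim Φ l f) (hg : Sim Φ m g) :
    Sim Φ (l * m) (f * g) :=
  ⟨fun x y => by rw [End.mul_apply, End.mul_apply, hf.1, hg.1, mul_assoc],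
    fun x => by rw [End.mul_apply, hf.2, hg.2, mul_assoc]⟩

/-- `f` normalises `R` and scales every `R`-invariant form by `l`. -/
def Nu (R : Subgroup (End F V)ˣ) (l : F) (f : End F V) : Prop := Nm R f ∧
  ∀ (σ : F →+* F) (Φ : Formed σ V), Spu Φ → Φ.Nondeg → (∀ x ∈ R, Iso Φ x.1) → Sim Φ l f

theorem Nu.mul (hf : Nu R l f) (hg : Nu R m g) : Nu R (l * m) (f * g) :=
  ⟨hf.1.mul hg.1, fun σ Φ a b c => (hf.2 σ Φ a b c).mul (hg.2 σ Φ a b c)⟩

theorem Nu.mul' (hf : Nu R 1 f) (hg : Nu R 1 g) : Nu R 1 (f * g) := by simpa using hf.mul hg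

theorem nu_of_mem (hx : x ∈ R) : Nu R 1 x.1 := ⟨nm_of_mem hx, fun _ _ _ _ h => sim_one.2 (h x hx)⟩

theorem Nu.smul [Nontrivial V] (hf : Nu R l f) {w : F} (hw : w ≠ 0) (h : ∀ σ : F →+* F,
    (∀ c, ∀ x ∈ R, x.1 = c • 1 → σ c * c = 1) → σ w * w * l = 1) : Nu R 1 (w • f) :=
  ⟨hf.1.smul w f hw, fun σ Φ a b c => h σ (fun _ x hx h => Iso.norm_eq b (h ▸ c x hx)) ▸
    (hf.2 σ Φ a b c).smul w⟩

theorem Nu.neg [Nontrivial V] (hf : Nu R 1 f) : Nu R 1 (-f) := by
  simpa using hf.smul (w := -1) (by simp) (by simp)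

namespace Xs

variable (H : Xs R)
include H

theorem one_add (hx : x ∈ R) (h : x.1 * x.1 = -1) : Nu R 2 (1 + x.1) := by
  have h2 := H.two
  refine ⟨⟨⟨1 + x.1, (2⁻¹ : F) • (1 - x.1), ?_, ?_⟩, fun y hy => ?_, rfl⟩, fun σ Φ a b c =>
    ⟨fun u v => ?_, fun u => by simp [a.Q]⟩⟩
  · simp only [ring_r F (End F V), h]; match_scalars <;> field_simp <;> ring
  · simp only [ring_r F (End F V), h]; match_scalars <;> field_simp <;> ring
  · rcases H.comm hy hx with c | c
    · convert hy using 1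
      rw [mul_inv_eq_iff_eq_mul]
      have : y.1 * x.1 = x.1 * y.1 := congrArg Units.val c
      exact Units.ext (by simp only [Units.val_mul, ring_r F (End F V), this])
    · convert mul_mem hx hy using 1
      rw [mul_inv_eq_iff_eq_mul]
      have := congrArg Units.val c
      exact Units.ext (by
        simp only [Units.val_mul, Units.val_neg] at this ⊢
        simp only [ring_r F (End F V), this, sq_r h]; abel)
  · have h3 := (c x hx).1 u (x.1 v)
    rw [← End.mul_apply, h] at h3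
    simp only [LinearMap.add_apply, End.one_apply, map_add, (c x hx).1, LinearMap.neg_apply,
      map_neg] at h3 ⊢
    linear_combination -h3

theorem anti (hx : x ∈ R) (hy : y ∈ R) (h : ¬ Commute x y) : x.1 * y.1 = -(y.1 * x.1) :=
  congrArg Units.val ((H.comm hx hy).resolve_left h)

theorem not_comm (h : x.1 * y.1 = -(y.1 * x.1)) : ¬ Commute x y := fun h' => H.not_both h' (Units.ext h)

theorem pair_norm {a b : (End F V)ˣ} (ha : a ∈ R) (hb : b ∈ R) (h : ¬ Commute b a) :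
    ∃ a' ∈ R, ∃ b' ∈ R, b'.1 * a'.1 = -(a'.1 * b'.1) ∧ (∀ y, Commute y a → Commute y b →
      Commute y a' ∧ Commute y b') ∧
      (a'.1 * a'.1 = 1 ∧ b'.1 * b'.1 = 1 ∨ a'.1 * a'.1 = -1 ∧ b'.1 * b'.1 = -1) := by
  have h1 := H.anti hb ha h
  rcases H.sq a ha with c | c <;> rcases H.sq b hb with d | d
  · exact ⟨a, ha, b, hb, h1, fun y p q => ⟨p, q⟩, Or.inl ⟨c, d⟩⟩
  · refine ⟨a, ha, a * b, mul_mem ha hb, ?_, fun y p q => ⟨p, p.mul_right q⟩, Or.inl ⟨c, ?_⟩⟩ <;>
      simp only [Units.val_mul, ring_r F (End F V), an_r h1, sq_r c, sq_r d]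
  · refine ⟨a * b, mul_mem ha hb, b, hb, ?_, fun y p q => ⟨p.mul_right q, q⟩, Or.inl ⟨?_, d⟩⟩ <;>
      simp only [Units.val_mul, ring_r F (End F V), an_r h1, sq_r c, sq_r d]
  · exact ⟨a, ha, b, hb, h1, fun y p q => ⟨p, q⟩, Or.inr ⟨c, d⟩⟩

theorem exists_pairs [Finite R] {z : ℕ} (hz : 0 < z)
    (hZ : Nat.card (R ⊓ Subgroup.centralizer (R : Set (End F V)ˣ) : Subgroup _) = z)
    (hR : Nat.card R = 16 * z) : ∃ a ∈ R, ∃ b ∈ R, ∃ c ∈ R, ∃ d ∈ R, b.1 * a.1 = -(a.1 * b.1) ∧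
      d.1 * c.1 = -(c.1 * d.1) ∧ (Commute c a ∧ Commute c b ∧ Commute d a ∧ Commute d b) ∧
      (a.1 * a.1 = 1 ∧ b.1 * b.1 = 1 ∨ a.1 * a.1 = -1 ∧ b.1 * b.1 = -1) ∧
      (c.1 * c.1 = 1 ∧ d.1 * d.1 = 1 ∨ c.1 * c.1 = -1 ∧ d.1 * d.1 = -1) := by
  have h1 : (R ⊓ Subgroup.centralizer (R : Set (End F V)ˣ)).relIndex R = 16 := by
    have := Subgroup.relIndex_mul_relIndex ⊥ _ R bot_le
      (inf_le_left : R ⊓ Subgroup.centralizer (R : Set (End F V)ˣ) ≤ R)
    rw [Subgroup.relIndex_bot_left, Subgroup.relIndex_bot_left, hZ, hR, mul_comm] at this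
    exact Nat.eq_of_mul_eq_mul_right hz this
  have h2 : ∀ K : Subgroup (End F V)ˣ, K.relIndex R ≤ 4 → ∃ x ∈ R, x ∈ K ∧ ∀ c : F, x.1 ≠ c • 1 := by
    intro K hK
    by_contra! hc
    have := Subgroup.relIndex_le_of_le_left (H := R ⊓ K) (L := R)
      (fun x hx => (H.mem_center_iff hx.1).2 (hc x hx.1 hx.2)) (Subgroup.index_ne_zero_of_finite)
    rw [h1, Subgroup.inf_relIndex_left] at this
    omega
  obtain ⟨a, ha, -, a1⟩ := h2 ⊤ (by simp)
  obtain ⟨b, hb, b1⟩ := H.exists_anti ha a1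
  have b2 := H.not_comm (congrArg Units.val b1)
  obtain ⟨c, hc, ⟨c1, c2⟩, c3⟩ := h2 (Subgroup.centralizer {a} ⊓ Subgroup.centralizer {b}) (by
    have := Subgroup.relIndex_inf_le (H := Subgroup.centralizer {a}) (K := Subgroup.centralizer {b})
      (L := R)
    rwa [H.relIndex ha a1, H.relIndex hb fun c hc => b2 (Units.ext (by simp [hc]))] at this)
  replace c1 : Commute a c := (Subgroup.mem_centralizer_singleton_iff.1 c1).symm
  replace c2 : Commute b c := (Subgroup.mem_centralizer_singleton_iff.1 c2).symm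
  obtain ⟨e, he, e1⟩ := H.exists_anti hc c3
  have e2 := H.not_comm (congrArg Units.val e1)
  have b3 := mt Commute.symm b2
  obtain ⟨d, hd, d1, d2, d3⟩ : ∃ d ∈ R, Commute d a ∧ Commute d b ∧ ¬ Commute d c := by
    by_cases p : Commute e a <;> by_cases q : Commute e b
    · exact ⟨e, he, p, q, e2⟩
    · exact ⟨e * a, mul_mem he ha, by simp [H.comm_mul, *]⟩
    · exact ⟨e * b, mul_mem he hb, by simp [H.comm_mul, *]⟩
    · exact ⟨e * (a * b), mul_mem he (mul_mem ha hb), by simp [H.comm_mul, mul_mem, *]⟩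
  obtain ⟨a', ha', b', hb', p1, p2, p3⟩ := H.pair_norm ha hb b2
  obtain ⟨c', hc', d', hd', q1, q2, q3⟩ := H.pair_norm hc hd d3
  have r1 := q2 a' (p2 c c1.symm c2.symm).1.symm (p2 d d1 d2).1.symm
  have r2 := q2 b' (p2 c c1.symm c2.symm).2.symm (p2 d d1 d2).2.symm
  exact ⟨a', ha', b', hb', c', hc', d', hd', p1, q1, ⟨r1.1.symm, r2.1.symm, r1.2.symm, r2.2.symm⟩, p3, q3⟩

omit H in
theorem gam_mk {a b c d : (End F V)ˣ} (ha : a ∈ R) (hb : b ∈ R) (hc : c ∈ R) (hd : d ∈ R)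
    (h1 : b.1 * a.1 = -(a.1 * b.1)) (h2 : d.1 * c.1 = -(c.1 * d.1))
    (h3 : Commute c a ∧ Commute c b ∧ Commute d a ∧ Commute d b) (h4 : a.1 * a.1 = 1 ∧ b.1 * b.1 = 1)
    (h5 : c.1 * c.1 = -1 ∧ d.1 * d.1 = -1) : ∃ a ∈ R, ∃ b ∈ R, ∃ c ∈ R, ∃ d ∈ R, Gam a.1 b.1 c.1 d.1 :=
  ⟨a, ha, b, hb, _, mul_mem (mul_mem ha hb) hc, _, mul_mem (mul_mem ha hb) hd,
    gam_of h4.1 h4.2 h5.1 h5.2 h1 h2 (congrArg Units.val h3.1) (congrArg Units.val h3.2.1)
      (congrArg Units.val h3.2.2.1) (congrArg Units.val h3.2.2.2)⟩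

theorem exists_gam_minus [Finite R] (hm : Mi R)
    (hZ : Nat.card (R ⊓ Subgroup.centralizer (R : Set (End F V)ˣ) : Subgroup _) = 2)
    (hR : Nat.card R = 16 * 2) : ∃ a ∈ R, ∃ b ∈ R, ∃ c ∈ R, ∃ d ∈ R, Gam a.1 b.1 c.1 d.1 := by
  obtain ⟨a, ha, b, hb, c, hc, d, hd, h1, h2, h3, h4, h5⟩ := H.exists_pairs two_pos hZ hR
  have ns : ∀ {x y : (End F V)ˣ}, y.1 * x.1 = -(x.1 * y.1) → ¬ ∃ c : F, x.1 = c • 1 :=
    fun h ⟨c, hc⟩ => H.not_comm h (Units.ext (by simp [hc]))
  obtain ⟨p1, p2, p3, p4⟩ := id h3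
  have q1 := cm_r (congrArg Units.val p1.eq)
  have q2 := cm_r (congrArg Units.val p2.eq)
  have q3 := cm_r (congrArg Units.val p3.eq)
  have q4 := cm_r (congrArg Units.val p4.eq)
  rcases h4 with h4 | h4 <;> rcases h5 with h5 | h5
  · rcases hm a ha c hc (Units.ext h4.1) (Units.ext h5.1) p1.symm with h | h | h
    · exact (ns h1 h).elim
    · exact (ns h2 h).elim
    · exact (ns (y := b) (by simp only [Units.val_mul, ring_r F (End F V), an_r h1, q2]) h).elim
  · exact gam_mk ha hb hc hd h1 h2 h3 h4 h5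
  · exact gam_mk hc hd ha hb h2 h1 ⟨p1.symm, p3.symm, p2.symm, p4.symm⟩ h5 h4
  · have k : a * c * (a * c) = 1 ∧ b * d * (b * d) = 1 ∧ a * c * (b * d) = b * d * (a * c) := by
      refine ⟨Units.ext ?_, Units.ext ?_, Units.ext ?_⟩ <;>
        simp only [Units.val_mul, Units.val_one, ring_r F (End F V), an_r h1, an_r h2, q1, q2, q3,
          q4, sq_r h4.1, sq_r h4.2, sq_r h5.1, sq_r h5.2]
    rcases hm _ (mul_mem ha hc) _ (mul_mem hb hd) k.1 k.2.1 k.2.2 with h | h | h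
    · exact (ns (y := b) (by simp only [Units.val_mul, ring_r F (End F V), an_r h1, q2]) h).elim
    · exact (ns (y := a) (by simp only [Units.val_mul, ring_r F (End F V), an_r h1, q3]) h).elim
    · exact (ns (y := a) (by simp only [Units.val_mul, ring_r F (End F V), an_r h1, q1, q3]) h).elim

theorem exists_gam_four [Finite R]
    (hZ : Nat.card (R ⊓ Subgroup.centralizer (R : Set (End F V)ˣ) : Subgroup _) = 4)
    (hR : Nat.card R = 16 * 4) : (∃ I ∈ R, ∃ i : F, i * i = -1 ∧ I.1 = i • 1) ∧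
      ∃ a ∈ R, ∃ b ∈ R, ∃ c ∈ R, ∃ d ∈ R, Gam a.1 b.1 c.1 d.1 := by
  have := H.nt
  obtain ⟨I, hI, i, i1, i2⟩ : ∃ I ∈ R, ∃ i : F, i * i = -1 ∧ I.1 = i • 1 := by
    by_contra! hc
    have h1 : ((R ⊓ Subgroup.centralizer (R : Set (End F V)ˣ) : Subgroup _) : Set (End F V)ˣ) ⊆
        {1, -1} := fun x hx => by
      obtain ⟨c, h1⟩ := (H.mem_center_iff hx.1).1 hx
      have h2 : ∀ e : F, x.1 * x.1 = e • 1 → c * c = e := fun e h => smul_left_injective F
        (one_ne_zero (α := End F V)) (by simpa [h1, smul_smul] using h)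
      rcases H.sq x hx.1 with h | h
      · rcases mul_self_eq_one_iff.1 (h2 1 (by simpa using h)) with rfl | rfl
        · exact Or.inl (Units.ext (by simpa using h1))
        · exact Or.inr (Units.ext (by simpa using h1))
      · exact (hc x hx.1 c (h2 (-1) (by simpa using h)) h1).elim
    have h2 := (Set.ncard_le_ncard h1 (Set.toFinite _)).trans (Set.ncard_insert_le _ _)
    rw [← Nat.card_coe_set_eq, SetLike.coe_sort_coe, hZ, Set.ncard_singleton] at h2
    omega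
  refine ⟨⟨I, hI, i, i1, i2⟩, ?_⟩
  obtain ⟨a, ha, b, hb, c, hc, d, hd, h1, h2, h3, h4, h5⟩ := H.exists_pairs four_pos hZ hR
  have k1 : ∀ y, Commute I y := fun y => Units.ext (by simp [i2])
  have k2 : ∀ x y : (End F V)ˣ, (I * x).1 * (I * y).1 = -(x.1 * y.1) := fun x y => by
    simp [i2, smul_smul, i1]
  obtain ⟨p1, p2, p3, p4⟩ := id h3
  rcases h4 with h4 | h4 <;> rcases h5 with h5 | h5
  · exact gam_mk ha hb (mul_mem hI hc) (mul_mem hI hd) h1 (by rw [k2, k2, h2]) ⟨(k1 _).mul_left p1,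
      (k1 _).mul_left p2, (k1 _).mul_left p3, (k1 _).mul_left p4⟩ h4 (by rw [k2, k2, h5.1, h5.2]; simp)
  · exact gam_mk ha hb hc hd h1 h2 h3 h4 h5
  · exact gam_mk hc hd ha hb h2 h1 ⟨p1.symm, p3.symm, p2.symm, p4.symm⟩ h5 h4
  · exact gam_mk (mul_mem hI ha) (mul_mem hI hb) hc hd (by rw [k2, k2, h1]) h2
      ⟨(k1 _).symm.mul_right p1, (k1 _).symm.mul_right p2, (k1 _).symm.mul_right p3,
      (k1 _).symm.mul_right p4⟩ (by rw [k2, k2, h4.1, h4.2]; simp) h5

variable [FiniteDimensional F V]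

theorem omega (hx : x ∈ R) (hy : y ∈ R) (h1 : x.1 * x.1 = -1) (h2 : y.1 * y.1 = -1)
    (h3 : y.1 * x.1 = -(x.1 * y.1)) : ∃ w, Nu R 1 w ∧ w * w = -1 - w ∧
      (∀ q, Commute q x.1 → Commute q y.1 → Commute q w ∧
        LinearMap.trace F V (w * q) = -2⁻¹ * LinearMap.trace F V q) := by
  have := H.nt
  have h0 := H.two
  refine ⟨(-2⁻¹ : F) • ((1 + x.1) * (1 + y.1)), ((H.one_add hx h1).mul (H.one_add hy h2)).smul
    (by simpa using h0) fun σ _ => by simp only [map_neg, map_inv₀, map_ofNat]; field_simp, ?_,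
    fun q q1 q2 => ⟨(((Commute.one_right q).add_right q1).mul_right
      ((Commute.one_right q).add_right q2)).smul_right _, ?_⟩⟩
  · simp only [ring_r F (End F V), sq_r h1, sq_r h2, an_r h3]
    match_scalars <;> field_simp <;> ring
  · have k1 := H.trace_anti (y := y) (a := x.1 * q) (by simp only [ring_r F (End F V), an_r h3, q2.eq])
    have k2 := H.trace_anti (y := x) (a := y.1 * q) (by simp only [ring_r F (End F V), an_r h3, q1.eq])
    have k3 := H.trace_anti (y := x) (a := x.1 * (y.1 * q))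
      (by simp only [ring_r F (End F V), an_r h3, q1.eq])
    simp only [ring_r F (End F V), map_smul, map_add, k1, k2, k3, smul_eq_mul, add_zero]

variable {a b c d : (End F V)ˣ} (ha : a ∈ R) (hb : b ∈ R) (hc : c ∈ R) (hd : d ∈ R)
  (h : Gam a.1 b.1 c.1 d.1)
include ha hb hc hd h

theorem five : ∃ f, Nu R 1 f ∧ f ^ 5 = 1 ∧ f ≠ 1 := by
  have := H.nt
  have h0 := H.two
  have h4 : (4 : F) ≠ 0 := by rw [show (4 : F) = 2 * 2 by norm_num]; exact mul_ne_zero h0 h0
  have k : ∀ x ∈ R, x.1 * x.1 = -1 → Nu R 2 (1 + x.1) := fun x => H.one_add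
  obtain ⟨h1, h2⟩ := h.five (F := F) rfl
  refine ⟨(-4⁻¹ : F) • _, ((((k _ (mul_mem ha hb) ?_).mul (k _ (mul_mem hb hc) ?_)).mul
    (k _ (mul_mem hc hd) ?_)).mul (k _ (mul_mem (mul_mem ha hb) hc) ?_)).smul (by simpa using h4)
    fun σ _ => by simp only [map_neg, map_inv₀, map_ofNat]; field_simp; norm_num, ?_, fun h3 => ?_⟩
  iterate 4 simp only [Units.val_mul, ring_r F (End F V), h.r]
  · simp only [Units.val_mul]
    rw [_root_.smul_pow, h1, smul_smul]; match_scalars; field_simp; norm_num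
  · simp only [Units.val_mul] at h3
    have h5 := congrArg ((-4⁻¹ : F) • ·) h2
    simp only [smul_neg] at h5
    rw [← smul_mul_assoc, ← mul_smul_comm _ b.1, h3, one_mul, mul_one] at h5
    exact H.not_comm h.ba (Units.ext (by simp [h5]))

variable {I : (End F V)ˣ} {i : F} (hI : I ∈ R) (i1 : i * i = -1) (i2 : I.1 = i • 1)
include hI i1 i2

theorem three (hV : finrank F V = 4) : (∃ f, Nu R 1 f ∧ f * f = -1 - f) ∧ ∃ f, Nu R 1 f ∧ f ^ 3 = 1 ∧
    LinearMap.trace F V f = 1 ∧ LinearMap.trace F V (f * f) = 1 := by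
  have h0 := H.two
  obtain ⟨w, a1, a2, a3⟩ := H.omega (mul_mem ha hb) (mul_mem hb hc)
    (by simp only [Units.val_mul, ring_r F (End F V), h.r])
    (by simp only [Units.val_mul, ring_r F (End F V), h.r])
    (by simp only [Units.val_mul, ring_r F (End F V), h.r])
  obtain ⟨v, b1, b2, b3⟩ := H.omega (mul_mem (mul_mem ha hb) hc) (mul_mem hI hd)
    (by simp only [Units.val_mul, ring_r F (End F V), h.r])
    (by simp only [Units.val_mul, i2, ring_r F (End F V), h.r, smul_smul, i1]; simp)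
    (by simp only [Units.val_mul, i2, ring_r F (End F V), h.r]; simp)
  have k : ∀ x : End F V, x = a.1 * b.1 ∨ x = b.1 * c.1 → Commute v x := by
    rintro x (rfl | rfl) <;> refine (b3 _ ?_ ?_).1.symm <;>
      simp only [Commute, SemiconjBy, Units.val_mul, i2, ring_r F (End F V), h.r]
  obtain ⟨c1, c2⟩ := a3 v (k _ (Or.inl rfl)) (k _ (Or.inr rfl))
  have c3 := (a3 1 (Commute.one_left _) (Commute.one_left _)).2
  have c4 := (b3 1 (Commute.one_left _) (Commute.one_left _)).2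
  rw [mul_one, LinearMap.trace_one, hV] at c3 c4
  have c5 : LinearMap.trace F V (w * v) = 1 := by rw [c2, c4]; field_simp; norm_num
  have c6 : w * v * (w * v) = (-1 - w) * (-1 - v) := by
    rw [mul_assoc, ← mul_assoc v, c1.eq, mul_assoc, ← mul_assoc, a2, b2]
  refine ⟨⟨w, a1, a2⟩, w * v, a1.mul' b1, ?_, c5, ?_⟩
  · rw [pow_succ, pow_two, c6]
    simp only [ring_r F (End F V), sq_r a2, sq_r b2, cm_r c1.eq]; abel
  · rw [c6]
    simp only [ring_r F (End F V), map_sub, map_neg, c3, c4, c5, LinearMap.trace_one, hV]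
    field_simp; norm_num

theorem cz (hV : finrank F V = 4) : ∃ f, Nu R 1 f ∧ f ^ 2 = 1 ∧ LinearMap.trace F V f = 2 ∧
    LinearMap.trace F V (a.1 * f) = 2 := by
  have := H.nt
  have h0 := H.two
  have k : ∀ x ∈ R, x.1 * x.1 = -1 → Nu R 2 (1 + x.1) := fun x => H.one_add
  have i3 : (I * I * I).1 = -i • 1 := by simp [i2, smul_smul, i1]
  have i4 : (I * I).1 = -1 := by simp [i2, smul_smul, i1]
  have k1 := (((k _ (mul_mem (mul_mem (mul_mem hI hI) hI) ha) ?_).mul (k _ (mul_mem hb hc) ?_)).mul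
    (k _ (mul_mem (mul_mem hI hI) (mul_mem (mul_mem ha hb) hc)) ?_)).smul (w := 2⁻¹ * 2⁻¹ * (1 + i)) ?_ ?_
  · have k2 : ((2⁻¹ * 2⁻¹ * (1 + i) : F) • ((1 + (I * I * I * a).1) * (1 + (b * c).1) *
        (1 + (I * I * (a * b * c)).1))) =
        (2⁻¹ : F) • (1 + a.1 + i • (b.1 * c.1) - i • (a.1 * b.1 * c.1)) := by
      rw [Units.val_mul _ a, i3, Units.val_mul _ (a * b * c), i4]
      simp only [Units.val_mul, ring_r F (End F V), h.r]
      match_scalars <;> field_simp <;> grind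
    rw [k2] at k1
    have t1 := H.trace_anti (y := b) (a := a.1) h.ba
    have t2 := H.trace_anti (y := b) (a := b.1 * c.1) (by simp only [ring_r F (End F V), h.r])
    have t3 := H.trace_anti (y := d) (a := a.1 * (b.1 * c.1)) (by simp only [ring_r F (End F V), h.r])
    refine ⟨_, k1, ?_, ?_, ?_⟩
    · simp only [pow_two, ring_r F (End F V), h.r]
      match_scalars <;> field_simp <;> grind
    all_goals
      simp only [ring_r F (End F V), h.r, map_smul, map_add, map_sub, t1, t2, t3, LinearMap.trace_one,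
        hV, smul_eq_mul]
      field_simp; norm_num
  · rw [Units.val_mul _ a, i3]; simp [smul_smul, i1, h.aa]
  · simp only [Units.val_mul, ring_r F (End F V), h.r]
  · rw [Units.val_mul _ (a * b * c), i4]; simp only [Units.val_mul, ring_r F (End F V), h.r]
  · simp only [Ne, mul_eq_zero, inv_eq_zero, h0, false_or]
    grind
  · intro σ hσ
    have := hσ i I hI i2
    simp only [map_mul, map_inv₀, map_ofNat, map_add, map_one]
    field_simp
    grind

end Xs

end Cfsg.Agent.Elu
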