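import Cfsg.Agent.Elu.XsPos
import Cfsg.Agent.Classical.SUss
import Cfsg.Agent.PGrp.Sympl
import Mathlib.NumberTheory.LegendreSymbol.QuadraticReciprocity

/-! Tools for the normalisers of symplectic-type groups: traces (`Dg.trace`, `inv_kd`), products of
two transvections (`Tvp`), conjugacy in `SU` (`su_cg`), classes of elements of order `3` and `5`,
and the transfer from matrix groups (`inG_nm`, `xs_of`). -/

set_option autoImplicit false
set_option linter.unusedSectionVars false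

namespace Cfsg.Agent.Elu

open Module Polynomial Cfsg.Agent.Classical Cfsg.Agent.Geom Cfsg.Agent.Geom.Formed

universe u

variable {F : Type*} [Field F] [Finite F] {V : Type u} [AddCommGroup V] [Module F V]
  [FiniteDimensional F V] {R : Subgroup (End F V)ˣ} {f g y : End F V}

theorem Dg.trace {T : Multiset F} (h : Dg y T) : LinearMap.trace F V y = T.sum := by
  have h1 : y.charpoly = (T.map fun t => X - C t).prod := by rw [charpoly_eq_prod, h]
  rw [End.trace_eq_sum_roots_charpoly_of_splits, h1, roots_multiset_prod_X_sub_C]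
  rw [h1]
  exact Splits.multisetProd fun a ha => by
    obtain ⟨t, -, rfl⟩ := Multiset.mem_map.1 ha; exact Splits.X_sub_C t

theorem kd_lt {c : F} (h : y ≠ c • 1) : kd y (X - C c) < finrank F V :=
  (kd_le y _).lt_of_ne fun h1 => h (by
    simpa [sub_eq_zero, Algebra.algebraMap_eq_smul_one] using kd_eq_finrank_iff.1 h1)

theorem inv_kd (h2 : (2 : F) ≠ 0) (h : y ^ 2 = 1) :
    kd y (X - C 1) + kd y (X - C (-1)) = finrank F V ∧
      LinearMap.trace F V y = kd y (X - C 1) - kd y (X - C (-1)) := by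
  have h0 : (1 : F) ≠ -1 := fun h => h2 (by linear_combination h)
  obtain ⟨a1, a2⟩ := elemDiv_of_two_factors h0 (aeval_two h)
  refine ⟨a1, ?_⟩
  rw [Dg.trace (T := Multiset.replicate (kd y (X - C 1)) 1 + Multiset.replicate (kd y (X - C (-1))) (-1))
    (by rw [Dg, a2]; simp)]
  simp [sub_eq_add_neg]

theorem kd_neg : kd (-y) (X - C (-1)) = kd y (X - C 1) := by
  simpa using kd_smul (y := y) (w := -1) (by simp) 1

theorem trace_of_eq (h : elemDiv f = elemDiv g) (k : ℕ) :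
    LinearMap.trace F V (f ^ k) = LinearMap.trace F V (g ^ k) := by
  obtain ⟨e, he⟩ := exists_equiv_iff.2 h
  rw [← LinearMap.trace_conj' (f ^ k) e]
  congr 1
  refine LinearMap.ext fun v => ?_
  obtain ⟨v, rfl⟩ := e.surjective v
  simpa using aeval_semiconj e.toLinearMap he (X ^ k) v

theorem Cg.cj {G S : End F V → Prop} (hG : ∀ k, G k → Function.Injective k) (h : Cg G S f) :
    Cj S f := by
  obtain ⟨k, h, h1, h2, h3⟩ := h
  exact ⟨h, h2, elemDiv_congr (LinearEquiv.ofInjectiveEndo k (hG k h1)) fun v => congr($h3 v)⟩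

theorem Cj.unit {r : ℕ} (h : Cj (Nm R) y) (h1 : y ^ r = 1) (h2 : ∀ c : F, y ≠ c • 1) :
    ∃ g : (End F V)ˣ, (∀ x ∈ R, g * x * g⁻¹ ∈ R) ∧ g ^ r = 1 ∧ (∀ c : F, g.1 ≠ c • 1) ∧
      elemDiv g.1 = elemDiv y := by
  obtain ⟨_, ⟨g, a1, rfl⟩, a2⟩ := h
  exact ⟨g, a1, Units.ext (pow_of_eq' a2.symm h1), fun c hc => h2 c (by
    simpa using pow_of_eq (r := 1) a2 (by simpa using hc)), a2⟩

theorem ne_smul_of_det {r n : ℕ} (hc : r.Coprime n) (hV : finrank F V = n) (h0 : LinearMap.det y = 1)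
    (h1 : y ^ r = 1) (h2 : y ≠ 1) (c : F) : y ≠ c • 1 := by
  rintro rfl
  have : Nontrivial V := by by_contra! h; exact h2 (Subsingleton.elim _ _)
  rw [LinearMap.det_smul, map_one, mul_one, hV] at h0
  rw [_root_.smul_pow, one_pow] at h1
  have h3 : c ^ r = 1 := smul_left_injective F one_ne_zero (h1.trans (one_smul _ _).symm)
  have := pow_gcd_eq_one.2 ⟨h3, h0⟩
  rw [hc.gcd_eq_one, pow_one] at this
  exact h2 (by simp [this])

/-- The properties of a product of two transvections. -/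
def Tvp (c : F) (y : End F V) : Prop := y ^ 3 = (c + 3) • y ^ 2 - (c + 3) • y + 1 ∧
  ∃ y', y * y' = 1 ∧ LinearMap.trace F V y = finrank F V + c ∧ LinearMap.trace F V y' = finrank F V + c

theorem tp_of {e e' : V} {φ φ' : Dual F V} (h1 : φ e = 0) (h2 : φ' e' = 0) :
    Tvp (φ e' * φ' e) ((1 + φ.smulRight e) * (1 + φ'.smulRight e')) := by
  have a1 : (φ.smulRight e * φ.smulRight e : End F V) = 0 := by ext v; simp [h1]
  have a2 : (φ'.smulRight e' * φ'.smulRight e' : End F V) = 0 := by ext v; simp [h2]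
  have a3 : (φ.smulRight e * (φ'.smulRight e' * φ.smulRight e) : End F V) =
    (φ e' * φ' e) • φ.smulRight e := by ext v; simp [smul_smul]; ring_nf
  have a4 : (φ'.smulRight e' * (φ.smulRight e * φ'.smulRight e') : End F V) =
    (φ e' * φ' e) • φ'.smulRight e' := by ext v; simp [smul_smul]; ring_nf
  have t1 := (LinearMap.trace_smulRight φ e).trans h1
  have t2 := (LinearMap.trace_smulRight φ' e').trans h2
  have t3 : LinearMap.trace F V (φ.smulRight e * φ'.smulRight e') = φ e' * φ' e := by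
    rw [show (φ.smulRight e * φ'.smulRight e' : End F V) = (φ e' • φ').smulRight e by
      ext v; simp [smul_smul, mul_comm], LinearMap.trace_smulRight]; simp
  have t4 := (LinearMap.trace_mul_comm F _ _).trans t3
  generalize φ e' * φ' e = c at *
  generalize φ.smulRight e = M at *
  generalize φ'.smulRight e' = N at *
  have a5 : ∀ x, M * (N * (M * x)) = c • (M * x) := fun x => by
    rw [← mul_assoc N, ← mul_assoc, a3, smul_mul_assoc]
  have a6 : ∀ x, N * (M * (N * x)) = c • (N * x) := fun x => by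
    rw [← mul_assoc M, ← mul_assoc, a4, smul_mul_assoc]
  refine ⟨?_, (1 - N) * (1 - M), ?_, ?_, ?_⟩
  · simp only [pow_succ, pow_zero, ring_r F (End F V), sq_r a1, sq_r a2, a3, a4, a5, a6]
    module
  · simp only [ring_r F (End F V), sq_r a1, sq_r a2]; abel
  all_goals simp [mul_add, add_mul, mul_sub, sub_mul, t1, t2, t3, t4]

theorem Tvp.bad {c : F} (h : Tvp c y) {r : ℕ} (hr : r = 3 ∧ c = -3 ∨ r = 5 ∧ c ^ 2 + 5 * c + 5 = 0)
    (h0 : (r : F) ≠ 0) (hn : (finrank F V : F) ≠ 0) : y ^ r = 1 ∧ (∀ t : F, y ≠ t • 1) ∧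
      LinearMap.trace F V y = finrank F V + c ∧ LinearMap.trace F V (y ^ (r - 1)) = finrank F V + c := by
  obtain ⟨h1, y', h2, h3, h4⟩ := h
  have h5 : y ^ r = 1 := by
    rcases hr with ⟨rfl, rfl⟩ | ⟨rfl, hc⟩
    · simpa using h1
    · have a1 : y ^ 4 = y ^ 2 - (c + 3) • y + (c + 3) • 1 := by
        rw [pow_succ, h1]
        simp only [ring_r F (End F V), ← pow_succ, h1, ← pow_two]
        match_scalars <;> grind
      rw [pow_succ, a1]
      simp only [ring_r F (End F V), ← pow_succ, h1, ← pow_two]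
      module
  have h6 : y ^ (r - 1) = y' := by
    rw [← mul_one (y ^ (r - 1)), ← h2, ← mul_assoc, ← pow_succ, Nat.sub_add_cancel (by omega), h5,
      one_mul]
  refine ⟨h5, ?_, h3, h6 ▸ h4⟩
  rintro t rfl
  have : Nontrivial V := (finrank_pos_iff (R := F)).1 (Nat.pos_of_ne_zero fun h => hn (by simp [h]))
  rw [_root_.smul_pow, one_pow] at h5 h6
  have h7 : t ^ r = 1 := smul_left_injective F one_ne_zero (h5.trans (one_smul _ _).symm)
  rw [← h6] at h4
  simp only [map_smul, LinearMap.trace_one, smul_eq_mul] at h3 h4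
  have h8 := mul_right_cancel₀ hn (h3.trans h4.symm)
  rcases hr with ⟨rfl, rfl⟩ | ⟨rfl, hc⟩ <;> norm_num at h0 h8 <;> grind

theorem exists_tp (hV : 2 ≤ finrank F V) (c : F) : ∃ y : End F V, Tvp c y := by
  let b := Module.finBasis F V
  have := tp_of (e := b ⟨0, by omega⟩) (e' := b ⟨1, by omega⟩) (φ := b.coord ⟨1, by omega⟩)
    (φ' := c • b.coord ⟨0, by omega⟩) (by simp) (by simp)
  exact ⟨_, by simpa using this⟩

theorem Spu.exists_tp {σ : F →+* F} {Φ : Formed σ V} (hΦ : Spu Φ) (hn : Φ.Nondeg)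
    (hV : 2 ≤ finrank F V) {c : F} (hc : σ c = c) : ∃ y, Iso Φ y ∧ Tvp c y := by
  obtain ⟨e, h0, he⟩ := hΦ.exists_sing hn hV
  obtain ⟨e', hp⟩ := hn.exists_isPair h0 he
  obtain ⟨d, d0, d1, -⟩ := hΦ.trace_zero
  have key : ∀ (e : V) (d : F), Φ.B e e = 0 → Φ.ε * d + σ d = 0 →
      Iso Φ (1 + (d • Φ.B e).smulRight e) := fun e d h1 h2 => hΦ.iso.2 fun u v => by
    simp [h1, Φ.symm e u]
    linear_combination σ (Φ.B e u) * Φ.B e v * h2
  have h1 := tp_of (φ := d • Φ.B e) (φ' := (c * Φ.ε * d⁻¹) • Φ.B e') (e := e) (e' := e')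
    (by simp [hp.se.2]) (by simp [hp.sf.2])
  refine ⟨_, (key e d hp.se.2 d1).mul (key e' _ hp.sf.2 ?_), by
    convert h1; simp [hp.ef, hp.fe]; field_simp; rw [sq, Φ.εε, mul_one]⟩
  have h2 : σ d = -(Φ.ε * d) := by linear_combination d1
  have := Φ.εε
  have h3 : Φ.ε ≠ 0 := left_ne_zero_of_mul_eq_one this
  rw [map_mul, map_mul, map_inv₀, hc, Φ.σε, h2]
  field_simp
  grind

theorem exists_tau {p : ℕ} [hp : Fact p.Prime] [CharP F p] (h2 : (2 : F) ≠ 0)
    (h : orderOf (p : ZMod 5) ≠ 4) : ∃ c : F, c ^ 2 + 5 * c + 5 = 0 ∧ ∀ σ : F →+* F, σ c = c := by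
  have h1 : ∀ a : ZMod 5, orderOf a ≠ 4 → IsSquare a := by
    have : ∀ a : ZMod 5, IsSquare a ∨ (a ^ 4 = 1 ∧ ∀ m < 4, 0 < m → a ^ m ≠ 1) := by decide
    exact fun a ha => (this a).resolve_right fun h => ha ((orderOf_eq_iff (by norm_num)).2 h)
  have := Fact.mk Nat.prime_five
  obtain ⟨s, hs⟩ := (ZMod.exists_sq_eq_prime_iff_of_mod_four_eq_one (p := 5) (q := p) rfl
    (by rintro rfl; exact h2 (CharP.cast_eq_zero F 2))).1 (h1 _ h)
  have h3 := congrArg (ZMod.castHom dvd_rfl F) hs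
  rw [map_natCast, map_mul] at h3
  refine ⟨2⁻¹ * (ZMod.castHom dvd_rfl F s - 5), ?_, fun σ => ?_⟩
  · field_simp; grind
  · rw [map_mul, map_sub, map_inv₀, map_ofNat, map_ofNat, ← RingHom.comp_apply,
      RingHom.ext_zmod (σ.comp _) (ZMod.castHom dvd_rfl F)]

theorem cyc_kd {r : ℕ} [hr : Fact r.Prime] (h : (r : F) ≠ 0)
    (hi : orderOf (Nat.card F : ZMod r) = r - 1) (h1 : y ^ r = 1) : ∃ s, kd y (X - C 1) + (r - 1) * s =
      finrank F V ∧ elemDiv y = Multiset.replicate (kd y (X - C 1)) (X - C 1) +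
        Multiset.replicate s (cyclotomic r F) := by
  obtain ⟨k, D, c1, c2, c3⟩ := split_of_pow h h1
  obtain rfl : kd y (X - C 1) = k := (elemDiv_res_cyc h c2 c1).2.1
  exact ⟨D.card, hi ▸ c3, by rw [← Multiset.eq_replicate_card.2 fun g hg => (c2 g hg).eq h hi]; exact c1⟩

theorem eq_of_cyc {r : ℕ} [hr : Fact r.Prime] (h : (r : F) ≠ 0)
    (hi : orderOf (Nat.card F : ZMod r) = r - 1) (h1 : f ^ r = 1) (h2 : g ^ r = 1)
    (h3 : kd f (X - C 1) = kd g (X - C 1)) : elemDiv f = elemDiv g := by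
  obtain ⟨s, a1, a2⟩ := cyc_kd h hi h1
  obtain ⟨t, b1, b2⟩ := cyc_kd h hi h2
  have := hr.out.two_le
  rw [a2, b2, h3, Nat.eq_of_mul_eq_mul_left (by omega : 0 < r - 1) (show _ * s = _ * t by omega)]

theorem eq_five (h : ((5 : ℕ) : F) ≠ 0) (hi : orderOf (Nat.card F : ZMod 5) = 4) (hV : finrank F V = 4)
    (h1 : f ^ 5 = 1) (h2 : f ≠ 1) (h3 : g ^ 5 = 1) (h4 : g ≠ 1) : elemDiv f = elemDiv g := by
  have := Fact.mk Nat.prime_five
  have key : ∀ f : End F V, f ^ 5 = 1 → f ≠ 1 → kd f (X - C 1) = 0 := fun f a b => by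
    obtain ⟨s, a1, -⟩ := cyc_kd h hi a
    have := kd_lt (y := f) (c := 1) (by simpa using b)
    omega
  exact eq_of_cyc h hi h1 h3 ((key f h1 h2).trans (key g h3 h4).symm)

theorem eq_three_iso {σ : F →+* F} {Φ : Formed σ V} (hn : Φ.Nondeg) (h : ((3 : ℕ) : F) ≠ 0)
    (hi : orderOf (Nat.card F : ZMod 3) = 1) (hσ : ∀ t, t ^ 3 = 1 → σ t = t) :
    (∀ f, Iso Φ f → f ^ 3 = 1 → ∃ s, kd f (X - C 1) + 2 * s = finrank F V) ∧
    ∀ f g, Iso Φ f → Iso Φ g → f ^ 3 = 1 → g ^ 3 = 1 → kd f (X - C 1) = kd g (X - C 1) →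
      elemDiv f = elemDiv g := by
  obtain ⟨χ, b1, b2⟩ := exists_chi hi
  have key : ∀ f, Iso Φ f → f ^ 3 = 1 → ∃ A : Multiset (ZMod 3), Dg f (A.map χ) ∧
      A.count 0 = kd f (X - C 1) ∧ A.count 2 = A.count 1 ∧ A.count 0 + 2 * A.count 1 = finrank F V := by
    intro f a1 a2
    obtain ⟨A, hA⟩ := exists_dg_chi (y := f) h hi b2 a2
    have k : ∀ a b : ZMod 3, a + b = 0 → A.count a ≤ A.count b := fun a b hab => by
      rw [← hA.kd_chi b1 b2, ← hA.kd_chi b1 b2]
      exact (sim_one.2 a1).kd_le hn (fun h => by simpa [h] using (b2 _).2 ⟨a, rfl⟩)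
        (by rw [hσ _ ((b2 _).2 ⟨a, rfl⟩), ← χ.map_add_eq_mul, hab, χ.map_zero_eq_one])
    have k1 := (k 2 1 rfl).antisymm (k 1 2 rfl)
    have k2 := Multiset.sum_count_eq_card (m := A) (s := {0, 1, 2}) fun a _ =>
      (by decide : ∀ a : ZMod 3, a ∈ ({0, 1, 2} : Finset (ZMod 3))) a
    have k3 := hA.card
    rw [Finset.sum_insert (by decide), Finset.sum_pair (by decide)] at k2
    rw [Multiset.card_map] at k3
    exact ⟨A, hA, by rw [← hA.kd_chi b1 b2, χ.map_zero_eq_one], k1, by omega⟩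
  refine ⟨fun f a1 a2 => ?_, fun f g a1 a2 a3 a4 a5 => ?_⟩
  · obtain ⟨A, -, c1, -, c2⟩ := key f a1 a2
    exact ⟨_, c1 ▸ c2⟩
  obtain ⟨A, c1, c2, c3, c4⟩ := key f a1 a3
  obtain ⟨B, d1, d2, d3, d4⟩ := key g a2 a4
  rw [c1, d1, show A = B from Multiset.ext.2 fun a => by
    rcases (by decide : ∀ a : ZMod 3, a = 0 ∨ a = 1 ∨ a = 2) a with rfl | rfl | rfl <;> omega]

section unitary

variable [Fintype F] {q : ℕ} {hF : Fintype.card F = q ^ 2}

theorem su_five {Φ : Formed (frobq hF) V} (hn : Φ.Nondeg) (h : ((5 : ℕ) : F) ≠ 0)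
    (hi : orderOf (q : ZMod 5) = 4) (hV : finrank F V = 4) (hf : Iso Φ f) (h1 : f ^ 5 = 1) (h2 : f ≠ 1) :
    f.charpoly = cyclotomic 5 F := by
  classical
  have := Fact.mk Nat.prime_five
  have a1 := typ_herm hF h (by norm_num) hi.symm
  have a2 : _ = 2 := ord_herm hF hi.symm
  have a3 := hf.typ_dvd hn h (by norm_num) a1 h1
  have a4 : kd f _ + kd f _ = _ := finrank_fix (isCoprime_cyclotomic h) (aeval_split h1)
  have a5 := kd_lt (y := f) (c := 1) (by simpa using h2)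
  have a6 := pol_cyc h (by norm_num : 2 < 5)
  rw [a2] at a1 a6
  have a7 : Ff Φ f (cyclotomic 5 F) := ⟨hn, hf, kd_eq_finrank_iff.1 (by
    change 4 ∣ _ at a3; omega)⟩
  have a8 := a6.finrank_eq a7.ker
  obtain ⟨g, g', a9⟩ := Multiset.card_eq_two.1 (show (elemDiv f).card = 2 by omega)
  have b1 := a6.mem a7.ker (g := g) (by simp [a9])
  have b2 := a6.mem a7.ker (g := g') (by simp [a9])
  have b3 : g ≠ g' := by
    rintro rfl
    have := hn.two_mul_finrank_le ((a1.resolve_left fun h => absurd h.2 (by decide)).1.ti a7 b1.1 b1.2.1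
      b1.2.2.1)
    rw [kd_eq_count a6 a7.ker b1.1 b1.2.1, a9] at this
    simp at this; omega
  refine (eq_of_monic_of_dvd_of_natDegree_le f.charpoly_monic (cyclotomic.monic 5 F) ?_ (by
    rw [natDegree_cyclotomic, LinearMap.charpoly_natDegree, hV]; decide)).symm
  rw [charpoly_eq_prod, a9]
  simpa using (isCoprime_of_ne b1.1 b1.2.1 b2.1 b2.2.1 b3).mul_dvd b1.2.2.1 b2.2.2.1

theorem su_cg {n : ℕ} {S : End F (Fin n → F) → Prop} {y h : End F (Fin n → F)}
    (hy : Iso (hermFormed hF n) y) (hh : Iso (hermFormed hF n) h) {w : F} (hw : frobq hF w * w = 1)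
    (hd : w ^ finrank F (Fin n → F) * LinearMap.det y = 1) {m : ℕ} (h0 : (m : F) ≠ 0) (h1 : h ^ m = 1)
    (he : elemDiv h = elemDiv y) (hS : S h) :
    Cg (fun f => Iso (hermFormed hF n) f ∧ LinearMap.det f = 1) S y := by
  obtain ⟨p, hp⟩ := CharP.exists F
  have := Fact.mk (CharP.char_is_prime F p)
  have key : ∀ x : Matrix.SpecialLinearGroup (Fin n) F, x ∈ SU n F q ↔
      Iso (hermFormed hF n) (Matrix.toLin' x.1) := fun x => by
    rw [(spu_herm rfl).iso]; exact forall_comm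
  have k : ∀ y, Iso (hermFormed hF n) y → w ^ finrank F (Fin n → F) * LinearMap.det y = 1 → y ^ m = 1 →
      ∃ x : SU n F q, Matrix.toLin' x.1.1 = w • y ∧ (orderOf x).Coprime p := fun y a b c => by
    obtain ⟨A, hA⟩ := Matrix.toLin'.surjective (w • y)
    refine ⟨⟨⟨A, by rw [← LinearMap.det_toLin', hA, LinearMap.det_smul, b]⟩, (key _).2
      (hA ▸ a.smul hw)⟩, hA, Nat.Coprime.coprime_dvd_left (orderOf_dvd_of_pow_eq_one (n := m * (q + 1))
        (Subtype.ext (Subtype.ext (Matrix.toLin'.injective ?_)))) (Nat.Coprime.mul_left ?_ ?_)⟩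
    · rw [Subgroup.coe_pow, Matrix.SpecialLinearGroup.coe_pow, Matrix.toLin'_pow, hA, _root_.smul_pow,
        pow_mul y, c, mul_comm, pow_mul, (norm_iff hF).1 hw]
      simp; rfl
    · exact (this.out.coprime_iff_not_dvd.2 (mt (CharP.cast_eq_zero_iff F p m).2 h0)).symm
    · exact (this.out.coprime_iff_not_dvd.2 (not_char_dvd (hF := hF))).symm
  obtain ⟨a, a1, a2⟩ := k y hy hd (pow_of_eq' he h1)
  obtain ⟨b, b1, b2⟩ := k h hh (by rwa [det_of_eq he]) h1
  obtain ⟨c, hc⟩ := isConj_iff.1 (Eig.isConj_SU_of_charpoly hF p b2 a2 (by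
    rw [← Matrix.charpoly_toLin', ← Matrix.charpoly_toLin', a1, b1, charpoly_eq_prod, charpoly_eq_prod,
      smul_of_eq he]))
  have h2 := congrArg (fun x : SU n F q => Matrix.toLin' x.1.1) (mul_inv_eq_iff_eq_mul.1 hc)
  simp only [Subgroup.coe_mul, Matrix.SpecialLinearGroup.coe_mul, Matrix.toLin'_mul, a1, b1,
    ← End.mul_eq_comp, mul_smul_comm, smul_mul_assoc] at h2
  exact ⟨_, h, ⟨(key _).1 c.2, by rw [LinearMap.det_toLin', c.1.2]⟩, hS,
    smul_right_injective _ (right_ne_zero_of_mul_eq_one hw) h2⟩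

end unitary

theorem sq_central {G : Type*} [Group G] [Finite G] (hG : IsPGroup 2 G)
    (h : ∀ A : Subgroup G, A.Characteristic → IsMulCommutative A → IsCyclic A)
    (h4 : Monoid.exponent G = 4) (x : G) : x * x ∈ Subgroup.center G := by
  obtain ⟨E, S, h1, h2, h3, h5⟩ := PGrp.hall_symplectic hG h
  have h6 : IsCyclic S := h5.resolve_right fun ⟨_, a1, a, x, n, a2⟩ => by
    have a3 := h4 ▸ Monoid.order_dvd_exponent a.1
    rw [Subgroup.orderOf_coe, a2.ord, show 4 = 2 ^ 2 from rfl, Nat.pow_dvd_pow_iff_le_right one_lt_two] at a3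
    have := Nat.pow_le_pow_right two_pos (show n + 1 ≤ 3 by omega)
    rw [a2.card] at a1
    omega
  have k : ∀ z, (∀ e ∈ E, e * z = z * e) → (∀ s ∈ S, s * z = z * s) → z ∈ Subgroup.center G :=
    fun z a b => Subgroup.mem_center_iff.2 fun g =>
      (Subgroup.mem_centralizer_singleton_iff).1 ((show E ⊔ S ≤ Subgroup.centralizer {z} from
        sup_le (fun e he => Subgroup.mem_centralizer_singleton_iff.2 (a e he)) fun e he =>
        Subgroup.mem_centralizer_singleton_iff.2 (b e he)) (h2.ge (Subgroup.mem_top g)))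
  have h7 : S ≤ Subgroup.center G := fun s hs => k s (h1 hs) fun t ht =>
    congrArg Subtype.val (h6.isMulCommutative.is_comm.comm (⟨t, ht⟩ : S) ⟨s, hs⟩)
  have : S.Normal := ⟨fun s hs g => by rwa [Subgroup.mem_center_iff.1 (h7 hs) g, mul_inv_cancel_right]⟩
  obtain ⟨e, he, s, hs, rfl⟩ := Subgroup.mem_sup_of_normal_right.1 (h2.ge (Subgroup.mem_top x))
  rw [mul_assoc, ← mul_assoc s, ← h1 hs e he, mul_assoc, ← mul_assoc]
  refine mul_mem (k _ (fun e' he' => ?_) fun t ht => (h1 ht _ (mul_mem he he)).symm)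
    (h7 (mul_mem hs hs))
  rcases h3 with rfl | h3
  · simp [Subgroup.mem_bot.1 he']
  · have := h3.1.2.1 ▸ Solv.pow_mem_frattini h3.1.1 ⟨e, he⟩
    simpa [sq] using congrArg Subtype.val (Subgroup.mem_center_iff.1 this ⟨e', he'⟩)

omit [Finite F] [FiniteDimensional F V] in
theorem Xs.mi (H : Xs R) (hm : Geo.IsOfMinusType 2 R) (hR : Nat.card R = 32) : Xs.Mi R := by
  intro x hx y hy h1 h2 h3
  by_contra! hc
  have := H.nt
  have : Finite R := Nat.finite_of_card_ne_zero (by omega)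
  obtain ⟨v, hv, h4⟩ := H.exists_anti hx hc.1
  have hz : -1 ∈ R := by
    convert mul_mem (mul_mem hv hx) (inv_mem (mul_mem hx hv)); rw [h4]; simp
  let s : Set R := {⟨-1, hz⟩, ⟨x, hx⟩, ⟨y, hy⟩}
  have h5 : IsMulCommutative (Subgroup.closure s) := Subgroup.isMulCommutative_closure (by
    simp [s, h3])
  have h6 := hm _ h5 fun a ha => by
    induction ha using Subgroup.closure_induction with
    | mem a ha => rcases ha with rfl | rfl | rfl <;> simp [h1, h2, Subtype.ext_iff]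
    | one => simp
    | mul a b ha hb c d =>
      rw [mul_assoc, ← mul_assoc b, setLike_mul_comm hb ha, mul_assoc, d, mul_one, c]
    | inv a ha c => rw [← mul_inv_rev, c, inv_one]
  have h7 := hR ▸ Subgroup.card_subgroup_dvd_card (Subgroup.closure s)
  have m : ∀ a ∈ s, a ∈ Subgroup.closure s := fun a ha => Subgroup.subset_closure ha
  have n1 : (1 : End F V) ≠ -1 := (neg_ne_self H.two 1).symm
  have n2 := (neg_ne_self H.two x).symm
  have n3 : x.1 ≠ 1 := by simpa using hc.1 1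
  have n4 : x.1 ≠ -1 := by simpa using hc.1 (-1)
  have n5 : y.1 ≠ 1 := by simpa using hc.2.1 1
  have n6 : y.1 ≠ -1 := by simpa using hc.2.1 (-1)
  have n7 : y.1 ≠ x.1 := fun h => hc.2.2 1 (by rw [← Units.val_inj.1 h, h2]; simp)
  have n8 : y.1 ≠ -x.1 := fun h => hc.2.2 (-1) (by
    rw [Units.val_mul, h, mul_neg, ← Units.val_mul, h1]; simp)
  have h8 := Set.ncard_le_ncard (s := ({⟨y, hy⟩, ⟨-1, hz⟩ * ⟨x, hx⟩, ⟨x, hx⟩, ⟨-1, hz⟩, 1} : Set R))
    (t := Subgroup.closure s) (by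
      simp only [Set.insert_subset_iff, Set.singleton_subset_iff, SetLike.mem_coe]
      exact ⟨m _ (by simp [s]), mul_mem (m _ (by simp [s])) (m _ (by simp [s])), m _ (by simp [s]),
        m _ (by simp [s]), one_mem _⟩) (Set.toFinite _)
  iterate 4 rw [Set.ncard_insert_of_notMem (by
    simp [Subtype.ext_iff, Units.ext_iff, neg_eq_iff_eq_neg, *]) (Set.toFinite _)] at h8
  rw [Set.ncard_singleton, ← Nat.card_coe_set_eq, SetLike.coe_sort_coe] at h8
  generalize Nat.card (Subgroup.closure s) = k at *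
  interval_cases k <;> omega

omit [Finite F] [FiniteDimensional F V] in
theorem xs_mk [Nontrivial V] (h2 : (2 : F) ≠ 0)
    (h : ∀ m : End F V, (∀ x ∈ R, m * x.1 = x.1 * m) → ∃ c : F, m = c • 1)
    (h4 : ∀ x ∈ R, (∀ z ∈ R, x * x * z = z * (x * x)) ∧ x ^ 4 = 1) : Xs R := by
  refine ⟨h2, inferInstance, fun x hx => ?_, h⟩
  obtain ⟨c, hc⟩ := h (x.1 * x.1) fun z hz => congrArg Units.val ((h4 x hx).1 z hz)
  have h3 : x.1 * x.1 * (x.1 * x.1) = 1 := by
    simpa [pow_succ, mul_assoc] using congrArg Units.val (h4 x hx).2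
  rw [hc, smul_mul_smul_comm, one_mul] at h3
  have h5 : c * c = 1 := smul_left_injective F one_ne_zero (h3.trans (one_smul F _).symm)
  rcases mul_self_eq_one_iff.1 h5 with rfl | rfl <;> simp [hc]

variable {ι : Type} [Fintype ι] [DecidableEq ι]

/-- A matrix group as a group of endomorphisms. -/
noncomputable def tl (R : Subgroup (GL ι F)) : Subgroup (End F (ι → F))ˣ :=
  R.map (Matrix.GeneralLinearGroup.toLin : GL ι F ≃* _).toMonoidHom

variable {R : Subgroup (GL ι F)}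

/-- The isomorphism onto `tl R`. -/
noncomputable def tlE (R : Subgroup (GL ι F)) : R ≃* tl R :=
  R.equivMapOfInjective _ (Matrix.GeneralLinearGroup.toLin : GL ι F ≃* _).injective

instance finite_tl : Finite (tl R) := Finite.of_equiv _ (tlE R).toEquiv

theorem card_tl : Nat.card (tl R) = Nat.card R := Nat.card_congr (tlE R).toEquiv.symm

theorem card_center_tl : Nat.card (tl R ⊓ Subgroup.centralizer (tl R : Set (End F (ι → F))ˣ) :
    Subgroup _) = Nat.card (Subgroup.center R) :=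
  (Nat.card_congr ⟨fun x => ⟨⟨x.1, x.2.1⟩, Subgroup.mem_center_iff.2 fun y => Subtype.ext (x.2.2 y.1 y.2)⟩,
    fun x => ⟨x.1.1, x.1.2, fun y hy => congrArg Subtype.val (Subgroup.mem_center_iff.1 x.2 ⟨y, hy⟩)⟩,
    fun _ => rfl, fun _ => rfl⟩).trans (Nat.card_congr (Subgroup.centerCongr (tlE R)).toEquiv.symm)

theorem inG_nm : InG (Geo.subgroupNormalizer R) = Nm (tl R) := by
  refine funext fun f => propext ⟨?_, ?_⟩
  · rintro ⟨g, hg, rfl⟩
    refine ⟨Matrix.GeneralLinearGroup.toLin g, ?_, rfl⟩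
    rintro _ ⟨x, hx, rfl⟩
    exact ⟨_, (hg x).1 hx, by simp⟩
  · rintro ⟨g, hg, rfl⟩
    obtain ⟨g, rfl⟩ := Matrix.GeneralLinearGroup.toLin.surjective g
    refine ⟨g, Subgroup.mem_normalizer_fintype fun x hx => ?_, rfl⟩
    obtain ⟨y, hy, h⟩ := hg _ ⟨x, hx, rfl⟩
    rwa [← Matrix.GeneralLinearGroup.toLin.injective (show _ = Matrix.GeneralLinearGroup.toLin
      (g * x * g⁻¹) by simpa using h)]

theorem inG_of_le {G : Subgroup (GL ι F)} (h : R ≤ G) : ∀ x ∈ tl R, InG G x.1 := by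
  rintro _ ⟨x, hx, rfl⟩; exact ⟨x, h hx, rfl⟩

theorem minus_tl {k : ℕ} (h : Geo.IsOfMinusType k R) : Geo.IsOfMinusType k (tl R) := fun A h1 h2 => by
  rw [← Subgroup.card_map_of_injective (f := (tlE R).symm.toMonoidHom) (tlE R).symm.injective]
  refine h (A.map (tlE R).symm.toMonoidHom) inferInstance ?_
  rintro _ ⟨a, ha, rfl⟩
  rw [← map_mul, h2 a ha, map_one]

theorem xs_of [Nonempty ι] (hs : Geo.IsSymplecticTypeGroup 2 R)
    (hi : Geo.ActsAbsolutelyIrreducibly (Geo.matrixSet R)) (h2 : (2 : F) ≠ 0) : Xs (tl R) := by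
  have key : ∀ m : End F (ι → F), (∀ x ∈ tl R, m * x.1 = x.1 * m) → ∃ c : F, m = c • 1 := fun m hm => by
    obtain ⟨M, rfl⟩ := Matrix.toLin'.surjective m
    obtain ⟨c, rfl⟩ := hi.2 M (by
      rintro _ ⟨x, hx, rfl⟩
      exact Matrix.toLin'.injective (by simp only [Matrix.toLin'_mul]; exact hm _ ⟨x, hx, rfl⟩))
    exact ⟨c, by simp; rfl⟩
  refine xs_mk h2 key fun x hx => ?_
  obtain ⟨y, hy⟩ := (tlE R).surjective ⟨x, hx⟩
  have h3 := congrArg (tlE R) (Monoid.pow_exponent_eq_one y)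
  rw [map_pow, hy, hs.exponent_eq, map_one] at h3
  refine ⟨fun z hz => ?_, congrArg (·.1) h3⟩
  obtain ⟨w, hw⟩ := (tlE R).surjective ⟨z, hz⟩
  have := congrArg (tlE R) (Subgroup.mem_center_iff.1 (sq_central hs.pGroup
    hs.cyclic_of_characteristic hs.exponent_eq y) w)
  simp only [map_mul, hy, hw] at this
  exact (congrArg (·.1) this).symm

theorem exists_ord {G H : Subgroup (GL ι F)} {r : ℕ} [hr : Fact r.Prime] (h : r ∣ H.relIndex G) :
    ∃ f, InG G f ∧ f ^ r = 1 ∧ f ≠ 1 := by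
  obtain ⟨x, hx⟩ := exists_prime_orderOf_dvd_card' r (h.trans (Subgroup.relIndex_dvd_card H G))
  refine ⟨_, ⟨x.1, x.2, rfl⟩, ?_, fun h1 => hr.out.one_lt.ne' ?_⟩
  · rw [← Matrix.toLin'_pow, ← Units.val_pow_eq_pow_val, ← Subgroup.coe_pow, ← hx, pow_orderOf_eq_one]
    exact Matrix.toLin'_one
  · rw [← hx, orderOf_eq_one_iff]
    exact Subtype.ext (Units.ext (Matrix.toLin'.injective (h1.trans Matrix.toLin'_one.symm)))

end Cfsg.Agent.Elu
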